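import Mathlib

/-!
# Gram matrices of frames over a field of characteristic 3

Abstract core of the exceptional case of "a Baumann block is normal in `E C(W_E)`".
-/

namespace Cfsg.Agent.Lib.BlockX

open Matrix

abbrev M2 (F : Type*) := Matrix (Fin 2) (Fin 2) F

variable {F : Type*} [Field F]

/-- determinant identity `det (P + Q)` in size 2. -/
theorem det_add_two (P Q : M2 F) :
    (P + Q).det = P.det + Q.det + (P.adjugate * Q).trace := by
  simp only [Matrix.det_fin_two, Matrix.adjugate_fin_two, Matrix.trace_fin_two, Matrix.mul_apply,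
    Fin.sum_univ_two, Matrix.add_apply, Matrix.of_apply, Matrix.cons_val', Matrix.cons_val_zero,
    Matrix.cons_val_one, Matrix.empty_val', Matrix.cons_val_fin_one]
  ring

theorem adj_mul_self' (P : M2 F) : P.adjugate * P = P.det • (1 : M2 F) :=
  Matrix.adjugate_mul P

theorem self_mul_adj' (P : M2 F) : P * P.adjugate = P.det • (1 : M2 F) :=
  Matrix.mul_adjugate P

/-- **Gram lemma.** -/
theorem gram_main [CharP F 3] {ι : Type*} (Y : ι → ι → M2 F) (K : Set (M2 F))
    (hKdet : ∀ k ∈ K, k.det = 1)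
    (hKm1 : (-1 : M2 F) ∈ K)
    (hY1 : ∀ A, Y A A = 1)
    (hadj : ∀ A B, Y B A = (Y A B).adjugate)
    (hclos : ∀ A B, ∀ k ∈ K, ∃ B', ∀ C, Y C B' = Y C B + Y A B * (k - 1) * Y C A)
    (hNC : ∀ A B, Y A B ≠ 0)
    (htrace : ∀ D : F, D ≠ 0 → D ≠ 1 → ∃ k ∈ K, (1 - D) ^ 2 + D * (1 - D) * k.trace + D ^ 2 = 0)
    (hspan : ∀ L : M2 F, (∀ k ∈ K, L.det + (k.adjugate * L).trace = 0) → L = 0) :
    ∀ A B C, Y B C = Y A C * Y B A := by
  have h3 : (3 : F) = 0 := by exact_mod_cast CharP.cast_eq_zero F 3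
  have hm2 : (-1 - 1 : M2 F) = 1 := by
    have : (3 : M2 F) = 0 := by
      have h31 : (3 : M2 F) = (3 : F) • (1 : M2 F) := by
        rw [show (3 : F) = 1 + 1 + 1 by norm_num, add_smul, add_smul, one_smul]
        norm_num
      rw [h31, h3, zero_smul]
    have h4 : (-1 - 1 : M2 F) = 1 - 3 := by norm_num
    rw [h4, this, sub_zero]
  -- step 1: determinants are nonzero
  have hdet : ∀ A B, (Y A B).det ≠ 0 := by
    intro A B hD
    obtain ⟨A₁, hA₁⟩ := hclos B A (-1) hKm1
    obtain ⟨A₂, hA₂⟩ := hclos A A₁ (-1) hKm1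
    simp only [hm2, mul_one] at hA₁ hA₂
    apply hNC B A₂
    rw [hA₂, hA₁, hA₁, hY1, hY1, hadj A B, adj_mul_self', hD]
    simp only [zero_smul, add_zero, mul_one, one_mul]
    have h : (Y A B).adjugate + (Y A B).adjugate + (Y A B).adjugate = (3 : F) • (Y A B).adjugate := by
      rw [show (3 : F) = 1 + 1 + 1 by norm_num, add_smul, add_smul, one_smul]
    rw [h, h3, zero_smul]
  -- step 2: determinants are one
  have hdet1 : ∀ A B, (Y A B).det = 1 := by
    intro A B
    by_contra h1
    obtain ⟨k, hk, hk0⟩ := htrace _ (hdet A B) h1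
    obtain ⟨B', hB'⟩ := hclos A B k hk
    apply hdet B B'
    rw [hB', hY1, hadj A B]
    set P := Y A B with hP
    have h2 : (1 : M2 F) + P * (k - 1) * P.adjugate = (1 - P.det) • (1 : M2 F) + P * k * P.adjugate := by
      rw [mul_sub, sub_mul, mul_one, self_mul_adj', sub_smul, one_smul]
      abel
    rw [h2, det_add_two, Matrix.det_smul, Matrix.det_one, Matrix.det_mul, Matrix.det_mul,
      Matrix.det_adjugate, hKdet k hk]
    have h5 : (((1 - P.det) • (1 : M2 F)).adjugate * (P * k * P.adjugate)).trace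
        = (1 - P.det) * (P.det * k.trace) := by
      have h6 : ((1 - P.det) • (1 : M2 F)).adjugate = (1 - P.det) • (1 : M2 F) := by
        ext i j
        fin_cases i <;> fin_cases j <;> simp [Matrix.adjugate_fin_two]
      rw [h6, smul_mul_assoc, one_mul, Matrix.trace_smul]
      congr 1
      rw [Matrix.trace_mul_comm, ← mul_assoc, adj_mul_self', smul_mul_assoc, one_mul,
        Matrix.trace_smul, smul_eq_mul]
    rw [h5]
    simp only [Fintype.card_fin]
    norm_num
    linear_combination hk0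
  -- step 3
  intro A B C
  set P₁ := Y A C with hP₁
  set P₂ := Y B A with hP₂
  have hd1 : P₁.det = 1 := hdet1 A C
  have hd2 : P₂.det = 1 := hdet1 B A
  set L := Y B C - P₁ * P₂ with hL
  set Λ := P₁.adjugate * L * P₂.adjugate with hΛ
  have hp1 : P₁.adjugate * P₁ = 1 := by rw [adj_mul_self', hd1, one_smul]
  have hp1' : P₁ * P₁.adjugate = 1 := by rw [self_mul_adj', hd1, one_smul]
  have hp2 : P₂ * P₂.adjugate = 1 := by rw [self_mul_adj', hd2, one_smul]
  have hp2' : P₂.adjugate * P₂ = 1 := by rw [adj_mul_self', hd2, one_smul]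
  have hΛ0 : Λ = 0 := by
    apply hspan
    intro k hk
    obtain ⟨B'', hB''⟩ := hclos A C k hk
    have h1 := hdet1 B B''
    rw [hB''] at h1
    have h2 : Y B C + Y A C * (k - 1) * Y B A = P₁ * (k + Λ) * P₂ := by
      rw [hΛ, mul_add, add_mul]
      have h3 : P₁ * (P₁.adjugate * L * P₂.adjugate) * P₂ = L := by
        calc P₁ * (P₁.adjugate * L * P₂.adjugate) * P₂
            = (P₁ * P₁.adjugate) * L * (P₂.adjugate * P₂) := by noncomm_ring
          _ = L := by rw [hp1', hp2', one_mul, mul_one]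
      rw [h3, hL, ← hP₁, ← hP₂, mul_sub, sub_mul, mul_one]
      abel
    rw [h2, Matrix.det_mul, Matrix.det_mul, hd1, hd2, one_mul, mul_one, det_add_two, hKdet k hk] at h1
    have h4 : 1 + Λ.det + (k.adjugate * Λ).trace = 1 := h1
    have h5 : Λ.det + (k.adjugate * Λ).trace = 1 + Λ.det + (k.adjugate * Λ).trace - 1 := by ring
    rw [h5, h4]
    ring
  have hL0 : L = 0 := by
    have h3 : L = P₁ * Λ * P₂ := by
      calc L = (P₁ * P₁.adjugate) * L * (P₂.adjugate * P₂) := by rw [hp1', hp2', one_mul, mul_one]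
        _ = P₁ * (P₁.adjugate * L * P₂.adjugate) * P₂ := by noncomm_ring
    rw [h3, hΛ0, mul_zero, zero_mul]
  exact sub_eq_zero.1 hL0

end Cfsg.Agent.Lib.BlockX
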