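import Mathlib
import Cfsg.Prelude.Def_BaumannBlocks
import Cfsg.Agent.Lib.BlockX.Gram

/-!
# Data of an exceptional Baumann block (core case `Q ≤ O₃(G)`, `[O₃(G), E] ≰ W`)
All fields are elementwise.  `⁅x, y⁆ = x * y * x⁻¹ * y⁻¹`.
-/

namespace Cfsg.Agent.Lib.BlockX

open Subgroup Cfsg Matrix
open scoped commutatorElement

abbrev SL2 (F : Type*) [Field F] := Matrix.SpecialLinearGroup (Fin 2) F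
abbrev F2 (F : Type*) := Fin 2 → F

/-- The determinant form on `F²`. -/
def dt {F : Type*} [Field F] (a b : F2 F) : F := a 0 * b 1 - a 1 * b 0

/-- Action of `SL₂` on `F²`. -/
abbrev sact {F : Type*} [Field F] (k : SL2 F) (a : F2 F) : F2 F :=
  (k : M2 F).mulVec a

/-- The data. -/
structure Core {G : Type*} [Group G] (F : Type*) [Field F]
    (E Q W V Z Y Ω B : Subgroup G) (t a : G) where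
  ψ : G → F2 F
  τ : G → F
  ρ : G → SL2 F
  φ : G → F2 F
  ρv : G → SL2 F
  hQE : Q ≤ E
  hEQ : E ≤ normalizer (Q : Set G)
  hQ3 : ∀ D : Subgroup G, D ≤ E → IsPGroup 3 D → E ≤ normalizer (D : Set G) → D ≤ Q
  hE3 : pResidualOf 3 E = E
  hWQ : W ≤ Q
  hVW : V ≤ W
  hZW : Z ≤ W
  hVZ : ∀ w ∈ W, ∃ v ∈ V, ∃ z ∈ Z, w = v * z
  hVZ1 : V ⊓ Z = ⊥
  hEV : E ≤ normalizer (V : Set G)
  hEZ : ∀ e ∈ E, ∀ z ∈ Z, e * z = z * e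
  hYn : Y.Normal
  hYp : IsPGroup 3 Y
  hYC : centralizer (Y : Set G) ≤ Y
  hQY : Q ≤ Y
  hΩn : Ω.Normal
  hΩY : Ω ≤ centralizer (Y : Set G)
  hWΩ : W ≤ Ω
  hΩE : ∀ w ∈ Ω, ∀ e ∈ E, ⁅w, e⁆ ∈ V
  hYE : ∀ y ∈ Y, ∀ e ∈ E, ⁅y, e⁆ ∈ Q
  hQYW : ∀ q ∈ Q, ∀ y ∈ Y, ⁅q, y⁆ ∈ W
  hQQ : ⁅Q, Q⁆ = Z
  -- the natural module `Q / W`
  ψ_mul : ∀ x ∈ Q, ∀ y ∈ Q, ψ (x * y) = ψ x + ψ y
  ψ_surj : ∀ b : F2 F, ∃ q ∈ Q, ψ q = b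
  ψ_ker : ∀ q ∈ Q, ψ q = 0 ↔ q ∈ W
  -- the commutator form, with values `W / V ≅ F`
  τ_mul : ∀ x ∈ W, ∀ y ∈ W, τ (x * y) = τ x + τ y
  τ_ker : ∀ w ∈ W, τ w = 0 ↔ w ∈ V
  τ_comm : ∀ x ∈ Q, ∀ y ∈ Q, τ ⁅x, y⁆ = dt (ψ x) (ψ y)
  -- action of `E` on `Q / W`
  ρ_mul : ∀ x ∈ E, ∀ y ∈ E, ρ (x * y) = ρ x * ρ y
  ρ_mem : ∀ e ∈ E, ρ e ∈ commutator (SL2 F)
  ρ_surj : ∀ k ∈ commutator (SL2 F), ∃ e ∈ E, ρ e = k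
  ρ_act : ∀ e ∈ E, ∀ q ∈ Q, ψ (e * q * e⁻¹) = sact (ρ e) (ψ q)
  ρ_ker : ∀ e ∈ E, ρ e = 1 ↔ e ∈ Q
  -- action of `E` on `V`
  φ_mul : ∀ x ∈ V, ∀ y ∈ V, φ (x * y) = φ x + φ y
  φ_surj : ∀ b : F2 F, ∃ v ∈ V, φ v = b
  φ_ker : ∀ v ∈ V, φ v = 0 ↔ v = 1
  ρv_mul : ∀ x ∈ E, ∀ y ∈ E, ρv (x * y) = ρv x * ρv y
  ρv_mem : ∀ e ∈ E, ρv e ∈ commutator (SL2 F)
  ρv_surj : ∀ k ∈ commutator (SL2 F), ∃ e ∈ E, ρv e = k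
  ρv_act : ∀ e ∈ E, ∀ v ∈ V, φ (e * v * e⁻¹) = sact (ρv e) (φ v)
  ρv_ker : ∀ e ∈ E, ρv e = 1 ↔ e ∈ Q
  -- the involution
  ht : t ∈ E
  ht2 : t * t = 1
  hρt : ρ t = -1
  hρvt : ρv t = -1
  -- the Baumann subgroup
  hBE : B ≤ normalizer (E : Set G)
  hBQ : B ≤ normalizer (Q : Set G)
  hBV : B ≤ normalizer (V : Set G)
  hBZ : B ≤ normalizer (Z : Set G)
  hS2983 : ∀ D : Subgroup G, IsPGroup 3 D → B ≤ normalizer (D : Set G) →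
    E ≤ normalizer (D : Set G) → D ≤ normalizer (E : Set G)
  -- the non-quadratic element
  haB : a ∈ B
  haV0 : a ∉ centralizer (V : Set G)
  haV : ∀ v ∈ V, ⁅⁅v, a⁆, a⁆ = 1
  haQ : ∀ q ∈ Q, ⁅⁅q, a⁆, a⁆ ∈ W
  hnq : ¬ ∀ q ∈ Q, ⁅⁅q, a⁆, a⁆ ∈ Z

/-- `R_d = {y ∈ R | [R, y] ≤ V}`. -/
def Rd {G : Type*} [Group G] (R V : Subgroup G) : Set G :=
  {y | y ∈ R ∧ ∀ x ∈ R, ⁅x, y⁆ ∈ V}

/-- The setting for the two main lemmas. -/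
structure Sett {G : Type*} [Group G] {F : Type*} [Field F]
    {E Q W V Z Y Ω B : Subgroup G} {t a : G} (c : Core F E Q W V Z Y Ω B t a)
    (S R : Subgroup G) : Prop where
  hES : E ≤ S
  hSV : S ≤ normalizer (V : Set G)
  hSρ : ∀ s ∈ S, ∃ e ∈ E, ∃ c' ∈ centralizer (V : Set G), s = e * c'
  hBS : B ≤ normalizer (S : Set G)
  hQR : Q ≤ R
  hRY : R ≤ Y
  hSR : S ≤ normalizer (R : Set G)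
  hBR : B ≤ normalizer (R : Set G)
  hYS : ∀ y ∈ Y, ∀ s ∈ S, ⁅y, s⁆ ∈ R
  hΩS : ∀ w ∈ Ω, ∀ s ∈ S, ⁅w, s⁆ ∈ V
  hRR : ∀ x ∈ R, ∀ y ∈ R, ⁅x, y⁆ ∈ W
  hRdS : ∀ y ∈ Rd R V, ∀ s ∈ S, ⁅y, s⁆ ∈ V
  hD : ∀ D : Subgroup G, IsPGroup 3 D → D ≤ S → D ≤ centralizer (V : Set G) →
    S ≤ normalizer (D : Set G) → B ≤ normalizer (D : Set G) → ∀ d ∈ D, ∀ s ∈ S, ⁅d, s⁆ ∈ R

end Cfsg.Agent.Lib.BlockX
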