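import Mathlib
import Cfsg.Agent.Lib.BlockX.Core

/-!
# Basic API for `Core` and `Sett`: the form `τ ⁅x, y⁆`.
-/

namespace Cfsg.Agent.Lib.BlockX

open Subgroup Cfsg Matrix
open scoped commutatorElement

variable {G : Type*} [Group G] {F : Type*} [Field F]
  {E Q W V Z Y Ω B : Subgroup G} {t a : G} {S R : Subgroup G}

theorem sact_neg_one (a : F2 F) : sact (-1 : SL2 F) a = - a := by
  simp [sact, Matrix.neg_mulVec]

namespace Core

variable (c : Core F E Q W V Z Y Ω B t a)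
include c

theorem ω_comm {w y : G} (hw : w ∈ Ω) (hy : y ∈ Y) : w * y = y * w :=
  (mem_centralizer_iff.1 (c.hΩY hw) y hy).symm

theorem w_comm {w y : G} (hw : w ∈ W) (hy : y ∈ Y) : w * y = y * w := c.ω_comm (c.hWΩ hw) hy

theorem W_le_Y : W ≤ Y := c.hWQ.trans c.hQY
theorem V_le_W : V ≤ W := c.hVW
theorem V_le_Q : V ≤ Q := c.hVW.trans c.hWQ
theorem V_le_Y : V ≤ Y := c.hVW.trans c.W_le_Y
theorem Z_le_Y : Z ≤ Y := c.hZW.trans c.W_le_Y

theorem τ_one : c.τ 1 = 0 := by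
  have h := c.τ_mul 1 W.one_mem 1 W.one_mem
  simpa using h

theorem τ_inv {x : G} (hx : x ∈ W) : c.τ x⁻¹ = - c.τ x := by
  have h := c.τ_mul x hx x⁻¹ (W.inv_mem hx)
  rw [mul_inv_cancel, c.τ_one] at h
  exact eq_neg_of_add_eq_zero_right h.symm

theorem τ_of_V {x : G} (hx : x ∈ V) : c.τ x = 0 := (c.τ_ker x (c.hVW hx)).2 hx

/-- `τ` is invariant under anything moving `W` modulo `V`. -/
theorem τ_conj_of {s w : G} (hw : w ∈ W) (hs : ∀ w ∈ Ω, ⁅w, s⁆ ∈ V) : c.τ (s * w * s⁻¹) = c.τ w ∧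
    s * w * s⁻¹ ∈ W := by
  have h1 : ⁅w, s⁆ ∈ V := hs w (c.hWΩ hw)
  have h2 : s * w * s⁻¹ = (⁅w, s⁆)⁻¹ * w := by
    simp only [commutatorElement_def]; group
  have h3 : (⁅w, s⁆)⁻¹ ∈ W := W.inv_mem (c.hVW h1)
  rw [h2]
  refine ⟨?_, W.mul_mem h3 hw⟩
  rw [c.τ_mul _ h3 _ hw, c.τ_inv (c.hVW h1), c.τ_of_V h1]; simp

theorem ψ_one : c.ψ 1 = 0 := by
  have h := c.ψ_mul 1 Q.one_mem 1 Q.one_mem
  simpa using h

theorem ψ_inv {x : G} (hx : x ∈ Q) : c.ψ x⁻¹ = - c.ψ x := by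
  have h := c.ψ_mul x hx x⁻¹ (Q.inv_mem hx)
  rw [mul_inv_cancel, c.ψ_one] at h
  exact eq_neg_of_add_eq_zero_right h.symm

theorem φ_one : c.φ 1 = 0 := by
  have h := c.φ_mul 1 V.one_mem 1 V.one_mem
  simpa using h

theorem φ_inv {x : G} (hx : x ∈ V) : c.φ x⁻¹ = - c.φ x := by
  have h := c.φ_mul x hx x⁻¹ (V.inv_mem hx)
  rw [mul_inv_cancel, c.φ_one] at h
  exact eq_neg_of_add_eq_zero_right h.symm

theorem φ_inj {x y : G} (hx : x ∈ V) (hy : y ∈ V) (h : c.φ x = c.φ y) : x = y := by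
  have h1 : c.φ (x * y⁻¹) = 0 := by
    rw [c.φ_mul _ hx _ (V.inv_mem hy), c.φ_inv hy, h]; simp
  have h2 := (c.φ_ker _ (V.mul_mem hx (V.inv_mem hy))).1 h1
  exact mul_inv_eq_one.1 h2

/-- `V` is abelian. -/
theorem V_comm {x y : G} (hx : x ∈ V) (hy : y ∈ V) : x * y = y * x :=
  c.w_comm (c.hVW hx) (c.V_le_Y hy)

/-- Elements of `G` with action `−1` on `V` invert `V`. -/
theorem inv_of_act {s v : G} (hv : v ∈ V) (hs : s * v * s⁻¹ ∈ V)
    (h : c.φ (s * v * s⁻¹) = - c.φ v) : s * v * s⁻¹ = v⁻¹ :=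
  c.φ_inj hs (V.inv_mem hv) (by rw [h, c.φ_inv hv])

theorem mem_V_of_normal {e v : G} (he : e ∈ E) (hv : v ∈ V) : e * v * e⁻¹ ∈ V :=
  (mem_normalizer_iff.1 (c.hEV he) v).1 hv

/-- The involution `t` inverts `V`. -/
theorem t_inv {v : G} (hv : v ∈ V) : t * v * t⁻¹ = v⁻¹ :=
  c.inv_of_act hv (c.mem_V_of_normal c.ht hv)
    (by rw [c.ρv_act t c.ht v hv, c.hρvt, sact_neg_one])

theorem t_inv_eq : t⁻¹ = t := by
  have := c.ht2
  exact inv_eq_of_mul_eq_one_left this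

end Core

namespace Sett

variable {c : Core F E Q W V Z Y Ω B t a} (st : Sett c S R)
include st

theorem R_le_Y : R ≤ Y := st.hRY

theorem comm_W {x y : G} (hx : x ∈ R) (hy : y ∈ R) : ⁅x, y⁆ ∈ W := st.hRR x hx y hy

/-- Left additivity of `τ ⁅x, y⁆` on `R`. -/
theorem comm_mul_left {x x' y : G} (hx : x ∈ R) (hx' : x' ∈ R) (hy : y ∈ R) :
    ⁅x * x', y⁆ = ⁅x', y⁆ * ⁅x, y⁆ := by
  have h1 : ⁅x * x', y⁆ = x * ⁅x', y⁆ * x⁻¹ * ⁅x, y⁆ := by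
    simp only [commutatorElement_def]; group
  have h2 : x * ⁅x', y⁆ * x⁻¹ = ⁅x', y⁆ := by
    rw [← c.w_comm (st.comm_W hx' hy) (st.hRY hx)]; group
  rw [h1, h2]

theorem comm_mul_right {x y y' : G} (hx : x ∈ R) (hy : y ∈ R) (hy' : y' ∈ R) :
    ⁅x, y * y'⁆ = ⁅x, y⁆ * ⁅x, y'⁆ := by
  have h1 : ⁅x, y * y'⁆ = ⁅x, y⁆ * (y * ⁅x, y'⁆ * y⁻¹) := by
    simp only [commutatorElement_def]; group
  have h2 : y * ⁅x, y'⁆ * y⁻¹ = ⁅x, y'⁆ := by
    rw [← c.w_comm (st.comm_W hx hy') (st.hRY hy)]; group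
  rw [h1, h2]

theorem τ_mul_left {x x' y : G} (hx : x ∈ R) (hx' : x' ∈ R) (hy : y ∈ R) :
    c.τ ⁅x * x', y⁆ = c.τ ⁅x, y⁆ + c.τ ⁅x', y⁆ := by
  rw [st.comm_mul_left hx hx' hy, c.τ_mul _ (st.comm_W hx' hy) _ (st.comm_W hx hy), add_comm]

theorem τ_mul_right {x y y' : G} (hx : x ∈ R) (hy : y ∈ R) (hy' : y' ∈ R) :
    c.τ ⁅x, y * y'⁆ = c.τ ⁅x, y⁆ + c.τ ⁅x, y'⁆ := by
  rw [st.comm_mul_right hx hy hy', c.τ_mul _ (st.comm_W hx hy) _ (st.comm_W hx hy')]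

theorem τ_swap {x y : G} (hx : x ∈ R) (hy : y ∈ R) : c.τ ⁅x, y⁆ = - c.τ ⁅y, x⁆ := by
  have h : ⁅x, y⁆ = (⁅y, x⁆)⁻¹ := by simp [commutatorElement_inv]
  rw [h, c.τ_inv (st.comm_W hy hx)]

omit st in
theorem τ_one_left {y : G} : c.τ ⁅(1 : G), y⁆ = 0 := by
  simp [c.τ_one]

omit st in
theorem τ_one_right {x : G} : c.τ ⁅x, (1 : G)⁆ = 0 := by
  simp [c.τ_one]

theorem τ_inv_left {x y : G} (hx : x ∈ R) (hy : y ∈ R) : c.τ ⁅x⁻¹, y⁆ = - c.τ ⁅x, y⁆ := by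
  have h := st.τ_mul_left hx (R.inv_mem hx) hy
  rw [mul_inv_cancel, τ_one_left] at h
  exact eq_neg_of_add_eq_zero_right h.symm

theorem τ_inv_right {x y : G} (hx : x ∈ R) (hy : y ∈ R) : c.τ ⁅x, y⁻¹⁆ = - c.τ ⁅x, y⁆ := by
  have h := st.τ_mul_right hx hy (R.inv_mem hy)
  rw [mul_inv_cancel, τ_one_right] at h
  exact eq_neg_of_add_eq_zero_right h.symm

theorem conj_mem_R {s x : G} (hs : s ∈ S) (hx : x ∈ R) : s * x * s⁻¹ ∈ R :=
  (mem_normalizer_iff.1 (st.hSR hs) x).1 hx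

theorem conj_mem_V {s x : G} (hs : s ∈ S) (hx : x ∈ V) : s * x * s⁻¹ ∈ V :=
  (mem_normalizer_iff.1 (st.hSV hs) x).1 hx

theorem conj_inv_mem_R {s x : G} (hs : s ∈ S) (hx : x ∈ R) : s⁻¹ * x * s ∈ R := by
  simpa using st.conj_mem_R (S.inv_mem hs) hx

/-- `S`-invariance of the form. -/
theorem τ_conj {s x y : G} (hs : s ∈ S) (hx : x ∈ R) (hy : y ∈ R) :
    c.τ ⁅s * x * s⁻¹, s * y * s⁻¹⁆ = c.τ ⁅x, y⁆ := by
  have h : ⁅s * x * s⁻¹, s * y * s⁻¹⁆ = s * ⁅x, y⁆ * s⁻¹ := by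
    simp only [commutatorElement_def]; group
  rw [h]
  exact (c.τ_conj_of (st.comm_W hx hy) (fun w hw => st.hΩS w hw s hs)).1

theorem τ_conj' {s x y : G} (hs : s ∈ S) (hx : x ∈ R) (hy : y ∈ R) :
    c.τ ⁅s * x * s⁻¹, y⁆ = c.τ ⁅x, s⁻¹ * y * s⁆ := by
  have := st.τ_conj hs hx (st.conj_inv_mem_R hs hy)
  rw [← this]
  congr 2
  group

theorem mem_Rd_iff {y : G} : y ∈ Rd R V ↔ y ∈ R ∧ ∀ x ∈ R, c.τ ⁅x, y⁆ = 0 := by
  constructor
  · rintro ⟨h1, h2⟩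
    exact ⟨h1, fun x hx => c.τ_of_V (h2 x hx)⟩
  · rintro ⟨h1, h2⟩
    exact ⟨h1, fun x hx => (c.τ_ker _ (st.comm_W hx h1)).1 (h2 x hx)⟩

/-- `R_d` as a subgroup. -/
def rd : Subgroup G where
  carrier := Rd R V
  mul_mem' := by
    intro a b ha hb
    have ha' := st.mem_Rd_iff.1 ha
    have hb' := st.mem_Rd_iff.1 hb
    refine st.mem_Rd_iff.2 ⟨R.mul_mem ha'.1 hb'.1, fun x hx => ?_⟩
    rw [st.τ_mul_right hx ha'.1 hb'.1, ha'.2 x hx, hb'.2 x hx, add_zero]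
  one_mem' := by
    refine st.mem_Rd_iff.2 ⟨R.one_mem, fun x _ => ?_⟩
    exact τ_one_right
  inv_mem' := by
    intro a ha
    have ha' := st.mem_Rd_iff.1 ha
    refine st.mem_Rd_iff.2 ⟨R.inv_mem ha'.1, fun x hx => ?_⟩
    rw [st.τ_inv_right hx ha'.1, ha'.2 x hx, neg_zero]

theorem mem_rd {y : G} : y ∈ st.rd ↔ y ∈ Rd R V := Iff.rfl

theorem rd_le_R : st.rd ≤ R := fun _ h => h.1

theorem W_le_R : W ≤ R := c.hWQ.trans st.hQR

theorem W_le_rd : W ≤ st.rd := fun w hw =>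
  ⟨st.W_le_R hw, fun x hx => by
    have : ⁅x, w⁆ = 1 := by
      rw [commutatorElement_eq_one_iff_mul_comm]
      exact (c.w_comm hw (st.hRY hx)).symm
    rw [this]; exact V.one_mem⟩

theorem V_le_R : V ≤ R := c.hVW.trans st.W_le_R

theorem conj_mem_rd {s y : G} (hs : s ∈ S) (hy : y ∈ Rd R V) : s * y * s⁻¹ ∈ Rd R V := by
  have hy' := st.mem_Rd_iff.1 hy
  refine st.mem_Rd_iff.2 ⟨st.conj_mem_R hs hy'.1, fun x hx => ?_⟩
  have h := st.τ_conj hs (st.conj_inv_mem_R hs hx) hy'.1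
  have h2 : s * (s⁻¹ * x * s) * s⁻¹ = x := by group
  rw [h2] at h
  rw [h]
  exact hy'.2 _ (st.conj_inv_mem_R hs hx)

end Sett

/-- conjugates of a subgroup under `S`, generated -/
def conjClosure (S X : Subgroup G) : Subgroup G := closure {x | ∃ s ∈ S, ∃ q ∈ X, x = s * q * s⁻¹}

theorem conjClosure_le {S X : Subgroup G} (hX : X ≤ S) : conjClosure S X ≤ S := by
  rw [conjClosure, closure_le]
  rintro _ ⟨s, hs, q, hq, rfl⟩
  exact S.mul_mem (S.mul_mem hs (hX hq)) (S.inv_mem hs)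

theorem le_conjClosure {S X : Subgroup G} : X ≤ conjClosure S X := fun x hx =>
  subset_closure ⟨1, S.one_mem, x, hx, by simp⟩

theorem conj_mem_conjClosure {S X : Subgroup G} {s x : G} (hs : s ∈ S) (hx : x ∈ X) :
    s * x * s⁻¹ ∈ conjClosure S X := subset_closure ⟨s, hs, x, hx, rfl⟩

/-- `S` normalizes the closure of conjugates. -/
theorem normalizer_conjClosure {S X : Subgroup G} {b : G} (hbS : b ∈ normalizer (S : Set G))
    (hbX : b ∈ normalizer (X : Set G)) : b ∈ normalizer (conjClosure S X : Set G) := by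
  have key : ∀ b : G, b ∈ normalizer (S : Set G) → b ∈ normalizer (X : Set G) →
      ∀ x ∈ conjClosure S X, b * x * b⁻¹ ∈ conjClosure S X := by
    intro b hbS hbX x hx
    refine closure_induction (p := fun x _ => b * x * b⁻¹ ∈ conjClosure S X) ?_ ?_ ?_ ?_ hx
    · rintro _ ⟨s, hs, q, hq, rfl⟩
      refine subset_closure ⟨b * s * b⁻¹, (mem_normalizer_iff.1 hbS s).1 hs, b * q * b⁻¹,
        (mem_normalizer_iff.1 hbX q).1 hq, by group⟩
    · simp [(conjClosure S X).one_mem]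
    · intro x y _ _ hx hy
      have : b * (x * y) * b⁻¹ = (b * x * b⁻¹) * (b * y * b⁻¹) := by group
      rw [this]; exact mul_mem hx hy
    · intro x _ hx
      have : b * x⁻¹ * b⁻¹ = (b * x * b⁻¹)⁻¹ := by group
      rw [this]; exact inv_mem hx
  rw [mem_normalizer_iff]
  intro x
  refine ⟨key b hbS hbX x, fun h => ?_⟩
  have := key b⁻¹ (inv_mem hbS) (inv_mem hbX) _ h
  simpa [mul_assoc] using this

/-- elements of `S` normalize the closure of their conjugates. -/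
theorem mem_normalizer_conjClosure {S X : Subgroup G} {s : G} (hs : s ∈ S) :
    s ∈ normalizer (conjClosure S X : Set G) := by
  have key : ∀ s ∈ S, ∀ x ∈ conjClosure S X, s * x * s⁻¹ ∈ conjClosure S X := by
    intro s hs x hx
    refine closure_induction (p := fun x _ => s * x * s⁻¹ ∈ conjClosure S X) ?_ ?_ ?_ ?_ hx
    · rintro _ ⟨u, hu, q, hq, rfl⟩
      refine subset_closure ⟨s * u, S.mul_mem hs hu, q, hq, by group⟩
    · simp [(conjClosure S X).one_mem]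
    · intro x y _ _ hx hy
      have : s * (x * y) * s⁻¹ = (s * x * s⁻¹) * (s * y * s⁻¹) := by group
      rw [this]; exact mul_mem hx hy
    · intro x _ hx
      have : s * x⁻¹ * s⁻¹ = (s * x * s⁻¹)⁻¹ := by group
      rw [this]; exact inv_mem hx
  rw [mem_normalizer_iff]
  intro x
  refine ⟨key s hs x, fun h => ?_⟩
  have := key s⁻¹ (S.inv_mem hs) _ h
  simpa [mul_assoc] using this

end Cfsg.Agent.Lib.BlockX
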