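import Mathlib
import Cfsg.Prelude.Def_BaumannBlocks
import Cfsg.Agent.Lib.PGroup.BaumannSect
import Cfsg.Agent.Lib.Basic.PCore

/-!
# Piece I of S2985: the case `[O_p(G), E] ≤ [W, E]`.

With `V = [W, E]` and `C = C(V)`, the subgroup `X = [C, E]` is a `p`-group normalized by `E` and by
`B(T)`, hence it normalizes `E`; this forces `C` to normalize `E`.
-/

namespace Cfsg.Agent.Lib.BlockX

open Subgroup Cfsg Cfsg.Agent.Lib.PGroup.BaumannNorm Cfsg.Agent.Lib.PGroup.BaumannSect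
open scoped commutatorElement

variable {G : Type*} [Group G]

section chain

/-- A subgroup acting on `Y` with `[Y, X] ≤ V`, `[V, X] = 1` is a `p`-group, when `C(Y) ≤ Y`. -/
theorem isPGroup_of_caseI_chain {p : ℕ} [Fact p.Prime] [Finite G] {Y V X : Subgroup G}
    (hYp : IsPGroup p Y) (hYC : centralizer (Y : Set G) ≤ Y) (hVY : V ≤ Y)
    (hXY : ∀ x ∈ X, ∀ y ∈ Y, x * y * x⁻¹ * y⁻¹ ∈ V)
    (hXV : ∀ x ∈ X, ∀ v ∈ V, x * v = v * x) : IsPGroup p X := by
  intro d
  have hp : (p : ℕ).Prime := Fact.out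
  have hn0 : orderOf (d : G) ≠ 0 := (orderOf_pos (d : G)).ne'
  obtain ⟨m, n', hpn, hn⟩ := Nat.exists_eq_pow_mul_and_not_dvd hn0 p hp.ne_one
  have hcop : n'.Coprime p := ((Nat.Prime.coprime_iff_not_dvd hp).2 hpn).symm
  set d' : G := (d : G) ^ (p ^ m) with hd'
  have hd'X : d' ∈ X := X.pow_mem d.2 _
  have hd'n : d' ^ n' = 1 := by
    rw [hd', ← pow_mul, ← hn, pow_orderOf_eq_one]
  -- `d'` centralizes `Y`
  have hcen : d' ∈ centralizer (Y : Set G) := by
    rw [mem_centralizer_iff]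
    intro y hy
    set v : G := d' * y * d'⁻¹ * y⁻¹ with hv
    have hvV : v ∈ V := hXY d' hd'X y hy
    have hcv : d' * v = v * d' := hXV d' hd'X v hvV
    have hpw : ∀ k : ℕ, d' ^ k * y * (d' ^ k)⁻¹ = v ^ k * y := by
      intro k
      induction k with
      | zero => simp
      | succ k ih =>
        have h1 : d' ^ (k + 1) * y * (d' ^ (k + 1))⁻¹ = d' * (d' ^ k * y * (d' ^ k)⁻¹) * d'⁻¹ := by
          rw [pow_succ']; group
        rw [h1, ih]
        have h2 : d' * (v ^ k * y) * d'⁻¹ = (d' * v ^ k * d'⁻¹) * (d' * y * d'⁻¹) := by group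
        have h3 : d' * v ^ k * d'⁻¹ = v ^ k := by
          have : Commute d' (v ^ k) := (Commute.pow_right hcv k)
          rw [this.eq]; group
        have h4 : d' * y * d'⁻¹ = v * y := by rw [hv]; group
        rw [h2, h3, h4, pow_succ]; group
    have h5 := hpw n'
    rw [hd'n] at h5
    have h6 : v ^ n' = 1 := by
      have : y = v ^ n' * y := by simpa using h5
      exact (mul_eq_right.1 this.symm)
    obtain ⟨k, hk⟩ := hYp ⟨v, hVY hvV⟩
    have h7 : v ^ p ^ k = 1 := by simpa using congrArg Subtype.val hk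
    have h8 : v = 1 := by
      have hc : (p ^ k).Coprime n' := (hcop.symm.pow_left k)
      have : v ^ Nat.gcd (p ^ k) n' = 1 := pow_gcd_eq_one.2 ⟨h7, h6⟩
      rw [hc.gcd_eq_one] at this
      simpa using this
    have h9 : d' * y * d'⁻¹ = y := by
      have : d' * y * d'⁻¹ * y⁻¹ = 1 := by rw [← hv]; exact h8
      exact mul_inv_eq_one.1 this
    exact (mul_inv_eq_iff_eq_mul.1 h9).symm
  obtain ⟨k, hk⟩ := hYp ⟨d', hYC hcen⟩
  have h7 : d' ^ p ^ k = 1 := by simpa using congrArg Subtype.val hk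
  have h8 : d' = 1 := by
    have hc : (p ^ k).Coprime n' := (hcop.symm.pow_left k)
    have : d' ^ Nat.gcd (p ^ k) n' = 1 := pow_gcd_eq_one.2 ⟨h7, hd'n⟩
    rw [hc.gcd_eq_one] at this
    simpa using this
  refine ⟨m, ?_⟩
  apply Subtype.ext
  simpa [hd'] using h8

end chain

theorem caseI {p : ℕ} [Fact p.Prime] [Finite G] (hG : centralizer (pCore p G : Set G) ≤ pCore p G)
    (T : Sylow p G) (E : Subgroup G)
    (hE : IsBaumannBlock p (T : Subgroup G) E)
    (h : ⁅pCore p G, E⁆ ≤ ⁅omegaOneCenter p (pCoreOf p E), E⁆) :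
    centralizer ((⁅omegaOneCenter p (pCoreOf p E), E⁆ : Subgroup G) : Set G) ≤ normalizer (E : Set G) := by
  have hmain := block_main hG T E hE
  set W : Subgroup G := omegaOneCenter p (pCoreOf p E) with hW
  set V : Subgroup G := ⁅W, E⁆ with hV
  set Y : Subgroup G := pCore p G with hY
  set C : Subgroup G := centralizer (V : Set G) with hC
  set B : Subgroup G := baumannSubgroupOf p (T : Subgroup G) with hB
  have hYn : Y.Normal := pCore_normal p G
  have hYp : IsPGroup p Y := Cfsg.Agent.Lib.Basic.PCore.pCore_isPGroup p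
  have hVΩ : V ≤ omegaOneCenter p Y := hmain.2.1
  have hVY : V ≤ Y := hVΩ.trans (omegaOneCenter_le Y)
  have hEE : E ≤ normalizer (E : Set G) := Subgroup.le_normalizer
  have hNW : normalizer (E : Set G) ≤ normalizer (W : Set G) :=
    (Cfsg.Agent.Lib.PGroup.LargeSub2.normalizer_le_normalizer_pCoreOf E).trans
      (normalizer_le_omegaOneCenter _)
  have hNV : normalizer (E : Set G) ≤ normalizer (V : Set G) := fun g hg =>
    mem_normalizer_commutator (hNW hg) hg
  have hNC : normalizer (E : Set G) ≤ normalizer (C : Set G) :=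
    hNV.trans (normalizer_le_centralizer V)
  have hBE : B ≤ normalizer (E : Set G) := le_normalizer_of_commutator_eq hE.2.1
  set X : Subgroup G := ⁅C, E⁆ with hX
  have hNX : normalizer (E : Set G) ≤ normalizer (X : Set G) := fun g hg =>
    mem_normalizer_commutator (hNC hg) hg
  have hconjV : ∀ e ∈ E, ∀ v ∈ V, e * v * e⁻¹ ∈ V := fun e he v hv =>
    (mem_normalizer_iff.1 (hNV (hEE he)) v).1 hv
  have hcc : ∀ c ∈ C, ∀ v ∈ V, c * v = v * c := fun c hc v hv =>
    (mem_centralizer_iff.1 hc v hv).symm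
  -- `X` centralizes `V`
  have hXC : X ≤ C := by
    rw [hX, Subgroup.commutator_le]
    intro c hc e he
    have h0 : ⁅c, e⁆ = c * (e * c⁻¹ * e⁻¹) := by
      rw [commutatorElement_def]; group
    rw [h0]
    exact C.mul_mem hc ((mem_normalizer_iff.1 (hNC (hEE he)) c⁻¹).1 (C.inv_mem hc))
  have hXV : ∀ x ∈ X, ∀ v ∈ V, x * v = v * x := fun x hx v hv => hcc x (hXC hx) v hv
  -- `[Y, E] ≤ V`
  have hEY : ∀ e ∈ E, ∀ y ∈ Y, e * y * e⁻¹ * y⁻¹ ∈ V := by
    intro e he y hy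
    have h1 : ⁅y, e⁆ ∈ V := h (Subgroup.commutator_mem_commutator hy he)
    have h2 : e * y * e⁻¹ * y⁻¹ = (⁅y, e⁆)⁻¹ := by
      rw [commutatorElement_def]; group
    rw [h2]
    exact V.inv_mem h1
  -- the subgroup of elements moving `Y` modulo `V`
  let P : Subgroup G :=
    { carrier := {g | ∀ y ∈ Y, g * y * g⁻¹ * y⁻¹ ∈ V}
      one_mem' := by
        intro y _
        simp [V.one_mem]
      mul_mem' := by
        intro g g' hg hg' y hy
        have h1 := hg' y hy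
        set v : G := g' * y * g'⁻¹ * y⁻¹ with hv
        have h2 : g * v * g⁻¹ * v⁻¹ ∈ V := hg v (hVY h1)
        have h3 : g * v * g⁻¹ ∈ V := by
          have := V.mul_mem h2 h1
          simpa [mul_assoc] using this
        have h4 : g * g' * y * (g * g')⁻¹ * y⁻¹ = (g * v * g⁻¹) * (g * y * g⁻¹ * y⁻¹) := by
          rw [hv]; group
        rw [h4]
        exact V.mul_mem h3 (hg y hy)
      inv_mem' := by
        intro g hg y hy
        have hy' : g⁻¹ * y * g ∈ Y := by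
          have := hYn.conj_mem y hy g⁻¹
          simpa using this
        have h1 := hg _ hy'
        have h2 : g⁻¹ * y * g⁻¹⁻¹ * y⁻¹ = (g * (g⁻¹ * y * g) * g⁻¹ * (g⁻¹ * y * g)⁻¹)⁻¹ := by
          group
        rw [h2]
        exact V.inv_mem h1 }
  have hXP : X ≤ P := by
    rw [hX, Subgroup.commutator_le]
    intro c hc e he y hy
    have hv1 : e⁻¹ * y * e⁻¹⁻¹ * y⁻¹ ∈ V := hEY e⁻¹ (E.inv_mem he) y hy
    set v₁ : G := e⁻¹ * y * e⁻¹⁻¹ * y⁻¹ with hv₁
    have hy₂ : c⁻¹ * y * c ∈ Y := by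
      have := hYn.conj_mem y hy c⁻¹
      simpa using this
    set y₂ : G := c⁻¹ * y * c with hy₂def
    have hv3 : e * y₂ * e⁻¹ * y₂⁻¹ ∈ V := hEY e he y₂ hy₂
    set v₃ : G := e * y₂ * e⁻¹ * y₂⁻¹ with hv₃
    have hv2 : e * v₁ * e⁻¹ ∈ V := hconjV e he v₁ hv1
    set v₂ : G := e * v₁ * e⁻¹ with hv₂
    have hc1 : c⁻¹ * v₁ = v₁ * c⁻¹ := hcc _ (C.inv_mem hc) v₁ hv1
    have hc2 : c * (v₂ * v₃) = (v₂ * v₃) * c := hcc c hc _ (V.mul_mem hv2 hv3)
    have hey : e⁻¹ * y * e = v₁ * y := by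
      rw [hv₁]; group
    have key : ⁅c, e⁆ * y * (⁅c, e⁆)⁻¹ * y⁻¹ = v₂ * v₃ := by
      have s1 : ⁅c, e⁆ * y * (⁅c, e⁆)⁻¹ = c * e * c⁻¹ * (e⁻¹ * y * e) * c * e⁻¹ * c⁻¹ := by
        rw [commutatorElement_def]; group
      have s2 : c * e * c⁻¹ * (v₁ * y) * c * e⁻¹ * c⁻¹ = c * e * (c⁻¹ * v₁) * y * c * e⁻¹ * c⁻¹ := by
        group
      have s3 : c * e * (v₁ * c⁻¹) * y * c * e⁻¹ * c⁻¹ = c * ((e * v₁ * e⁻¹) * (e * y₂ * e⁻¹)) * c⁻¹ := by
        rw [hy₂def]; group
      have s4 : e * y₂ * e⁻¹ = v₃ * y₂ := by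
        rw [hv₃]; group
      have s5 : c * (v₂ * (v₃ * y₂)) * c⁻¹ = (c * (v₂ * v₃)) * y₂ * c⁻¹ := by group
      rw [s1, hey, s2, hc1, s3, ← hv₂, s4, s5, hc2]
      rw [hy₂def]; group
    rw [key]
    exact V.mul_mem hv2 hv3
  have hXp : IsPGroup p X :=
    isPGroup_of_caseI_chain hYp hG hVY (fun x hx y hy => hXP hx y hy) hXV
  have hXE : X ≤ normalizer (E : Set G) :=
    le_normalizer_block T hXp hE.1 hE.2.1 (hBE.trans hNX) (hEE.trans hNX)
  -- the main step
  intro c hc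
  have hstep : E ≤ cjg c⁻¹ E := by
    apply forall_mem_of_pResidualOf hE.1
    intro e he hcop
    rw [mem_cjg, inv_inv]
    have hn : ⁅c, e⁆ ∈ X := Subgroup.commutator_mem_commutator hc he
    obtain ⟨k, hk⟩ := (IsPGroup.iff_orderOf.1 hXp) ⟨_, hn⟩
    have hk' : orderOf (⁅c, e⁆ : G) = p ^ k := by
      rw [← hk]; exact (Subgroup.orderOf_mk _ _).symm
    have hcc' : ⁅c, e⁆ * e = c * e * c⁻¹ := by
      rw [commutatorElement_def]; group
    have hord : (orderOf (⁅c, e⁆ * e)).Coprime p := by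
      rw [hcc', orderOf_conj]; exact hcop
    have h1 : ⁅c, e⁆ ∈ E := mem_of_coprime_mul (hXE hn) he hk' hord
    rw [← hcc']
    exact E.mul_mem h1 he
  have heq : cjg c⁻¹ E = E := by
    symm
    exact Subgroup.eq_of_le_of_card_ge hstep (card_cjg c⁻¹ E).le
  have hcinv : c⁻¹ ∈ normalizer (E : Set G) := mem_normalizer_iff_cjg.2 heq
  simpa using Subgroup.inv_mem _ hcinv

end Cfsg.Agent.Lib.BlockX
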