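import Mathlib
import Cfsg.Prelude.Def_BaumannBlocks
import Cfsg.Agent.Lib.PGroup.BaumannNorm

/-! Piece CHAIN of S2985: stability chains and the residual step. -/

namespace Cfsg.Agent.Lib.BlockX

open Subgroup Cfsg
open scoped commutatorElement

variable {G : Type*} [Group G]

private theorem chain_step {p : ℕ} [Fact p.Prime] {A : Subgroup G} (hA : IsPGroup p A) {b d : G} {m : ℕ}
    (hv : ⁅b, d⁆ ∈ A) (hc : ⁅⁅b, d⁆, d⁆ = 1) (hm : d ^ m = 1) (hcop : m.Coprime p) : ⁅b, d⁆ = 1 := by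
  set v : G := ⁅b, d⁆ with hvdef
  have hdv : Commute v d := commutatorElement_eq_one_iff_commute.1 hc
  have h1 : d * b = v⁻¹ * b * d := by
    simp only [hvdef, commutatorElement_def]; group
  have h2 : ∀ k : ℕ, d ^ k * b = v⁻¹ ^ k * b * d ^ k := by
    intro k
    induction k with
    | zero => simp
    | succ k ih =>
      have hdv' : d * v⁻¹ ^ k = v⁻¹ ^ k * d := ((hdv.inv_left.pow_left k).eq).symm
      calc d ^ (k + 1) * b = d * (d ^ k * b) := by rw [pow_succ']; group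
        _ = d * (v⁻¹ ^ k * b * d ^ k) := by rw [ih]
        _ = (d * v⁻¹ ^ k) * b * d ^ k := by group
        _ = v⁻¹ ^ k * (d * b) * d ^ k := by rw [hdv']; group
        _ = v⁻¹ ^ k * (v⁻¹ * b * d) * d ^ k := by rw [h1]
        _ = v⁻¹ ^ (k + 1) * b * d ^ (k + 1) := by
            rw [pow_succ (v⁻¹) k, pow_succ' d k]; group
  have h3 := h2 m
  rw [hm, one_mul, mul_one] at h3
  have h4 : v⁻¹ ^ m = 1 := by
    have : v⁻¹ ^ m * b = 1 * b := by rw [← h3, one_mul]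
    exact mul_right_cancel this
  have h5 : v ^ m = 1 := by
    have : (v ^ m)⁻¹ = 1 := by rw [← inv_pow]; exact h4
    simpa using this
  obtain ⟨k, hk⟩ := hA ⟨v, hv⟩
  have h6 : v ^ (p ^ k) = 1 := by
    have := congrArg (Subtype.val) hk
    simpa using this
  have h7 : orderOf v ∣ m := orderOf_dvd_of_pow_eq_one h5
  have h8 : orderOf v ∣ p ^ k := orderOf_dvd_of_pow_eq_one h6
  have h9 : Nat.Coprime m (p ^ k) := Nat.Coprime.pow_right k hcop
  have h10 : orderOf v = 1 := Nat.eq_one_of_dvd_coprimes h9 h7 h8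
  exact orderOf_eq_one_iff.1 h10

theorem isPGroup_of_chain [Finite G] {p : ℕ} [Fact p.Prime] {Y R R' V D : Subgroup G} (hYp : IsPGroup p Y)
    (hY : Y.Normal)
    (hYC : centralizer (Y : Set G) ≤ Y) (hRY : R ≤ Y) (hR'R : R' ≤ R) (hVR' : V ≤ R')
    (h1 : ∀ y ∈ Y, ∀ d ∈ D, ⁅y, d⁆ ∈ R) (h2 : ∀ x ∈ R, ∀ d ∈ D, ⁅x, d⁆ ∈ R')
    (h3 : ∀ x ∈ R', ∀ d ∈ D, ⁅x, d⁆ ∈ V) (h4 : ∀ x ∈ V, ∀ d ∈ D, ⁅x, d⁆ = 1) : IsPGroup p D := by
  have hVp : IsPGroup p V := hYp.to_le (hVR'.trans (hR'R.trans hRY))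
  have hR'p : IsPGroup p R' := hYp.to_le (hR'R.trans hRY)
  have hRp : IsPGroup p R := hYp.to_le hRY
  have key : ∀ d ∈ D, ∀ m : ℕ, d ^ m = 1 → m.Coprime p → d = 1 := by
    intro d hd m hm hcop
    have s3 : ∀ x ∈ R', ⁅x, d⁆ = 1 := fun x hx =>
      chain_step hVp (h3 x hx d hd) (h4 _ (h3 x hx d hd) d hd) hm hcop
    have s2 : ∀ x ∈ R, ⁅x, d⁆ = 1 := fun x hx =>
      chain_step hR'p (h2 x hx d hd) (s3 _ (h2 x hx d hd)) hm hcop
    have s1 : ∀ y ∈ Y, ⁅y, d⁆ = 1 := fun y hy =>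
      chain_step hRp (h1 y hy d hd) (s2 _ (h1 y hy d hd)) hm hcop
    have hdY : d ∈ Y := by
      refine hYC (mem_centralizer_iff.2 ?_)
      intro y hy
      exact (commutatorElement_eq_one_iff_commute.1 (s1 y hy)).eq
    obtain ⟨k, hk⟩ := hYp ⟨d, hdY⟩
    have h6 : d ^ (p ^ k) = 1 := by
      have := congrArg (Subtype.val) hk
      simpa using this
    have h7 : orderOf d ∣ m := orderOf_dvd_of_pow_eq_one hm
    have h8 : orderOf d ∣ p ^ k := orderOf_dvd_of_pow_eq_one h6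
    have h9 : Nat.Coprime m (p ^ k) := Nat.Coprime.pow_right k hcop
    exact orderOf_eq_one_iff.1 (Nat.eq_one_of_dvd_coprimes h9 h7 h8)
  intro ⟨d, hd⟩
  have hpos : 0 < orderOf d := orderOf_pos d
  obtain ⟨a, m, hcop, hn⟩ : ∃ a m : ℕ, m.Coprime p ∧ orderOf d = p ^ a * m := by
    refine ⟨(orderOf d).factorization p, ordCompl[p] (orderOf d), ?_, ?_⟩
    · exact (Nat.coprime_ordCompl (Fact.out) hpos.ne').symm
    · exact (Nat.ordProj_mul_ordCompl_eq_self _ _).symm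
  have h0 : (d ^ (p ^ a)) ^ m = 1 := by
    rw [← pow_mul, ← hn, pow_orderOf_eq_one]
  have := key _ (D.pow_mem hd (p ^ a)) m h0 hcop
  refine ⟨a, ?_⟩
  apply Subtype.ext
  simpa using this

/-- `O^p` step: if `S ≤ N(E)`, every element of `S` is `e * x` with `e ∈ E`, `x ∈ X`, `X` a `p`-group,
then every `E₂ = O^p(E₂) ≤ S` lies in `E`. -/
theorem residual_le [Finite G] {p : ℕ} [Fact p.Prime] {S E E₂ X : Subgroup G} (hSE : S ≤ normalizer (E : Set G))
    (hX : IsPGroup p X) (hS : ∀ s ∈ S, ∃ e ∈ E, ∃ x ∈ X, s = e * x) (hE₂S : E₂ ≤ S)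
    (hE₂ : pResidualOf p E₂ = E₂) : E₂ ≤ E := by
  apply Cfsg.Agent.Lib.PGroup.BaumannNorm.forall_mem_of_pResidualOf (p := p) hE₂
  intro f hf hcop
  obtain ⟨e, he, x, hx, hfe⟩ := hS f (hE₂S hf)
  have hfN : f ∈ normalizer (E : Set G) := hSE (hE₂S hf)
  have heN : e ∈ normalizer (E : Set G) := le_normalizer he
  have hxN : x ∈ normalizer (E : Set G) := by
    have : x = e⁻¹ * f := by rw [hfe]; group
    rw [this]
    exact mul_mem (inv_mem heN) hfN
  have hpow : ∀ k : ℕ, ∃ e' ∈ E, f ^ k = e' * x ^ k := by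
    intro k
    induction k with
    | zero => exact ⟨1, E.one_mem, by simp⟩
    | succ k ih =>
      obtain ⟨e', he', h⟩ := ih
      have hxk : x ^ k ∈ normalizer (E : Set G) := pow_mem hxN k
      have h1 : x ^ k * e * (x ^ k)⁻¹ ∈ E := (mem_normalizer_iff.1 hxk e).1 he
      refine ⟨e' * (x ^ k * e * (x ^ k)⁻¹), E.mul_mem he' h1, ?_⟩
      rw [pow_succ, h, hfe, pow_succ]
      group
  obtain ⟨a, ha⟩ := hX ⟨x, hx⟩
  have hxa : x ^ (p ^ a) = 1 := by
    have := congrArg (Subtype.val) ha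
    simpa using this
  obtain ⟨e', he', h⟩ := hpow (p ^ a)
  rw [hxa, mul_one] at h
  have hfpow : f ^ (p ^ a) ∈ E := h ▸ he'
  have hc : Nat.Coprime (p ^ a) (orderOf f) := (Nat.Coprime.pow_right a hcop).symm
  obtain ⟨m, hm⟩ := exists_pow_eq_self_of_coprime hc
  rw [← hm]
  exact E.pow_mem hfpow m

end Cfsg.Agent.Lib.BlockX
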