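import Mathlib
import Cfsg.Agent.Lib.BlockX.Basics

/-!
# The final `3`-group step (core part): if `R = Q R_d`, `S ∩ C(V)` acts trivially on `R / R_d`.
-/

namespace Cfsg.Agent.Lib.BlockX

open Subgroup Cfsg Matrix
open scoped commutatorElement

namespace FinalPCore

variable {F : Type*} [Field F]

theorem dt_add_left (a a' b : F2 F) : dt (a + a') b = dt a b + dt a' b := by
  simp only [dt, Pi.add_apply]; ring

theorem dt_sub_left (a a' b : F2 F) : dt (a - a') b = dt a b - dt a' b := by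
  simp only [dt, Pi.sub_apply]; ring

theorem dt_zero_right (a : F2 F) : dt a 0 = 0 := by
  simp [dt]

theorem eq_zero_of_dt {a : F2 F} (h : ∀ b, dt a b = 0) : a = 0 := by
  have h1 := h ![1, 0]
  have h2 := h ![0, 1]
  simp [dt] at h1 h2
  ext i
  fin_cases i
  · simpa using h2
  · simpa using h1

theorem dt_sact (k : SL2 F) (a b : F2 F) : dt (sact k a) (sact k b) = dt a b := by
  have hd := k.2
  rw [Matrix.det_fin_two] at hd
  simp only [dt, sact, Matrix.mulVec, dotProduct, Fin.sum_univ_two]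
  have : (k : M2 F) = (k : Matrix (Fin 2) (Fin 2) F) := rfl
  linear_combination (a 0 * b 1 - a 1 * b 0) * hd

theorem sact_mul (k k' : SL2 F) (a : F2 F) : sact (k * k') a = sact k (sact k' a) := by
  show ((k * k' : SL2 F) : M2 F).mulVec a = (k : M2 F).mulVec ((k' : M2 F).mulVec a)
  rw [Matrix.SpecialLinearGroup.coe_mul, Matrix.mulVec_mulVec]

theorem sact_one (a : F2 F) : sact (1 : SL2 F) a = a := by
  simp [sact]

theorem sact_inv_sact (k : SL2 F) (a : F2 F) : sact k⁻¹ (sact k a) = a := by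
  rw [← sact_mul, inv_mul_cancel, sact_one]

theorem sact_sact_inv (k : SL2 F) (a : F2 F) : sact k (sact k⁻¹ a) = a := by
  rw [← sact_mul, mul_inv_cancel, sact_one]

theorem two_ne_zero_of_char3 [CharP F 3] : (2 : F) ≠ 0 := by
  intro h
  have h3 : (3 : F) = 0 := by exact_mod_cast CharP.cast_eq_zero F 3
  have : (1 : F) = 0 := by linear_combination h3 - h
  exact one_ne_zero this

variable {G : Type*} [Group G] {E Q W V Z Y Ω B : Subgroup G} {t a : G}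
  {c : Core F E Q W V Z Y Ω B t a} {S R : Subgroup G}

/-- the projection `R → F²`. -/
theorem exists_pr (st : Sett c S R) (hR : ∀ x ∈ R, ∃ q ∈ Q, ∃ y ∈ Rd R V, x = q * y) :
    ∃ pr : G → F2 F, (∀ x ∈ R, ∀ x' ∈ R, c.τ ⁅x, x'⁆ = dt (pr x) (pr x')) ∧
      (∀ q ∈ Q, pr q = c.ψ q) := by
  classical
  -- elements of `Q ∩ R_d` have `ψ = 0`
  have hQR := st.hQR
  have key0 : ∀ z ∈ Q, z ∈ Rd R V → c.ψ z = 0 := by
    intro z hz hzd
    refine eq_zero_of_dt (a := c.ψ z) (fun b => ?_)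
    obtain ⟨q, hq, rfl⟩ := c.ψ_surj b
    have h1 : c.τ ⁅z, q⁆ = dt (c.ψ z) (c.ψ q) := c.τ_comm z hz q hq
    have h2 : c.τ ⁅q, z⁆ = 0 := (st.mem_Rd_iff.1 hzd).2 q (hQR hq)
    rw [← h1, st.τ_swap (hQR hz) (hQR hq), h2, neg_zero]
  choose! qq hq yy hy hxy using hR
  refine ⟨fun x => if x ∈ R then c.ψ (qq x) else 0, ?_, ?_⟩
  · intro x hx x' hx'
    simp only [hx, hx', if_true]
    have hyx := (st.mem_Rd_iff.1 (hy x hx))
    have hyx' := (st.mem_Rd_iff.1 (hy x' hx'))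
    have e1 : c.τ ⁅x, x'⁆ = c.τ ⁅qq x, qq x'⁆ := by
      conv_lhs => rw [hxy x hx, hxy x' hx']
      rw [st.τ_mul_left (hQR (hq x hx)) hyx.1 (R.mul_mem (hQR (hq x' hx')) hyx'.1),
        st.τ_mul_right (hQR (hq x hx)) (hQR (hq x' hx')) hyx'.1,
        st.τ_mul_right hyx.1 (hQR (hq x' hx')) hyx'.1,
        hyx'.2 _ (hQR (hq x hx)), hyx'.2 _ hyx.1,
        st.τ_swap hyx.1 (hQR (hq x' hx')), hyx.2 _ (hQR (hq x' hx'))]
      simp
    rw [e1]
    exact c.τ_comm _ (hq x hx) _ (hq x' hx')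
  · intro q hq'
    simp only [hQR hq', if_true]
    have hm : q = qq q * yy q := hxy q (hQR hq')
    have hz : (qq q)⁻¹ * q = yy q := by
      calc (qq q)⁻¹ * q = (qq q)⁻¹ * (qq q * yy q) := by rw [← hm]
        _ = yy q := by group
    have hzQ : yy q ∈ Q := by
      rw [← hz]; exact Q.mul_mem (Q.inv_mem (hq q (hQR hq'))) hq'
    have h0 := key0 _ hzQ (hy q (hQR hq'))
    have h00 : c.ψ q = c.ψ (qq q) + c.ψ (yy q) := by
      rw [← c.ψ_mul _ (hq q (hQR hq')) _ hzQ, ← hm]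
    rw [h00, h0, add_zero]

section pr
variable (st : Sett c S R) {pr : G → F2 F} (h1 : ∀ x ∈ R, ∀ x' ∈ R, c.τ ⁅x, x'⁆ = dt (pr x) (pr x'))
  (h2 : ∀ q ∈ Q, pr q = c.ψ q)
include st h1 h2

theorem pr_eq_of {u u' : F2 F} (h : ∀ q ∈ Q, dt u (c.ψ q) = dt u' (c.ψ q)) : u = u' := by
  have : u - u' = 0 := by
    refine eq_zero_of_dt (fun b => ?_)
    obtain ⟨q, hq, rfl⟩ := c.ψ_surj b
    rw [dt_sub_left, h q hq, sub_self]
  exact sub_eq_zero.1 this

theorem pr_mul {x x' : G} (hx : x ∈ R) (hx' : x' ∈ R) : pr (x * x') = pr x + pr x' := by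
  refine pr_eq_of st h1 h2 (fun q hq => ?_)
  rw [dt_add_left, ← h2 q hq, ← h1 _ (R.mul_mem hx hx') _ (st.hQR hq), ← h1 _ hx _ (st.hQR hq),
    ← h1 _ hx' _ (st.hQR hq), st.τ_mul_left hx hx' (st.hQR hq)]

theorem pr_one : pr (1 : G) = 0 := by
  have := pr_mul st h1 h2 R.one_mem R.one_mem
  rw [mul_one] at this
  simpa using this

theorem pr_inv {x : G} (hx : x ∈ R) : pr x⁻¹ = - pr x := by
  have := pr_mul st h1 h2 hx (R.inv_mem hx)
  rw [mul_inv_cancel, pr_one st h1 h2] at this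
  exact eq_neg_of_add_eq_zero_right this.symm

theorem mem_Rd_of_pr {x : G} (hx : x ∈ R) (h : pr x = 0) : x ∈ Rd R V := by
  refine st.mem_Rd_iff.2 ⟨hx, fun x' hx' => ?_⟩
  rw [h1 x' hx' x hx, h, dt_zero_right]

/-- if `g ∈ S` acts trivially through `pr`, then `⁅x, g⁆ ∈ R_d`. -/
theorem comm_mem_Rd {g : G} (hg : g ∈ S) (h : ∀ x ∈ R, pr (g * x * g⁻¹) = pr x) :
    ∀ x ∈ R, ⁅x, g⁆ ∈ Rd R V := by
  intro x hx
  have hc : ⁅x, g⁆ = x * (g * x⁻¹ * g⁻¹) := by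
    simp only [commutatorElement_def]; group
  have hm : g * x⁻¹ * g⁻¹ ∈ R := st.conj_mem_R hg (R.inv_mem hx)
  rw [hc]
  refine mem_Rd_of_pr st h1 h2 (R.mul_mem hx hm) ?_
  rw [pr_mul st h1 h2 hx hm, h _ (R.inv_mem hx), pr_inv st h1 h2 hx, add_neg_cancel]

/-- the action of `s ∈ S` on `F²` through `pr`. -/
theorem exists_mat {s : G} (hs : s ∈ S) : ∃ k : SL2 F, ∀ x ∈ R, pr (s * x * s⁻¹) = sact k (pr x) := by
  obtain ⟨q₁, hq₁, he₁⟩ := c.ψ_surj ![1, 0]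
  obtain ⟨q₂, hq₂, he₂⟩ := c.ψ_surj ![0, 1]
  have hq₁R := st.hQR hq₁
  have hq₂R := st.hQR hq₂
  set b₁ := pr (s * q₁ * s⁻¹) with hb₁
  set b₂ := pr (s * q₂ * s⁻¹) with hb₂
  have hdet : dt b₁ b₂ = 1 := by
    rw [hb₁, hb₂, ← h1 _ (st.conj_mem_R hs hq₁R) _ (st.conj_mem_R hs hq₂R), st.τ_conj hs hq₁R hq₂R,
      c.τ_comm _ hq₁ _ hq₂, he₁, he₂]
    simp [dt]
  have hdet' : b₁ 0 * b₂ 1 - b₁ 1 * b₂ 0 = 1 := hdet
  let M : M2 F := !![b₁ 0, b₂ 0; b₁ 1, b₂ 1]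
  have hM : M.det = 1 := by
    rw [Matrix.det_fin_two_of]; linear_combination hdet'
  refine ⟨⟨M, hM⟩, fun x hx => ?_⟩
  have hsx := st.conj_mem_R hs hx
  have p1 : dt (pr (s * x * s⁻¹)) b₁ = dt (pr x) ![1, 0] := by
    rw [hb₁, ← h1 _ hsx _ (st.conj_mem_R hs hq₁R), st.τ_conj hs hx hq₁R, h1 _ hx _ hq₁R, h2 _ hq₁, he₁]
  have p2 : dt (pr (s * x * s⁻¹)) b₂ = dt (pr x) ![0, 1] := by
    rw [hb₂, ← h1 _ hsx _ (st.conj_mem_R hs hq₂R), st.τ_conj hs hx hq₂R, h1 _ hx _ hq₂R, h2 _ hq₂, he₂]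
  set u := pr (s * x * s⁻¹) with hu
  set v := pr x with hv
  simp only [dt, Matrix.cons_val_zero, Matrix.cons_val_one] at p1 p2
  have p1' : u 0 * b₁ 1 - u 1 * b₁ 0 = - v 1 := by simpa using p1
  have p2' : u 0 * b₂ 1 - u 1 * b₂ 0 = v 0 := by simpa using p2
  ext i
  fin_cases i
  · simp [sact, M, Matrix.mulVec, dotProduct, Fin.sum_univ_two]
    linear_combination (- u 0) * hdet' + b₁ 0 * p2' - b₂ 0 * p1'
  · simp [sact, M, Matrix.mulVec, dotProduct, Fin.sum_univ_two]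
    linear_combination (- u 1) * hdet' + b₁ 1 * p2' - b₂ 1 * p1'

/-- `E` acts through `ρ`. -/
theorem pr_conj_E {e : G} (he : e ∈ E) {x : G} (hx : x ∈ R) :
    pr (e * x * e⁻¹) = sact (c.ρ e) (pr x) := by
  have hes := st.hES he
  refine pr_eq_of st h1 h2 (fun q hq => ?_)
  have hq' : e⁻¹ * q * e ∈ Q := by
    have := (mem_normalizer_iff.1 (c.hEQ (E.inv_mem he)) q).1 hq
    simpa using this
  have hqe : c.ψ q = sact (c.ρ e) (c.ψ (e⁻¹ * q * e)) := by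
    rw [← c.ρ_act e he _ hq']
    congr 1; group
  have r1 : dt (sact (c.ρ e) (pr x)) (c.ψ q) = c.τ ⁅x, e⁻¹ * q * e⁆ := by
    rw [hqe, dt_sact, ← h2 _ hq', ← h1 _ hx _ (st.hQR hq')]
  have l1 : dt (pr (e * x * e⁻¹)) (c.ψ q) = c.τ ⁅e * x * e⁻¹, q⁆ := by
    rw [← h2 _ hq, ← h1 _ (st.conj_mem_R hes hx) _ (st.hQR hq)]
  rw [l1, r1, st.τ_conj' hes hx (st.hQR hq)]

end pr

variable [Finite G] [Fintype F] [CharP F 3]

/-- **Core of `final_pgroup`**. -/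
theorem comm_mem_Rd_core (st : Sett c S R) (hR : ∀ x ∈ R, ∃ q ∈ Q, ∃ y ∈ Rd R V, x = q * y)
    (hnb : ∀ g ∈ S, (∀ x ∈ R, ⁅x, g⁆ ∈ Rd R V) → g ∈ centralizer (V : Set G))
    (hneg : ∀ N : Subgroup (SL2 F), (∀ k ∈ commutator (SL2 F), ∀ n ∈ N, k * n * k⁻¹ ∈ N) → N ≠ ⊥ →
      (-1 : SL2 F) ∈ N) :
    ∀ d ∈ S ⊓ centralizer (V : Set G), ∀ x ∈ R, ⁅x, d⁆ ∈ Rd R V := by
  classical
  obtain ⟨pr, h1, h2⟩ := exists_pr st hR
  let D : Subgroup G := S ⊓ centralizer (V : Set G)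
  -- the image of `D` in `SL₂`
  let N : Subgroup (SL2 F) :=
    { carrier := {k | ∃ d ∈ D, ∀ x ∈ R, pr (d * x * d⁻¹) = sact k (pr x)}
      one_mem' := ⟨1, D.one_mem, fun x _ => by rw [sact_one]; simp⟩
      mul_mem' := by
        rintro k k' ⟨d, hd, hk⟩ ⟨d', hd', hk'⟩
        refine ⟨d * d', D.mul_mem hd hd', fun x hx => ?_⟩
        have e : d * d' * x * (d * d')⁻¹ = d * (d' * x * d'⁻¹) * d⁻¹ := by group
        rw [e, hk _ (st.conj_mem_R hd'.1 hx), hk' x hx, sact_mul]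
      inv_mem' := by
        rintro k ⟨d, hd, hk⟩
        refine ⟨d⁻¹, D.inv_mem hd, fun x hx => ?_⟩
        have hm := st.conj_mem_R (S.inv_mem hd.1) hx
        have e := hk _ hm
        have e2 : d * (d⁻¹ * x * d⁻¹⁻¹) * d⁻¹ = x := by group
        rw [e2] at e
        rw [e, sact_inv_sact] }
  have hNn : ∀ k ∈ commutator (SL2 F), ∀ n ∈ N, k * n * k⁻¹ ∈ N := by
    rintro k hk n ⟨d, hd, hn⟩
    obtain ⟨e, he, rfl⟩ := c.ρ_surj k hk
    have hes := st.hES he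
    have hedC : e * d * e⁻¹ ∈ centralizer (V : Set G) := by
      rw [mem_centralizer_iff]
      intro v hv
      have hvv : e⁻¹ * v * e ∈ V := by
        have := (mem_normalizer_iff.1 (c.hEV (E.inv_mem he)) v).1 hv
        simpa using this
      have hcd := (mem_centralizer_iff.1 hd.2) _ hvv
      have : v * (e * d * e⁻¹) = e * ((e⁻¹ * v * e) * d) * e⁻¹ := by group
      rw [this, hcd]
      group
    have hedD : e * d * e⁻¹ ∈ D := ⟨S.mul_mem (S.mul_mem hes hd.1) (S.inv_mem hes), hedC⟩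
    refine ⟨e * d * e⁻¹, hedD, fun x hx => ?_⟩
    have hx' : e⁻¹ * x * e ∈ R := st.conj_inv_mem_R hes hx
    have e0 : e * d * e⁻¹ * x * (e * d * e⁻¹)⁻¹ = e * (d * (e⁻¹ * x * e) * d⁻¹) * e⁻¹ := by group
    have e1 : pr x = sact (c.ρ e) (pr (e⁻¹ * x * e)) := by
      rw [← pr_conj_E st h1 h2 he hx']
      congr 1; group
    rw [e0, pr_conj_E st h1 h2 he (st.conj_mem_R hd.1 hx'), hn _ hx', e1, ← sact_mul, ← sact_mul,
      show c.ρ e * n * (c.ρ e)⁻¹ * c.ρ e = c.ρ e * n by group]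
  by_cases hN : N = ⊥
  · rintro d hd
    obtain ⟨k, hk⟩ := exists_mat st h1 h2 hd.1
    have hkN : k ∈ N := ⟨d, hd, hk⟩
    rw [hN, mem_bot] at hkN
    subst hkN
    exact comm_mem_Rd st h1 h2 hd.1 (fun x hx => by rw [hk x hx, sact_one])
  · exfalso
    obtain ⟨d, hd, hm⟩ := hneg N hNn hN
    have ht := st.hES c.ht
    have hg : d * t ∈ S := S.mul_mem hd.1 ht
    have hact : ∀ x ∈ R, pr ((d * t) * x * (d * t)⁻¹) = pr x := by
      intro x hx
      have e0 : (d * t) * x * (d * t)⁻¹ = d * (t * x * t⁻¹) * d⁻¹ := by group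
      rw [e0, hm _ (st.conj_mem_R ht hx), pr_conj_E st h1 h2 c.ht hx, c.hρt, sact_neg_one, sact_neg_one,
        neg_neg]
    have hc := hnb _ hg (comm_mem_Rd st h1 h2 hg hact)
    have hct : t ∈ centralizer (V : Set G) := by
      have : t = d⁻¹ * (d * t) := by group
      rw [this]
      exact (centralizer (V : Set G)).mul_mem ((centralizer (V : Set G)).inv_mem hd.2) hc
    obtain ⟨v, hv, hφ⟩ := c.φ_surj ![1, 0]
    have hi : t * v * t⁻¹ = v⁻¹ := c.t_inv hv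
    have hct' := (mem_centralizer_iff.1 hct) v hv
    have hv2 : v = v⁻¹ := by
      rw [← hi, ← hct']; group
    have h3 : c.φ v = - c.φ v := by
      conv_lhs => rw [hv2]
      exact c.φ_inv hv
    have h4 : (2 : F) * (c.φ v 0) = 0 := by
      have := congrFun h3 0
      simp only [Pi.neg_apply] at this
      linear_combination this
    rw [hφ] at h4
    have h5 : (2 : F) = 0 := by simpa using h4
    exact two_ne_zero_of_char3 h5

end FinalPCore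

end Cfsg.Agent.Lib.BlockX
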