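/-
Arithmetic of `SL₂(F)` in characteristic three: the commutator subgroup, its elements `i`, `j`,
normal subgroups, scalar endomorphisms and unipotent matrices.
-/
import Mathlib
import Cfsg.Agent.Lib.BlockX.Core
import Cfsg.Agent.Lib.PGroup.SL2NatIrr

set_option autoImplicit false
set_option linter.unusedVariables false
set_option linter.unusedSectionVars false
set_option linter.unusedSimpArgs false

namespace Cfsg.Agent.Lib.BlockX

open Subgroup Cfsg Matrix
open scoped commutatorElement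
open Cfsg.Agent.Lib.PGroup.SL2NatIrr

namespace SLn

variable {F : Type*} [Field F]

theorem det_SL2 (g : SL2 F) : g.1 0 0 * g.1 1 1 - g.1 0 1 * g.1 1 0 = 1 := by
  have := g.2
  rwa [Matrix.det_fin_two] at this

theorem SL2_ext {g h : SL2 F} (h00 : g.1 0 0 = h.1 0 0) (h01 : g.1 0 1 = h.1 0 1)
    (h10 : g.1 1 0 = h.1 1 0) (h11 : g.1 1 1 = h.1 1 1) : g = h := by
  apply Subtype.ext
  ext i j
  fin_cases i <;> fin_cases j <;> assumption

theorem mul_00 (g h : SL2 F) : (g * h).1 0 0 = g.1 0 0 * h.1 0 0 + g.1 0 1 * h.1 1 0 := by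
  simp [Matrix.SpecialLinearGroup.coe_mul, Matrix.mul_apply, Fin.sum_univ_two]

theorem mul_01 (g h : SL2 F) : (g * h).1 0 1 = g.1 0 0 * h.1 0 1 + g.1 0 1 * h.1 1 1 := by
  simp [Matrix.SpecialLinearGroup.coe_mul, Matrix.mul_apply, Fin.sum_univ_two]

theorem mul_10 (g h : SL2 F) : (g * h).1 1 0 = g.1 1 0 * h.1 0 0 + g.1 1 1 * h.1 1 0 := by
  simp [Matrix.SpecialLinearGroup.coe_mul, Matrix.mul_apply, Fin.sum_univ_two]

theorem mul_11 (g h : SL2 F) : (g * h).1 1 1 = g.1 1 0 * h.1 0 1 + g.1 1 1 * h.1 1 1 := by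
  simp [Matrix.SpecialLinearGroup.coe_mul, Matrix.mul_apply, Fin.sum_univ_two]

theorem inv_00 (g : SL2 F) : (g⁻¹).1 0 0 = g.1 1 1 := by
  simp [Matrix.SpecialLinearGroup.coe_inv, Matrix.adjugate_fin_two]

theorem inv_01 (g : SL2 F) : (g⁻¹).1 0 1 = - g.1 0 1 := by
  simp [Matrix.SpecialLinearGroup.coe_inv, Matrix.adjugate_fin_two]

theorem inv_10 (g : SL2 F) : (g⁻¹).1 1 0 = - g.1 1 0 := by
  simp [Matrix.SpecialLinearGroup.coe_inv, Matrix.adjugate_fin_two]

theorem inv_11 (g : SL2 F) : (g⁻¹).1 1 1 = g.1 0 0 := by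
  simp [Matrix.SpecialLinearGroup.coe_inv, Matrix.adjugate_fin_two]

theorem one_00 : (1 : SL2 F).1 0 0 = 1 := by simp
theorem one_01 : (1 : SL2 F).1 0 1 = 0 := by simp
theorem one_10 : (1 : SL2 F).1 1 0 = 0 := by simp
theorem one_11 : (1 : SL2 F).1 1 1 = 1 := by simp

theorem neg_00 (g : SL2 F) : (-g).1 0 0 = - g.1 0 0 := by
  simp [Matrix.SpecialLinearGroup.coe_neg]
theorem neg_01 (g : SL2 F) : (-g).1 0 1 = - g.1 0 1 := by
  simp [Matrix.SpecialLinearGroup.coe_neg]
theorem neg_10 (g : SL2 F) : (-g).1 1 0 = - g.1 1 0 := by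
  simp [Matrix.SpecialLinearGroup.coe_neg]
theorem neg_11 (g : SL2 F) : (-g).1 1 1 = - g.1 1 1 := by
  simp [Matrix.SpecialLinearGroup.coe_neg]

section Char3

variable [CharP F 3]

theorem three_eq : (3 : F) = 0 := by
  exact_mod_cast CharP.cast_eq_zero F 3

theorem two_ne : (2 : F) ≠ 0 := by
  intro h
  have h3 := three_eq (F := F)
  exact one_ne_zero (α := F) (by linear_combination h3 - h)

/-- The element `i`. -/
def ii : SL2 F := ⟨!![0, -1; 1, 0], by simp [Matrix.det_fin_two]⟩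

/-- The element `j`. -/
def jj : SL2 F := ⟨!![1, 1; 1, -1], by
  simp [Matrix.det_fin_two]
  have h3 := three_eq (F := F)
  linear_combination (-1 : F) * h3⟩

theorem ii_00 : (ii : SL2 F).1 0 0 = 0 := by simp [ii]
theorem ii_01 : (ii : SL2 F).1 0 1 = -1 := by simp [ii]
theorem ii_10 : (ii : SL2 F).1 1 0 = 1 := by simp [ii]
theorem ii_11 : (ii : SL2 F).1 1 1 = 0 := by simp [ii]
theorem jj_00 : (jj : SL2 F).1 0 0 = 1 := by simp [jj]
theorem jj_01 : (jj : SL2 F).1 0 1 = 1 := by simp [jj]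
theorem jj_10 : (jj : SL2 F).1 1 0 = 1 := by simp [jj]
theorem jj_11 : (jj : SL2 F).1 1 1 = -1 := by simp [jj]

theorem ii_mem : (ii : SL2 F) ∈ commutator (SL2 F) := by
  have h3 := three_eq (F := F)
  have : (ii : SL2 F) = cc 1 1 := by
    apply SL2_ext
    · rw [ii_00]; simp [cc]; linear_combination (-1 : F) * h3
    · rw [ii_01]; simp [cc]
    · rw [ii_10]; simp [cc]
    · rw [ii_11]; simp [cc]
  rw [this]
  exact cc_mem _ _

theorem jj_mem : (jj : SL2 F) ∈ commutator (SL2 F) := by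
  have h3 := three_eq (F := F)
  have : (jj : SL2 F) = cc 1 (-1) := by
    apply SL2_ext
    · rw [jj_00]; simp [cc]
    · rw [jj_01]; simp [cc]
    · rw [jj_10]; simp [cc]
    · rw [jj_11]; simp [cc]; linear_combination (-1 : F) * h3
  rw [this]
  exact cc_mem _ _

theorem ii_jj_comm : (ii : SL2 F) * jj * ii⁻¹ * jj⁻¹ = -1 := by
  have h3 := three_eq (F := F)
  apply SL2_ext
  · simp only [mul_00, mul_01, mul_10, mul_11, inv_00, inv_01, inv_10, inv_11, ii_00, ii_01, ii_10,
      ii_11, jj_00, jj_01, jj_10, jj_11, neg_00, one_00]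
    linear_combination h3
  · simp only [mul_00, mul_01, mul_10, mul_11, inv_00, inv_01, inv_10, inv_11, ii_00, ii_01, ii_10,
      ii_11, jj_00, jj_01, jj_10, jj_11, neg_01, one_01]
    ring
  · simp only [mul_00, mul_01, mul_10, mul_11, inv_00, inv_01, inv_10, inv_11, ii_00, ii_01, ii_10,
      ii_11, jj_00, jj_01, jj_10, jj_11, neg_10, one_10]
    ring
  · simp only [mul_00, mul_01, mul_10, mul_11, inv_00, inv_01, inv_10, inv_11, ii_00, ii_01, ii_10,
      ii_11, jj_00, jj_01, jj_10, jj_11, neg_11, one_11]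
    linear_combination h3

/-- An element of trace zero squares to `-1`. -/
theorem tr0_sq {y : SL2 F} (h : y.1 0 0 + y.1 1 1 = 0) : y * y = -1 := by
  have hd := det_SL2 y
  apply SL2_ext
  · rw [mul_00, neg_00, one_00]
    linear_combination (-1 : F) * hd + y.1 0 0 * h
  · rw [mul_01, neg_01, one_01]
    linear_combination y.1 0 1 * h
  · rw [mul_10, neg_10, one_10]
    linear_combination y.1 1 0 * h
  · rw [mul_11, neg_11, one_11]
    linear_combination (-1 : F) * hd + y.1 1 1 * h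

theorem scalar_sq {g : SL2 F} (h01 : g.1 0 1 = 0) (h10 : g.1 1 0 = 0) (had : g.1 0 0 = g.1 1 1) :
    g = 1 ∨ g = -1 := by
  have hd := det_SL2 g
  have h1 : g.1 0 0 * g.1 0 0 = 1 := by
    rw [h01, h10] at hd
    rw [← had] at hd
    linear_combination hd
  rcases mul_self_eq_one_iff.1 h1 with h | h
  · left
    apply SL2_ext
    · rw [h, one_00]
    · rw [h01, one_01]
    · rw [h10, one_10]
    · rw [← had, h, one_11]
  · right
    apply SL2_ext
    · rw [h, neg_00, one_00]
    · rw [h01, neg_01, one_01]; simp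
    · rw [h10, neg_10, one_10]; simp
    · rw [← had, h, neg_11, one_11]

/-- An element commuting with `i` and `j` is `±1`. -/
theorem scalar_of_comm {g : SL2 F} (hi : g * ii = ii * g) (hj : g * jj = jj * g) :
    g = 1 ∨ g = -1 := by
  have h2 := two_ne (F := F)
  have e1 := congrArg (fun x : SL2 F => x.1 0 0) hi
  have e2 := congrArg (fun x : SL2 F => x.1 0 1) hi
  have e3 := congrArg (fun x : SL2 F => x.1 0 0) hj
  simp only [mul_00, mul_01, ii_00, ii_01, ii_10, ii_11, jj_00, jj_01, jj_10, jj_11] at e1 e2 e3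
  have hbc : g.1 0 1 = - g.1 1 0 := by linear_combination e1
  have had : g.1 0 0 = g.1 1 1 := by linear_combination (-1 : F) * e2
  have hbc' : g.1 0 1 = g.1 1 0 := by linear_combination e3
  have hc : g.1 1 0 = 0 := by
    have : 2 * g.1 1 0 = 0 := by linear_combination hbc - hbc'
    exact (mul_eq_zero.1 this).resolve_left h2
  exact scalar_sq (by rw [hbc', hc]) hc had

theorem sq_eq_one_SL2' (g : SL2 F) (h : g * g = 1) : g = 1 ∨ g = -1 := by
  have hd := det_SL2 g
  have h2 := two_ne (F := F)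
  have e00 := congrArg (fun x : SL2 F => x.1 0 0) h
  have e01 := congrArg (fun x : SL2 F => x.1 0 1) h
  have e10 := congrArg (fun x : SL2 F => x.1 1 0) h
  have e11 := congrArg (fun x : SL2 F => x.1 1 1) h
  simp only [mul_00, mul_01, mul_10, mul_11, one_00, one_01, one_10, one_11] at e00 e01 e10 e11
  have hs : g.1 0 0 * (g.1 0 0 + g.1 1 1) = 2 := by linear_combination e00 + hd
  have hs0 : g.1 0 0 + g.1 1 1 ≠ 0 := by
    intro h0
    rw [h0, mul_zero] at hs
    exact h2 hs.symm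
  have hb : g.1 0 1 = 0 := by
    have : g.1 0 1 * (g.1 0 0 + g.1 1 1) = 0 := by linear_combination e01
    exact (mul_eq_zero.1 this).resolve_right hs0
  have hc : g.1 1 0 = 0 := by
    have : g.1 1 0 * (g.1 0 0 + g.1 1 1) = 0 := by linear_combination e10
    exact (mul_eq_zero.1 this).resolve_right hs0
  have had : g.1 0 0 = g.1 1 1 := by
    have : (g.1 0 0 - g.1 1 1) * (g.1 0 0 + g.1 1 1) = 0 := by linear_combination e00 - e11
    exact sub_eq_zero.1 ((mul_eq_zero.1 this).resolve_right hs0)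
  exact scalar_sq hb hc had

theorem tr_conj (g k : SL2 F) : (g * k * g⁻¹).1 0 0 + (g * k * g⁻¹).1 1 1 = k.1 0 0 + k.1 1 1 := by
  have hd := det_SL2 g
  simp only [mul_00, mul_01, mul_10, mul_11, inv_00, inv_01, inv_10, inv_11]
  linear_combination (k.1 0 0 + k.1 1 1) * hd

/-- The element `(g k g⁻¹) k⁻¹` for `k = i` over the field with three elements. -/
theorem q3_ii (hq : ∀ x : F, x ^ 3 = x) {y : SL2 F} (h : y.1 0 0 + y.1 1 1 = 0) :
    y * ii⁻¹ = 1 ∨ y * ii⁻¹ = -1 ∨ (y * ii⁻¹) * (y * ii⁻¹) = -1 := by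
  have hd := det_SL2 y
  have h3 := three_eq (F := F)
  obtain ⟨p, hp⟩ : ∃ p, p = y.1 0 0 := ⟨_, rfl⟩
  obtain ⟨q, hq'⟩ : ∃ q, q = y.1 0 1 := ⟨_, rfl⟩
  obtain ⟨r, hr⟩ : ∃ r, r = y.1 1 0 := ⟨_, rfl⟩
  have hs : y.1 1 1 = - p := by rw [hp]; linear_combination h
  rw [← hp, ← hq', ← hr, hs] at hd
  have e00 : (y * ii⁻¹).1 0 0 = - q := by
    simp only [mul_00, inv_00, inv_10, ii_00, ii_01, ii_10, ii_11, ← hq', ← hp]; ring
  have e01 : (y * ii⁻¹).1 0 1 = p := by
    simp only [mul_01, inv_01, inv_11, ii_00, ii_01, ii_10, ii_11, ← hq', ← hp]; ring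
  have e10 : (y * ii⁻¹).1 1 0 = p := by
    simp only [mul_10, inv_00, inv_10, ii_00, ii_01, ii_10, ii_11, ← hr, hs]; ring
  have e11 : (y * ii⁻¹).1 1 1 = r := by
    simp only [mul_11, inv_01, inv_11, ii_00, ii_01, ii_10, ii_11, ← hr, hs]; ring
  have sq1 : ∀ x : F, x ≠ 0 → x * x = 1 := fun x hx =>
    mul_left_cancel₀ hx (by linear_combination hq x)
  by_cases hp0 : p = 0
  · have hqr : q * r = -1 := by
      rw [hp0] at hd
      linear_combination (-1 : F) * hd
    have hq0 : q ≠ 0 := by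
      rintro rfl
      simp at hqr
    have hqq := sq1 q hq0
    have hrq : r = -q := by linear_combination q * hqr - r * hqq
    have := scalar_sq (g := y * ii⁻¹) (by rw [e01, hp0]) (by rw [e10, hp0]) (by rw [e00, e11, hrq])
    rcases this with h' | h'
    · exact Or.inl h'
    · exact Or.inr (Or.inl h')
  · have hpp := sq1 p hp0
    have hqr : q * r = 1 := by linear_combination (-1 : F) * hd - hpp - h3
    have hq0 : q ≠ 0 := by
      rintro rfl
      simp at hqr
    have hqq := sq1 q hq0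
    have hrq : r = q := by linear_combination q * hqr - r * hqq
    exact Or.inr (Or.inr (tr0_sq (by rw [e00, e11, hrq]; ring)))

/-- The element `(g k g⁻¹) k⁻¹` for `k = j` over the field with three elements. -/
theorem q3_jj (hq : ∀ x : F, x ^ 3 = x) {y : SL2 F} (h : y.1 0 0 + y.1 1 1 = 0) :
    y * jj⁻¹ = 1 ∨ y * jj⁻¹ = -1 ∨ (y * jj⁻¹) * (y * jj⁻¹) = -1 := by
  have hd := det_SL2 y
  have h3 := three_eq (F := F)
  obtain ⟨p, hp⟩ : ∃ p, p = y.1 0 0 := ⟨_, rfl⟩
  obtain ⟨q, hq'⟩ : ∃ q, q = y.1 0 1 := ⟨_, rfl⟩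
  obtain ⟨r, hr⟩ : ∃ r, r = y.1 1 0 := ⟨_, rfl⟩
  have hs : y.1 1 1 = - p := by rw [hp]; linear_combination h
  rw [← hp, ← hq', ← hr, hs] at hd
  have e00 : (y * jj⁻¹).1 0 0 = - p - q := by
    simp only [mul_00, inv_00, inv_10, jj_00, jj_01, jj_10, jj_11, ← hq', ← hp]; ring
  have e01 : (y * jj⁻¹).1 0 1 = - p + q := by
    simp only [mul_01, inv_01, inv_11, jj_00, jj_01, jj_10, jj_11, ← hq', ← hp]; ring
  have e10 : (y * jj⁻¹).1 1 0 = - r + p := by
    simp only [mul_10, inv_00, inv_10, jj_00, jj_01, jj_10, jj_11, ← hr, hs]; ring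
  have e11 : (y * jj⁻¹).1 1 1 = - r - p := by
    simp only [mul_11, inv_01, inv_11, jj_00, jj_01, jj_10, jj_11, ← hr, hs]; ring
  have sq1 : ∀ x : F, x ≠ 0 → x * x = 1 := fun x hx =>
    mul_left_cancel₀ hx (by linear_combination hq x)
  by_cases hp0 : p = 0
  · have hqr : q * r = -1 := by
      rw [hp0] at hd
      linear_combination (-1 : F) * hd
    have hq0 : q ≠ 0 := by
      rintro rfl
      simp at hqr
    have hqq := sq1 q hq0
    have hrq : r = -q := by linear_combination q * hqr - r * hqq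
    exact Or.inr (Or.inr (tr0_sq (by rw [e00, e11, hrq, hp0]; ring)))
  · have hpp := sq1 p hp0
    have hqr : q * r = 1 := by linear_combination (-1 : F) * hd - hpp - h3
    have hq0 : q ≠ 0 := by
      rintro rfl
      simp at hqr
    have hqq := sq1 q hq0
    have hrq : r = q := by linear_combination q * hqr - r * hqq
    have hpq : (p - q) * (p + q) = 0 := by linear_combination hpp - hqq
    rcases mul_eq_zero.1 hpq with hh | hh
    · have hpe : p = q := sub_eq_zero.1 hh
      have := scalar_sq (g := y * jj⁻¹) (by rw [e01, hpe]; ring) (by rw [e10, hrq, hpe]; ring)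
        (by rw [e00, e11, hrq, hpe])
      rcases this with h' | h'
      · exact Or.inl h'
      · exact Or.inr (Or.inl h')
    · have hpe : p = -q := by linear_combination hh
      exact Or.inr (Or.inr (tr0_sq (by rw [e00, e11, hrq, hpe]; linear_combination 0 * h3)))

end Char3

/-- Elementary matrices and the commutator subgroup. -/
theorem e12_mem [Fintype F] (hq : 3 < Fintype.card F) (s : F) : e12 s ∈ commutator (SL2 F) := by
  obtain ⟨t, ht0, ht1⟩ := exists_good_t (F := F) hq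
  have h0 : t ^ 2 - 1 ≠ 0 := sub_ne_zero.2 ht1
  have h := dg_e12 t ht0 (s / (t ^ 2 - 1))
  rw [mul_div_cancel₀ _ h0] at h
  rw [← h]
  exact mem_comm _ _

theorem e21_mem [Fintype F] (hq : 3 < Fintype.card F) (s : F) : e21 s ∈ commutator (SL2 F) := by
  obtain ⟨t, ht0, ht1⟩ := exists_good_t (F := F) hq
  have h0 : t⁻¹ ^ 2 - 1 ≠ 0 := by
    apply sub_ne_zero.2
    intro h
    apply ht1
    have : t ^ 2 * t⁻¹ ^ 2 = 1 := by
      rw [← mul_pow, mul_inv_cancel₀ ht0, one_pow]
    rw [h, mul_one] at this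
    exact this
  have h := dg_e21 t ht0 (s / (t⁻¹ ^ 2 - 1))
  rw [mul_div_cancel₀ _ h0] at h
  rw [← h]
  exact mem_comm _ _

theorem e12_00 (s : F) : (e12 s).1 0 0 = 1 := by simp [e12]
theorem e12_01 (s : F) : (e12 s).1 0 1 = s := by simp [e12]
theorem e12_10 (s : F) : (e12 s).1 1 0 = 0 := by simp [e12]
theorem e12_11 (s : F) : (e12 s).1 1 1 = 1 := by simp [e12]
theorem e21_00 (s : F) : (e21 s).1 0 0 = 1 := by simp [e21]
theorem e21_01 (s : F) : (e21 s).1 0 1 = 0 := by simp [e21]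
theorem e21_10 (s : F) : (e21 s).1 1 0 = s := by simp [e21]
theorem e21_11 (s : F) : (e21 s).1 1 1 = 1 := by simp [e21]

/-- An element with nonzero lower left entry is a product of elementary matrices. -/
theorem decomp {g : SL2 F} (hc : g.1 1 0 ≠ 0) :
    g = e12 ((g.1 0 0 - 1) / g.1 1 0) * e21 (g.1 1 0) * e12 ((g.1 1 1 - 1) / g.1 1 0) := by
  have hd := det_SL2 g
  apply SL2_ext
  · simp only [mul_00, mul_01, mul_10, mul_11, e12_00, e12_01, e12_10, e12_11, e21_00, e21_01,
      e21_10, e21_11]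
    field_simp
    ring
  · simp only [mul_00, mul_01, mul_10, mul_11, e12_00, e12_01, e12_10, e12_11, e21_00, e21_01,
      e21_10, e21_11]
    field_simp
    linear_combination (-1 : F) * hd
  · simp only [mul_00, mul_01, mul_10, mul_11, e12_00, e12_01, e12_10, e12_11, e21_00, e21_01,
      e21_10, e21_11]
    ring
  · simp only [mul_00, mul_01, mul_10, mul_11, e12_00, e12_01, e12_10, e12_11, e21_00, e21_01,
      e21_10, e21_11]
    field_simp
    ring

end SLn

open SLn

section SL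

variable {F : Type*} [Field F] [Fintype F] [CharP F 3]

theorem neg_one_mem_K : (-1 : SL2 F) ∈ commutator (SL2 F) := by
  rw [← ii_jj_comm]
  exact mem_comm _ _

theorem K_comm_neg : ∃ x ∈ commutator (SL2 F), ∃ y ∈ commutator (SL2 F), x * y * x⁻¹ * y⁻¹ = -1 :=
  ⟨ii, ii_mem, jj, jj_mem, ii_jj_comm⟩

theorem sq_eq_one_SL2 (g : SL2 F) (h : g * g = 1) : g = 1 ∨ g = -1 := sq_eq_one_SL2' g h

theorem K_eq_top (hq : 3 < Fintype.card F) : commutator (SL2 F) = ⊤ := by
  rw [eq_top_iff]
  intro g _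
  have key : ∀ g : SL2 F, g.1 1 0 ≠ 0 → g ∈ commutator (SL2 F) := by
    intro g hc
    rw [decomp hc]
    exact mul_mem (mul_mem (e12_mem hq _) (e21_mem hq _)) (e12_mem hq _)
  by_cases hc : g.1 1 0 = 0
  · have hd := det_SL2 g
    have hd0 : g.1 1 1 ≠ 0 := by
      intro h0
      rw [h0, hc] at hd
      simp at hd
    have h1 : g * e21 1 ∈ commutator (SL2 F) := by
      apply key
      rw [mul_10, e21_00, e21_10, hc]
      simpa using hd0
    have h2 : g = g * e21 1 * (e21 1)⁻¹ := by group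
    rw [h2]
    exact mul_mem h1 (inv_mem (e21_mem hq 1))
  · exact key g hc

theorem card_three_or (h : ¬ 3 < Fintype.card F) : Fintype.card F = 3 := by
  obtain ⟨n, hp, hn⟩ := FiniteField.card F 3
  have hn' : Fintype.card F = 3 ^ (n : ℕ) := hn
  have h1 : 3 ^ 1 ≤ 3 ^ (n : ℕ) := Nat.pow_le_pow_right (by norm_num) n.pos
  omega

/-- Every element of the field with three elements satisfies `x³ = x`. -/
theorem pow_three_of_card (h : Fintype.card F = 3) (x : F) : x ^ 3 = x := by
  have := FiniteField.pow_card x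
  rwa [h] at this

theorem K_span (L : M2 F)
    (h : ∀ k ∈ commutator (SL2 F), L.det + ((k : M2 F).adjugate * L).trace = 0) : L = 0 := by
  have hform : ∀ k : SL2 F, ((k : M2 F).adjugate * L).trace =
      k.1 1 1 * L 0 0 - k.1 0 1 * L 1 0 - k.1 1 0 * L 0 1 + k.1 0 0 * L 1 1 := by
    intro k
    have hk : (k : M2 F).adjugate = !![k.1 1 1, -k.1 0 1; -k.1 1 0, k.1 0 0] :=
      Matrix.adjugate_fin_two _
    rw [hk, Matrix.trace_fin_two]
    simp [Matrix.mul_apply, Fin.sum_univ_two]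
    ring
  have h3 := three_eq (F := F)
  have h2 := two_ne (F := F)
  have e1 := h 1 (one_mem _)
  have e2 := h (-1) neg_one_mem_K
  have e3 := h ii ii_mem
  have e4 := h jj jj_mem
  have e5 := h (ii * jj) (mul_mem ii_mem jj_mem)
  rw [hform] at e1 e2 e3 e4 e5
  simp only [mul_00, mul_01, mul_10, mul_11, ii_00, ii_01, ii_10, ii_11, jj_00, jj_01, jj_10, jj_11,
    neg_00, neg_01, neg_10, neg_11, one_00, one_01, one_10, one_11] at e1 e2 e3 e4 e5
  obtain ⟨D, hD⟩ : ∃ D, D = L.det := ⟨_, rfl⟩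
  rw [← hD] at e1 e2 e3 e4 e5
  have hD0 : D = 0 := by
    have : 2 * D = 0 := by linear_combination e1 + e2
    exact (mul_eq_zero.1 this).resolve_left h2
  rw [hD0] at e1 e2 e3 e4 e5
  have h00 : L 1 1 = - L 0 0 := by linear_combination e1
  have h01 : L 0 1 = L 1 0 := by linear_combination (-1 : F) * e3
  have e4' : 2 * (L 0 0 + L 1 0) = 0 := by
    rw [h00, h01] at e4
    linear_combination (-1 : F) * e4
  have e5' : 2 * (L 0 0 - L 1 0) = 0 := by
    rw [h00, h01] at e5
    linear_combination e5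
  have e6 := (mul_eq_zero.1 e4').resolve_left h2
  have e7 := (mul_eq_zero.1 e5').resolve_left h2
  have e8 : 2 * L 0 0 = 0 := by linear_combination e6 + e7
  have e9 : L 0 0 = 0 := (mul_eq_zero.1 e8).resolve_left h2
  have e10 : L 1 0 = 0 := by linear_combination e6 - e9
  ext i j
  fin_cases i <;> fin_cases j
  · exact e9
  · show L 0 1 = 0
    rw [h01, e10]
  · exact e10
  · show L 1 1 = 0
    rw [h00, e9]
    simp

theorem K_trace (D : F) (h0 : D ≠ 0) (h1 : D ≠ 1) :
    ∃ k ∈ commutator (SL2 F), (1 - D) ^ 2 + D * (1 - D) * (k : M2 F).trace + D ^ 2 = 0 := by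
  have h1' : 1 - D ≠ 0 := sub_ne_zero.2 h1.symm
  by_cases hq : 3 < Fintype.card F
  · rw [K_eq_top hq]
    refine ⟨e12 1 * e21 (-((1 - D) ^ 2 + D ^ 2) / (D * (1 - D)) - 2), mem_top _, ?_⟩
    rw [Matrix.trace_fin_two]
    simp only [mul_00, mul_11, e12_00, e12_01, e12_10, e12_11, e21_00, e21_01, e21_10, e21_11]
    field_simp
    ring
  · have hc := card_three_or hq
    have h3 := three_eq (F := F)
    have hp := pow_three_of_card hc D
    have hD : D = -1 := by
      have : D * ((D - 1) * (D + 1)) = 0 := by linear_combination hp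
      have h2 := (mul_eq_zero.1 this).resolve_left h0
      have h4 := (mul_eq_zero.1 h2).resolve_left (sub_ne_zero.2 h1)
      linear_combination h4
    refine ⟨-1, neg_one_mem_K, ?_⟩
    rw [Matrix.trace_fin_two, hD]
    simp only [neg_00, neg_11, one_00, one_11]
    linear_combination 3 * h3

theorem unipotent_sq (M : SL2 F) (m : ℕ) (h : M ^ (3 ^ m) = 1) :
    ((M : M2 F) - 1) * ((M : M2 F) - 1) = 0 := by
  haveI : Fact (Nat.Prime 3) := ⟨Nat.prime_three⟩
  have hd := det_SL2 M
  obtain ⟨t, ht⟩ : ∃ t : F, t = M.1 0 0 + M.1 1 1 - 2 := ⟨_, rfl⟩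
  have hA : ((M : M2 F) - 1) * ((M : M2 F) - 1) = t • (M : M2 F) := by
    ext i j
    fin_cases i <;> fin_cases j <;>
      simp [Matrix.mul_apply, Fin.sum_univ_two, ht] <;>
      first
        | linear_combination (exp := 1) (-1 : F) * hd
        | ring1
  have hp : (M : M2 F) ^ (3 ^ m) = 1 := by
    rw [← Matrix.SpecialLinearGroup.coe_pow, h]
    rfl
  have hA3 : ((M : M2 F) - 1) ^ (3 ^ m) = 0 := by
    rw [sub_pow_expChar_pow_of_commute (3 : ℕ) _ (Commute.one_right _), hp, one_pow, sub_self]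
  have h4 : t ^ (3 ^ m) • (1 : M2 F) = 0 := by
    calc t ^ (3 ^ m) • (1 : M2 F) = t ^ (3 ^ m) • (M : M2 F) ^ (3 ^ m) := by rw [hp]
      _ = (t • (M : M2 F)) ^ (3 ^ m) := by rw [smul_pow]
      _ = (((M : M2 F) - 1) * ((M : M2 F) - 1)) ^ (3 ^ m) := by rw [hA]
      _ = ((M : M2 F) - 1) ^ (3 ^ m) * ((M : M2 F) - 1) ^ (3 ^ m) := by
          rw [(Commute.refl _).mul_pow]
      _ = 0 := by rw [hA3, zero_mul]
  have h5 : t ^ (3 ^ m) = 0 := by
    have := congrFun (congrFun h4 0) 0
    simpa using this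
  have h6 : t = 0 := pow_eq_zero_iff (pow_ne_zero _ (by norm_num)) |>.1 h5
  rw [hA, h6, zero_smul]

/-- A step for `normal_has_neg_one`. -/
theorem neg_one_step {N : Subgroup (SL2 F)}
    (hN : ∀ k ∈ commutator (SL2 F), ∀ n ∈ N, k * n * k⁻¹ ∈ N) {g k : SL2 F} (hg : g ∈ N)
    (hk : k ∈ commutator (SL2 F)) (hne : g * k ≠ k * g)
    (h : (g * k * g⁻¹) * k⁻¹ = 1 ∨ (g * k * g⁻¹) * k⁻¹ = -1 ∨
      ((g * k * g⁻¹) * k⁻¹) * ((g * k * g⁻¹) * k⁻¹) = -1) : (-1 : SL2 F) ∈ N := by
  have hy : (g * k * g⁻¹) * k⁻¹ ∈ N := by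
    have : (g * k * g⁻¹) * k⁻¹ = g * (k * g⁻¹ * k⁻¹) := by group
    rw [this]
    exact N.mul_mem hg (hN k hk _ (N.inv_mem hg))
  rcases h with h | h | h
  · exfalso
    apply hne
    have h1 : g * k * g⁻¹ = k := by
      have := mul_inv_eq_one.1 h
      exact this
    rw [mul_inv_eq_iff_eq_mul] at h1
    exact h1
  · rw [← h]
    exact hy
  · rw [← h]
    exact N.mul_mem hy hy

theorem normal_has_neg_one (N : Subgroup (SL2 F))
    (hN : ∀ k ∈ commutator (SL2 F), ∀ n ∈ N, k * n * k⁻¹ ∈ N) (hne : N ≠ ⊥) :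
    (-1 : SL2 F) ∈ N := by
  obtain ⟨g, hgN, hg1⟩ : ∃ g ∈ N, g ≠ 1 := by
    by_contra hcon
    push Not at hcon
    exact hne ((Subgroup.eq_bot_iff_forall N).2 hcon)
  by_cases hg2 : g = -1
  · rw [← hg2]
    exact hgN
  by_cases hq : 3 < Fintype.card F
  · have h3 := three_eq (F := F)
    obtain ⟨o, hoN, hc⟩ : ∃ o ∈ N, o.1 1 0 ≠ 0 := by
      by_cases hc : g.1 1 0 = 0
      · by_cases hb : g.1 0 1 = 0
        · have had : g.1 0 0 ≠ g.1 1 1 := fun h => (scalar_sq hb hc h).elim hg1 hg2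
          refine ⟨e21 1 * g * (e21 1)⁻¹, hN _ (e21_mem hq 1) _ hgN, ?_⟩
          simp only [mul_00, mul_01, mul_10, mul_11, inv_00, inv_01, inv_10, inv_11, e21_00, e21_01,
            e21_10, e21_11, hb, hc]
          intro h
          apply had
          linear_combination h
        · refine ⟨ii * g * ii⁻¹, hN _ ii_mem _ hgN, ?_⟩
          simp only [mul_00, mul_01, mul_10, mul_11, inv_00, inv_01, inv_10, inv_11, ii_00, ii_01,
            ii_10, ii_11, hc]
          intro h
          apply hb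
          linear_combination (-1 : F) * h
      · exact ⟨g, hgN, hc⟩
    have hd := det_SL2 o
    obtain ⟨s, hs⟩ : ∃ s, s * o.1 1 0 = 1 := ⟨(o.1 1 0)⁻¹, inv_mul_cancel₀ hc⟩
    have hy : (o * (e12 s * o⁻¹ * (e12 s)⁻¹)) ∈ N :=
      N.mul_mem hoN (hN _ (e12_mem hq _) _ (N.inv_mem hoN))
    have htr := tr0_sq (y := o * (e12 s * o⁻¹ * (e12 s)⁻¹)) (by
      simp only [mul_00, mul_01, mul_10, mul_11, inv_00, inv_01, inv_10, inv_11, e12_00, e12_01,
        e12_10, e12_11]
      linear_combination 2 * hd + (s * o.1 1 0 + 1) * hs + h3)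
    rw [← htr]
    exact N.mul_mem hy hy
  · have hq3 := pow_three_of_card (card_three_or hq)
    by_cases hi : g * ii = ii * g
    · by_cases hj : g * jj = jj * g
      · exact ((scalar_of_comm hi hj).elim hg1 hg2).elim
      · exact neg_one_step hN hgN jj_mem hj (q3_jj hq3 (by
          rw [tr_conj, jj_00, jj_11]
          ring))
    · exact neg_one_step hN hgN ii_mem hi (q3_ii hq3 (by
        rw [tr_conj, ii_00, ii_11]
        ring))

theorem schur_K (f : F2 F → F2 F) (hadd : ∀ a b, f (a + b) = f a + f b)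
    (hcomm : ∀ k ∈ commutator (SL2 F), ∀ a, f (sact k a) = sact k (f a)) :
    ∃ l : F, ∀ a, f a = l • a := by
  have hact : ∀ (k : SL2 F) (a : F2 F),
      sact k a = ![k.1 0 0 * a 0 + k.1 0 1 * a 1, k.1 1 0 * a 0 + k.1 1 1 * a 1] := by
    intro k a
    ext i
    fin_cases i <;> simp [sact, Matrix.mulVec, dotProduct, Fin.sum_univ_two]
  have hdecomp : ∀ a : F2 F, a = ![a 0, 0] + ![0, a 1] := by
    intro a
    ext i
    fin_cases i <;> simp
  by_cases hq : 3 < Fintype.card F
  · obtain ⟨l, hl⟩ : ∃ l, l = f ![0, 1] 1 := ⟨_, rfl⟩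
    have h1 : ∀ s, f ![s, 0] = ![s * l, 0] := by
      intro s
      have e := hcomm (e12 s) (e12_mem hq s) ![0, 1]
      rw [hact, hact] at e
      simp only [e12_00, e12_01, e12_10, e12_11] at e
      have e' : ![1 * (![0, 1] : F2 F) 0 + s * (![0, 1] : F2 F) 1,
          0 * (![0, 1] : F2 F) 0 + 1 * (![0, 1] : F2 F) 1] = ![s, 0] + ![0, 1] := by
        ext i
        fin_cases i <;> simp
      rw [e', hadd] at e
      ext i
      fin_cases i
      · have := congrFun e 0
        simp at this ⊢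
        rw [hl]
        linear_combination this
      · have := congrFun e 1
        simp at this ⊢
        linear_combination this
    have h2 : ∀ s, f ![0, s] = ![0, s * l] := by
      intro s
      have e := hcomm (e21 s) (e21_mem hq s) ![1, 0]
      rw [hact, hact] at e
      simp only [e21_00, e21_01, e21_10, e21_11] at e
      have e' : ![1 * (![1, 0] : F2 F) 0 + 0 * (![1, 0] : F2 F) 1,
          s * (![1, 0] : F2 F) 0 + 1 * (![1, 0] : F2 F) 1] = ![1, 0] + ![0, s] := by
        ext i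
        fin_cases i <;> simp
      rw [e', hadd, h1 1] at e
      ext i
      fin_cases i
      · have := congrFun e 0
        simp at this ⊢
        linear_combination this
      · have := congrFun e 1
        simp at this ⊢
        linear_combination this
    refine ⟨l, fun a => ?_⟩
    conv_lhs => rw [hdecomp a]
    rw [hadd, h1, h2]
    ext i
    fin_cases i <;> simp <;> ring
  · have hq3 := pow_three_of_card (card_three_or hq)
    have h2 := two_ne (F := F)
    have h0 : f 0 = 0 := by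
      have := hadd 0 0
      simpa using this
    have hneg : ∀ a, f (-a) = - f a := by
      intro a
      have := hadd a (-a)
      rw [add_neg_cancel, h0] at this
      exact (neg_eq_of_add_eq_zero_right this.symm).symm
    have hs : ∀ (s : F) (a : F2 F), f (s • a) = s • f a := by
      intro s a
      have : s * ((s - 1) * (s + 1)) = 0 := by linear_combination hq3 s
      rcases mul_eq_zero.1 this with h | h
      · rw [h, zero_smul, zero_smul, h0]
      · rcases mul_eq_zero.1 h with h | h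
        · have hs1 : s = 1 := sub_eq_zero.1 h
          rw [hs1, one_smul, one_smul]
        · have hs1 : s = -1 := by linear_combination h
          rw [hs1, neg_one_smul, neg_one_smul, hneg]
    obtain ⟨v₁, hv₁⟩ : ∃ v, v = f ![1, 0] := ⟨_, rfl⟩
    obtain ⟨v₂, hv₂⟩ : ∃ v, v = f ![0, 1] := ⟨_, rfl⟩
    have e1 := hcomm ii ii_mem ![1, 0]
    rw [hact, hact, ← hv₁] at e1
    simp only [ii_00, ii_01, ii_10, ii_11] at e1
    have e1' : ![0 * (![1, 0] : F2 F) 0 + -1 * (![1, 0] : F2 F) 1,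
        1 * (![1, 0] : F2 F) 0 + 0 * (![1, 0] : F2 F) 1] = ![0, 1] := by
      ext i
      fin_cases i <;> simp
    rw [e1', ← hv₂] at e1
    have e2 := hcomm jj jj_mem ![1, 0]
    rw [hact, hact, ← hv₁] at e2
    simp only [jj_00, jj_01, jj_10, jj_11] at e2
    have e2' : ![1 * (![1, 0] : F2 F) 0 + 1 * (![1, 0] : F2 F) 1,
        1 * (![1, 0] : F2 F) 0 + -1 * (![1, 0] : F2 F) 1] = ![1, 0] + ![0, 1] := by
      ext i
      fin_cases i <;> simp
    rw [e2', hadd, ← hv₁, ← hv₂] at e2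
    have a1 := congrFun e1 0
    have a2 := congrFun e1 1
    have a3 := congrFun e2 0
    simp at a1 a2 a3
    have hv1 : v₁ 1 = 0 := by
      have : 2 * v₁ 1 = 0 := by linear_combination a1 - a3
      exact (mul_eq_zero.1 this).resolve_left h2
    have hv20 : v₂ 0 = 0 := by rw [a1, hv1]; simp
    refine ⟨v₁ 0, fun a => ?_⟩
    have hdec : a = a 0 • ![1, 0] + a 1 • ![0, 1] := by
      ext i
      fin_cases i <;> simp
    conv_lhs => rw [hdec]
    rw [hadd, hs, hs, ← hv₁, ← hv₂]
    ext i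
    fin_cases i
    · simp [hv20]
      ring
    · simp [hv1, a2]
      ring

end SL

end Cfsg.Agent.Lib.BlockX
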