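import Mathlib
import Cfsg.Agent.Lib.BlockX.Basics
import Cfsg.Agent.Lib.BlockX.Chain
import Cfsg.Agent.Lib.BlockX.SLn

namespace Cfsg.Agent.Lib.BlockX

open Subgroup Cfsg Matrix
open scoped commutatorElement

namespace NotBad

section generic
variable {G : Type*} [Group G]

theorem exists_half (n : ℕ) : ∃ k : ℕ, 3 ^ n = 2 * k + 1 := by
  have h : Odd (3 ^ n) := Odd.pow (by decide)
  obtain ⟨k, hk⟩ := h
  exact ⟨k, hk⟩

theorem mem_of_sq_mem {H : Subgroup G} {x : G} {n : ℕ} (hx : x ^ (3 ^ n) = 1) (h2 : x * x ∈ H) : x ∈ H := by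
  obtain ⟨k, hk⟩ := exists_half n
  have h3 : x = (x * x) ^ (k + 1) := by
    have : (x * x) ^ (k + 1) = x ^ (3 ^ n) * x := by
      rw [hk, ← pow_two, ← pow_mul, ← pow_succ]
      rfl
    rw [this, hx, one_mul]
  rw [h3]
  exact H.pow_mem h2 _

theorem comm_mul_central {x y u w : G} (hux : Commute u x) (huy : Commute u y) (huw : Commute u w)
    (hwx : Commute w x) : ⁅x * u, y * w⁆ = ⁅x, y⁆ := by
  have h1 : u * (y * w) = (y * w) * u := (huy.mul_right huw).eq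
  have h2 : w * x⁻¹ = x⁻¹ * w := hwx.inv_right.eq
  simp only [commutatorElement_def, _root_.mul_inv_rev]
  calc x * u * (y * w) * (u⁻¹ * x⁻¹) * (w⁻¹ * y⁻¹)
      = x * (u * (y * w)) * u⁻¹ * x⁻¹ * w⁻¹ * y⁻¹ := by group
    _ = x * y * (w * x⁻¹) * w⁻¹ * y⁻¹ := by rw [h1]; group
    _ = x * y * x⁻¹ * y⁻¹ := by rw [h2]; group

theorem four_central {p b e z1 z2 : G} (h1b : Commute z1 b) (h1e : Commute z1 e) (h2b : Commute z2 b) :
    p * (b * z1)⁻¹ * (e * z2) * (b * z1)⁻¹ = (p * b⁻¹ * e * b⁻¹) * (z1⁻¹ * z2 * z1⁻¹) := by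
  have hb : z1⁻¹ * b⁻¹ = b⁻¹ * z1⁻¹ := h1b.inv_left.inv_right.eq
  have he : z1⁻¹ * e = e * z1⁻¹ := h1e.inv_left.eq
  have hb2 : z2 * b⁻¹ = b⁻¹ * z2 := h2b.inv_right.eq
  simp only [_root_.mul_inv_rev]
  calc p * (z1⁻¹ * b⁻¹) * (e * z2) * (z1⁻¹ * b⁻¹)
      = p * (b⁻¹ * z1⁻¹) * (e * z2) * (b⁻¹ * z1⁻¹) := by rw [hb]
    _ = p * b⁻¹ * (z1⁻¹ * e) * z2 * b⁻¹ * z1⁻¹ := by group
    _ = p * b⁻¹ * e * z1⁻¹ * (z2 * b⁻¹) * z1⁻¹ := by rw [he]; group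
    _ = p * b⁻¹ * e * (z1⁻¹ * b⁻¹) * z2 * z1⁻¹ := by rw [hb2]; group
    _ = p * b⁻¹ * e * b⁻¹ * (z1⁻¹ * z2 * z1⁻¹) := by rw [hb]; group

end generic

variable {G : Type*} [Group G] {F : Type*} [Field F] [CharP F 3]
  {E Q W V Z Y Ω B : Subgroup G} {t a : G} {c : Core F E Q W V Z Y Ω B t a} {S R : Subgroup G}

/-- Elements of `V` have exponent 3. -/
theorem V_cube (c : Core F E Q W V Z Y Ω B t a) {v : G} (hv : v ∈ V) : v * v * v = 1 := by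
  have h1 : c.φ (v * v * v) = 0 := by
    rw [c.φ_mul _ (V.mul_mem hv hv) _ hv, c.φ_mul _ hv _ hv]
    funext i
    have h3 : (3 : F) = 0 := by exact_mod_cast CharP.cast_eq_zero F 3
    have : c.φ v i + c.φ v i + c.φ v i = 3 * c.φ v i := by ring
    simp [this, h3]
  exact (c.φ_ker _ (V.mul_mem (V.mul_mem hv hv) hv)).1 h1

/-- The subgroup `I` of `s ∈ S` with `[R, s] ≤ R_d`. -/
def II (st : Sett c S R) : Subgroup G where
  carrier := {s | s ∈ S ∧ ∀ x ∈ R, ⁅x, s⁆ ∈ Rd R V}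
  mul_mem' := by
    rintro s₁ s₂ ⟨h1, h1'⟩ ⟨h2, h2'⟩
    refine ⟨S.mul_mem h1 h2, fun x hx => ?_⟩
    have : ⁅x, s₁ * s₂⁆ = ⁅x, s₁⁆ * (s₁ * ⁅x, s₂⁆ * s₁⁻¹) := by
      simp only [commutatorElement_def]; group
    rw [this]
    exact st.rd.mul_mem (h1' x hx) (st.conj_mem_rd h1 (h2' x hx))
  one_mem' := by
    refine ⟨S.one_mem, fun x _ => ?_⟩
    simp only [commutatorElement_one_right]
    exact st.rd.one_mem
  inv_mem' := by
    rintro s ⟨h1, h1'⟩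
    refine ⟨S.inv_mem h1, fun x hx => ?_⟩
    have : ⁅x, s⁻¹⁆ = s⁻¹ * (⁅x, s⁆)⁻¹ * s⁻¹⁻¹ := by
      simp only [commutatorElement_def]; group
    rw [this]
    exact st.conj_mem_rd (S.inv_mem h1) (st.rd.inv_mem (h1' x hx))

theorem mem_II {st : Sett c S R} {s : G} : s ∈ II st ↔ s ∈ S ∧ ∀ x ∈ R, ⁅x, s⁆ ∈ Rd R V := Iff.rfl

theorem II_le (st : Sett c S R) : II st ≤ S := fun _ h => h.1

theorem II_conj (st : Sett c S R) {u s : G} (hu : u ∈ S) (hs : s ∈ II st) : u * s * u⁻¹ ∈ II st := by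
  refine ⟨S.mul_mem (S.mul_mem hu hs.1) (S.inv_mem hu), fun x hx => ?_⟩
  have : ⁅x, u * s * u⁻¹⁆ = u * ⁅u⁻¹ * x * u, s⁆ * u⁻¹ := by
    simp only [commutatorElement_def]; group
  rw [this]
  exact st.conj_mem_rd hu (hs.2 _ (st.conj_inv_mem_R hu hx))

theorem conj_R_B (st : Sett c S R) {b x : G} (hb : b ∈ B) (hx : x ∈ R) : b * x * b⁻¹ ∈ R :=
  (mem_normalizer_iff.1 (st.hBR hb) x).1 hx

theorem conj_V_B (c : Core F E Q W V Z Y Ω B t a) {b x : G} (hb : b ∈ B) (hx : x ∈ V) : b * x * b⁻¹ ∈ V :=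
  (mem_normalizer_iff.1 (c.hBV hb) x).1 hx

theorem conj_inv_V_B (c : Core F E Q W V Z Y Ω B t a) {b x : G} (hb : b ∈ B) (hx : x ∈ V) : b⁻¹ * x * b ∈ V := by
  simpa using conj_V_B c (B.inv_mem hb) hx

theorem Rd_conj_B (st : Sett c S R) {b y : G} (hb : b ∈ B) (hy : y ∈ Rd R V) : b * y * b⁻¹ ∈ Rd R V := by
  refine ⟨conj_R_B st hb hy.1, fun x hx => ?_⟩
  have hx' : b⁻¹ * x * b ∈ R := by simpa using conj_R_B st (B.inv_mem hb) hx
  have : ⁅x, b * y * b⁻¹⁆ = b * ⁅b⁻¹ * x * b, y⁆ * b⁻¹ := by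
    simp only [commutatorElement_def]; group
  rw [this]
  exact conj_V_B c hb (hy.2 _ hx')

theorem II_conj_B (st : Sett c S R) {u s : G} (hu : u ∈ B) (hs : s ∈ II st) : u * s * u⁻¹ ∈ II st := by
  refine ⟨(mem_normalizer_iff.1 (st.hBS hu) s).1 hs.1, fun x hx => ?_⟩
  have hx' : u⁻¹ * x * u ∈ R := by simpa using conj_R_B st (B.inv_mem hu) hx
  have : ⁅x, u * s * u⁻¹⁆ = u * ⁅u⁻¹ * x * u, s⁆ * u⁻¹ := by
    simp only [commutatorElement_def]; group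
  rw [this]
  exact Rd_conj_B st hu (hs.2 _ hx')

/-- The group `I ∩ C(V)`. -/
def II0 (st : Sett c S R) : Subgroup G := II st ⊓ centralizer (V : Set G)

theorem II0_conj_of {st : Sett c S R} {u d : G} (h1 : u * d * u⁻¹ ∈ II st) (h2 : ∀ v ∈ V, u⁻¹ * v * u ∈ V)
    (hd : d ∈ II0 st) : u * d * u⁻¹ ∈ II0 st := by
  refine ⟨h1, ?_⟩
  show u * d * u⁻¹ ∈ centralizer (V : Set G)
  rw [mem_centralizer_iff]
  intro v hv
  have hv' := mem_centralizer_iff.1 hd.2 _ (h2 v hv)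
  calc v * (u * d * u⁻¹) = u * ((u⁻¹ * v * u) * d) * u⁻¹ := by group
    _ = u * (d * (u⁻¹ * v * u)) * u⁻¹ := by rw [hv']
    _ = u * d * u⁻¹ * v := by group

theorem sact_inv_sact (k : SL2 F) (b : F2 F) : sact k⁻¹ (sact k b) = b := by
  have : ((k⁻¹ : SL2 F) : M2 F) * (k : M2 F) = 1 := by
    rw [← Matrix.SpecialLinearGroup.coe_mul, inv_mul_cancel, Matrix.SpecialLinearGroup.coe_one]
  simp only [sact, Matrix.mulVec_mulVec, this, Matrix.one_mulVec]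

theorem sact_mul (k l : SL2 F) (b : F2 F) : sact (k * l) b = sact k (sact l b) := by
  simp only [sact, Matrix.mulVec_mulVec, Matrix.SpecialLinearGroup.coe_mul]

theorem sact_one (b : F2 F) : sact (1 : SL2 F) b = b := by
  simp only [sact, Matrix.SpecialLinearGroup.coe_one, Matrix.one_mulVec]

/-- The image of `I` in `SL₂` via the action on `V`. -/
def NN (st : Sett c S R) : Subgroup (SL2 F) where
  carrier := {k | ∃ s ∈ II st, ∀ v ∈ V, c.φ (s * v * s⁻¹) = sact k (c.φ v)}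
  mul_mem' := by
    rintro k₁ k₂ ⟨s₁, hs₁, h₁⟩ ⟨s₂, hs₂, h₂⟩
    refine ⟨s₁ * s₂, (II st).mul_mem hs₁ hs₂, fun v hv => ?_⟩
    have h3 : s₂ * v * s₂⁻¹ ∈ V := st.conj_mem_V hs₂.1 hv
    have : s₁ * s₂ * v * (s₁ * s₂)⁻¹ = s₁ * (s₂ * v * s₂⁻¹) * s₁⁻¹ := by group
    rw [this, h₁ _ h3, h₂ v hv, sact_mul]
  one_mem' := ⟨1, (II st).one_mem, fun v _ => by simp only [one_mul, inv_one, mul_one, sact_one]⟩
  inv_mem' := by
    rintro k ⟨s, hs, h⟩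
    refine ⟨s⁻¹, (II st).inv_mem hs, fun v hv => ?_⟩
    have h3 : s⁻¹ * v * s⁻¹⁻¹ ∈ V := st.conj_mem_V (S.inv_mem hs.1) hv
    have h4 := h _ h3
    have h5 : s * (s⁻¹ * v * s⁻¹⁻¹) * s⁻¹ = v := by group
    rw [h5] at h4
    rw [h4, sact_inv_sact]

theorem NN_conj (st : Sett c S R) {k n : SL2 F} (hk : k ∈ commutator (SL2 F)) (hn : n ∈ NN st) :
    k * n * k⁻¹ ∈ NN st := by
  obtain ⟨e, he, rfl⟩ := c.ρv_surj k hk
  obtain ⟨s, hs, h⟩ := hn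
  refine ⟨e * s * e⁻¹, II_conj st (st.hES he) hs, fun v hv => ?_⟩
  have hv' : e⁻¹ * v * e ∈ V := by simpa using c.mem_V_of_normal (E.inv_mem he) hv
  have h1 : c.φ v = sact (c.ρv e) (c.φ (e⁻¹ * v * e)) := by
    have := c.ρv_act e he _ hv'
    rwa [show e * (e⁻¹ * v * e) * e⁻¹ = v by group] at this
  have h2 : e * s * e⁻¹ * v * (e * s * e⁻¹)⁻¹ = e * (s * (e⁻¹ * v * e) * s⁻¹) * e⁻¹ := by group
  rw [h2, c.ρv_act e he _ (st.conj_mem_V hs.1 hv'), h _ hv', h1]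
  simp only [sact_mul]
  rw [sact_inv_sact]

variable [Finite G]

theorem II0_pgroup (st : Sett c S R) : IsPGroup 3 (II0 st) :=
  isPGroup_of_chain (p := 3) (Y := Y) (R := R) (R' := st.rd) (V := V) c.hYp c.hYn c.hYC st.hRY
    st.rd_le_R (c.hVW.trans st.W_le_rd)
    (fun y hy d hd => st.hYS y hy d hd.1.1)
    (fun x hx d hd => hd.1.2 x hx)
    (fun x hx d hd => st.hRdS x hx d hd.1.1)
    (fun x hx d hd => by
      rw [commutatorElement_eq_one_iff_mul_comm]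
      exact mem_centralizer_iff.1 hd.2 x hx)

theorem prod_invert_cent {u₁ u₂ : G} (h1 : ∀ v ∈ V, u₁ * v * u₁⁻¹ = v⁻¹) (h2 : ∀ v ∈ V, u₂ * v * u₂⁻¹ = v⁻¹) :
    u₁ * u₂ ∈ centralizer (V : Set G) := by
  rw [mem_centralizer_iff]
  intro v hv
  have h3 : u₁ * u₂ * v * (u₁ * u₂)⁻¹ = v := by
    calc u₁ * u₂ * v * (u₁ * u₂)⁻¹ = u₁ * (u₂ * v * u₂⁻¹) * u₁⁻¹ := by group
      _ = u₁ * v⁻¹ * u₁⁻¹ := by rw [h2 v hv]
      _ = v := by rw [h1 v⁻¹ (V.inv_mem hv), inv_inv]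
  calc v * (u₁ * u₂) = u₁ * u₂ * v * (u₁ * u₂)⁻¹ * (u₁ * u₂) := by rw [h3]
    _ = u₁ * u₂ * v := by group

theorem exists_inverter [Fintype F] (st : Sett c S R) {g : G} (hg : g ∈ S) (h : ∀ x ∈ R, ⁅x, g⁆ ∈ Rd R V)
    (hgV : g ∉ centralizer (V : Set G)) : ∃ g₁ ∈ II st, ∀ v ∈ V, g₁ * v * g₁⁻¹ = v⁻¹ := by
  have hgI : g ∈ II st := ⟨hg, h⟩
  obtain ⟨e, he, c', hc', hgeq⟩ := st.hSρ g hg
  have hact : ∀ v ∈ V, c.φ (g * v * g⁻¹) = sact (c.ρv e) (c.φ v) := by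
    intro v hv
    have h1 : g * v * g⁻¹ = e * v * e⁻¹ := by
      rw [hgeq]
      have := mem_centralizer_iff.1 hc' v hv
      calc e * c' * v * (e * c')⁻¹ = e * (c' * v) * c'⁻¹ * e⁻¹ := by group
        _ = e * (v * c') * c'⁻¹ * e⁻¹ := by rw [this]
        _ = e * v * e⁻¹ := by group
    rw [h1]; exact c.ρv_act e he v hv
  have hne : NN st ≠ ⊥ := by
    intro hbot
    have hk : c.ρv e ∈ NN st := ⟨g, hgI, hact⟩
    rw [hbot, mem_bot] at hk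
    apply hgV
    rw [mem_centralizer_iff]
    intro v hv
    have h2 : c.φ (g * v * g⁻¹) = c.φ v := by rw [hact v hv, hk, sact_one]
    have h3 := c.φ_inj (st.conj_mem_V hg hv) hv h2
    calc v * g = g * v * g⁻¹ * g := by rw [h3]
      _ = g * v := by group
  obtain ⟨g₁, hg₁, h₁⟩ := normal_has_neg_one (NN st) (fun k hk n hn => NN_conj st hk hn) hne
  refine ⟨g₁, hg₁, fun v hv => c.inv_of_act hv (st.conj_mem_V hg₁.1 hv) ?_⟩
  rw [h₁ v hv, sact_neg_one]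

theorem exists_h (st : Sett c S R) {g₁ : G} (hg₁ : g₁ ∈ II st) (hinv : ∀ v ∈ V, g₁ * v * g₁⁻¹ = v⁻¹) :
    ∃ h ∈ II st, h * h = 1 ∧ ∀ v ∈ V, h * v * h⁻¹ = v⁻¹ := by
  have h0 : g₁ * g₁ ∈ II0 st := ⟨(II st).mul_mem hg₁ hg₁, prod_invert_cent hinv hinv⟩
  obtain ⟨m, hm⟩ := (II0_pgroup st) ⟨_, h0⟩
  have hm' : (g₁ * g₁) ^ (3 ^ m) = 1 := by
    have := congrArg Subtype.val hm
    simpa using this
  obtain ⟨k, hk⟩ := exists_half m
  have hy0 : (g₁ * g₁) ^ k ∈ II0 st := (II0 st).pow_mem h0 k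
  refine ⟨g₁ * (g₁ * g₁) ^ k, (II st).mul_mem hg₁ hy0.1, ?_, fun v hv => ?_⟩
  · have hc : Commute g₁ ((g₁ * g₁) ^ k) := ((Commute.refl g₁).mul_right (Commute.refl g₁)).pow_right k
    calc g₁ * (g₁ * g₁) ^ k * (g₁ * (g₁ * g₁) ^ k) = g₁ * ((g₁ * g₁) ^ k * g₁) * (g₁ * g₁) ^ k := by group
      _ = g₁ * (g₁ * (g₁ * g₁) ^ k) * (g₁ * g₁) ^ k := by rw [← hc.eq]
      _ = (g₁ * g₁) ^ (2 * k + 1) := by
        rw [pow_succ', two_mul, pow_add]; simp only [mul_assoc]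
      _ = 1 := by rw [← hk, hm']
  · have hc := mem_centralizer_iff.1 hy0.2 v hv
    calc g₁ * (g₁ * g₁) ^ k * v * (g₁ * (g₁ * g₁) ^ k)⁻¹
        = g₁ * ((g₁ * g₁) ^ k * v) * ((g₁ * g₁) ^ k)⁻¹ * g₁⁻¹ := by group
      _ = g₁ * (v * (g₁ * g₁) ^ k) * ((g₁ * g₁) ^ k)⁻¹ * g₁⁻¹ := by rw [hc]
      _ = g₁ * v * g₁⁻¹ := by group
      _ = v⁻¹ := hinv v hv

theorem FF_form (q a : G) :
    ⁅⁅q, a⁆, a⁆ = q * (a * q * a⁻¹)⁻¹ * (a * (a * q * a⁻¹) * a⁻¹) * (a * q * a⁻¹)⁻¹ := by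
  simp only [commutatorElement_def]; group

theorem commute_comm {h x y : G} (h1 : Commute h x) (h2 : Commute h y) : Commute h ⁅x, y⁆ := by
  rw [commutatorElement_def]
  exact ((h1.mul_right h2).mul_right h1.inv_right).mul_right h2.inv_right

theorem three_elt (c : Core F E Q W V Z Y Ω B t a) {y : G} (hy : y ∈ Y) : ∃ n : ℕ, y ^ (3 ^ n) = 1 := by
  obtain ⟨n, hn⟩ := c.hYp ⟨y, hy⟩
  refine ⟨n, ?_⟩
  have := congrArg Subtype.val hn
  simpa using this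

theorem V_comm_Y (c : Core F E Q W V Z Y Ω B t a) {v y : G} (hv : v ∈ V) (hy : y ∈ Y) : Commute v y :=
  c.w_comm (c.hVW hv) hy

theorem Z_comm_Y (c : Core F E Q W V Z Y Ω B t a) {v y : G} (hv : v ∈ Z) (hy : y ∈ Y) : Commute v y :=
  c.w_comm (c.hZW hv) hy

/-- Step 1: `[R, h] ≤ V`. -/
theorem step1 (st : Sett c S R) {h : G} (hI : h ∈ II st) (h2 : h * h = 1) {r : G} (hr : r ∈ R) :
    ⁅r, h⁆ ∈ V := by
  have hi : h⁻¹ = h := inv_eq_of_mul_eq_one_left h2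
  have hδRd : ⁅r, h⁆ ∈ Rd R V := hI.2 r hr
  have hδinv : h * ⁅r, h⁆ * h⁻¹ = (⁅r, h⁆)⁻¹ := by
    have h2' : ∀ x, h * (h * x) = x := fun x => by rw [← mul_assoc, h2, one_mul]
    simp only [commutatorElement_def, hi, _root_.mul_inv_rev, inv_inv, mul_assoc, h2, h2', mul_one]
  have hcomm : ⁅⁅r, h⁆, h⁆ = ⁅r, h⁆ * ⁅r, h⁆ := by
    have : ⁅⁅r, h⁆, h⁆ = ⁅r, h⁆ * (h * ⁅r, h⁆ * h⁻¹)⁻¹ := by
      conv_lhs => rw [commutatorElement_def]
      group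
    rw [this, hδinv, inv_inv]
  have hsq : ⁅r, h⁆ * ⁅r, h⁆ ∈ V := hcomm ▸ st.hRdS _ hδRd h hI.1
  obtain ⟨n, hn⟩ := three_elt c (st.hRY hδRd.1)
  exact mem_of_sq_mem hn hsq

/-- Step 2. -/
theorem step2 (st : Sett c S R) {h : G} (hI : h ∈ II st) (h2 : h * h = 1)
    (hinv : ∀ v ∈ V, h * v * h⁻¹ = v⁻¹) {r : G} (hr : r ∈ R) : Commute h (r * ⁅r, h⁆) := by
  have hδ := step1 st hI h2 hr
  set δ := ⁅r, h⁆ with hδdef
  have h1 : h * r * h⁻¹ = δ⁻¹ * r := by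
    rw [hδdef]; simp only [commutatorElement_def]; group
  have h3 := V_cube c hδ
  have h4 : δ⁻¹ * δ⁻¹ = δ := by
    have : δ * δ * δ * δ⁻¹ * δ⁻¹ = δ := by group
    calc δ⁻¹ * δ⁻¹ = δ * δ * δ * (δ⁻¹ * δ⁻¹) := by rw [h3, one_mul]
      _ = δ := by group
  have h5 : h * (r * δ) * h⁻¹ = r * δ := by
    have hc : r * δ⁻¹ = δ⁻¹ * r := ((V_comm_Y c hδ (st.hRY hr)).inv_left.eq).symm
    calc h * (r * δ) * h⁻¹ = (h * r * h⁻¹) * (h * δ * h⁻¹) := by group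
      _ = δ⁻¹ * r * δ⁻¹ := by rw [h1, hinv δ hδ]
      _ = r * δ⁻¹ * δ⁻¹ := by rw [hc]
      _ = r * (δ⁻¹ * δ⁻¹) := by group
      _ = r * δ := by rw [h4]
  show h * (r * δ) = (r * δ) * h
  calc h * (r * δ) = h * (r * δ) * h⁻¹ * h := by group
    _ = r * δ * h := by rw [h5]

/-- Step 3. -/
theorem step3 (st : Sett c S R) {h : G} (hI : h ∈ II st) (h2 : h * h = 1)
    (hinv : ∀ v ∈ V, h * v * h⁻¹ = v⁻¹) {x y : G} (hx : x ∈ R) (hy : y ∈ R) : Commute h ⁅x, y⁆ := by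
  have hu := step1 st hI h2 hx
  have hw := step1 st hI h2 hy
  have e1 : ⁅x * ⁅x, h⁆, y * ⁅y, h⁆⁆ = ⁅x, y⁆ :=
    comm_mul_central (V_comm_Y c hu (st.hRY hx)) (V_comm_Y c hu (st.hRY hy))
      (V_comm_Y c hu (c.V_le_Y hw)) (V_comm_Y c hw (st.hRY hx))
  rw [← e1]
  exact commute_comm (step2 st hI h2 hinv hx) (step2 st hI h2 hinv hy)

/-- Step 4. -/
theorem step4 (st : Sett c S R) {h : G} (hI : h ∈ II st) (h2 : h * h = 1)
    (hinv : ∀ v ∈ V, h * v * h⁻¹ = v⁻¹) {z : G} (hz : z ∈ Z) : Commute h z := by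
  have h3 : ⁅Q, Q⁆ ≤ centralizer ({h} : Set G) := by
    rw [commutator_le]
    intro x hx y hy
    rw [mem_centralizer_singleton_iff]
    exact ((step3 st hI h2 hinv (st.hQR hx) (st.hQR hy)).eq).symm
  rw [c.hQQ] at h3
  exact ((mem_centralizer_singleton_iff.1 (h3 hz)).symm)

/-- Step 5. -/
theorem step5 (st : Sett c S R) {h : G} (hI : h ∈ II st) (h2 : h * h = 1)
    (hinv : ∀ v ∈ V, h * v * h⁻¹ = v⁻¹) {w : G} (hw : w ∈ W) (hc : Commute h w) : w ∈ Z := by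
  obtain ⟨v, hv, z, hz, rfl⟩ := c.hVZ w hw
  have hzc := step4 st hI h2 hinv hz
  have hvc : Commute h v := by
    have : v = (v * z) * z⁻¹ := by group
    rw [this]
    exact hc.mul_right hzc.inv_right
  have h1 : v = v⁻¹ := by
    rw [← hinv v hv, hvc.eq]; group
  have h3 := V_cube c hv
  have h4 : v * v = 1 := by
    calc v * v = v * v⁻¹ := by rw [← h1]
      _ = 1 := by group
  have h5 : v = 1 := by rw [h4, one_mul] at h3; exact h3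
  rw [h5, one_mul]; exact hz

/-- Step 6. -/
theorem step6 (st : Sett c S R) {h : G} (hI : h ∈ II st) (h2 : h * h = 1)
    (hinv : ∀ v ∈ V, h * v * h⁻¹ = v⁻¹) {x y : G} (hx : x ∈ R) (hy : y ∈ R) : ⁅x, y⁆ ∈ Z :=
  step5 st hI h2 hinv (st.hRR x hx y hy) (step3 st hI h2 hinv hx hy)

/-- `F (q v) = F q` for `v ∈ V`. -/
theorem FF_mul_V (c : Core F E Q W V Z Y Ω B t a) {q v : G} (hq : q ∈ Q) (hv : v ∈ V) :
    ⁅⁅q * v, a⁆, a⁆ = ⁅⁅q, a⁆, a⁆ := by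
  have hB := c.haB
  have hY : ∀ x ∈ Q, a * x * a⁻¹ ∈ Q := fun x hx => (mem_normalizer_iff.1 (c.hBQ hB) x).1 hx
  have hb : a * q * a⁻¹ ∈ Q := hY q hq
  have he : a * (a * q * a⁻¹) * a⁻¹ ∈ Q := hY _ hb
  have hbv : a * v * a⁻¹ ∈ V := conj_V_B c hB hv
  have hev : a * (a * v * a⁻¹) * a⁻¹ ∈ V := conj_V_B c hB hbv
  set b := a * q * a⁻¹ with hbdef
  set e := a * b * a⁻¹ with hedef
  set bv := a * v * a⁻¹ with hbvdef
  set ev := a * bv * a⁻¹ with hevdef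
  have e1 : a * (q * v) * a⁻¹ = b * bv := by rw [hbdef, hbvdef]; group
  have e2 : a * (b * bv) * a⁻¹ = e * ev := by rw [hedef, hevdef]; group
  rw [FF_form (q * v) a, e1, e2, four_central (V_comm_Y c hbv (c.hQY hb)) (V_comm_Y c hbv (c.hQY he))
    (V_comm_Y c hev (c.hQY hb)), FF_form q a, ← hbdef, ← hedef]
  have h0 : v * bv⁻¹ * ev * bv⁻¹ = 1 := by
    have := c.haV v hv
    rw [FF_form v a, ← hbvdef, ← hevdef] at this
    exact this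
  have hvb : v * b⁻¹ = b⁻¹ * v := (V_comm_Y c hv (c.hQY hb)).inv_right.eq
  have hve : v * e = e * v := (V_comm_Y c hv (c.hQY he)).eq
  calc q * v * b⁻¹ * e * b⁻¹ * (bv⁻¹ * ev * bv⁻¹)
      = q * (v * b⁻¹) * e * b⁻¹ * (bv⁻¹ * ev * bv⁻¹) := by group
    _ = q * b⁻¹ * (v * e) * b⁻¹ * (bv⁻¹ * ev * bv⁻¹) := by rw [hvb]; group
    _ = q * b⁻¹ * e * (v * b⁻¹) * (bv⁻¹ * ev * bv⁻¹) := by rw [hve]; group
    _ = q * b⁻¹ * e * b⁻¹ * (v * bv⁻¹ * ev * bv⁻¹) := by rw [hvb]; group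
    _ = q * b⁻¹ * e * b⁻¹ := by rw [h0, mul_one]

theorem II0_norm (st : Sett c S R) {u : G} (h1 : ∀ s ∈ II st, u * s * u⁻¹ ∈ II st)
    (h1' : ∀ s ∈ II st, u⁻¹ * s * u ∈ II st) (h2 : ∀ v ∈ V, u⁻¹ * v * u ∈ V)
    (h2' : ∀ v ∈ V, u * v * u⁻¹ ∈ V) : u ∈ normalizer (II0 st : Set G) := by
  rw [mem_normalizer_iff]
  intro d
  constructor
  · intro hd
    exact II0_conj_of (h1 d hd.1) h2 hd
  · intro hd
    have := II0_conj_of (u := u⁻¹) (d := u * d * u⁻¹) (by simpa using h1' _ hd.1)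
      (by simpa using h2') hd
    have e : u⁻¹ * (u * d * u⁻¹) * u⁻¹⁻¹ = d := by group
    rwa [e] at this

theorem no_involution (st : Sett c S R) {h : G} (hI : h ∈ II st) (h2 : h * h = 1)
    (hinv : ∀ v ∈ V, h * v * h⁻¹ = v⁻¹) : False := by
  have hi : h⁻¹ = h := inv_eq_of_mul_eq_one_left h2
  have hB := c.haB
  set h' := a * h * a⁻¹ with hh'
  have h'I : h' ∈ II st := II_conj_B st hB hI
  have h'2 : h' * h' = 1 := by
    rw [hh']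
    calc a * h * a⁻¹ * (a * h * a⁻¹) = a * (h * h) * a⁻¹ := by group
      _ = 1 := by rw [h2]; group
  have h'i : h'⁻¹ = h' := inv_eq_of_mul_eq_one_left h'2
  have h'inv : ∀ v ∈ V, h' * v * h'⁻¹ = v⁻¹ := by
    intro v hv
    have hv' := conj_inv_V_B c hB hv
    calc h' * v * h'⁻¹ = a * (h * (a⁻¹ * v * a) * h⁻¹) * a⁻¹ := by rw [hh']; group
      _ = a * (a⁻¹ * v * a)⁻¹ * a⁻¹ := by rw [hinv _ hv']
      _ = v⁻¹ := by group
  set x := h' * h with hx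
  have hxD : x ∈ II0 st := ⟨(II st).mul_mem h'I hI, prod_invert_cent h'inv hinv⟩
  have hxinv : x⁻¹ = h * h' := by rw [hx, _root_.mul_inv_rev, hi, h'i]
  have hxh : h * x * h⁻¹ = x⁻¹ := by
    rw [hxinv, hx, hi]
    calc h * (h' * h) * h = h * h' * (h * h) := by group
      _ = h * h' := by rw [h2, mul_one]
  have hSN : S ≤ normalizer (II0 st : Set G) := fun s hs =>
    II0_norm st (fun _ hd => II_conj st hs hd)
      (fun d hd => by simpa using II_conj st (S.inv_mem hs) hd)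
      (fun v hv => by simpa using st.conj_mem_V (S.inv_mem hs) hv)
      (fun v hv => st.conj_mem_V hs hv)
  have hBN : B ≤ normalizer (II0 st : Set G) := fun s hs =>
    II0_norm st (fun _ hd => II_conj_B st hs hd)
      (fun d hd => by simpa using II_conj_B st (B.inv_mem hs) hd)
      (fun v hv => conj_inv_V_B c hs hv)
      (fun v hv => conj_V_B c hs hv)
  have hcommR : ⁅x, h⁆ ∈ R :=
    st.hD (II0 st) (II0_pgroup st) (fun d hd => hd.1.1) (fun d hd => hd.2) hSN hBN x hxD h hI.1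
  have hxx : ⁅x, h⁆ = x * x := by
    have : ⁅x, h⁆ = x * (h * x * h⁻¹)⁻¹ := by
      rw [commutatorElement_def]; group
    rw [this, hxh, inv_inv]
  obtain ⟨n, hn⟩ : ∃ n : ℕ, x ^ (3 ^ n) = 1 := by
    obtain ⟨n, hn⟩ := (II0_pgroup st) ⟨x, hxD⟩
    refine ⟨n, ?_⟩
    have := congrArg Subtype.val hn
    simpa using this
  have hxR : x ∈ R := mem_of_sq_mem hn (hxx ▸ hcommR)
  obtain ⟨k, hk⟩ := exists_half n
  set d := x ^ (k + 1) with hd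
  have hdR : d ∈ R := R.pow_mem hxR _
  have hdd : d * d = x := by
    rw [hd, ← pow_add]
    have : k + 1 + (k + 1) = 3 ^ n + 1 := by omega
    rw [this, pow_succ, hn, one_mul]
  have hdinv : h * d * h⁻¹ = d⁻¹ := by
    rw [hd, ← inv_pow, ← hxh, conj_pow]
  have hdh : d * h * d⁻¹ = h' := by
    calc d * h * d⁻¹ = d * (h * d * h⁻¹)⁻¹ * h := by group
      _ = d * d * h := by rw [hdinv, inv_inv]
      _ = x * h := by rw [hdd]
      _ = h' := by rw [hx, mul_assoc, h2, mul_one]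
  set a' := d⁻¹ * a with ha'
  have ha'h : Commute h a' := by
    have h3 : a' * h * a'⁻¹ = h := by
      calc a' * h * a'⁻¹ = d⁻¹ * h' * d := by rw [ha', hh']; group
        _ = d⁻¹ * (d * h * d⁻¹) * d := by rw [hdh]
        _ = h := by group
    show h * a' = a' * h
    calc h * a' = a' * h * a'⁻¹ * a' := by rw [h3]
      _ = a' * h := by group
  have hdY : d ∈ Y := st.hRY hdR
  have hrel : ∀ q ∈ Q, ∃ z ∈ Z, ⁅⁅q, a'⁆, a'⁆ = ⁅⁅q, a⁆, a⁆ * z := by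
    intro q hq
    have hY : ∀ y ∈ Q, a * y * a⁻¹ ∈ Q := fun y hy => (mem_normalizer_iff.1 (c.hBQ hB) y).1 hy
    have hb : a * q * a⁻¹ ∈ Q := hY q hq
    have he : a * (a * q * a⁻¹) * a⁻¹ ∈ Q := hY _ hb
    set b := a * q * a⁻¹ with hbdef
    set e := a * b * a⁻¹ with hedef
    have hz1 : ⁅b⁻¹, d⁻¹⁆ ∈ Z := step6 st hI h2 hinv (R.inv_mem (st.hQR hb)) (R.inv_mem hdR)
    have hz2 : ⁅e⁻¹, d⁻¹⁆ ∈ Z := step6 st hI h2 hinv (R.inv_mem (st.hQR he)) (R.inv_mem hdR)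
    set z1 := ⁅b⁻¹, d⁻¹⁆ with hz1def
    set z2 := ⁅e⁻¹, d⁻¹⁆ with hz2def
    have hz3 : a * z1 * a⁻¹ ∈ Z := (mem_normalizer_iff.1 (c.hBZ hB) z1).1 hz1
    set z3 := a * z1 * a⁻¹ with hz3def
    have e1 : a' * q * a'⁻¹ = b * z1 := by
      rw [ha', hz1def, hbdef]; simp only [commutatorElement_def]; group
    have e2 : a' * (b * z1) * a'⁻¹ = e * (z2 * z3) := by
      have hcd : d⁻¹ * z3 * d = z3 := by
        have : z3 * d = d * z3 := (Z_comm_Y c hz3 hdY).eq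
        calc d⁻¹ * z3 * d = d⁻¹ * (z3 * d) := by group
          _ = d⁻¹ * (d * z3) := by rw [this]
          _ = z3 := by group
      calc a' * (b * z1) * a'⁻¹ = (d⁻¹ * e * d) * (d⁻¹ * z3 * d) := by
            rw [ha', hedef, hz3def]; group
        _ = (d⁻¹ * e * d) * z3 := by rw [hcd]
        _ = e * (z2 * z3) := by
            rw [hz2def]; simp only [commutatorElement_def]; group
    refine ⟨z1⁻¹ * (z2 * z3) * z1⁻¹, Z.mul_mem (Z.mul_mem (Z.inv_mem hz1) (Z.mul_mem hz2 hz3)) (Z.inv_mem hz1), ?_⟩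
    rw [FF_form q a', e1, e2, four_central (Z_comm_Y c hz1 (c.hQY hb)) (Z_comm_Y c hz1 (c.hQY he))
      ((Z_comm_Y c hz2 (c.hQY hb)).mul_left (Z_comm_Y c hz3 (c.hQY hb))), FF_form q a]
  apply c.hnq
  intro q hq
  have hδ := step1 st hI h2 (st.hQR hq)
  have hq1 : q * ⁅q, h⁆ ∈ Q := Q.mul_mem hq (c.V_le_Q hδ)
  have hc1 : Commute h (q * ⁅q, h⁆) := step2 st hI h2 hinv (st.hQR hq)
  rw [← FF_mul_V c hq hδ]
  obtain ⟨z, hz, hz'⟩ := hrel _ hq1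
  have hcF' : Commute h ⁅⁅q * ⁅q, h⁆, a'⁆, a'⁆ := commute_comm (commute_comm hc1 ha'h) ha'h
  have hcF : Commute h ⁅⁅q * ⁅q, h⁆, a⁆, a⁆ := by
    have : ⁅⁅q * ⁅q, h⁆, a⁆, a⁆ = ⁅⁅q * ⁅q, h⁆, a'⁆, a'⁆ * z⁻¹ := by rw [hz']; group
    rw [this]
    exact hcF'.mul_right (step4 st hI h2 hinv hz).inv_right
  exact step5 st hI h2 hinv (c.haQ _ hq1) hcF

end NotBad

variable {G : Type*} [Group G] [Finite G] {F : Type*} [Field F] [Fintype F] [CharP F 3]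
  {E Q W V Z Y Ω B : Subgroup G} {t a : G} {c : Core F E Q W V Z Y Ω B t a} {S R : Subgroup G}

/-- Elements of `S` acting trivially on `R / R_d` centralize `V`. -/
theorem not_bad (st : Sett c S R) {g : G} (hg : g ∈ S) (h : ∀ x ∈ R, ⁅x, g⁆ ∈ Rd R V) :
    g ∈ centralizer (V : Set G) := by
  by_contra hgV
  obtain ⟨g₁, hg₁, hinv⟩ := NotBad.exists_inverter st hg h hgV
  obtain ⟨k, hk, hk2, hkinv⟩ := NotBad.exists_h st hg₁ hinv
  exact NotBad.no_involution st hk hk2 hkinv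

end Cfsg.Agent.Lib.BlockX
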