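import Mathlib
import Cfsg.Agent.Lib.BlockX.FinalPCore
import Cfsg.Agent.Lib.BlockX.Chain
import Cfsg.Agent.Lib.BlockX.NotBad
import Cfsg.Agent.Lib.BlockX.SLn

/-! ## PIECE FL : `S ∩ C(V)` is a `3`-group when `R = Q R_d`. -/

namespace Cfsg.Agent.Lib.BlockX

open Subgroup Cfsg Matrix
open scoped commutatorElement

variable {G : Type*} [Group G] [Finite G] {F : Type*} [Field F] [Fintype F] [CharP F 3]
  {E Q W V Z Y Ω B : Subgroup G} {t a : G} {c : Core F E Q W V Z Y Ω B t a} {S R : Subgroup G}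

theorem final_pgroup (st : Sett c S R) (hR : ∀ x ∈ R, ∃ q ∈ Q, ∃ y ∈ Rd R V, x = q * y) :
    IsPGroup 3 (S ⊓ centralizer (V : Set G) : Subgroup G) := by
  have hcore := FinalPCore.comm_mem_Rd_core st hR (fun g hg h => not_bad st hg h)
    (fun N hN hne => normal_has_neg_one N hN hne)
  refine isPGroup_of_chain (Y := Y) (R := R) (R' := st.rd) (V := V) c.hYp c.hYn c.hYC st.hRY st.rd_le_R
    (c.hVW.trans st.W_le_rd) (fun y hy d hd => st.hYS y hy d hd.1) (fun x hx d hd => hcore d hd x hx)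
    (fun x hx d hd => st.hRdS x hx d hd.1) (fun x hx d hd => ?_)
  rw [commutatorElement_eq_one_iff_mul_comm]
  exact (mem_centralizer_iff.1 hd.2) x hx

end Cfsg.Agent.Lib.BlockX
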