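import Mathlib
import Cfsg.Agent.Lib.BlockX.Basics

/-!
# The projection `π : R → F²` and the matrices `Λ`
-/

set_option autoImplicit false
set_option linter.style.haveILetI false

namespace Cfsg.Agent.Lib.BlockX

open Subgroup Cfsg Matrix
open scoped commutatorElement

variable {G : Type*} [Group G] [Finite G] {F : Type*} [Field F] [Fintype F] [CharP F 3]
  {E Q W V Z Y Ω B : Subgroup G} {t a : G} {c : Core F E Q W V Z Y Ω B t a} {S R : Subgroup G}

namespace Frames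

omit [Fintype F] [CharP F 3] in
theorem dt_add_left (u u' b : F2 F) : dt (u + u') b = dt u b + dt u' b := by
  simp only [dt, Pi.add_apply]; ring

omit [Fintype F] [CharP F 3] in
theorem dt_sub_right (u a b : F2 F) : dt u (a - b) = dt u a - dt u b := by
  simp only [dt, Pi.sub_apply]; ring

omit [Fintype F] [CharP F 3] in
theorem dt_smul_left (k : F) (u b : F2 F) : dt (k • u) b = k * dt u b := by
  simp only [dt, Pi.smul_apply, smul_eq_mul]; ring

omit [Fintype F] [CharP F 3] in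
theorem dt_smul_right (k : F) (u b : F2 F) : dt u (k • b) = k * dt u b := by
  simp only [dt, Pi.smul_apply, smul_eq_mul]; ring

omit [Fintype F] [CharP F 3] in
theorem dt_nondeg {u : F2 F} (h : ∀ b : F2 F, dt u b = 0) : u = 0 := by
  funext i
  fin_cases i
  · have := h ![0, 1]
    simpa [dt] using this
  · have := h ![1, 0]
    simpa [dt] using this

omit [Fintype F] in
theorem two_ne : (2 : F) ≠ 0 := by
  intro h
  have h3 : (3 : F) = 0 := by exact_mod_cast CharP.cast_eq_zero F 3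
  have : (1 : F) = 0 := by linear_combination h3 - h
  exact one_ne_zero this

omit [Fintype F] [CharP F 3] [Finite G] in
theorem eq_of_dt {c : Core F E Q W V Z Y Ω B t a} {u u' : F2 F}
    (h : ∀ q ∈ Q, dt u (c.ψ q) = dt u' (c.ψ q)) : u = u' := by
  have h0 : u - u' = 0 := by
    apply dt_nondeg
    intro b
    obtain ⟨q, hq, rfl⟩ := c.ψ_surj b
    have := h q hq
    simp only [dt, Pi.sub_apply] at this ⊢
    linear_combination this
  exact sub_eq_zero.1 h0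

omit [Fintype F] [CharP F 3] in
theorem odd_card_Q (c : Core F E Q W V Z Y Ω B t a) : ¬ 2 ∣ Nat.card Q := by
  have hQ3 : IsPGroup 3 Q := (c.hYp).to_le c.hQY
  obtain ⟨n, hn⟩ := IsPGroup.iff_card.1 hQ3
  rw [hn]
  intro h
  have := (Nat.prime_two.dvd_of_dvd_pow h)
  omega

omit [Fintype F] [CharP F 3] in
/-- Decomposition of `R` along the involution `t`. -/
theorem exists_dec (st : Sett c S R) {x : G} (hx : x ∈ R) :
    ∃ q ∈ Q, ∃ r ∈ R, x = q * r ∧ r * t = t * r := by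
  classical
  haveI : Fintype Q := Fintype.ofFinite _
  have htE : t ∈ E := c.ht
  have htinv : t⁻¹ = t := c.t_inv_eq
  have hcomm : t * x * t⁻¹ * x⁻¹ ∈ Q := by
    have h1 := c.hYE x (st.hRY hx) t htE
    have h2 : t * x * t⁻¹ * x⁻¹ = (⁅x, t⁆)⁻¹ := by
      simp only [commutatorElement_def]; group
    rw [h2]
    exact Q.inv_mem h1
  have hcq : ∀ q ∈ Q, t * q * t⁻¹ ∈ Q := fun q hq =>
    (mem_normalizer_iff.1 (c.hEQ htE) q).1 hq
  let f : Q → Q := fun q => ⟨t * q * t⁻¹ * (t * x * t⁻¹ * x⁻¹), Q.mul_mem (hcq q q.2) hcomm⟩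
  have hf0 : ∀ q : Q, ((f q : Q) : G) * x = t * ((q : G) * x) * t⁻¹ := by
    intro q
    show t * (q : G) * t⁻¹ * (t * x * t⁻¹ * x⁻¹) * x = t * ((q : G) * x) * t⁻¹
    group
  have hfi : Function.Involutive f := by
    intro q
    apply Subtype.ext
    have h1 : ((f (f q) : Q) : G) * x = (q : G) * x := by
      rw [hf0, hf0]
      have : t * (t * ((q : G) * x) * t⁻¹) * t⁻¹ = (t * t) * ((q : G) * x) * (t⁻¹ * t⁻¹) := by group
      rw [this, htinv, c.ht2]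
      group
    exact mul_right_cancel h1
  by_contra hcon
  have hfix : ∀ q : Q, f q ≠ q := by
    intro q hq
    apply hcon
    have h1 : ((f q : Q) : G) = q := by rw [hq]
    have h2 := hf0 q
    rw [h1] at h2
    refine ⟨(q : G)⁻¹, Q.inv_mem q.2, (q : G) * x, R.mul_mem (st.hQR q.2) hx, by group, ?_⟩
    have h3 : ((q : G) * x) * t = t * ((q : G) * x) * t⁻¹ * t := by rw [← h2]
    rw [h3]
    group
  let σ : Equiv.Perm Q := hfi.toPerm
  have hσ2 : σ ^ 2 = 1 := by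
    ext q
    simp only [pow_two, Equiv.Perm.coe_mul, Function.comp_apply, Equiv.Perm.coe_one, id_eq]
    show ((f (f q) : Q) : G) = q
    rw [hfi q]
  have h2 := Equiv.Perm.two_dvd_card_support hσ2
  have hsup : σ.support = Finset.univ := by
    ext q
    simp only [Equiv.Perm.mem_support, Finset.mem_univ, iff_true]
    exact hfix q
  rw [hsup, Finset.card_univ, ← Nat.card_eq_fintype_card] at h2
  exact odd_card_Q c h2

omit [Fintype F] in
/-- `r` fixed by `t` is perpendicular to `Q`. -/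
theorem perp (st : Sett c S R) {r q : G} (hr : r ∈ R) (hrt : r * t = t * r) (hq : q ∈ Q) :
    c.τ ⁅r, q⁆ = 0 := by
  have htE : t ∈ E := c.ht
  have htS : t ∈ S := st.hES htE
  have hqR := st.hQR hq
  have h1 := st.τ_conj htS hr hqR
  have h2 : t * r * t⁻¹ = r := by rw [← hrt]; group
  rw [h2] at h1
  have hq1 : t * q * t⁻¹ ∈ Q := (mem_normalizer_iff.1 (c.hEQ htE) q).1 hq
  have hψ : c.ψ (t * q * t⁻¹) = - c.ψ q := by
    rw [c.ρ_act t htE q hq, c.hρt, sact_neg_one]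
  have hw : (t * q * t⁻¹) * q ∈ W := by
    refine (c.ψ_ker _ (Q.mul_mem hq1 hq)).1 ?_
    rw [c.ψ_mul _ hq1 _ hq, hψ]
    simp
  have h3 : t * q * t⁻¹ = ((t * q * t⁻¹) * q) * q⁻¹ := by group
  rw [h3, st.τ_mul_right hr (st.W_le_R hw) (R.inv_mem hqR), st.τ_inv_right hr hqR] at h1
  have h4 : ⁅r, (t * q * t⁻¹) * q⁆ = 1 := by
    rw [commutatorElement_eq_one_iff_mul_comm]
    exact (c.w_comm hw (st.hRY hr)).symm
  rw [h4, c.τ_one, zero_add] at h1
  have h5 : (2 : F) * c.τ ⁅r, q⁆ = 0 := by linear_combination -h1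
  exact (mul_eq_zero.1 h5).resolve_left two_ne

end Frames

open Frames in
theorem exists_pi (st : Sett c S R) : ∃ π : G → F2 F,
    (∀ x ∈ R, ∀ q ∈ Q, c.τ ⁅x, q⁆ = dt (π x) (c.ψ q)) ∧
    (∀ q ∈ Q, π q = c.ψ q) ∧
    (∀ x ∈ R, ∀ x' ∈ R, π (x * x') = π x + π x') ∧
    (∀ e ∈ E, ∀ x ∈ R, ∀ z ∈ R,
      c.τ ⁅z, e * x * e⁻¹⁆ = c.τ ⁅z, x⁆ + dt (π z) (sact (c.ρ e) (π x) - π x)) := by
  classical
  choose! qf hqf rf hrf hxf htf using fun x (hx : x ∈ R) => exists_dec st hx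
  let π : G → F2 F := fun x => c.ψ (qf x)
  have h1 : ∀ x ∈ R, ∀ q ∈ Q, c.τ ⁅x, q⁆ = dt (π x) (c.ψ q) := by
    intro x hx q' hq'
    have hx2 := hxf x hx
    have h := st.τ_mul_left (st.hQR (hqf x hx)) (hrf x hx) (st.hQR hq')
    rw [← hx2, c.τ_comm _ (hqf x hx) _ hq', perp st (hrf x hx) (htf x hx) hq', add_zero] at h
    exact h
  have hτ_dt : ∀ x ∈ R, ∀ x' ∈ R, ∀ q ∈ Q, dt (π (x * x')) (c.ψ q) = dt (π x + π x') (c.ψ q) := by
    intro x hx x' hx' q hq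
    rw [dt_add_left, ← h1 _ (R.mul_mem hx hx') q hq, ← h1 x hx q hq, ← h1 x' hx' q hq,
      st.τ_mul_left hx hx' (st.hQR hq)]
  have h3 : ∀ x ∈ R, ∀ x' ∈ R, π (x * x') = π x + π x' := fun x hx x' hx' =>
    eq_of_dt (c := c) (hτ_dt x hx x' hx')
  refine ⟨π, h1, ?_, h3, ?_⟩
  · intro q hq
    apply eq_of_dt (c := c)
    intro q' hq'
    rw [← h1 q (st.hQR hq) q' hq', c.τ_comm q hq q' hq']
  · intro e he x hx z hz
    have hS : e ∈ S := st.hES he
    set q := qf x with hq_def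
    set r := rf x with hr_def
    have hq : q ∈ Q := hqf x hx
    have hr : r ∈ R := hrf x hx
    have hxqr : x = q * r := hxf x hx
    have hrt : r * t = t * r := htf x hx
    have hy : e * r * e⁻¹ ∈ R := st.conj_mem_R hS hr
    have hwQ : e * r * e⁻¹ * r⁻¹ ∈ Q := by
      have h0 := c.hYE r (st.hRY hr) e he
      have h2 : e * r * e⁻¹ * r⁻¹ = (⁅r, e⁆)⁻¹ := by
        simp only [commutatorElement_def]; group
      rw [h2]
      exact Q.inv_mem h0
    have hψw : c.ψ (e * r * e⁻¹ * r⁻¹) = 0 := by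
      apply dt_nondeg
      intro b
      obtain ⟨q', hq', rfl⟩ := c.ψ_surj b
      rw [← c.τ_comm _ hwQ _ hq']
      have hq2 : e⁻¹ * q' * e ∈ Q := by
        have := (mem_normalizer_iff.1 (c.hEQ (E.inv_mem he)) q').1 hq'
        simpa using this
      have h4 := st.τ_conj' hS hr (st.hQR hq')
      rw [perp st hr hrt hq2] at h4
      have h5 := st.τ_mul_left (st.hQR hwQ) hr (st.hQR hq')
      have h6 : e * r * e⁻¹ * r⁻¹ * r = e * r * e⁻¹ := by group
      rw [h6, h4, perp st hr hrt hq', add_zero] at h5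
      exact h5.symm
    have hwW : e * r * e⁻¹ * r⁻¹ ∈ W := (c.ψ_ker _ hwQ).1 hψw
    have heq : e * q * e⁻¹ ∈ Q := (mem_normalizer_iff.1 (c.hEQ he) q).1 hq
    have hexp : e * x * e⁻¹ = (e * q * e⁻¹) * ((e * r * e⁻¹ * r⁻¹) * r) := by
      rw [hxqr]; group
    have hcomm : ⁅z, e * r * e⁻¹ * r⁻¹⁆ = 1 := by
      rw [commutatorElement_eq_one_iff_mul_comm]
      exact (c.w_comm hwW (st.hRY hz)).symm
    have h7 : c.τ ⁅z, e * x * e⁻¹⁆ = c.τ ⁅z, e * q * e⁻¹⁆ + c.τ ⁅z, r⁆ := by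
      rw [hexp, st.τ_mul_right hz (st.hQR heq) (R.mul_mem (st.hQR hwQ) hr),
        st.τ_mul_right hz (st.hQR hwQ) hr, hcomm, c.τ_one, zero_add]
    have h8 : c.τ ⁅z, x⁆ = c.τ ⁅z, q⁆ + c.τ ⁅z, r⁆ := by
      rw [hxqr]
      exact st.τ_mul_right hz (st.hQR hq) hr
    have hπx : π x = c.ψ q := rfl
    rw [h7, h8, hπx, dt_sub_right, ← c.ρ_act e he q hq, ← h1 z hz _ heq, ← h1 z hz q hq]
    ring

/-- the package of `π` and `Λ`. -/
structure PiLam (st : Sett c S R) (π : G → F2 F) (Λ : G → M2 F) : Prop where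
  h1 : ∀ x ∈ R, ∀ q ∈ Q, c.τ ⁅x, q⁆ = dt (π x) (c.ψ q)
  h2 : ∀ q ∈ Q, π q = c.ψ q
  h3 : ∀ x ∈ R, ∀ x' ∈ R, π (x * x') = π x + π x'
  h4 : ∀ e ∈ E, ∀ x ∈ R, ∀ z ∈ R,
      c.τ ⁅z, e * x * e⁻¹⁆ = c.τ ⁅z, x⁆ + dt (π z) (sact (c.ρ e) (π x) - π x)
  /-- `Λ h` is the matrix of `ψ q ↦ π (h q h⁻¹)` -/
  h5 : ∀ h ∈ S, ∀ q ∈ Q, π (h * q * h⁻¹) = (Λ h).mulVec (c.ψ q)

open Frames in
theorem exists_piLam (st : Sett c S R) : ∃ π Λ, PiLam st π Λ := by
  classical
  obtain ⟨π, h1, h2, h3, h4⟩ := exists_pi st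
  choose σ hσ hσ' using c.ψ_surj
  let L : G → F2 F → F2 F := fun h a => π (h * σ a * h⁻¹)
  let Λ : G → M2 F := fun h => Matrix.of fun i j => L h (Pi.single j 1) i
  have hconjR : ∀ h ∈ S, ∀ q ∈ Q, h * q * h⁻¹ ∈ R := fun h hh q hq =>
    st.conj_mem_R hh (st.hQR hq)
  -- the value on `W` vanishes
  have hW0 : ∀ h ∈ S, ∀ w ∈ W, π (h * w * h⁻¹) = 0 := by
    intro h hh w hw
    have hw2 : h * w * h⁻¹ ∈ W := (c.τ_conj_of hw (fun w hw => st.hΩS w hw h hh)).2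
    rw [h2 _ (c.hWQ hw2)]
    exact (c.ψ_ker _ (c.hWQ hw2)).2 hw2
  -- the formula
  have hL : ∀ h ∈ S, ∀ q ∈ Q, π (h * q * h⁻¹) = L h (c.ψ q) := by
    intro h hh q hq
    have hs := hσ (c.ψ q)
    have hwQ : (σ (c.ψ q))⁻¹ * q ∈ Q := Q.mul_mem (Q.inv_mem hs) hq
    have hwW : (σ (c.ψ q))⁻¹ * q ∈ W := by
      refine (c.ψ_ker _ hwQ).1 ?_
      rw [c.ψ_mul _ (Q.inv_mem hs) _ hq, c.ψ_inv hs, hσ']
      simp
    have hexp : h * q * h⁻¹ = (h * σ (c.ψ q) * h⁻¹) * (h * ((σ (c.ψ q))⁻¹ * q) * h⁻¹) := by group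
    rw [hexp, h3 _ (hconjR h hh _ hs) _ (hconjR h hh _ hwQ), hW0 h hh _ hwW, add_zero]
  have hadd : ∀ h ∈ S, ∀ u v : F2 F, L h (u + v) = L h u + L h v := by
    intro h hh u v
    have hq : σ u * σ v ∈ Q := Q.mul_mem (hσ u) (hσ v)
    have h5 := hL h hh _ hq
    rw [c.ψ_mul _ (hσ u) _ (hσ v), hσ', hσ'] at h5
    rw [← h5]
    have hexp : h * (σ u * σ v) * h⁻¹ = (h * σ u * h⁻¹) * (h * σ v * h⁻¹) := by group
    rw [hexp, h3 _ (hconjR h hh _ (hσ u)) _ (hconjR h hh _ (hσ v))]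
  -- the form identity
  have hform : ∀ h ∈ S, ∀ u b : F2 F,
      dt (L h u) b = - dt (π (h⁻¹ * σ b * h)) u := by
    intro h hh u b
    have hq' := hσ b
    have hy : h⁻¹ * σ b * h ∈ R := st.conj_inv_mem_R hh (st.hQR hq')
    have e1 := h1 _ (hconjR h hh _ (hσ u)) _ hq'
    rw [hσ'] at e1
    have e2 := st.τ_conj' hh (st.hQR (hσ u)) (st.hQR hq')
    have e3 := st.τ_swap (st.hQR (hσ u)) hy
    have e4 := h1 _ hy _ (hσ u)
    rw [hσ'] at e4
    show dt (π (h * σ u * h⁻¹)) b = _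
    rw [← e1, e2, e3, e4]
  have hsmul : ∀ h ∈ S, ∀ (k : F) (u : F2 F), L h (k • u) = k • L h u := by
    intro h hh k u
    have h0 : L h (k • u) - k • L h u = 0 := by
      apply dt_nondeg
      intro b
      have e1 := hform h hh (k • u) b
      have e2 := hform h hh u b
      rw [dt_smul_right] at e1
      have e3 : dt (L h (k • u) - k • L h u) b = dt (L h (k • u)) b - k * dt (L h u) b := by
        simp only [dt, Pi.sub_apply, Pi.smul_apply, smul_eq_mul]; ring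
      rw [e3, e1, e2]
      ring
    exact sub_eq_zero.1 h0
  have hmat : ∀ h ∈ S, ∀ u : F2 F, L h u = (Λ h).mulVec u := by
    intro h hh u
    have hu : u = u 0 • (Pi.single 0 1 : F2 F) + u 1 • (Pi.single 1 1 : F2 F) := by
      funext i
      fin_cases i <;> simp
    have e1 : L h u = u 0 • L h (Pi.single 0 1) + u 1 • L h (Pi.single 1 1) := by
      conv_lhs => rw [hu]
      rw [hadd h hh, hsmul h hh, hsmul h hh]
    rw [e1]
    funext i
    simp only [Matrix.mulVec, dotProduct, Fin.sum_univ_two, Pi.add_apply, Pi.smul_apply,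
      smul_eq_mul, Λ, Matrix.of_apply]
    ring
  refine ⟨π, Λ, h1, h2, h3, h4, ?_⟩
  intro h hh q hq
  rw [hL h hh q hq, hmat h hh]

end Cfsg.Agent.Lib.BlockX
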