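import Mathlib
import Cfsg.Agent.Lib.BlockX.Basics
import Cfsg.Agent.Lib.BlockX.Frames

/-!
# Piece CL of the `S2985` blueprint: the identities for `Λ`.
-/

namespace Cfsg.Agent.Lib.BlockX

open Subgroup Cfsg Matrix
open scoped commutatorElement

variable {G : Type*} [Group G] [Finite G] {F : Type*} [Field F] [Fintype F] [CharP F 3]
  {E Q W V Z Y Ω B : Subgroup G} {t a : G} {c : Core F E Q W V Z Y Ω B t a} {S R : Subgroup G}

namespace LamClos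

omit [Fintype F] [CharP F 3] in
theorem dt_ext (M N : M2 F) (h : ∀ a b : F2 F, dt (M.mulVec a) b = dt (N.mulVec a) b) : M = N := by
  ext i j
  have h0 := h (Pi.single j 1) ![0, 1]
  have h1 := h (Pi.single j 1) ![1, 0]
  simp only [Matrix.mulVec_single_one] at h0 h1
  fin_cases i
  · simpa [dt] using h0
  · simpa [dt] using h1

omit [Fintype F] [CharP F 3] in
theorem dt_adj (M : M2 F) (u v : F2 F) : dt u (M.mulVec v) = dt (M.adjugate.mulVec u) v := by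
  simp only [dt, Matrix.mulVec, dotProduct, Matrix.adjugate_fin_two, Fin.sum_univ_two]
  simp
  ring

omit [Fintype F] [CharP F 3] in
theorem dt_swap (u v : F2 F) : dt u v = - dt v u := by
  simp only [dt]; ring

omit [Fintype F] [CharP F 3] in
theorem dt_add_left (u v w : F2 F) : dt (u + v) w = dt u w + dt v w := by
  simp only [dt, Pi.add_apply]; ring

omit [Fintype F] [CharP F 3] in
theorem dt_sub_right (u v w : F2 F) : dt u (v - w) = dt u v - dt u w := by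
  simp only [dt, Pi.sub_apply]; ring

omit [Fintype F] [CharP F 3] in
theorem dt_sub_left (u v w : F2 F) : dt (u - v) w = dt u w - dt v w := by
  simp only [dt, Pi.sub_apply]; ring

end LamClos

open LamClos

variable {st : Sett c S R} {π : G → F2 F} {Λ : G → M2 F}

theorem LamClos.Lam_dt (h : PiLam st π Λ) {s q q' : G} (hs : s ∈ S) (hq : q ∈ Q) (hq' : q' ∈ Q) :
    dt ((Λ s).mulVec (c.ψ q)) (c.ψ q') = c.τ ⁅s * q * s⁻¹, q'⁆ := by
  rw [← h.h5 s hs q hq, h.h1 _ (st.conj_mem_R hs (st.hQR hq)) q' hq']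

theorem Lam_one (h : PiLam st π Λ) : Λ 1 = 1 := by
  apply dt_ext
  intro a b
  obtain ⟨q, hq, rfl⟩ := c.ψ_surj a
  obtain ⟨q', hq', rfl⟩ := c.ψ_surj b
  rw [Lam_dt h S.one_mem hq hq', one_mulVec, ← c.τ_comm q hq q' hq']
  simp

theorem Lam_inv (h : PiLam st π Λ) {s : G} (hs : s ∈ S) : Λ s⁻¹ = (Λ s).adjugate := by
  apply dt_ext
  intro a b
  obtain ⟨q, hq, rfl⟩ := c.ψ_surj a
  obtain ⟨q', hq', rfl⟩ := c.ψ_surj b
  rw [← dt_adj, dt_swap (c.ψ q), Lam_dt h hs hq' hq, Lam_dt h (S.inv_mem hs) hq hq',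
    ← st.τ_swap (st.hQR hq) (st.conj_mem_R hs (st.hQR hq'))]
  have := st.τ_conj' (S.inv_mem hs) (st.hQR hq) (st.hQR hq')
  simpa using this

theorem Lam_clos (h : PiLam st π Λ) {A B C e : G} (hA : A ∈ S) (hB : B ∈ S) (hC : C ∈ S) (he : e ∈ E) :
    Λ ((A * e * A⁻¹ * B)⁻¹ * C) = Λ (B⁻¹ * C) + Λ (B⁻¹ * A) * ((c.ρ e : M2 F)⁻¹ - 1) * Λ (A⁻¹ * C) := by
  apply dt_ext
  intro a b
  obtain ⟨q, hq, rfl⟩ := c.ψ_surj a
  obtain ⟨q', hq', rfl⟩ := c.ψ_surj b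
  have he' : e ∈ S := st.hES he
  have hAinv := S.inv_mem hA
  have hBinv := S.inv_mem hB
  have hs1 : (A * e * A⁻¹ * B)⁻¹ * C ∈ S :=
    S.mul_mem (S.inv_mem (S.mul_mem (S.mul_mem (S.mul_mem hA he') hAinv) hB)) hC
  have hAC : A⁻¹ * C ∈ S := S.mul_mem hAinv hC
  have hAB : A⁻¹ * B ∈ S := S.mul_mem hAinv hB
  have hBC : B⁻¹ * C ∈ S := S.mul_mem hBinv hC
  have hBA : B⁻¹ * A ∈ S := S.mul_mem hBinv hA
  have hqR := st.hQR hq
  have hqR' := st.hQR hq'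
  -- the elements
  set z' := (A⁻¹ * C) * q * (A⁻¹ * C)⁻¹ with hz'
  set x' := (A⁻¹ * B) * q' * (A⁻¹ * B)⁻¹ with hx'
  have hz'R : z' ∈ R := st.conj_mem_R hAC hqR
  have hx'R : x' ∈ R := st.conj_mem_R hAB hqR'
  -- left side
  have hL : dt ((Λ ((A * e * A⁻¹ * B)⁻¹ * C)).mulVec (c.ψ q)) (c.ψ q')
      = c.τ ⁅z', e * x' * e⁻¹⁆ := by
    rw [Lam_dt h hs1 hq hq']
    have hw : e * (A⁻¹ * B) ∈ S := S.mul_mem he' hAB
    have := st.τ_conj hw (st.conj_mem_R hs1 hqR) hqR'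
    rw [← this]
    congr 2
    · rw [hz']; group
    · rw [hx']; group
  -- first term
  have hT : c.τ ⁅z', x'⁆ = dt ((Λ (B⁻¹ * C)).mulVec (c.ψ q)) (c.ψ q') := by
    rw [Lam_dt h hBC hq hq']
    have := st.τ_conj hBA hz'R hx'R
    rw [← this]
    congr 2
    · rw [hz']; group
    · rw [hx']; group
  have hπz : π z' = (Λ (A⁻¹ * C)).mulVec (c.ψ q) := h.h5 _ hAC q hq
  have hπx : π x' = (Λ (A⁻¹ * B)).mulVec (c.ψ q') := h.h5 _ hAB q' hq'
  have hadj : (Λ (A⁻¹ * B)).adjugate = Λ (B⁻¹ * A) := by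
    rw [← Lam_inv h hAB]; congr 1; group
  have hρ : ((c.ρ e : SL2 F) : M2 F)⁻¹ = ((c.ρ e : SL2 F) : M2 F).adjugate := by
    rw [Matrix.inv_def, Matrix.SpecialLinearGroup.det_coe]; simp
  rw [hL, h.h4 e he x' hx'R z' hz'R, hT, hπz, hπx, Matrix.add_mulVec, dt_add_left]
  congr 1
  have h1 : (Λ (B⁻¹ * A) * (((c.ρ e : SL2 F) : M2 F)⁻¹ - 1) * Λ (A⁻¹ * C)).mulVec (c.ψ q)
      = (Λ (B⁻¹ * A)).mulVec ((((c.ρ e : SL2 F) : M2 F).adjugate - 1).mulVec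
        ((Λ (A⁻¹ * C)).mulVec (c.ψ q))) := by
    rw [hρ, Matrix.mulVec_mulVec, Matrix.mulVec_mulVec, Matrix.mul_assoc]
  rw [h1, ← hadj, ← dt_adj, Matrix.sub_mulVec, Matrix.one_mulVec, dt_sub_right, dt_sub_left,
    sact, dt_adj]

end Cfsg.Agent.Lib.BlockX
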