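import Mathlib
import Cfsg.Agent.Lib.BlockX.Basics
import Cfsg.Agent.Lib.BlockX.Frames

/-!
# Piece NC of the `S2985` blueprint: `Λ s ≠ 0`.
-/

set_option autoImplicit false

namespace Cfsg.Agent.Lib.BlockX

open Subgroup Cfsg Matrix
open scoped commutatorElement

variable {G : Type*} [Group G] [Finite G] {F : Type*} [Field F] [Fintype F] [CharP F 3]
  {E Q W V Z Y Ω B : Subgroup G} {t a : G} {c : Core F E Q W V Z Y Ω B t a} {S R : Subgroup G}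

namespace LamNC

omit [Finite G] [Fintype F] [CharP F 3] in
theorem comm_E_mem_Q (st : Sett c S R) {e x : G} (he : e ∈ E) (hx : x ∈ R) : ⁅e, x⁆ ∈ Q := by
  have h1 := c.hYE x (st.hRY hx) e he
  have h2 : ⁅e, x⁆ = (⁅x, e⁆)⁻¹ := by simp [commutatorElement_inv]
  rw [h2]; exact Q.inv_mem h1

omit [Finite G] [Fintype F] [CharP F 3] in
theorem comm_conj_mem (st : Sett c S R) {s e z : G} (hs : s ∈ S) (he : e ∈ E) (hz : z ∈ R) :
    ∃ q ∈ Q, ⁅s * e * s⁻¹, z⁆ = s * q * s⁻¹ :=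
  ⟨⁅e, s⁻¹ * z * s⁆, comm_E_mem_Q st he (st.conj_inv_mem_R hs hz), by
    simp only [commutatorElement_def]; group⟩

omit [Finite G] [Fintype F] [CharP F 3] in
theorem comm_mem_R (st : Sett c S R) {h y : G} (hh : h ∈ S) (hy : y ∈ R) : ⁅h, y⁆ ∈ R := by
  have e1 : ⁅h, y⁆ = (h * y * h⁻¹) * y⁻¹ := by simp [commutatorElement_def]
  rw [e1]; exact R.mul_mem (st.conj_mem_R hh hy) (R.inv_mem hy)

omit [Finite G] [Fintype F] [CharP F 3] in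
theorem τ_comm_swap (st : Sett c S R) {h y z : G} (hh : h ∈ S) (hy : y ∈ R) (hz : z ∈ R) :
    c.τ ⁅⁅h, y⁆, z⁆ = c.τ ⁅y, ⁅h⁻¹, z⁆⁆ := by
  have e1 : ⁅h, y⁆ = (h * y * h⁻¹) * y⁻¹ := by simp [commutatorElement_def]
  have e2 : ⁅h⁻¹, z⁆ = (h⁻¹ * z * h) * z⁻¹ := by simp [commutatorElement_def]
  rw [e1, e2, st.τ_mul_left (st.conj_mem_R hh hy) (R.inv_mem hy) hz,
    st.τ_mul_right hy (st.conj_inv_mem_R hh hz) (R.inv_mem hz), st.τ_inv_left hy hz,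
    st.τ_inv_right hy hz, st.τ_conj' hh hy hz]

omit [Finite G] [Fintype F] [CharP F 3] in
theorem comm_mem_Rd (st : Sett c S R) {h y : G} (hh : h ∈ S) (hy : y ∈ R)
    (hperp : ∀ z ∈ R, c.τ ⁅y, ⁅h⁻¹, z⁆⁆ = 0) : ⁅h, y⁆ ∈ Rd R V := by
  have hm := comm_mem_R st hh hy
  refine st.mem_Rd_iff.2 ⟨hm, fun z hz => ?_⟩
  rw [st.τ_swap hz hm, τ_comm_swap st hh hy hz, hperp z hz, neg_zero]

omit [Finite G] [Fintype F] [CharP F 3] in
/-- The commutator identity behind the blueprint's computation modulo `R_d`. -/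
theorem comm_identity (h₁ h₂ x : G) :
    ⁅h₂ * h₁ * x * (h₂ * h₁)⁻¹, ⁅h₁, h₂⁆⁆ =
      ⁅h₂, ⁅h₁, x⁆⁆ * ⁅⁅h₁, x⁆, ⁅h₂, x⁆⁆ * (⁅h₁, ⁅h₂, x⁆⁆)⁻¹ := by
  simp only [commutatorElement_def]; group

omit [Fintype F] [CharP F 3] in
theorem sact_mul' (M M' : SL2 F) (u : F2 F) : sact (M * M') u = sact M (sact M' u) := by
  simp only [sact, Matrix.SpecialLinearGroup.coe_mul, Matrix.mulVec_mulVec]

omit [Fintype F] [CharP F 3] in
theorem sact_one' (u : F2 F) : sact (1 : SL2 F) u = u := by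
  simp [sact]

/-- `g` acts on `V` through `M`. -/
def Acts (c : Core F E Q W V Z Y Ω B t a) (g : G) (M : SL2 F) : Prop :=
  ∀ v ∈ V, g * v * g⁻¹ ∈ V ∧ c.φ (g * v * g⁻¹) = sact M (c.φ v)

omit [Finite G] [Fintype F] [CharP F 3] in
theorem Acts.mul {g g' : G} {M M' : SL2 F} (h : Acts c g M) (h' : Acts c g' M') :
    Acts c (g * g') (M * M') := by
  intro v hv
  obtain ⟨h1, h2⟩ := h' v hv
  obtain ⟨h3, h4⟩ := h _ h1
  have e : g * g' * v * (g * g')⁻¹ = g * (g' * v * g'⁻¹) * g⁻¹ := by group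
  rw [e]
  refine ⟨h3, ?_⟩
  rw [h4, h2, sact_mul']

omit [Finite G] [Fintype F] [CharP F 3] in
theorem Acts.inv {g : G} {M : SL2 F} (h : Acts c g M) (hn : g ∈ normalizer (V : Set G)) :
    Acts c g⁻¹ M⁻¹ := by
  intro v hv
  have hm : g⁻¹ * v * g⁻¹⁻¹ ∈ V := by
    have := (mem_normalizer_iff.1 (inv_mem hn) v).1 hv
    simpa using this
  refine ⟨hm, ?_⟩
  obtain ⟨-, h2⟩ := h _ hm
  have e : g * (g⁻¹ * v * g⁻¹⁻¹) * g⁻¹ = v := by group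
  rw [e] at h2
  rw [h2, ← sact_mul', inv_mul_cancel, sact_one']

omit [Finite G] [Fintype F] [CharP F 3] in
theorem acts_of_mem (he : ∀ e ∈ E, Acts c e (c.ρv e)) {e c' : G} (h1 : e ∈ E)
    (h2 : c' ∈ centralizer (V : Set G)) : Acts c (e * c') (c.ρv e) := by
  intro v hv
  have e1 : e * c' * v * (e * c')⁻¹ = e * v * e⁻¹ := by
    have := (mem_centralizer_iff.1 h2 v (SetLike.mem_coe.2 hv))
    have e2 : c' * v = v * c' := this.symm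
    calc e * c' * v * (e * c')⁻¹ = e * (c' * v) * c'⁻¹ * e⁻¹ := by group
      _ = e * (v * c') * c'⁻¹ * e⁻¹ := by rw [e2]
      _ = e * v * e⁻¹ := by group
  rw [e1]
  exact he e h1 v hv

omit [Finite G] [Fintype F] in
/-- Core of the argument, with `not_bad` and `K_comm_neg` as hypotheses. -/
theorem lam_ne_zero_aux {st : Sett c S R} {π : G → F2 F} {Λ : G → M2 F} (h : PiLam st π Λ)
    (hnb : ∀ g ∈ S, (∀ x ∈ R, ⁅x, g⁆ ∈ Rd R V) → g ∈ centralizer (V : Set G))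
    (hK : ∃ x ∈ commutator (SL2 F), ∃ y ∈ commutator (SL2 F), x * y * x⁻¹ * y⁻¹ = -1)
    {s : G} (hs : s ∈ S) : Λ s ≠ 0 := by
  intro h0
  have hperp0 : ∀ q ∈ Q, ∀ q' ∈ Q, c.τ ⁅s * q * s⁻¹, q'⁆ = 0 := by
    intro q hq q' hq'
    rw [h.h1 _ (st.conj_mem_R hs (st.hQR hq)) q' hq', h.h5 s hs q hq, h0]
    simp [dt]
  -- the elements
  obtain ⟨x₀, hx₀, y₀, hy₀, hxy⟩ := hK
  obtain ⟨es, hes, cs, hcs, hsdec⟩ := st.hSρ s hs
  have hρes : c.ρv es ∈ commutator (SL2 F) := c.ρv_mem es hes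
  have hM : (c.ρv es)⁻¹ * x₀ * c.ρv es ∈ commutator (SL2 F) := by
    have h2 := mul_mem (mul_mem (inv_mem hρes) hx₀) hρes
    exact h2
  obtain ⟨e₁, he₁, hρ₁⟩ := c.ρv_surj _ hM
  obtain ⟨e₂, he₂, hρ₂⟩ := c.ρv_surj _ hy₀
  set h₁ : G := s * e₁ * s⁻¹ with hh₁
  have hh₁S : h₁ ∈ S := S.mul_mem (S.mul_mem hs (st.hES he₁)) (S.inv_mem hs)
  have he₂S : e₂ ∈ S := st.hES he₂
  -- Lemma A : `⁅h₁, q⁆ ∈ R_d`
  have hA : ∀ q ∈ Q, ⁅h₁, q⁆ ∈ Rd R V := by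
    intro q hq
    refine comm_mem_Rd st hh₁S (st.hQR hq) (fun z hz => ?_)
    have hinv : h₁⁻¹ = s * e₁⁻¹ * s⁻¹ := by rw [hh₁]; group
    rw [hinv]
    obtain ⟨q', hq', e⟩ := comm_conj_mem st hs (inv_mem he₁) hz
    rw [e, st.τ_swap (st.hQR hq) (st.conj_mem_R hs (st.hQR hq')), hperp0 q' hq' q hq, neg_zero]
  -- Lemma B : `⁅e₂, s q s⁻¹⁆ ∈ R_d`
  have hB : ∀ q ∈ Q, ⁅e₂, s * q * s⁻¹⁆ ∈ Rd R V := by
    intro q hq
    refine comm_mem_Rd st he₂S (st.conj_mem_R hs (st.hQR hq)) (fun z hz => ?_)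
    exact hperp0 q hq _ (comm_E_mem_Q st (inv_mem he₂) hz)
  -- the commutator `g`
  have hg : ∀ x' ∈ R, ⁅x', ⁅h₁, e₂⁆⁆ ∈ Rd R V := by
    intro x' hx'
    set u : G := e₂ * h₁ with hu
    have huS : u ∈ S := S.mul_mem he₂S hh₁S
    set x : G := u⁻¹ * x' * u with hx
    have hxR : x ∈ R := st.conj_inv_mem_R huS hx'
    have ex' : x' = e₂ * h₁ * x * (e₂ * h₁)⁻¹ := by rw [hx, hu]; group
    rw [ex', comm_identity]
    obtain ⟨q₁, hq₁, eA⟩ := comm_conj_mem st hs he₁ hxR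
    have hBQ : ⁅e₂, x⁆ ∈ Q := comm_E_mem_Q st he₂ hxR
    have hAR : ⁅h₁, x⁆ ∈ R := comm_mem_R st hh₁S hxR
    have hBR : ⁅e₂, x⁆ ∈ R := st.hQR hBQ
    refine st.rd.mul_mem (st.rd.mul_mem ?_ ?_) (st.rd.inv_mem (hA _ hBQ))
    · rw [eA]; exact hB q₁ hq₁
    · exact st.W_le_rd (st.comm_W hAR hBR)
  have hgS : ⁅h₁, e₂⁆ ∈ S := by
    simp only [commutatorElement_def]
    exact S.mul_mem (S.mul_mem (S.mul_mem hh₁S he₂S) (S.inv_mem hh₁S)) (S.inv_mem he₂S)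
  have hgC := hnb _ hgS hg
  -- action on `V`
  have hEacts : ∀ e ∈ E, Acts c e (c.ρv e) := fun e he v hv =>
    ⟨c.mem_V_of_normal he hv, c.ρv_act e he v hv⟩
  have hsA : Acts c s (c.ρv es) := by
    rw [hsdec]; exact acts_of_mem hEacts hes hcs
  have hh₁A : Acts c h₁ x₀ := by
    have h3 := (hsA.mul (hEacts e₁ he₁)).mul (hsA.inv (st.hSV hs))
    rw [hρ₁] at h3
    have e : c.ρv es * ((c.ρv es)⁻¹ * x₀ * c.ρv es) * (c.ρv es)⁻¹ = x₀ := by group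
    rwa [e] at h3
  have he₂A : Acts c e₂ y₀ := by
    have := hEacts e₂ he₂
    rwa [hρ₂] at this
  have hgA : Acts c ⁅h₁, e₂⁆ (-1) := by
    have h3 := ((hh₁A.mul he₂A).mul (hh₁A.inv (st.hSV hh₁S))).mul (he₂A.inv (st.hSV he₂S))
    rw [hxy] at h3
    simpa only [commutatorElement_def] using h3
  obtain ⟨v, hv, hφ⟩ := c.φ_surj ![1, 0]
  have h4 := (hgA v hv).2
  have h5 : ⁅h₁, e₂⁆ * v * (⁅h₁, e₂⁆)⁻¹ = v := by
    have := mem_centralizer_iff.1 hgC v (SetLike.mem_coe.2 hv)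
    rw [← this]; group
  rw [h5, sact_neg_one, hφ] at h4
  have h6 := congrFun h4 0
  simp only [Matrix.cons_val_zero, Pi.neg_apply] at h6
  have h7 : (2 : F) = 0 := by
    have : (1 : F) + 1 = 0 := by
      nth_rewrite 1 [h6]
      ring
    rw [← this]; norm_num
  have h8 : ((2 : ℕ) : F) = 0 := by exact_mod_cast h7
  have h9 := (CharP.cast_eq_zero_iff F 3 2).1 h8
  omega

end LamNC

end Cfsg.Agent.Lib.BlockX
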