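import Mathlib
import Cfsg.Agent.Lib.BlockX.LamNCCore
import Cfsg.Agent.Lib.BlockX.NotBad
import Cfsg.Agent.Lib.BlockX.SLn

/-!
# Piece NC of the `S2985` blueprint: `Λ s ≠ 0`.
-/

set_option autoImplicit false

namespace Cfsg.Agent.Lib.BlockX

open Subgroup Cfsg Matrix
open scoped commutatorElement

variable {G : Type*} [Group G] [Finite G] {F : Type*} [Field F] [Fintype F] [CharP F 3]
  {E Q W V Z Y Ω B : Subgroup G} {t a : G} {c : Core F E Q W V Z Y Ω B t a} {S R : Subgroup G}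

theorem Lam_ne_zero {st : Sett c S R} {π Λ} (h : PiLam st π Λ) {s : G} (hs : s ∈ S) : Λ s ≠ 0 :=
  LamNC.lam_ne_zero_aux h (fun _ hg hx => not_bad st hg hx) K_comm_neg hs

end Cfsg.Agent.Lib.BlockX
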