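import Mathlib
import Cfsg.Prelude.Def_BaumannBlocks
import Cfsg.Agent.Lib.BlockX.Basics
import Cfsg.Agent.Lib.BlockX.SLn
import Cfsg.Agent.Lib.BlockX.Frames
import Cfsg.Agent.Lib.BlockX.LamClos
import Cfsg.Agent.Lib.BlockX.LamNC

/-!
# `R = Q R_d`, from the Gram lemma
-/

namespace Cfsg.Agent.Lib.BlockX
open Subgroup Cfsg Matrix
open scoped commutatorElement

variable {G : Type*} [Group G] [Finite G] {F : Type*} [Field F] [Fintype F] [CharP F 3]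
  {E Q W V Z Y Ω B : Subgroup G} {t a : G} {c : Core F E Q W V Z Y Ω B t a} {S R : Subgroup G}


/-- `dt (adj M a, b) = dt (a, M b)`. -/
theorem REq.dt_adj {F : Type*} [Field F] (M : M2 F) (a b : F2 F) :
    dt (M.adjugate.mulVec a) b = dt a (M.mulVec b) := by
  simp only [dt, Matrix.adjugate_fin_two, Matrix.mulVec, dotProduct, Fin.sum_univ_two,
    Matrix.of_apply, Matrix.cons_val', Matrix.cons_val_zero, Matrix.cons_val_one,
    Matrix.empty_val', Matrix.cons_val_fin_one]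
  ring

theorem REq.dt_swap {F : Type*} [Field F] (a b : F2 F) : dt a b = - dt b a := by
  simp only [dt]; ring

/-- The multiplicativity of `Λ`. -/
theorem Lam_mul {st : Sett c S R} {π Λ} (h : PiLam st π Λ) {u s : G} (hu : u ∈ S) (hs : s ∈ S) :
    Λ (u⁻¹ * s) = Λ u⁻¹ * Λ s := by
  have key := gram_main (F := F) (ι := ↥S)
    (fun A B => Λ (((B : G))⁻¹ * (A : G)))
    ((fun k : SL2 F => (k : M2 F)) '' (commutator (SL2 F) : Set (SL2 F)))
    (by rintro _ ⟨k, -, rfl⟩; exact k.2)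
    ⟨-1, neg_one_mem_K, by simp⟩
    (by intro A; simp [Lam_one h])
    (by
      intro A B
      have := Lam_inv h (S.mul_mem (S.inv_mem B.2) A.2)
      simpa using this)
    (by
      rintro A B _ ⟨k, hk, rfl⟩
      obtain ⟨e, he, hρ⟩ := c.ρ_surj k⁻¹ ((commutator (SL2 F)).inv_mem hk)
      refine ⟨⟨(A : G) * e * (A : G)⁻¹ * B, S.mul_mem (S.mul_mem (S.mul_mem A.2 (st.hES he))
        (S.inv_mem A.2)) B.2⟩, fun C => ?_⟩
      have h2 := Lam_clos h A.2 B.2 C.2 he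
      simp only
      rw [h2, hρ]
      have hinv : (((k⁻¹ : SL2 F) : M2 F))⁻¹ = (k : M2 F) := by
        apply Matrix.inv_eq_left_inv
        rw [← Matrix.SpecialLinearGroup.coe_mul, mul_inv_cancel, Matrix.SpecialLinearGroup.coe_one]
      rw [hinv])
    (by
      intro A B
      exact Lam_ne_zero h (S.mul_mem (S.inv_mem B.2) A.2))
    (by
      intro D h0 h1
      obtain ⟨k, hk, hk2⟩ := K_trace D h0 h1
      exact ⟨_, ⟨k, hk, rfl⟩, hk2⟩)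
    (by
      intro L hL
      exact K_span L (fun k hk => hL _ ⟨k, hk, rfl⟩))
    ⟨1, S.one_mem⟩ ⟨s, hs⟩ ⟨u, hu⟩
  simpa using key

/-- Elements `q'⁻¹ (s q s⁻¹)` lie in `R_d`. -/
theorem conj_mem_Q_Rd {st : Sett c S R} {π Λ} (h : PiLam st π Λ)
    (hgen : ∀ H : Subgroup G, (∀ s ∈ S, ∀ q ∈ Q, s * q * s⁻¹ ∈ H) → R ≤ H)
    {s q q' : G} (hs : s ∈ S) (hq : q ∈ Q) (hq' : q' ∈ Q)
    (hψ : c.ψ q' = (Λ s).mulVec (c.ψ q)) : q'⁻¹ * (s * q * s⁻¹) ∈ Rd R V := by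
  have hQR := st.hQR
  have ha : s * q * s⁻¹ ∈ R := st.conj_mem_R hs (hQR hq)
  have hb : q'⁻¹ ∈ R := R.inv_mem (hQR hq')
  refine st.mem_Rd_iff.2 ⟨R.mul_mem hb ha, ?_⟩
  -- the subgroup of `R` orthogonal to `x`
  set x := q'⁻¹ * (s * q * s⁻¹) with hx
  have hxR : x ∈ R := R.mul_mem hb ha
  let H : Subgroup G :=
    { carrier := {y | y ∈ R ∧ c.τ ⁅y, x⁆ = 0}
      mul_mem' := by
        rintro y y' ⟨hy, h0⟩ ⟨hy', h0'⟩
        refine ⟨R.mul_mem hy hy', ?_⟩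
        rw [st.τ_mul_left hy hy' hxR, h0, h0', add_zero]
      one_mem' := ⟨R.one_mem, Sett.τ_one_left⟩
      inv_mem' := by
        rintro y ⟨hy, h0⟩
        refine ⟨R.inv_mem hy, ?_⟩
        rw [st.τ_inv_left hy hxR, h0, neg_zero] }
  have hRH : R ≤ H := by
    apply hgen
    intro u hu p hp
    have hy : u * p * u⁻¹ ∈ R := st.conj_mem_R hu (hQR hp)
    refine ⟨hy, ?_⟩
    rw [hx, st.τ_mul_right hy hb ha, st.τ_inv_right hy (hQR hq')]
    -- second term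
    have t2 : c.τ ⁅u * p * u⁻¹, q'⁆ = dt ((Λ u).mulVec (c.ψ p)) ((Λ s).mulVec (c.ψ q)) := by
      rw [h.h1 _ hy _ hq', h.h5 u hu p hp, hψ]
    -- first term
    have hus : u⁻¹ * s ∈ S := S.mul_mem (S.inv_mem hu) hs
    have hz : (u⁻¹ * s) * q * (u⁻¹ * s)⁻¹ ∈ R := st.conj_mem_R hus (hQR hq)
    have t1 : c.τ ⁅u * p * u⁻¹, s * q * s⁻¹⁆ = - dt ((Λ (u⁻¹ * s)).mulVec (c.ψ q)) (c.ψ p) := by
      have e := st.τ_conj (S.inv_mem hu) hy ha
      have e1 : u⁻¹ * (u * p * u⁻¹) * u⁻¹⁻¹ = p := by group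
      have e2 : u⁻¹ * (s * q * s⁻¹) * u⁻¹⁻¹ = (u⁻¹ * s) * q * (u⁻¹ * s)⁻¹ := by group
      rw [e1, e2] at e
      rw [← e, st.τ_swap (hQR hp) hz, h.h1 _ hz _ hp, h.h5 _ hus q hq]
    rw [t1, t2, Lam_mul h hu hs, Lam_inv h hu, ← Matrix.mulVec_mulVec, REq.dt_adj,
      REq.dt_swap ((Λ s).mulVec (c.ψ q))]
    ring
  intro y hy
  exact (hRH hy).2

/-- **`R = Q R_d`.** -/
theorem R_eq (st : Sett c S R) (hgen : ∀ H : Subgroup G, (∀ s ∈ S, ∀ q ∈ Q, s * q * s⁻¹ ∈ H) → R ≤ H) :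
    ∀ x ∈ R, ∃ q ∈ Q, ∃ y ∈ Rd R V, x = q * y := by
  obtain ⟨π, Λ, h⟩ := exists_piLam st
  have hQS : Q ≤ S := c.hQE.trans st.hES
  let H : Subgroup G :=
    { carrier := {x | ∃ q ∈ Q, ∃ y ∈ Rd R V, x = q * y}
      mul_mem' := by
        rintro _ _ ⟨q, hq, y, hy, rfl⟩ ⟨q', hq', y', hy', rfl⟩
        refine ⟨q * q', Q.mul_mem hq hq', q'⁻¹ * y * q' * y', ?_, by group⟩
        have h1 : q'⁻¹ * y * q' ∈ Rd R V := by
          have := st.conj_mem_rd (Q.inv_mem hq' |> fun h => hQS h) hy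
          simpa using this
        exact st.rd.mul_mem h1 hy'
      one_mem' := ⟨1, Q.one_mem, 1, st.rd.one_mem, by simp⟩
      inv_mem' := by
        rintro _ ⟨q, hq, y, hy, rfl⟩
        refine ⟨q⁻¹, Q.inv_mem hq, q * y⁻¹ * q⁻¹, ?_, by group⟩
        exact st.conj_mem_rd (hQS hq) (st.rd.inv_mem hy) }
  have hRH : R ≤ H := by
    apply hgen
    intro s hs q hq
    obtain ⟨q', hq', hψ⟩ := c.ψ_surj ((Λ s).mulVec (c.ψ q))
    refine ⟨q', hq', _, conj_mem_Q_Rd h hgen hs hq hq' hψ, by group⟩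
  intro x hx
  exact hRH hx

end Cfsg.Agent.Lib.BlockX
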