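import Mathlib
import Cfsg.Prelude.Def_BaumannBlocks
import Cfsg.Agent.Lib.BlockX.Basics
import Cfsg.Agent.Lib.PGroup.BaumannNorm

/-! # PIECE CA of S2985: `rd_lemma`, `sett_stable` -/

namespace Cfsg.Agent.Lib.BlockX
open Subgroup Cfsg Matrix
open scoped commutatorElement

variable {G : Type*} [Group G] [Finite G] {F : Type*} [Field F] [Fintype F] [CharP F 3]
  {E Q W V Z Y Ω B : Subgroup G} {t a : G} {c : Core F E Q W V Z Y Ω B t a} {S R : Subgroup G}

namespace SettStable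

omit [Finite G] in
theorem conj_mem_of_le_normalizer {H T : Subgroup G} (hH : H ≤ normalizer (T : Set G)) {s x : G}
    (hs : s ∈ H) (hx : x ∈ T) : s * x * s⁻¹ ∈ T :=
  (mem_normalizer_iff.1 (hH hs) x).1 hx

omit [Finite G] in
theorem comm_mul_right' (x s₁ s₂ : G) : ⁅x, s₁ * s₂⁆ = ⁅x, s₁⁆ * (s₁ * ⁅x, s₂⁆ * s₁⁻¹) := by
  simp only [commutatorElement_def]; group

omit [Finite G] in
theorem comm_inv_right' (x s : G) : ⁅x, s⁻¹⁆ = s⁻¹ * (⁅x, s⁆)⁻¹ * s := by
  simp only [commutatorElement_def]; group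

omit [Finite G] in
theorem comm_conj (x u e : G) : ⁅x, u * e * u⁻¹⁆ = u * ⁅u⁻¹ * x * u, e⁆ * u⁻¹ := by
  simp only [commutatorElement_def]; group

/-- The basic closure step: to move `x` into `T` by all of `S`, generators `u e u⁻¹` suffice. -/
theorem comm_closure {E S T : Subgroup G} (hES : E ≤ S) (hS1 : S ≤ conjClosure S E)
    (hT : S ≤ normalizer (T : Set G)) {x : G}
    (h : ∀ u ∈ S, ∀ e ∈ E, ⁅x, u * e * u⁻¹⁆ ∈ T) : ∀ s ∈ S, ⁅x, s⁆ ∈ T := by
  intro s hs
  have hs' := hS1 hs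
  clear hs
  have key : s ∈ S ∧ ⁅x, s⁆ ∈ T := by
    unfold conjClosure at hs'
    induction hs' using closure_induction with
    | mem y hy =>
      obtain ⟨u, hu, e, he, rfl⟩ := hy
      exact ⟨S.mul_mem (S.mul_mem hu (hES he)) (S.inv_mem hu), h u hu e he⟩
    | one => exact ⟨S.one_mem, by simp [T.one_mem]⟩
    | mul y z _ _ hy hz =>
      refine ⟨S.mul_mem hy.1 hz.1, ?_⟩
      rw [comm_mul_right']
      exact T.mul_mem hy.2 (conj_mem_of_le_normalizer hT hy.1 hz.2)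
    | inv y _ hy =>
      refine ⟨S.inv_mem hy.1, ?_⟩
      rw [comm_inv_right']
      have := conj_mem_of_le_normalizer hT (S.inv_mem hy.1) (T.inv_mem hy.2)
      simpa using this
  exact key.2

omit [Finite G] in
theorem mem_conjClosure {S X : Subgroup G} {s q : G} (hs : s ∈ S) (hq : q ∈ X) :
    s * q * s⁻¹ ∈ conjClosure S X :=
  subset_closure ⟨s, hs, q, hq, rfl⟩

omit [Finite G] in
theorem le_conjClosure' (S X : Subgroup G) : X ≤ conjClosure S X := fun q hq => by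
  simpa using mem_conjClosure (S := S) (S.one_mem) hq

omit [Finite G] in
/-- `S` normalizes the closure of the `S`-conjugates of `X` (finite-free, both directions). -/
theorem le_normalizer_conjClosure (S X : Subgroup G) : S ≤ normalizer (conjClosure S X : Set G) := by
  have one : ∀ s ∈ S, ∀ x ∈ conjClosure S X, s * x * s⁻¹ ∈ conjClosure S X := by
    intro s hs x hx
    unfold conjClosure at hx
    induction hx using closure_induction with
    | mem y hy =>
      obtain ⟨u, hu, q, hq, rfl⟩ := hy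
      have : s * (u * q * u⁻¹) * s⁻¹ = (s * u) * q * (s * u)⁻¹ := by group
      rw [this]
      exact mem_conjClosure (S.mul_mem hs hu) hq
    | one => simp [(conjClosure S X).one_mem]
    | mul y z _ _ hy hz =>
      have : s * (y * z) * s⁻¹ = (s * y * s⁻¹) * (s * z * s⁻¹) := by group
      rw [this]
      exact (conjClosure S X).mul_mem hy hz
    | inv y _ hy =>
      have : s * y⁻¹ * s⁻¹ = (s * y * s⁻¹)⁻¹ := by group
      rw [this]
      exact (conjClosure S X).inv_mem hy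
  intro s hs
  refine mem_normalizer_iff.2 fun x => ⟨fun hx => one s hs x hx, fun hx => ?_⟩
  have := one s⁻¹ (S.inv_mem hs) _ hx
  simpa [mul_assoc] using this

omit [Finite G] in
theorem dt_surj_zero {K : Type*} [Field K] (b : F2 K) (h : ∀ a : F2 K, dt a b = 0) : b = 0 := by
  have h0 := h ![1, 0]
  have h1 := h ![0, 1]
  simp [dt] at h0 h1
  funext i
  fin_cases i
  · simpa using h1
  · simpa using h0

end SettStable

open SettStable

/-- If `[Q, y] ≤ V` then `[y, E] ≤ V`. -/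
theorem rd_lemma (c : Core F E Q W V Z Y Ω B t a) {y : G} (hy : y ∈ Y) (h : ∀ q ∈ Q, ⁅q, y⁆ ∈ V) : ∀ e ∈ E, ⁅y, e⁆ ∈ V := by
  -- first: `⁅y, e⁆ ∈ W`.
  have hEQ' : ∀ e ∈ E, ∀ q ∈ Q, e⁻¹ * q * e ∈ Q := by
    intro e he q hq
    have := conj_mem_of_le_normalizer c.hEQ (E.inv_mem he) hq
    simpa using this
  have hW : ∀ e ∈ E, ⁅y, e⁆ ∈ W := by
    intro e he
    have hwQ : ⁅y, e⁆ ∈ Q := c.hYE y hy e he
    refine (c.ψ_ker _ hwQ).1 ?_
    -- `y' = e y e⁻¹`
    have hy' : e * y⁻¹ * e⁻¹ ∈ Y := by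
      haveI := c.hYn
      have hEY : e * y⁻¹ * e⁻¹ ∈ Y := Subgroup.Normal.conj_mem c.hYn _ (Y.inv_mem hy) e
      exact hEY
    have hq : ∀ q ∈ Q, ⁅q, ⁅y, e⁆⁆ ∈ V := by
      intro q hq
      have h1 : ⁅y, e⁆ = y * (e * y⁻¹ * e⁻¹) := by
        simp only [commutatorElement_def]; group
      have h2 : ⁅q, y * (e * y⁻¹ * e⁻¹)⁆ = ⁅q, y⁆ * (y * ⁅q, e * y⁻¹ * e⁻¹⁆ * y⁻¹) := comm_mul_right' _ _ _
      rw [h1, h2]
      refine V.mul_mem (h q hq) ?_
      -- `⁅q, e y⁻¹ e⁻¹⁆ = e ⁅e⁻¹ q e, y⁻¹⁆ e⁻¹`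
      have h3 : ⁅q, e * y⁻¹ * e⁻¹⁆ = e * ⁅e⁻¹ * q * e, y⁻¹⁆ * e⁻¹ := by
        simp only [commutatorElement_def]; group
      have hq' := hEQ' e he q hq
      have h4 : ⁅e⁻¹ * q * e, y⁻¹⁆ = y⁻¹ * (⁅e⁻¹ * q * e, y⁆)⁻¹ * y := comm_inv_right' _ _
      have h5 : ⁅e⁻¹ * q * e, y⁆ ∈ V := h _ hq'
      have hc : ∀ (v : G), v ∈ V → ∀ (y₁ : G), y₁ ∈ Y → y₁ * v * y₁⁻¹ = v := by
        intro v hv y₁ hy₁
        rw [← c.w_comm (c.hVW hv) hy₁]; group
      rw [h3, h4]
      have h6 : y⁻¹ * (⁅e⁻¹ * q * e, y⁆)⁻¹ * y = (⁅e⁻¹ * q * e, y⁆)⁻¹ := by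
        have := hc _ (V.inv_mem h5) y⁻¹ (Y.inv_mem hy)
        simpa using this
      rw [h6]
      have h7 : e * (⁅e⁻¹ * q * e, y⁆)⁻¹ * e⁻¹ ∈ V :=
        conj_mem_of_le_normalizer c.hEV he (V.inv_mem h5)
      have h8 := hc _ h7 y hy
      rw [h8]
      exact h7
    have h0 : ∀ a : F2 F, dt a (c.ψ ⁅y, e⁆) = 0 := by
      intro a
      obtain ⟨q, hqQ, rfl⟩ := c.ψ_surj a
      rw [← c.τ_comm q hqQ _ hwQ]
      exact c.τ_of_V (hq q hqQ)
    exact dt_surj_zero _ h0
  -- the additive map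
  have hadd : ∀ e₁ ∈ E, ∀ e₂ ∈ E, c.τ ⁅y, e₁ * e₂⁆ = c.τ ⁅y, e₁⁆ + c.τ ⁅y, e₂⁆ := by
    intro e₁ he₁ e₂ he₂
    rw [comm_mul_right']
    have h1 := c.τ_conj_of (hW e₂ he₂) (s := e₁) (fun w hw => c.hΩE w hw e₁ he₁)
    rw [c.τ_mul _ (hW e₁ he₁) _ h1.2, h1.1]
  have hpow : ∀ e ∈ E, ∀ n : ℕ, c.τ ⁅y, e ^ n⁆ = (n : F) * c.τ ⁅y, e⁆ := by
    intro e he n
    induction n with
    | zero => simp [c.τ_one]
    | succ n ih =>
      rw [pow_succ, hadd _ (E.pow_mem he n) _ he, ih]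
      push_cast; ring
  -- the subgroup
  let X : Subgroup G :=
    { carrier := {e | e ∈ E ∧ c.τ ⁅y, e⁆ = 0}
      mul_mem' := by
        rintro x z ⟨hx, hx0⟩ ⟨hz, hz0⟩
        exact ⟨E.mul_mem hx hz, by rw [hadd x hx z hz, hx0, hz0, add_zero]⟩
      one_mem' := ⟨E.one_mem, by simp [c.τ_one]⟩
      inv_mem' := by
        rintro x ⟨hx, hx0⟩
        refine ⟨E.inv_mem hx, ?_⟩
        have := hadd x hx x⁻¹ (E.inv_mem hx)
        rw [mul_inv_cancel, hx0, zero_add] at this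
        rw [← this]
        simp [c.τ_one] }
  haveI : Fact (Nat.Prime 3) := ⟨Nat.prime_three⟩
  have hle : E ≤ X := by
    apply Cfsg.Agent.Lib.PGroup.BaumannNorm.forall_mem_of_pResidualOf (p := 3) c.hE3
    intro e he hcop
    refine ⟨he, ?_⟩
    have h1 := hpow e he (orderOf e)
    rw [pow_orderOf_eq_one] at h1
    have h2 : c.τ ⁅y, (1 : G)⁆ = 0 := by simp [c.τ_one]
    rw [h2] at h1
    have h3 : ((orderOf e : ℕ) : F) ≠ 0 := by
      intro h0
      rw [CharP.cast_eq_zero_iff F 3] at h0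
      have := Nat.Coprime.eq_one_of_dvd (Nat.Coprime.symm hcop) h0
      omega
    exact (mul_eq_zero.1 h1.symm).resolve_left h3
  intro e he
  exact (c.τ_ker _ (hW e he)).1 (hle he).2

/-- The `S`-closure of `Q` is a setting. -/
theorem sett_stable (c : Core F E Q W V Z Y Ω B t a) (hES : E ≤ S) (hS1 : S ≤ conjClosure S E)
    (hSρ : ∀ s ∈ S, ∃ e ∈ E, ∃ c' ∈ centralizer (V : Set G), s = e * c') (hBS : B ≤ normalizer (S : Set G)) :
    Sett c S (conjClosure S Q) := by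
  have hSV : S ≤ normalizer (V : Set G) := by
    intro s hs
    obtain ⟨e, he, c', hc', rfl⟩ := hSρ s hs
    refine (normalizer (V : Set G)).mul_mem (c.hEV he) ?_
    refine mem_normalizer_iff.2 fun x => ?_
    have hcomm : ∀ v ∈ V, c' * v * c'⁻¹ = v := by
      intro v hv
      rw [← mem_centralizer_iff.1 hc' v hv]; group
    constructor
    · intro hx
      rw [hcomm x hx]; exact hx
    · intro hx
      have h1 := hcomm _ hx
      have h2 : c' * x * c'⁻¹ = x :=
        mul_left_cancel (a := c') (mul_right_cancel (b := c'⁻¹) h1)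
      rw [h2] at hx
      exact hx
  have hQR : Q ≤ conjClosure S Q := le_conjClosure' S Q
  have hconjY : ∀ (u y : G), y ∈ Y → u⁻¹ * y * u ∈ Y := by
    intro u y hy
    have := c.hYn.conj_mem y hy u⁻¹
    simpa using this
  have hconjΩ : ∀ (u w : G), w ∈ Ω → u⁻¹ * w * u ∈ Ω := by
    intro u w hw
    have := c.hΩn.conj_mem w hw u⁻¹
    simpa using this
  have hRY : conjClosure S Q ≤ Y := by
    unfold conjClosure
    rw [closure_le]
    rintro x ⟨u, _, q, hq, rfl⟩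
    exact c.hYn.conj_mem q (c.hQY hq) u
  have hSR : S ≤ normalizer (conjClosure S Q : Set G) := le_normalizer_conjClosure S Q
  have hBR : B ≤ normalizer (conjClosure S Q : Set G) := by
    have one : ∀ b ∈ B, ∀ x ∈ conjClosure S Q, b * x * b⁻¹ ∈ conjClosure S Q := by
      intro b hb x hx
      unfold conjClosure at hx
      induction hx using closure_induction with
      | mem y hy =>
        obtain ⟨u, hu, q, hq, rfl⟩ := hy
        have h1 : b * (u * q * u⁻¹) * b⁻¹ = (b * u * b⁻¹) * (b * q * b⁻¹) * (b * u * b⁻¹)⁻¹ := by group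
        rw [h1]
        exact mem_conjClosure (conj_mem_of_le_normalizer hBS hb hu)
          (conj_mem_of_le_normalizer c.hBQ hb hq)
      | one => simp [(conjClosure S Q).one_mem]
      | mul y z _ _ hy hz =>
        have h1 : b * (y * z) * b⁻¹ = (b * y * b⁻¹) * (b * z * b⁻¹) := by group
        rw [h1]
        exact (conjClosure S Q).mul_mem hy hz
      | inv y _ hy =>
        have h1 : b * y⁻¹ * b⁻¹ = (b * y * b⁻¹)⁻¹ := by group
        rw [h1]
        exact (conjClosure S Q).inv_mem hy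
    intro b hb
    refine mem_normalizer_iff.2 fun x => ⟨fun hx => one b hb x hx, fun hx => ?_⟩
    have := one b⁻¹ (B.inv_mem hb) _ hx
    simpa [mul_assoc] using this
  have hΩS : ∀ w ∈ Ω, ∀ s ∈ S, ⁅w, s⁆ ∈ V := by
    intro w hw
    apply comm_closure hES hS1 hSV
    intro u hu e he
    rw [comm_conj]
    exact conj_mem_of_le_normalizer hSV hu (c.hΩE _ (hconjΩ u w hw) e he)
  have hYS : ∀ y ∈ Y, ∀ s ∈ S, ⁅y, s⁆ ∈ conjClosure S Q := by
    intro y hy
    apply comm_closure hES hS1 hSR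
    intro u hu e he
    rw [comm_conj]
    exact mem_conjClosure hu (c.hYE _ (hconjY u y hy) e he)
  have hSW : ∀ s ∈ S, ∀ w ∈ W, s * w * s⁻¹ ∈ W := fun s hs w hw =>
    (c.τ_conj_of hw (fun w' hw' => hΩS w' hw' s hs)).2
  have hRYW : ∀ x ∈ conjClosure S Q, ∀ y ∈ Y, ⁅x, y⁆ ∈ W := by
    intro x hx y hy
    have hxY := hRY hx
    clear hxY
    have hcomW : ∀ (x₁ w : G), x₁ ∈ Y → w ∈ W → x₁ * w * x₁⁻¹ = w := by
      intro x₁ w hx₁ hw
      rw [← c.w_comm hw hx₁]; group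
    have key : x ∈ conjClosure S Q ∧ ⁅x, y⁆ ∈ W := by
      unfold conjClosure at hx
      induction hx using closure_induction with
      | mem z hz =>
        obtain ⟨u, hu, q, hq, rfl⟩ := hz
        refine ⟨mem_conjClosure hu hq, ?_⟩
        have h1 : ⁅u * q * u⁻¹, y⁆ = u * ⁅q, u⁻¹ * y * u⁆ * u⁻¹ := by
          simp only [commutatorElement_def]; group
        rw [h1]
        exact hSW u hu _ (c.hQYW q hq _ (hconjY u y hy))
      | one => exact ⟨(conjClosure S Q).one_mem, by simp [W.one_mem]⟩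
      | mul z₁ z₂ _ _ h₁ h₂ =>
        refine ⟨(conjClosure S Q).mul_mem h₁.1 h₂.1, ?_⟩
        have h1 : ⁅z₁ * z₂, y⁆ = (z₁ * ⁅z₂, y⁆ * z₁⁻¹) * ⁅z₁, y⁆ := by
          simp only [commutatorElement_def]; group
        rw [h1, hcomW z₁ _ (hRY h₁.1) h₂.2]
        exact W.mul_mem h₂.2 h₁.2
      | inv z _ h₁ =>
        refine ⟨(conjClosure S Q).inv_mem h₁.1, ?_⟩
        have h1 : ⁅z⁻¹, y⁆ = z⁻¹ * (⁅z, y⁆)⁻¹ * z := by
          simp only [commutatorElement_def]; group
        rw [h1]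
        have h2 := hcomW z⁻¹ _ (Y.inv_mem (hRY h₁.1)) (W.inv_mem h₁.2)
        simp only [inv_inv] at h2
        rw [h2]
        exact W.inv_mem h₁.2
    exact key.2
  refine
    { hES := hES
      hSV := hSV
      hSρ := hSρ
      hBS := hBS
      hQR := hQR
      hRY := hRY
      hSR := hSR
      hBR := hBR
      hYS := hYS
      hΩS := hΩS
      hRR := fun x hx y hy => hRYW x hx y (hRY hy)
      hRdS := ?_
      hD := ?_ }
  · rintro y ⟨hyR, hyV⟩
    apply comm_closure hES hS1 hSV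
    intro u hu e he
    rw [comm_conj]
    refine conj_mem_of_le_normalizer hSV hu ?_
    refine rd_lemma c (hconjY u y (hRY hyR)) ?_ e he
    intro q hq
    have h1 : ⁅q, u⁻¹ * y * u⁆ = u⁻¹ * ⁅u * q * u⁻¹, y⁆ * u := by
      simp only [commutatorElement_def]; group
    rw [h1]
    have h2 := conj_mem_of_le_normalizer hSV (S.inv_mem hu) (hyV _ (mem_conjClosure hu hq))
    simpa using h2
  · intro D hDp _ _ hSD hBD d hd
    have hDE : D ≤ normalizer (E : Set G) := c.hS2983 D hDp hBD (hES.trans hSD)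
    have hEmem : ∀ e ∈ E, ∀ x : G, x ∈ E ↔ e * x * e⁻¹ ∈ E := by
      intro e he x
      constructor
      · intro hx; exact E.mul_mem (E.mul_mem he hx) (E.inv_mem he)
      · intro h
        have := E.mul_mem (E.mul_mem (E.inv_mem he) h) he
        simpa [mul_assoc] using this
    have hinfQ : D ⊓ E ≤ Q := by
      refine c.hQ3 (D ⊓ E) inf_le_right (hDp.to_le inf_le_left) ?_
      intro e he
      refine mem_normalizer_iff.2 fun x => ?_
      have h1 := mem_normalizer_iff.1 (hSD (hES he)) x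
      have h2 := hEmem e he x
      simp only [mem_inf] at h1 ⊢
      rw [h1, h2]
    apply comm_closure hES hS1 hSR
    intro u hu e he
    rw [comm_conj]
    refine mem_conjClosure hu (hinfQ ⟨?_, ?_⟩)
    · -- `⁅d', e⁆ ∈ D`
      have hd' : u⁻¹ * d * u ∈ D := by
        have := conj_mem_of_le_normalizer hSD (S.inv_mem hu) hd
        simpa using this
      have h1 : ⁅u⁻¹ * d * u, e⁆ = (u⁻¹ * d * u) * (e * (u⁻¹ * d * u)⁻¹ * e⁻¹) := by
        simp only [commutatorElement_def]; group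
      rw [h1]
      exact D.mul_mem hd' (conj_mem_of_le_normalizer hSD (hES he) (D.inv_mem hd'))
    · have hd' : u⁻¹ * d * u ∈ D := by
        have := conj_mem_of_le_normalizer hSD (S.inv_mem hu) hd
        simpa using this
      have h1 : ⁅u⁻¹ * d * u, e⁆ = ((u⁻¹ * d * u) * e * (u⁻¹ * d * u)⁻¹) * e⁻¹ :=
        commutatorElement_def _ _
      rw [h1]
      exact E.mul_mem (conj_mem_of_le_normalizer hDE hd' he) (E.inv_mem he)

end Cfsg.Agent.Lib.BlockX
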