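import Mathlib
import Cfsg.Prelude.Def_BaumannBlocks
import Cfsg.Agent.Lib.BlockX.Basics
import Cfsg.Agent.Lib.PGroup.BaumannNorm
import Cfsg.Agent.Lib.BlockX.SLn
import Cfsg.Agent.Lib.BlockX.Chain

/-!
# `two_normal` (core): if the conjugates of `E` under `S` all normalize `E`, then so does `S`,
given the `final_pgroup` step as a hypothesis.
-/

namespace Cfsg.Agent.Lib.BlockX

open Subgroup Cfsg Matrix
open scoped commutatorElement


namespace TwoNormal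

variable {G : Type*} [Group G] [Finite G] {F : Type*} [Field F] [Fintype F] [CharP F 3]
  {E Q W V Z Y Ω B : Subgroup G} {t a : G} {S : Subgroup G}

theorem nm_of_fwd {H : Subgroup G} {g : G} (h : ∀ x ∈ H, g * x * g⁻¹ ∈ H) :
    g ∈ normalizer (H : Set G) := by
  haveI : Finite (H : Set G) := inferInstance
  exact mem_normalizer_fintype (fun n hn => h n hn)

theorem cent_le_nm {H : Subgroup G} {g : G} (h : g ∈ centralizer (H : Set G)) :
    g ∈ normalizer (H : Set G) := by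
  refine nm_of_fwd fun x hx => ?_
  have : g * x * g⁻¹ = x := by
    rw [(mem_centralizer_iff.1 h x hx).symm]; group
  rwa [this]

theorem nm_conj {H : Subgroup G} {g x : G} (h : g ∈ normalizer (H : Set G)) (hx : x ∈ H) :
    g * x * g⁻¹ ∈ H := (mem_normalizer_iff.1 h x).1 hx

theorem nm_conj' {H : Subgroup G} {g x : G} (h : g ∈ normalizer (H : Set G)) (hx : x ∈ H) :
    g⁻¹ * x * g ∈ H := by
  simpa using nm_conj (inv_mem h) hx

/-- The action of an element of `G` on `V` through a matrix. -/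
def Acts (c : Core F E Q W V Z Y Ω B t a) (g : G) (k : SL2 F) : Prop :=
  g ∈ normalizer (V : Set G) ∧ ∀ v ∈ V, c.φ (g * v * g⁻¹) = sact k (c.φ v)

omit [Fintype F] [CharP F 3] [Finite G] in
theorem sact_mul (k l : SL2 F) (a : F2 F) : sact (k * l) a = sact k (sact l a) := by
  simp only [sact, Matrix.SpecialLinearGroup.coe_mul, Matrix.mulVec_mulVec]

omit [Fintype F] [CharP F 3] [Finite G] in
theorem sact_one (a : F2 F) : sact (1 : SL2 F) a = a := by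
  simp only [sact, Matrix.SpecialLinearGroup.coe_one, Matrix.one_mulVec]

theorem SL2_ext_act {k l : SL2 F} (h : ∀ a, sact k a = sact l a) : k = l := by
  apply Subtype.ext
  apply Matrix.ext_of_mulVec_single
  intro i
  exact h _

section
variable (c : Core F E Q W V Z Y Ω B t a)

theorem acts_E {e : G} (he : e ∈ E) : Acts c e (c.ρv e) :=
  ⟨c.hEV he, fun v hv => c.ρv_act e he v hv⟩

theorem acts_cent {g : G} (hg : g ∈ centralizer (V : Set G)) : Acts c g 1 := by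
  refine ⟨cent_le_nm hg, fun v hv => ?_⟩
  have : g * v * g⁻¹ = v := by
    rw [(mem_centralizer_iff.1 hg v hv).symm]; group
  rw [this, sact_one]

variable {c}

theorem Acts.mul {g h : G} {k l : SL2 F} (hg : Acts c g k) (hh : Acts c h l) :
    Acts c (g * h) (k * l) := by
  refine ⟨mul_mem hg.1 hh.1, fun v hv => ?_⟩
  have h1 : g * h * v * (g * h)⁻¹ = g * (h * v * h⁻¹) * g⁻¹ := by group
  rw [h1, hg.2 _ (nm_conj hh.1 hv), hh.2 v hv, sact_mul]

theorem Acts.inv {g : G} {k : SL2 F} (hg : Acts c g k) : Acts c g⁻¹ k⁻¹ := by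
  refine ⟨inv_mem hg.1, fun v hv => ?_⟩
  have h1 := hg.2 _ (nm_conj' hg.1 hv)
  have h2 : g * (g⁻¹ * v * g) * g⁻¹ = v := by group
  rw [h2] at h1
  have h3 : g⁻¹ * v * (g⁻¹)⁻¹ = g⁻¹ * v * g := by group
  rw [h3, h1]
  rw [← sact_mul, inv_mul_cancel, sact_one]

end

theorem ρv_one (c : Core F E Q W V Z Y Ω B t a) : c.ρv 1 = 1 := by
  have h := c.ρv_mul 1 E.one_mem 1 E.one_mem
  simpa using h.symm

theorem ρv_pow (c : Core F E Q W V Z Y Ω B t a) {e : G} (he : e ∈ E) (n : ℕ) :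
    c.ρv (e ^ n) = c.ρv e ^ n := by
  induction n with
  | zero => simp [ρv_one]
  | succ n ih => rw [pow_succ, c.ρv_mul _ (pow_mem he n) _ he, ih, pow_succ]

theorem ρ_one (c : Core F E Q W V Z Y Ω B t a) : c.ρ 1 = 1 := by
  have h := c.ρ_mul 1 E.one_mem 1 E.one_mem
  simpa using h.symm

theorem Q_pgroup (c : Core F E Q W V Z Y Ω B t a) : IsPGroup 3 Q :=
  c.hYp.to_le c.hQY

theorem eq_one_of_three {q : G} (hQ : IsPGroup 3 Q) (hq : q ∈ Q) (h2 : q * q = 1) : q = 1 := by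
  obtain ⟨n, hn⟩ := hQ ⟨q, hq⟩
  have hn' : q ^ (3 ^ n) = 1 := by
    have := congrArg Subtype.val hn
    simpa using this
  have h4 : q ^ 2 = 1 := by rw [pow_two]; exact h2
  have : orderOf q ∣ Nat.gcd (3 ^ n) 2 := Nat.dvd_gcd (orderOf_dvd_of_pow_eq_one hn') (orderOf_dvd_of_pow_eq_one h4)
  have hg : Nat.gcd (3 ^ n) 2 = 1 := Nat.Coprime.pow_left n (by decide)
  rw [hg, Nat.dvd_one, orderOf_eq_one_iff] at this
  exact this

section S1

variable (c : Core F E Q W V Z Y Ω B t a) (hE' : E ≤ S)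
  (hSρ : ∀ s ∈ S, ∃ e ∈ E, ∃ c' ∈ centralizer (V : Set G), s = e * c')
  (hn : conjClosure S E ≤ normalizer (E : Set G))

include hSρ in
theorem acts_S {u : G} (hu : u ∈ S) : ∃ k ∈ commutator (SL2 F), Acts c u k := by
  obtain ⟨e, he, c', hc', rfl⟩ := hSρ u hu
  refine ⟨c.ρv e, c.ρv_mem e he, ?_⟩
  have := (acts_E c he).mul (acts_cent c hc')
  simpa using this

include hn in
/-- `S₁` normalizes `uEu⁻¹`. -/
theorem conj_E_of {u s e : G} (hu : u ∈ S) (hs : s ∈ conjClosure S E) (he : e ∈ E) :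
    u⁻¹ * (s * (u * e * u⁻¹) * s⁻¹) * u ∈ E := by
  have h1 : u⁻¹ * s * u ∈ conjClosure S E := by
    simpa using nm_conj (mem_normalizer_conjClosure (S := S) (X := E) (inv_mem hu)) hs
  have h2 := nm_conj (hn h1) he
  have h3 : u⁻¹ * (s * (u * e * u⁻¹) * s⁻¹) * u = u⁻¹ * s * u * e * (u⁻¹ * s * u)⁻¹ := by group
  rwa [h3]

include hE' hSρ hn in
/-- An involution in `E ∩ uEu⁻¹` which acts as `-1` on both natural modules. -/
theorem exists_inv {u : G} (hu : u ∈ S) :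
    ∃ τ ∈ E, u⁻¹ * τ * u ∈ E ∧ c.ρ τ = -1 := by
  classical
  obtain ⟨x, hx, y, hy, hxy⟩ := K_comm_neg (F := F)
  obtain ⟨k, hk, huk⟩ := acts_S c hSρ hu
  obtain ⟨e₁, he₁, rfl⟩ := c.ρv_surj x hx
  have hy' : k⁻¹ * y * k ∈ commutator (SL2 F) := by
    have := (inferInstance : (commutator (SL2 F)).Normal).conj_mem y hy k⁻¹
    simpa using this
  obtain ⟨e₂, he₂, he₂'⟩ := c.ρv_surj _ hy'
  set h₂ := u * e₂ * u⁻¹ with hh₂
  have h₂S₁ : h₂ ∈ conjClosure S E := conj_mem_conjClosure hu he₂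
  have e₁S₁ : e₁ ∈ conjClosure S E := le_conjClosure he₁
  have acts₂ : Acts c h₂ y := by
    have := (huk.mul (acts_E c he₂)).mul huk.inv
    rw [he₂'] at this
    have hkk : k * (k⁻¹ * y * k) * k⁻¹ = y := by group
    rwa [hkk] at this
  set y₀ := e₁ * h₂ * e₁⁻¹ * h₂⁻¹ with hy₀
  have hy₀E : y₀ ∈ E := by
    have : y₀ = e₁ * (h₂ * e₁⁻¹ * h₂⁻¹) := by rw [hy₀]; group
    rw [this]
    exact E.mul_mem he₁ (nm_conj (hn h₂S₁) (E.inv_mem he₁))
  have hy₀u : u⁻¹ * y₀ * u ∈ E := by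
    have h1 := conj_E_of (S := S) hn hu e₁S₁ he₂
    have : u⁻¹ * y₀ * u = (u⁻¹ * (e₁ * (u * e₂ * u⁻¹) * e₁⁻¹) * u) * e₂⁻¹ := by
      rw [hy₀, hh₂]; group
    rw [this]
    exact E.mul_mem h1 (E.inv_mem he₂)
  have acts₀ : Acts c y₀ (-1) := by
    have := (((acts_E c he₁).mul acts₂).mul (acts_E c he₁).inv).mul acts₂.inv
    rwa [hxy] at this
  have hρv₀ : c.ρv y₀ = -1 := by
    apply SL2_ext_act
    intro b
    obtain ⟨v, hv, rfl⟩ := c.φ_surj b
    rw [← c.ρv_act y₀ hy₀E v hv, acts₀.2 v hv]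
  -- the 3-part
  have hsq : y₀ * y₀ ∈ Q := by
    rw [← c.ρv_ker _ (E.mul_mem hy₀E hy₀E), c.ρv_mul _ hy₀E _ hy₀E, hρv₀]
    simp
  obtain ⟨m, hm⟩ := (Q_pgroup c) ⟨y₀ * y₀, hsq⟩
  have hm' : (y₀ * y₀) ^ (3 ^ m) = 1 := by
    have := congrArg Subtype.val hm
    simpa using this
  set τ := y₀ ^ (3 ^ m) with hτ
  have hτ2 : τ * τ = 1 := by
    rw [hτ, ← hm', (Commute.refl y₀).mul_pow]
  have hτE : τ ∈ E := pow_mem hy₀E _
  have hτu : u⁻¹ * τ * u ∈ E := by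
    have : u⁻¹ * τ * u = (u⁻¹ * y₀ * u) ^ (3 ^ m) := by
      have h := conj_pow (a := u⁻¹) (b := y₀) (i := 3 ^ m)
      rw [inv_inv] at h
      rw [h, hτ]
    rw [this]; exact pow_mem hy₀u _
  have hρvτ : c.ρv τ = -1 := by
    rw [hτ, ρv_pow c hy₀E, hρv₀]
    exact Odd.neg_one_pow (Odd.pow (by decide))
  refine ⟨τ, hτE, hτu, ?_⟩
  have h1 : c.ρ τ * c.ρ τ = 1 := by
    rw [← c.ρ_mul _ hτE _ hτE, hτ2, ρ_one]
  rcases sq_eq_one_SL2 _ h1 with h | h
  · exfalso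
    have hτQ : τ ∈ Q := (c.ρ_ker τ hτE).1 h
    have hτ1 := eq_one_of_three (Q_pgroup c) hτQ hτ2
    rw [hτ1, ρv_one] at hρvτ
    have := congrArg (fun k : SL2 F => (k : M2 F) 0 0) hρvτ
    simp at this
    have h2 : (2 : F) = 0 := by
      have h3 : (1 : F) + 1 = 0 := by
        nth_rewrite 1 [this]; simp
      rw [← h3]; norm_num
    have h3 : ((2 : ℕ) : F) = 0 := by exact_mod_cast h2
    rw [CharP.cast_eq_zero_iff F 3] at h3
    omega
  · exact h

omit [Finite G] [Fintype F] [CharP F 3] in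
theorem central_comm {z x y : G} (hzx : Commute z x) (hzy : Commute z y) : ⁅z * x, y⁆ = ⁅x, y⁆ := by
  simp only [commutatorElement_def]
  have h1 : z * x * y * (z * x)⁻¹ * y⁻¹ = z * (x * y * x⁻¹) * z⁻¹ * y⁻¹ := by group
  have h2 : Commute z (x * y * x⁻¹) := ((hzx.mul_right hzy).mul_right hzx.inv_right)
  rw [h1, h2.eq]
  group

omit [Finite G] [Fintype F] [CharP F 3] in
theorem central_comm' {z x y : G} (hzx : Commute z x) (hzy : Commute z y) : ⁅x, z * y⁆ = ⁅x, y⁆ := by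
  have h1 : ⁅x, z * y⁆ = (⁅z * y, x⁆)⁻¹ := by simp [commutatorElement_inv]
  have h2 : ⁅x, y⁆ = (⁅y, x⁆)⁻¹ := by simp [commutatorElement_inv]
  rw [h1, h2, central_comm hzy hzx]

include c hE' hSρ hn in
/-- Every element of `S` normalizes `Q`. -/
theorem conj_Q {u q : G} (hu : u ∈ S) (hq : q ∈ Q) : u⁻¹ * q * u ∈ Q := by
  classical
  obtain ⟨τ, hτE, hτu, hρτ⟩ := exists_inv c hE' hSρ hn hu
  -- `P = Q ∩ uQu⁻¹` covers `Q` modulo `W`
  have key : ∀ q ∈ Q, ∃ w ∈ W, ∃ p ∈ Q, u⁻¹ * p * u ∈ Q ∧ q = w * p := by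
    intro q hq
    set p := ⁅q, τ⁆ with hp
    have hpQ : p ∈ Q := by
      have : p = q * (τ * q⁻¹ * τ⁻¹) := by rw [hp, commutatorElement_def]; group
      rw [this]
      exact Q.mul_mem hq (nm_conj (c.hEQ hτE) (Q.inv_mem hq))
    have hpu : u⁻¹ * p * u ∈ Q := by
      have hYq : u⁻¹ * q * u ∈ Y := by
        have := c.hYn.conj_mem q (c.hQY hq) u⁻¹
        simpa using this
      have := c.hYE _ hYq _ hτu
      have h2 : ⁅u⁻¹ * q * u, u⁻¹ * τ * u⁆ = u⁻¹ * p * u := by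
        rw [hp]; simp only [commutatorElement_def]; group
      rwa [h2] at this
    have hψp : c.ψ p = - c.ψ q := by
      have h1 : p = q * (τ * q⁻¹ * τ⁻¹) := by rw [hp, commutatorElement_def]; group
      have h2 : c.ψ (τ * q⁻¹ * τ⁻¹) = c.ψ q := by
        rw [c.ρ_act τ hτE _ (Q.inv_mem hq), hρτ, sact_neg_one, c.ψ_inv hq, neg_neg]
      rw [h1, c.ψ_mul _ hq _ (nm_conj (c.hEQ hτE) (Q.inv_mem hq)), h2]
      have h3 : (3 : F) = 0 := by exact_mod_cast CharP.cast_eq_zero F 3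
      funext i
      simp only [Pi.add_apply, Pi.neg_apply]
      have : c.ψ q i + c.ψ q i + c.ψ q i = 0 := by
        have : c.ψ q i + c.ψ q i + c.ψ q i = 3 * c.ψ q i := by ring
        rw [this, h3, zero_mul]
      linear_combination this
    have hqp : q * p ∈ W := by
      rw [← c.ψ_ker _ (Q.mul_mem hq hpQ), c.ψ_mul _ hq _ hpQ, hψp]
      simp
    refine ⟨q * p, hqp, p⁻¹, Q.inv_mem hpQ, ?_, by group⟩
    have : u⁻¹ * p⁻¹ * u = (u⁻¹ * p * u)⁻¹ := by group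
    rw [this]; exact Q.inv_mem hpu
  -- commutators
  have hZ : ∀ z ∈ Z, u⁻¹ * z * u ∈ Q := by
    have hle : ⁅Q, Q⁆ ≤ Q.comap (MulAut.conj u⁻¹).toMonoidHom := by
      rw [commutator_le]
      intro q₁ hq₁ q₂ hq₂
      obtain ⟨w₁, hw₁, p₁, hp₁, hp₁u, rfl⟩ := key q₁ hq₁
      obtain ⟨w₂, hw₂, p₂, hp₂, hp₂u, rfl⟩ := key q₂ hq₂
      have cmm : ∀ {w y : G}, w ∈ W → y ∈ Y → Commute w y := fun hw hy => c.w_comm hw hy
      have hpY₁ := c.hQY hp₁
      have hpY₂ := c.hQY hp₂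
      have hwY₂ := c.W_le_Y hw₂
      rw [central_comm (cmm hw₁ hpY₁) (cmm hw₁ ((Y.mul_mem hwY₂ hpY₂))),
        central_comm' (cmm hw₂ hpY₁) (cmm hw₂ hpY₂)]
      have h1 : ⁅u⁻¹ * p₁ * u, u⁻¹ * p₂ * u⁆ ∈ Q := by
        have h2 : ⁅u⁻¹ * p₁ * u, u⁻¹ * p₂ * u⁆ = (u⁻¹ * p₁ * u) * (u⁻¹ * p₂ * u) *
            (u⁻¹ * p₁ * u)⁻¹ * (u⁻¹ * p₂ * u)⁻¹ := commutatorElement_def _ _
        rw [h2]
        exact Q.mul_mem (Q.mul_mem (Q.mul_mem hp₁u hp₂u) (Q.inv_mem hp₁u)) (Q.inv_mem hp₂u)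
      have h3 : (MulAut.conj u⁻¹).toMonoidHom ⁅p₁, p₂⁆ = ⁅u⁻¹ * p₁ * u, u⁻¹ * p₂ * u⁆ := by
        simp only [commutatorElement_def, MulEquiv.coe_toMonoidHom, MulAut.conj_apply, inv_inv]
        group
      rw [mem_comap, h3]
      exact h1
    rw [c.hQQ] at hle
    intro z hz
    have := hle hz
    rw [mem_comap] at this
    simpa using this
  have huV : ∀ v ∈ V, u⁻¹ * v * u ∈ Q := by
    intro v hv
    obtain ⟨k, _, huk⟩ := acts_S c hSρ hu
    exact c.V_le_Q (nm_conj' huk.1 hv)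
  have huW : ∀ w ∈ W, u⁻¹ * w * u ∈ Q := by
    intro w hw
    obtain ⟨v, hv, z, hz, rfl⟩ := c.hVZ w hw
    have : u⁻¹ * (v * z) * u = (u⁻¹ * v * u) * (u⁻¹ * z * u) := by group
    rw [this]
    exact Q.mul_mem (huV v hv) (hZ z hz)
  obtain ⟨w, hw, p, _, hpu, rfl⟩ := key q hq
  have : u⁻¹ * (w * p) * u = (u⁻¹ * w * u) * (u⁻¹ * p * u) := by group
  rw [this]
  exact Q.mul_mem (huW w hw) hpu

include c hE' hSρ hn in
theorem S_le_nQ : S ≤ normalizer (Q : Set G) := by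
  intro u hu
  refine nm_of_fwd fun q hq => ?_
  simpa using conj_Q c hE' hSρ hn (inv_mem hu) hq

include c hSρ in
theorem S_le_nV : S ≤ normalizer (V : Set G) := by
  intro u hu
  obtain ⟨k, _, h⟩ := acts_S c hSρ hu
  exact h.1

/-- commutators with products -/
theorem comm_mul_right_eq (x s₁ s₂ : G) : ⁅x, s₁ * s₂⁆ = ⁅x, s₁⁆ * (s₁ * ⁅x, s₂⁆ * s₁⁻¹) := by
  simp only [commutatorElement_def]; group

theorem comm_inv_right_eq (x s : G) : ⁅x, s⁻¹⁆ = s⁻¹ * (⁅x, s⁆)⁻¹ * s := by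
  simp only [commutatorElement_def]; group

/-- Induction over `S₁` for commutators landing in a subgroup normalized by `S₁`. -/
theorem comm_closure {H : Subgroup G} (hH : conjClosure S E ≤ normalizer (H : Set G)) {x s : G}
    (hgen : ∀ u ∈ S, ∀ e ∈ E, ⁅x, u * e * u⁻¹⁆ ∈ H) (hs : s ∈ conjClosure S E) : ⁅x, s⁆ ∈ H := by
  refine closure_induction (p := fun s _ => ⁅x, s⁆ ∈ H) ?_ ?_ ?_ ?_ hs
  · rintro _ ⟨u, hu, e, he, rfl⟩
    exact hgen u hu e he
  · simp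
  · intro s₁ s₂ hs₁ _ h₁ h₂
    rw [comm_mul_right_eq]
    exact H.mul_mem h₁ (nm_conj (hH hs₁) h₂)
  · intro s hs h
    rw [comm_inv_right_eq]
    exact nm_conj' (hH hs) (H.inv_mem h)

include c hE' hSρ hn in
theorem hYS₁ {y s : G} (hy : y ∈ Y) (hs : s ∈ conjClosure S E) : ⁅y, s⁆ ∈ Q := by
  refine comm_closure (fun s hs => S_le_nQ c hE' hSρ hn (conjClosure_le hE' hs)) (fun u hu e he => ?_) hs
  have h1 : u⁻¹ * y * u ∈ Y := by simpa using c.hYn.conj_mem y hy u⁻¹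
  have h2 := c.hYE _ h1 _ he
  have h3 : ⁅y, u * e * u⁻¹⁆ = u * ⁅u⁻¹ * y * u, e⁆ * u⁻¹ := by
    simp only [commutatorElement_def]; group
  rw [h3]
  exact nm_conj (S_le_nQ c hE' hSρ hn hu) h2

include c hE' hSρ in
theorem hΩS₁ {w s : G} (hw : w ∈ Ω) (hs : s ∈ conjClosure S E) : ⁅w, s⁆ ∈ V := by
  refine comm_closure (fun s hs => S_le_nV c hSρ (conjClosure_le hE' hs)) (fun u hu e he => ?_) hs
  have h1 : u⁻¹ * w * u ∈ Ω := by simpa using c.hΩn.conj_mem w hw u⁻¹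
  have h2 := c.hΩE _ h1 _ he
  have h3 : ⁅w, u * e * u⁻¹⁆ = u * ⁅u⁻¹ * w * u, e⁆ * u⁻¹ := by
    simp only [commutatorElement_def]; group
  rw [h3]
  exact nm_conj (S_le_nV c hSρ hu) h2

omit [Finite G] [Fintype F] [CharP F 3] in
theorem dt_nondeg {a : F2 F} (h : ∀ b : F2 F, dt a b = 0) : a = 0 := by
  have h0 := h ![1, 0]
  have h1 := h ![0, 1]
  simp [dt] at h0 h1
  funext i
  fin_cases i
  · simpa using h1
  · simpa using h0

include c hE' hSρ hn in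
theorem hD₁ (D : Subgroup G) (hD3 : IsPGroup 3 D) (hDS : D ≤ conjClosure S E)
    (hSD : conjClosure S E ≤ normalizer (D : Set G)) {d s : G} (hd : d ∈ D)
    (hs : s ∈ conjClosure S E) : ⁅d, s⁆ ∈ Q := by
  refine comm_closure (fun s hs => S_le_nQ c hE' hSρ hn (conjClosure_le hE' hs)) (fun u hu e he => ?_) hs
  -- `D₀ = u⁻¹ D u ∩ E`
  let D₀ : Subgroup G := (D.map (MulAut.conj u⁻¹).toMonoidHom) ⊓ E
  have hD₀le : D₀ ≤ E := inf_le_right
  have hD₀3 : IsPGroup 3 D₀ := by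
    refine IsPGroup.to_le (IsPGroup.map hD3 _) (inf_le_left : D₀ ≤ _)
  have hu1 : ∀ e' ∈ E, u * e' * u⁻¹ ∈ conjClosure S E := fun e' he' => conj_mem_conjClosure hu he'
  have huD : ∀ x ∈ D, u⁻¹ * x * u ∈ D.map (MulAut.conj u⁻¹).toMonoidHom := by
    intro x hx
    exact ⟨x, hx, by simp⟩
  have hED₀ : E ≤ normalizer (D₀ : Set G) := by
    intro e' he'
    refine nm_of_fwd fun x hx => ?_
    obtain ⟨⟨y, hy, rfl⟩, hxE⟩ := hx
    refine ⟨?_, nm_conj (show e' ∈ normalizer (E : Set G) by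
      exact nm_of_fwd fun x hx => E.mul_mem (E.mul_mem he' hx) (E.inv_mem he')) hxE⟩
    have h1 := nm_conj (hSD (hu1 e' he')) hy
    have h2 := huD _ h1
    have heq : e' * (MulEquiv.toMonoidHom (MulAut.conj u⁻¹)) y * e'⁻¹ =
        u⁻¹ * (u * e' * u⁻¹ * y * (u * e' * u⁻¹)⁻¹) * u := by
      simp only [MulEquiv.coe_toMonoidHom, MulAut.conj_apply, inv_inv]
      group
    show e' * (MulEquiv.toMonoidHom (MulAut.conj u⁻¹)) y * e'⁻¹ ∈ D.map (MulAut.conj u⁻¹).toMonoidHom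
    rw [heq]
    exact h2
  have hle := c.hQ3 D₀ hD₀le hD₀3 hED₀
  have hcomm1 : u⁻¹ * ⁅d, u * e * u⁻¹⁆ * u ∈ D₀ := by
    refine ⟨huD _ ?_, ?_⟩
    · have : ⁅d, u * e * u⁻¹⁆ = d * ((u * e * u⁻¹) * d⁻¹ * (u * e * u⁻¹)⁻¹) := by
        rw [commutatorElement_def]; group
      rw [this]
      exact D.mul_mem hd (nm_conj (hSD (hu1 e he)) (D.inv_mem hd))
    · have h1 := conj_E_of (S := S) hn hu (hDS hd) he
      have : u⁻¹ * ⁅d, u * e * u⁻¹⁆ * u = (u⁻¹ * (d * (u * e * u⁻¹) * d⁻¹) * u) * e⁻¹ := by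
        rw [commutatorElement_def]; group
      rw [this]
      exact E.mul_mem h1 (E.inv_mem he)
  have h4 := nm_conj (S_le_nQ c hE' hSρ hn hu) (hle hcomm1)
  have h5 : u * (u⁻¹ * ⁅d, u * e * u⁻¹⁆ * u) * u⁻¹ = ⁅d, u * e * u⁻¹⁆ := by group
  rwa [h5] at h4

include hE' hSρ hn in
theorem sett₁ (hES : E ≤ conjClosure S E) (hBS : B ≤ normalizer (S : Set G)) : Sett c (conjClosure S E) Q where
  hES := hES
  hSV := fun s hs => S_le_nV c hSρ (conjClosure_le hE' hs)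
  hSρ := fun s hs => hSρ s (conjClosure_le hE' hs)
  hBS := fun b hb => normalizer_conjClosure (hBS hb) (c.hBE hb)
  hQR := le_refl _
  hRY := c.hQY
  hSR := fun s hs => S_le_nQ c hE' hSρ hn (conjClosure_le hE' hs)
  hBR := c.hBQ
  hYS := fun y hy s hs => hYS₁ c hE' hSρ hn hy hs
  hΩS := fun w hw s hs => hΩS₁ c hE' hSρ hw hs
  hRR := fun x hx y hy => c.hQYW x hx y (c.hQY hy)
  hRdS := by
    rintro y ⟨hyQ, hy⟩ s hs
    refine hΩS₁ c hE' hSρ (c.hWΩ ?_) hs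
    rw [← c.ψ_ker y hyQ]
    have hd : ∀ b : F2 F, dt (c.ψ y) b = 0 := by
      intro b
      obtain ⟨q, hq, rfl⟩ := c.ψ_surj b
      have h1 := c.τ_of_V (hy q hq)
      rw [c.τ_comm q hq y hyQ] at h1
      simp only [dt] at h1 ⊢
      linear_combination -h1
    exact dt_nondeg hd
  hD := fun D hD3 hDS _ hSD _ d hd s hs => hD₁ c hE' hSρ hn D hD3 hDS hSD hd hs

omit [Fintype F] [CharP F 3] in
theorem pResidualOf_conj {p : ℕ} [Fact p.Prime] (u : G) {E : Subgroup G} (hE : pResidualOf p E = E) :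
    pResidualOf p (E.map (MulAut.conj u).toMonoidHom) = E.map (MulAut.conj u).toMonoidHom := by
  apply le_antisymm
  · unfold pResidualOf
    exact map_subtype_le _
  · have : E ≤ (pResidualOf p (E.map (MulAut.conj u).toMonoidHom)).comap (MulAut.conj u).toMonoidHom := by
      apply Cfsg.Agent.Lib.PGroup.BaumannNorm.forall_mem_of_pResidualOf hE
      intro e he hco
      rw [mem_comap]
      unfold pResidualOf pResidual
      have hmem : (MulAut.conj u).toMonoidHom e ∈ E.map (MulAut.conj u).toMonoidHom := ⟨e, he, rfl⟩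
      refine ⟨⟨_, hmem⟩, subset_closure ?_, rfl⟩
      show ((orderOf _).Coprime p)
      rw [← Subgroup.orderOf_coe]
      simpa [MulAut.conj_apply, Cfsg.Agent.Lib.PGroup.BaumannNorm.orderOf_conj] using hco
    rw [map_le_iff_le_comap]
    exact this

end S1

end TwoNormal

open TwoNormal in
theorem two_normal_core {G : Type*} [Group G] [Finite G] {F : Type*} [Field F] [Fintype F] [CharP F 3]
    {E Q W V Z Y Ω B : Subgroup G} {t a : G} {S : Subgroup G}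
    (c : Core F E Q W V Z Y Ω B t a) (hES : E ≤ conjClosure S E) (hE' : E ≤ S)
    (hSρ : ∀ s ∈ S, ∃ e ∈ E, ∃ c' ∈ centralizer (V : Set G), s = e * c') (hBS : B ≤ normalizer (S : Set G))
    (hn : conjClosure S E ≤ normalizer (E : Set G))
    (hfinal : Sett c (conjClosure S E) Q → (∀ x ∈ Q, ∃ q ∈ Q, ∃ y ∈ Rd Q V, x = q * y) →
      IsPGroup 3 (conjClosure S E ⊓ centralizer (V : Set G) : Subgroup G)) :
    S ≤ normalizer (E : Set G) := by
  intro u hu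
  have st := sett₁ c hE' hSρ hn hES hBS
  have hX := hfinal st (fun x hx => ⟨x, hx, 1, ⟨Q.one_mem, fun x _ => by simp [V.one_mem]⟩, by simp⟩)
  haveI : Fact (Nat.Prime 3) := ⟨by decide⟩
  have hconj : ∀ u ∈ S, E.map (MulAut.conj u).toMonoidHom ≤ E := by
    intro u hu
    refine residual_le (p := 3) hn hX ?_ ?_ (pResidualOf_conj u c.hE3)
    · intro s hs
      obtain ⟨e, he, c', hc', rfl⟩ := hSρ s (conjClosure_le hE' hs)
      refine ⟨e, he, c', ⟨?_, hc'⟩, rfl⟩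
      have : c' = e⁻¹ * (e * c') := by group
      show c' ∈ conjClosure S E
      rw [this]
      exact (conjClosure S E).mul_mem ((conjClosure S E).inv_mem (hES he)) hs
    · rintro _ ⟨e, he, rfl⟩
      exact conj_mem_conjClosure hu he
  refine nm_of_fwd fun x hx => ?_
  exact hconj u hu ⟨x, hx, rfl⟩

end Cfsg.Agent.Lib.BlockX
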