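import Mathlib
import Cfsg.Agent.Lib.BlockX.FinalP
import Cfsg.Agent.Lib.BlockX.TwoNormalCore

/-!
# `two_normal`: if the conjugates of `E` under `S` all normalize `E`, then so does `S`.
-/

namespace Cfsg.Agent.Lib.BlockX

open Subgroup Cfsg Matrix

theorem two_normal {G : Type*} [Group G] [Finite G] {F : Type*} [Field F] [Fintype F] [CharP F 3]
    {E Q W V Z Y Ω B : Subgroup G} {t a : G} {S : Subgroup G}
    (c : Core F E Q W V Z Y Ω B t a) (hES : E ≤ conjClosure S E) (hE' : E ≤ S)
    (hSρ : ∀ s ∈ S, ∃ e ∈ E, ∃ c' ∈ centralizer (V : Set G), s = e * c') (hBS : B ≤ normalizer (S : Set G))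
    (hn : conjClosure S E ≤ normalizer (E : Set G)) : S ≤ normalizer (E : Set G) :=
  two_normal_core c hES hE' hSρ hBS hn (fun st hR => final_pgroup st hR)

end Cfsg.Agent.Lib.BlockX
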