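import Mathlib
import Cfsg.Agent.Lib.BlockX.FinalP
import Cfsg.Agent.Lib.BlockX.REq
import Cfsg.Agent.Lib.BlockX.SettStable
import Cfsg.Agent.Lib.BlockX.TwoNormal
import Cfsg.Agent.Lib.PGroup.BaumannSect

/-! The main theorem on `Core`: `C(V) ≤ N(E)`. -/

namespace Cfsg.Agent.Lib.BlockX
open Subgroup Cfsg Matrix
open scoped commutatorElement

variable {G : Type*} [Group G] [Finite G] {F : Type*} [Field F] [Fintype F] [CharP F 3]
  {E Q W V Z Y Ω B : Subgroup G} {t a : G} {S R : Subgroup G}

theorem normalizer_centralizer_of {X : Subgroup G} {g : G} (hg : g ∈ normalizer (X : Set G)) :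
    g ∈ normalizer (centralizer (X : Set G) : Set G) :=
  Cfsg.Agent.Lib.PGroup.BaumannSect.normalizer_le_centralizer X hg

/-- the induction -/
theorem core_P (c : Core F E Q W V Z Y Ω B t a) : ∀ (n : ℕ) (S : Subgroup G), Nat.card S = n → E ≤ S →
    (∀ s ∈ S, ∃ e ∈ E, ∃ c' ∈ centralizer (V : Set G), s = e * c') → B ≤ normalizer (S : Set G) →
    S ≤ normalizer (E : Set G) := by
  intro n
  induction n using Nat.strong_induction_on with
  | _ n ih =>
    intro S hn hES hSρ hBS
    by_cases hst : S ≤ conjClosure S E
    · -- stable case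
      have st := sett_stable c hES hst hSρ hBS
      have hgen : ∀ H : Subgroup G, (∀ s ∈ S, ∀ q ∈ Q, s * q * s⁻¹ ∈ H) → conjClosure S Q ≤ H := by
        intro H hH
        rw [conjClosure, closure_le]
        rintro _ ⟨s, hs, q, hq, rfl⟩
        exact hH s hs q hq
      have hX := final_pgroup st (R_eq st hgen)
      have hXn : S ⊓ centralizer (V : Set G) ≤ normalizer (E : Set G) := by
        refine c.hS2983 _ hX ?_ ?_
        · intro b hb
          exact Cfsg.Agent.Lib.PGroup.BaumannSect.mem_normalizer_inf (hBS hb)
            (normalizer_centralizer_of (c.hBV hb))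
        · intro e he
          exact Cfsg.Agent.Lib.PGroup.BaumannSect.mem_normalizer_inf
            (Subgroup.le_normalizer (hES he)) (normalizer_centralizer_of (c.hEV he))
      intro s hs
      obtain ⟨e, he, c', hc', rfl⟩ := hSρ s hs
      have hc's : c' ∈ S := by
        have : c' = e⁻¹ * (e * c') := by group
        rw [this]; exact S.mul_mem (S.inv_mem (hES he)) hs
      exact mul_mem (Subgroup.le_normalizer he) (hXn ⟨hc's, hc'⟩)
    · -- unstable case
      have hle : conjClosure S E ≤ S := conjClosure_le hES
      have hlt : Nat.card (conjClosure S E) < n := by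
        rw [← hn]
        have h4 : (conjClosure S E : Set G) ⊂ (S : Set G) :=
          SetLike.coe_ssubset_coe.2 (lt_of_le_of_ne hle (fun h => hst h.ge))
        have h5 := Set.ncard_lt_ncard h4 (Set.toFinite _)
        rwa [← Nat.card_coe_set_eq, ← Nat.card_coe_set_eq] at h5
      have hIH := ih _ hlt (conjClosure S E) rfl le_conjClosure (fun s hs => hSρ s (hle hs))
        (fun b hb => normalizer_conjClosure (hBS hb) (c.hBE hb))
      exact two_normal c le_conjClosure hES hSρ hBS hIH

theorem core_main (c : Core F E Q W V Z Y Ω B t a) : centralizer (V : Set G) ≤ normalizer (E : Set G) := by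
  have hEC : E ≤ normalizer (centralizer (V : Set G) : Set G) :=
    fun e he => normalizer_centralizer_of (c.hEV he)
  have hP := core_P c _ (E ⊔ centralizer (V : Set G)) rfl le_sup_left ?_ ?_
  · exact le_sup_right.trans hP
  · intro s hs
    obtain ⟨e, he, d, hd, rfl⟩ := Cfsg.Agent.Lib.PGroup.BaumannSect.exists_mul_of_mem_sup hEC hs
    exact ⟨_, he, _, hd, rfl⟩
  · intro b hb
    have h1 := Subgroup.mem_normalizer_iff.1 (c.hBE hb)
    have h2 := Subgroup.mem_normalizer_iff.1 (normalizer_centralizer_of (c.hBV hb))
    have h3 : (E ⊔ centralizer (V : Set G)).map (MulAut.conj b).toMonoidHom =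
        E ⊔ centralizer (V : Set G) := by
      rw [Subgroup.map_sup]
      congr 1
      · ext x
        simp only [Subgroup.mem_map, MulEquiv.coe_toMonoidHom, MulAut.conj_apply]
        constructor
        · rintro ⟨y, hy, rfl⟩; exact (h1 y).1 hy
        · intro hx; exact ⟨b⁻¹ * x * b, (h1 _).2 (by simpa [mul_assoc] using hx), by group⟩
      · ext x
        simp only [Subgroup.mem_map, MulEquiv.coe_toMonoidHom, MulAut.conj_apply]
        constructor
        · rintro ⟨y, hy, rfl⟩; exact (h2 y).1 hy
        · intro hx; exact ⟨b⁻¹ * x * b, (h2 _).2 (by simpa [mul_assoc] using hx), by group⟩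
    rw [mem_normalizer_iff]
    intro x
    constructor
    · intro hx
      rw [← h3]; exact ⟨x, hx, rfl⟩
    · intro hx
      rw [← h3] at hx
      obtain ⟨y, hy, hyx⟩ := hx
      have : y = x := by
        have hh : b * y * b⁻¹ = b * x * b⁻¹ := hyx
        exact mul_left_cancel (mul_right_cancel hh)
      rwa [← this]

end Cfsg.Agent.Lib.BlockX
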