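import Mathlib
import Cfsg.Prelude.Def_BaumannBlocks
import Cfsg.Agent.Lib.PGroup.BaumannSect
import Cfsg.Agent.Lib.PGroup.Timmesfeld

/-!
# `exists_quad` : a Baumann block has an element of `B(T)` acting quadratically on `V = [W, E]`.
-/

set_option autoImplicit false

namespace Cfsg.Agent.Lib.BlockX

open Subgroup Cfsg Cfsg.Agent.Lib.PGroup.BaumannNorm Cfsg.Agent.Lib.PGroup.BaumannSect
  Cfsg.Agent.Lib.PGroup.ThompsonG Cfsg.Agent.Lib.PGroup.LargeSub2 Cfsg.Agent.Lib.Basic.PCore
open scoped commutatorElement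

variable {G : Type*} [Group G]

namespace QuadExists

theorem best_of_max [Finite G] {p : ℕ} [Fact p.Prime] {X A V : Subgroup G} (hA : A ∈ gMaxEA p X)
    (hVX : V ≤ X) (hV : IsElementaryAbelian p V) : IsBestOffenderOn p V A := by
  refine ⟨fun B hB => ?_, ?_, fun a ha => ?_⟩
  · have hBe : IsElementaryAbelian p B := ea_mono hA.2.1 hB
    have hCe : IsElementaryAbelian p (V ⊓ centralizer (B : Set G) : Subgroup G) :=
      ea_mono hV inf_le_left
    have hc : ∀ b ∈ B, ∀ c ∈ (V ⊓ centralizer (B : Set G) : Subgroup G), b * c = c * b := by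
      intro b hb c hc
      exact (mem_centralizer_iff.1 hc.2 b hb)
    have h1 := hA.2.2 _ (sup_le (hB.trans hA.1) (inf_le_left.trans hVX)) (ea_sup hBe hCe hc)
    have hnorm : B ≤ normalizer ((V ⊓ centralizer (B : Set G) : Subgroup G) : Set G) := by
      intro b hb
      rw [mem_normalizer_iff]
      intro c
      constructor
      · intro hc'
        have := hc b hb c hc'
        rwa [this, mul_inv_cancel_right]
      · intro hc'
        have := hc b hb _ hc'
        have e : b * c * b⁻¹ * b = b * (b * c * b⁻¹) := by rw [this]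
        have e2 : c = b * c * b⁻¹ := by
          have : b * c * b⁻¹ * b = b * c := by group
          rw [this] at e
          exact mul_left_cancel e
        rwa [e2]
    have h2 := Cfsg.Agent.Lib.PGroup.Timmesfeld.card_sup_mul_card_inf_of_le_normalizer B
      (V ⊓ centralizer (B : Set G)) hnorm
    have h3 : B ⊓ (V ⊓ centralizer (B : Set G)) ≤ V ⊓ centralizer (A : Set G) := by
      intro x hx
      refine ⟨hx.2.1, mem_centralizer_iff.2 fun a ha => ?_⟩
      exact ea_comm hA.2.1 ha (hB hx.1)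
    have h4 := Subgroup.card_le_of_le h3
    calc Nat.card B * Nat.card ↥(V ⊓ centralizer (B : Set G)) = _ := h2.symm
      _ ≤ _ := Nat.mul_le_mul h1 h4
  · rw [Subgroup.commutator_le]
    intro a ha b hb
    have : ⁅a, b⁆ = 1 := commutatorElement_eq_one_iff_mul_comm.mpr (ea_comm hA.2.1 ha hb)
    rw [this]
    exact one_mem _
  · rw [hA.2.1.2 a ha]
    exact one_mem _

theorem le_normalizer_of_comm {E B : Subgroup G} (h : ⁅E, B⁆ ≤ E) : B ≤ normalizer (E : Set G) := by
  have key : ∀ b ∈ B, ∀ e ∈ E, b * e * b⁻¹ ∈ E := by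
    intro b hb e he
    have h1 : ⁅e⁻¹, b⁆ ∈ E := h (Subgroup.commutator_mem_commutator (E.inv_mem he) hb)
    have h2 : b * e * b⁻¹ = e * ⁅e⁻¹, b⁆ := by
      simp only [commutatorElement_def]; group
    rw [h2]
    exact E.mul_mem he h1
  intro b hb
  rw [mem_normalizer_iff]
  intro e
  refine ⟨key b hb e, fun he => ?_⟩
  have := key b⁻¹ (B.inv_mem hb) _ he
  have e2 : b⁻¹ * (b * e * b⁻¹) * b⁻¹⁻¹ = e := by group
  rwa [e2] at this

theorem exists_quad_aux [Finite G] {p : ℕ} [Fact p.Prime]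
    (hG : centralizer (pCore p G : Set G) ≤ pCore p G) (T : Sylow p G) (E : Subgroup G)
    (hE : IsBaumannBlock p (T : Subgroup G) E) : ∃ a ∈ baumannSubgroupOf p (T : Subgroup G),
      a ∉ centralizer ((⁅omegaOneCenter p (pCoreOf p E), E⁆ : Subgroup G) : Set G) ∧
      ∀ v ∈ (⁅omegaOneCenter p (pCoreOf p E), E⁆ : Subgroup G), ⁅⁅v, a⁆, a⁆ = 1 := by
  obtain ⟨-, h2, h3⟩ := block_main hG T E hE
  set V : Subgroup G := ⁅omegaOneCenter p (pCoreOf p E), E⁆ with hVdef
  have hEE : E ≤ normalizer (E : Set G) := Subgroup.le_normalizer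
  have hNW : normalizer (E : Set G) ≤ normalizer (omegaOneCenter p (pCoreOf p E) : Set G) :=
    (normalizer_le_normalizer_pCoreOf E).trans (normalizer_le_omegaOneCenter _)
  have hVW : V ≤ omegaOneCenter p (pCoreOf p E) := commutator_le_of_normalizer (hEE.trans hNW)
  have hVe : IsElementaryAbelian p V := ea_mono (omegaOneCenter_ea _) hVW
  have hVT : V ≤ (T : Subgroup G) := h2.trans ((omegaOneCenter_le _).trans (pCore_le_sylow T))
  have hBE : baumannSubgroupOf p (T : Subgroup G) ≤ normalizer (E : Set G) :=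
    le_normalizer_of_comm hE.2.1.le
  have hNV : normalizer (E : Set G) ≤ normalizer (V : Set G) := fun x hx =>
    mem_normalizer_commutator (hNW hx) hx
  -- a largest elementary abelian subgroup not centralizing `V`
  have hex : ∃ A ∈ gMaxEA p (T : Subgroup G), ⁅V, A⁆ ≠ ⊥ := by
    by_contra hcon
    push Not at hcon
    apply h3
    rw [Subgroup.commutator_eq_bot_iff_le_centralizer]
    intro v hv
    rw [mem_centralizer_iff]
    have hJ : thompsonSubgroupOf p (T : Subgroup G) ≤ centralizer ({v} : Set G) := by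
      rw [thompsonSubgroupOf_le_iff]
      intro A hA a ha
      have h4 := hcon A hA
      have h5 : ⁅v, a⁆ ∈ (⊥ : Subgroup G) := h4 ▸ Subgroup.commutator_mem_commutator hv ha
      have h6 : ⁅v, a⁆ = 1 := by simpa using h5
      rw [mem_centralizer_iff]
      intro h hh
      rw [Set.mem_singleton_iff] at hh
      subst hh
      exact commutatorElement_eq_one_iff_mul_comm.1 h6
    intro j hj
    exact (mem_centralizer_iff.1 (hJ hj) v (Set.mem_singleton v)).symm
  obtain ⟨A, hA, hAV⟩ := hex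
  have hAB : A ≤ baumannSubgroupOf p (T : Subgroup G) :=
    (le_thompsonSubgroupOf hA).trans (thompson_le_baumann _)
  have hAN : A ≤ normalizer (V : Set G) := hAB.trans (hBE.trans hNV)
  have hbest := best_of_max hA hVT hVe
  obtain ⟨-, -, h5, -⟩ := Cfsg.Agent.Lib.PGroup.Timmesfeld.timmesfeld V A hVe hAN hbest V le_rfl
  have h6 := h5 hAV
  have hex2 : ∃ a ∈ (A ⊓ centralizer ((⁅V, A⁆ : Subgroup G) : Set G) : Subgroup G),
      a ∉ centralizer (V : Set G) := by
    by_contra hcon
    push Not at hcon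
    apply h6
    rw [Subgroup.commutator_eq_bot_iff_le_centralizer]
    intro v hv
    rw [mem_centralizer_iff]
    intro a ha
    exact (mem_centralizer_iff.1 (hcon a ha) v hv).symm
  obtain ⟨a, ha, hac⟩ := hex2
  refine ⟨a, hAB ha.1, hac, fun v hv => ?_⟩
  have h7 : ⁅v, a⁆ ∈ (⁅V, A⁆ : Subgroup G) := Subgroup.commutator_mem_commutator hv ha.1
  have h8 := mem_centralizer_iff.1 ha.2 _ h7
  exact commutatorElement_eq_one_iff_mul_comm.2 h8

end QuadExists

/-! ## PIECE X4 -/
theorem exists_quad [Finite G] (hG : centralizer (pCore 3 G : Set G) ≤ pCore 3 G) (T : Sylow 3 G)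
    (E : Subgroup G) (hE : IsBaumannBlock 3 (T : Subgroup G) E) :
    ∃ a ∈ baumannSubgroupOf 3 (T : Subgroup G),
      a ∉ centralizer ((⁅omegaOneCenter 3 (pCoreOf 3 E), E⁆ : Subgroup G) : Set G) ∧
      ∀ v ∈ (⁅omegaOneCenter 3 (pCoreOf 3 E), E⁆ : Subgroup G), ⁅⁅v, a⁆, a⁆ = 1 :=
  QuadExists.exists_quad_aux hG T E hE

end Cfsg.Agent.Lib.BlockX
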