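import Mathlib
import Cfsg.Agent.Lib.BlockX.Core

/-! The raw elementwise data of an exceptional Baumann block (shared by pieces X0, X1, X2, X3, X5, XF of S2985). -/

namespace Cfsg.Agent.Lib.BlockX
open Subgroup Cfsg Matrix
open scoped commutatorElement

variable {G : Type*} [Group G]

/-- Raw elementwise data -/
structure Raw (F : Type*) [Field F] (E Q W V Z Y Ω B : Subgroup G) where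
  ψ₁ : G → F2 F
  ρ₁ : G → SL2 F
  ψ₂ : G → F2 F
  ρ₂ : G → SL2 F
  hQE : Q ≤ E
  hEQ : E ≤ normalizer (Q : Set G)
  hQ3 : ∀ D : Subgroup G, D ≤ E → IsPGroup 3 D → E ≤ normalizer (D : Set G) → D ≤ Q
  hE3 : pResidualOf 3 E = E
  hQp : IsPGroup 3 Q
  hWdef : W = omegaOneCenter 3 Q
  hZdef : Z = W ⊓ centralizer (E : Set G)
  hVdef : V = ⁅W, E⁆
  hQQ : ⁅Q, Q⁆ = Z
  hcard : Nat.card Z = Nat.card F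
  -- section W/Z
  ψ₁_mul : ∀ x ∈ W, ∀ y ∈ W, ψ₁ (x * y) = ψ₁ x + ψ₁ y
  ψ₁_surj : ∀ b : F2 F, ∃ w ∈ W, ψ₁ w = b
  ψ₁_ker : ∀ w ∈ W, ψ₁ w = 0 ↔ w ∈ Z
  ρ₁_mul : ∀ x ∈ E, ∀ y ∈ E, ρ₁ (x * y) = ρ₁ x * ρ₁ y
  ρ₁_mem : ∀ e ∈ E, ρ₁ e ∈ commutator (SL2 F)
  ρ₁_surj : ∀ k ∈ commutator (SL2 F), ∃ e ∈ E, ρ₁ e = k
  ρ₁_act : ∀ e ∈ E, ∀ w ∈ W, ψ₁ (e * w * e⁻¹) = sact (ρ₁ e) (ψ₁ w)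
  ρ₁_ker : ∀ e ∈ E, ρ₁ e = 1 ↔ e ∈ Q
  -- section Q/W
  ψ₂_mul : ∀ x ∈ Q, ∀ y ∈ Q, ψ₂ (x * y) = ψ₂ x + ψ₂ y
  ψ₂_surj : ∀ b : F2 F, ∃ q ∈ Q, ψ₂ q = b
  ψ₂_ker : ∀ q ∈ Q, ψ₂ q = 0 ↔ q ∈ W
  ρ₂_mul : ∀ x ∈ E, ∀ y ∈ E, ρ₂ (x * y) = ρ₂ x * ρ₂ y
  ρ₂_mem : ∀ e ∈ E, ρ₂ e ∈ commutator (SL2 F)
  ρ₂_surj : ∀ k ∈ commutator (SL2 F), ∃ e ∈ E, ρ₂ e = k
  ρ₂_act : ∀ e ∈ E, ∀ q ∈ Q, ψ₂ (e * q * e⁻¹) = sact (ρ₂ e) (ψ₂ q)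
  ρ₂_ker : ∀ e ∈ E, ρ₂ e = 1 ↔ e ∈ Q
  -- the group Y = O₃(G)
  hYn : Y.Normal
  hYp : IsPGroup 3 Y
  hYC : centralizer (Y : Set G) ≤ Y
  hΩdef : Ω = omegaOneCenter 3 Y
  hYE : Y ≤ normalizer (E : Set G)
  hVΩ : V ≤ Ω
  -- Baumann
  hBE : B ≤ normalizer (E : Set G)
  hBp : IsPGroup 3 B
  hS2983 : ∀ D : Subgroup G, IsPGroup 3 D → B ≤ normalizer (D : Set G) →
    E ≤ normalizer (D : Set G) → D ≤ normalizer (E : Set G)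
  hnq0 : ∀ b ∈ B, b ∉ centralizer (W : Set G) → ¬ ∀ q ∈ Q, ⁅⁅q, b⁆, b⁆ ∈ Z


end Cfsg.Agent.Lib.BlockX
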