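import Mathlib
import Cfsg.Agent.Lib.BlockX.RawDef
import Cfsg.Agent.Lib.PGroup.BaumannSect

/-! Piece X1 of S2985: first consequences of the raw data of an exceptional block. -/

namespace Cfsg.Agent.Lib.BlockX
open Subgroup Cfsg Matrix
open scoped commutatorElement
open Cfsg.Agent.Lib.PGroup.BaumannSect Cfsg.Agent.Lib.PGroup.BaumannNorm

variable {G : Type*} [Group G] {F : Type*} [Field F]
  {E Q W V Z Y Ω B : Subgroup G}

namespace RawAux

theorem two_ne_zero_F [CharP F 3] : (2 : F) ≠ 0 := by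
  intro h
  have h2 : ((2 : ℕ) : F) = 0 := by exact_mod_cast h
  rw [CharP.cast_eq_zero_iff F 3] at h2
  norm_num at h2

theorem neg_one_ne_one [CharP F 3] : (-1 : SL2 F) ≠ 1 := by
  intro h
  have h1 := congrArg (fun x : SL2 F => (x : M2 F) 0 0) h
  simp at h1
  have h2 : (2 : F) = 0 := by
    have : (1 : F) + 1 = 0 := by
      have h3 : (-1 : F) = 1 := by simpa using h1
      calc (1 : F) + 1 = 1 + (-1) := by rw [h3]
        _ = 0 := by ring
    linear_combination this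
  exact two_ne_zero_F h2

theorem neg_one_mem [CharP F 3] : (-1 : SL2 F) ∈ commutator (SL2 F) := by
  have h3 : (3 : F) = 0 := by
    have h2 : ((3 : ℕ) : F) = 0 := by rw [CharP.cast_eq_zero_iff F 3]
    exact_mod_cast h2
  let i : SL2 F := ⟨!![0, -1; 1, 0], by simp [Matrix.det_fin_two]⟩
  let j : SL2 F := ⟨!![1, 1; 1, -1], by
    simp [Matrix.det_fin_two]; linear_combination -h3⟩
  have hij : ⁅i, j⁆ = -1 := by
    have h : i * j = (-1 : SL2 F) * (j * i) := by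
      apply Subtype.ext
      rw [Matrix.SpecialLinearGroup.coe_mul, Matrix.SpecialLinearGroup.coe_mul, Matrix.SpecialLinearGroup.coe_mul,
        Matrix.SpecialLinearGroup.coe_neg, Matrix.SpecialLinearGroup.coe_one]
      ext a b
      fin_cases a <;> fin_cases b <;>
        simp [i, j, Matrix.mul_apply, Fin.sum_univ_two]
    rw [commutatorElement_def, h]
    group
  rw [← hij]
  exact Subgroup.commutator_mem_commutator (mem_top _) (mem_top _)

theorem sq_eq_one [CharP F 3] (g : SL2 F) (h : g * g = 1) : g = 1 ∨ g = -1 := by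
  have hdet : (g : M2 F) 0 0 * (g : M2 F) 1 1 - (g : M2 F) 0 1 * (g : M2 F) 1 0 = 1 := by
    have := g.2
    rwa [Matrix.det_fin_two] at this
  have h' : (g : M2 F) * (g : M2 F) = 1 := by
    have := congrArg (fun x : SL2 F => (x : M2 F)) h
    simpa using this
  have e00 := congrFun (congrFun h' 0) 0
  have e01 := congrFun (congrFun h' 0) 1
  have e10 := congrFun (congrFun h' 1) 0
  have e11 := congrFun (congrFun h' 1) 1
  simp only [Matrix.mul_apply, Fin.sum_univ_two, Matrix.one_apply] at e00 e01 e10 e11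
  simp at e00 e01 e10 e11
  set a := (g : M2 F) 0 0 with ha
  set b := (g : M2 F) 0 1 with hb
  set c := (g : M2 F) 1 0 with hc
  set d := (g : M2 F) 1 1 with hd
  by_cases hs : a + d = 0
  · exfalso
    have hd' : d = -a := by linear_combination hs
    rw [hd'] at hdet
    apply two_ne_zero_F (F := F)
    linear_combination -e00 - hdet
  · have hb0 : b = 0 := by
      have : b * (a + d) = 0 := by linear_combination e01
      exact (mul_eq_zero.1 this).resolve_right hs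
    have hc0 : c = 0 := by
      have : c * (a + d) = 0 := by linear_combination e10
      exact (mul_eq_zero.1 this).resolve_right hs
    rw [hb0, hc0] at hdet
    rw [hb0] at e00
    have had : a = d := by
      have h1 : a * a = 1 := by linear_combination e00
      have h2 : a * d = 1 := by linear_combination hdet
      have h3 : a * (a - d) = 0 := by linear_combination h1 - h2
      have ha0 : a ≠ 0 := by rintro h0; rw [h0] at h1; simp at h1
      have := (mul_eq_zero.1 h3).resolve_left ha0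
      linear_combination this
    have h1 : (a - 1) * (a + 1) = 0 := by linear_combination e00
    rcases mul_eq_zero.1 h1 with h2 | h2
    · left
      apply Subtype.ext
      ext i j
      fin_cases i <;> fin_cases j <;> simp [← ha, ← hb, ← hc, ← hd, hb0, hc0, ← had]
      · linear_combination h2
      · linear_combination h2
    · right
      apply Subtype.ext
      ext i j
      fin_cases i <;> fin_cases j <;> simp [← ha, ← hb, ← hc, ← hd, hb0, hc0, ← had]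
      · linear_combination h2
      · linear_combination h2

theorem norm_comm {g : G} {X Y' : Subgroup G} (h1 : g ∈ normalizer (X : Set G))
    (h2 : g ∈ normalizer (Y' : Set G)) : g ∈ normalizer ((⁅X, Y'⁆ : Subgroup G) : Set G) := by
  rw [mem_normalizer_iff_cjg] at *
  unfold cjg at *
  rw [Subgroup.map_commutator, h1, h2]

theorem norm_omega {g : G} {p : ℕ} {X : Subgroup G} (h1 : g ∈ normalizer (X : Set G)) :
    g ∈ normalizer (omegaOneCenter p X : Set G) := by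
  rw [mem_normalizer_iff_cjg] at *
  rw [cjg_omegaOneCenter, h1]

end RawAux

namespace Raw
open RawAux

variable (r : Raw F E Q W V Z Y Ω B)
include r

theorem hWQ : W ≤ Q := by rw [r.hWdef]; exact omegaOneCenter_le Q
theorem hZW : Z ≤ W := by rw [r.hZdef]; exact inf_le_left
theorem W_comm_Q {w q : G} (hw : w ∈ W) (hq : q ∈ Q) : w * q = q * w := by
  rw [r.hWdef] at hw
  exact (mem_centralizer_iff.1 (omegaOneCenter_le_cent Q hw) q hq).symm
theorem W_pow {w : G} (hw : w ∈ W) : w ^ 3 = 1 := by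
  rw [r.hWdef] at hw
  exact pow_of_mem_omegaOneCenter hw
theorem W_comm {w w' : G} (hw : w ∈ W) (hw' : w' ∈ W) : w * w' = w' * w :=
  r.W_comm_Q hw (r.hWQ hw')
theorem hEW : E ≤ normalizer (W : Set G) := by
  intro e he
  rw [r.hWdef]
  exact norm_omega (r.hEQ he)
theorem conj_W {e w : G} (he : e ∈ E) (hw : w ∈ W) : e * w * e⁻¹ ∈ W :=
  (mem_normalizer_iff.1 (r.hEW he) w).1 hw
theorem hVW : V ≤ W := by
  rw [r.hVdef, Subgroup.commutator_le]
  intro w hw e he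
  have h : ⁅w, e⁆ = w * (e * w⁻¹ * e⁻¹) := by simp [commutatorElement_def, mul_assoc]
  rw [h]
  exact W.mul_mem hw (r.conj_W he (W.inv_mem hw))
theorem hEV : E ≤ normalizer (V : Set G) := by
  intro e he
  rw [r.hVdef]
  refine norm_comm (r.hEW he) ?_
  exact Subgroup.le_normalizer he
theorem hZ_comm {z e : G} (hz : z ∈ Z) (he : e ∈ E) : e * z = z * e := by
  rw [r.hZdef] at hz
  exact (mem_centralizer_iff.1 hz.2 e he)
theorem hBQ [Finite G] : B ≤ normalizer (Q : Set G) := by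
  intro b hb
  rw [mem_normalizer_iff_cjg]
  have hbE := mem_normalizer_iff_cjg.1 (r.hBE hb)
  have hle : cjg b Q ≤ Q := by
    refine r.hQ3 _ ?_ ?_ ?_
    · rw [← hbE]
      exact Subgroup.map_mono r.hQE
    · exact r.hQp.map _
    · intro e he
      rw [mem_normalizer_iff_cjg]
      have he' : b⁻¹ * e * b ∈ E := by
        have := (mem_normalizer_iff.1 (normalizer (E : Set G) |>.inv_mem (r.hBE hb)) e).1 he
        simpa using this
      have h1 := mem_normalizer_iff_cjg.1 (r.hEQ he')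
      ext x
      simp only [mem_cjg]
      have h2 : ∀ y, y ∈ Q ↔ (b⁻¹ * e * b)⁻¹ * y * (b⁻¹ * e * b) ∈ Q := by
        intro y
        have := congrArg (fun X : Subgroup G => y ∈ X) h1
        simp only [mem_cjg, eq_iff_iff] at this
        exact this.symm
      rw [h2 (b⁻¹ * x * b)]
      have : (b⁻¹ * e * b)⁻¹ * (b⁻¹ * x * b) * (b⁻¹ * e * b) = b⁻¹ * (e⁻¹ * x * e) * b := by group
      rw [this]
  refine Subgroup.eq_of_le_of_card_ge hle ?_
  rw [card_cjg]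
theorem hBW [Finite G] : B ≤ normalizer (W : Set G) := by
  intro b hb
  rw [r.hWdef]
  exact norm_omega (r.hBQ hb)
theorem hBV [Finite G] : B ≤ normalizer (V : Set G) := by
  intro b hb
  rw [r.hVdef]
  exact norm_comm (r.hBW hb) (r.hBE hb)
theorem hBZ [Finite G] : B ≤ normalizer (Z : Set G) := by
  intro b hb
  rw [mem_normalizer_iff_cjg, r.hZdef, cjg_inf, cjg_centralizer,
    mem_normalizer_iff_cjg.1 (r.hBW hb), mem_normalizer_iff_cjg.1 (r.hBE hb)]

theorem ρ₁_one : r.ρ₁ 1 = 1 := by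
  have h := r.ρ₁_mul 1 E.one_mem 1 E.one_mem
  simpa using h
theorem ρ₂_one : r.ρ₂ 1 = 1 := by
  have h := r.ρ₂_mul 1 E.one_mem 1 E.one_mem
  simpa using h
theorem ρ₁_inv {e : G} (he : e ∈ E) : r.ρ₁ e⁻¹ = (r.ρ₁ e)⁻¹ := by
  have h := r.ρ₁_mul e he e⁻¹ (E.inv_mem he)
  rw [mul_inv_cancel, r.ρ₁_one] at h
  exact (inv_eq_of_mul_eq_one_right h.symm).symm
theorem ρ₁_pow {e : G} (he : e ∈ E) (n : ℕ) : r.ρ₁ (e ^ n) = (r.ρ₁ e) ^ n := by
  induction n with
  | zero => simpa using r.ρ₁_one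
  | succ n ih => rw [pow_succ, r.ρ₁_mul _ (E.pow_mem he n) _ he, ih, pow_succ]

theorem exists_t [Finite G] [CharP F 3] : ∃ t ∈ E, t * t = 1 ∧ r.ρ₁ t = -1 ∧ r.ρ₂ t = -1 := by
  obtain ⟨t₀, ht₀, hρ⟩ := r.ρ₁_surj _ (neg_one_mem (F := F))
  obtain ⟨k, hk⟩ := IsPGroup.iff_card.1 r.hQp
  have h2 : t₀ * t₀ ∈ Q := by
    rw [← r.ρ₁_ker _ (E.mul_mem ht₀ ht₀), r.ρ₁_mul _ ht₀ _ ht₀, hρ]
    simp
  have ht : t₀ ^ (3 ^ k) ∈ E := E.pow_mem ht₀ _
  have hodd : Odd (3 ^ k) := Odd.pow (by decide)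
  have hρt : r.ρ₁ (t₀ ^ (3 ^ k)) = -1 := by
    rw [r.ρ₁_pow ht₀, hρ]
    exact hodd.neg_one_pow
  have htt : t₀ ^ (3 ^ k) * t₀ ^ (3 ^ k) = 1 := by
    have h3 : t₀ ^ (3 ^ k) * t₀ ^ (3 ^ k) = (t₀ * t₀) ^ (3 ^ k) := by
      rw [(Commute.refl t₀).mul_pow]
    rw [h3]
    have h4 := pow_card_eq_one' (G := Q) (x := ⟨t₀ * t₀, h2⟩)
    rw [hk] at h4
    simpa using congrArg (fun x : Q => (x : G)) h4
  refine ⟨_, ht, htt, hρt, ?_⟩
  have h5 : r.ρ₂ (t₀ ^ (3 ^ k)) * r.ρ₂ (t₀ ^ (3 ^ k)) = 1 := by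
    rw [← r.ρ₂_mul _ ht _ ht, htt, r.ρ₂_one]
  rcases sq_eq_one _ h5 with h6 | h6
  · exfalso
    have h7 := (r.ρ₂_ker _ ht).1 h6
    have h8 := (r.ρ₁_ker _ ht).2 h7
    rw [hρt] at h8
    exact neg_one_ne_one h8
  · exact h6

/-- the `t`-decomposition of `W`, for any involution with `ρ₁ t = -1`. -/
theorem W_t_decomp [CharP F 3] {t : G} (ht : t ∈ E) (ht2 : t * t = 1) (hρ : r.ρ₁ t = -1) :
    (∀ w ∈ W, ∃ v ∈ V, ∃ z ∈ Z, w = v * z) ∧ (∀ v ∈ V, t * v * t⁻¹ = v⁻¹) := by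
  have htinv : t⁻¹ = t := inv_eq_of_mul_eq_one_left ht2
  -- elements fixed by `t` lie in `Z`
  have hfix : ∀ x ∈ W, t * x * t⁻¹ = x → x ∈ Z := by
    intro x hx h
    have h1 := r.ρ₁_act t ht x hx
    rw [h, hρ, sact, Matrix.SpecialLinearGroup.coe_neg, Matrix.SpecialLinearGroup.coe_one, Matrix.neg_mulVec, Matrix.one_mulVec] at h1
    refine (r.ψ₁_ker x hx).1 ?_
    have h2 : (2 : F) • r.ψ₁ x = 0 := by
      rw [two_smul]
      nth_rewrite 1 [h1]
      exact neg_add_cancel _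
    exact (smul_eq_zero.1 h2).resolve_left two_ne_zero_F
  -- decomposition with respect to `t`
  have hdec : ∀ w ∈ W, ∃ v ∈ W, ∃ z ∈ Z, w = v * z ∧ t * v * t⁻¹ = v⁻¹ := by
    intro w hw
    set a := t * w * t⁻¹ with ha
    have haW : a ∈ W := r.conj_W ht hw
    have hta : t * a * t⁻¹ = w := by
      rw [ha, htinv]
      calc t * (t * w * t) * t = (t * t) * w * (t * t) := by group
        _ = w := by rw [ht2]; simp
    have hc : w * a = a * w := r.W_comm hw haW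
    have hw3 := r.W_pow hw
    have ha3 := r.W_pow haW
    refine ⟨(w * a⁻¹) ^ 2, W.pow_mem (W.mul_mem hw (W.inv_mem haW)) _, (w * a) ^ 2, ?_, ?_, ?_⟩
    · refine hfix _ (W.pow_mem (W.mul_mem hw haW) _) ?_
      have : t * (w * a) * t⁻¹ = a * w := by
        calc t * (w * a) * t⁻¹ = (t * w * t⁻¹) * (t * a * t⁻¹) := by group
          _ = a * w := by rw [hta]
      have h2 : t * (w * a) ^ 2 * t⁻¹ = (t * (w * a) * t⁻¹) ^ 2 := by
        rw [conj_pow]
      rw [h2, this, ← hc]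
    · have h1 : (w * a⁻¹) ^ 2 * (w * a) ^ 2 = w ^ 4 := by
        have e1 : Commute w a⁻¹ := (Commute.inv_right hc)
        have e2 : Commute w a := hc
        rw [e1.mul_pow, e2.mul_pow]
        have e3 : (w ^ 2 * (a⁻¹) ^ 2) * (w ^ 2 * a ^ 2) = w ^ 4 * ((a⁻¹) ^ 2 * a ^ 2) := by
          have e4 : Commute (a⁻¹ ^ 2) (w ^ 2) := ((Commute.inv_left hc.symm).pow_pow 2 2)
          calc (w ^ 2 * (a⁻¹) ^ 2) * (w ^ 2 * a ^ 2) = w ^ 2 * ((a⁻¹) ^ 2 * w ^ 2) * a ^ 2 := by group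
            _ = w ^ 2 * (w ^ 2 * (a⁻¹) ^ 2) * a ^ 2 := by rw [e4.eq]
            _ = w ^ 4 * ((a⁻¹) ^ 2 * a ^ 2) := by group
        rw [e3]
        simp
      rw [h1]
      calc w = w ^ 3 * w := by rw [hw3]; simp
        _ = w ^ 4 := by group
    · have e : t * (w * a⁻¹) * t⁻¹ = a * w⁻¹ := by
        calc t * (w * a⁻¹) * t⁻¹ = (t * w * t⁻¹) * (t * a * t⁻¹)⁻¹ := by group
          _ = a * w⁻¹ := by rw [hta]
      have h2 : t * (w * a⁻¹) ^ 2 * t⁻¹ = (t * (w * a⁻¹) * t⁻¹) ^ 2 := by rw [conj_pow]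
      rw [h2, e]
      have e5 : a * w⁻¹ = (w * a⁻¹)⁻¹ := by
        rw [_root_.mul_inv_rev, inv_inv]
      rw [e5, inv_pow]
  -- `V_t` is normalized by `E`
  have hstable : ∀ e ∈ E, ∀ x ∈ W, t * x * t⁻¹ = x⁻¹ → t * (e * x * e⁻¹) * t⁻¹ = (e * x * e⁻¹)⁻¹ := by
    intro e he x hx h
    have hq : t⁻¹ * (e⁻¹ * t * e) ∈ Q := by
      have hmem : t⁻¹ * (e⁻¹ * t * e) ∈ E :=
        E.mul_mem (E.inv_mem ht) (E.mul_mem (E.mul_mem (E.inv_mem he) ht) he)
      rw [← r.ρ₁_ker _ hmem, r.ρ₁_mul _ (E.inv_mem ht) _ (E.mul_mem (E.mul_mem (E.inv_mem he) ht) he),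
        r.ρ₁_mul _ (E.mul_mem (E.inv_mem he) ht) _ he, r.ρ₁_mul _ (E.inv_mem he) _ ht, r.ρ₁_inv ht, r.ρ₁_inv he, hρ]
      simp
    set q := t⁻¹ * (e⁻¹ * t * e) with hqdef
    have hq1 : e⁻¹ * t * e = t * q := by rw [hqdef]; group
    have hq2 : q * x * q⁻¹ = x := by
      rw [← r.W_comm_Q hx hq]; group
    calc t * (e * x * e⁻¹) * t⁻¹ = e * ((e⁻¹ * t * e) * x * (e⁻¹ * t * e)⁻¹) * e⁻¹ := by group
      _ = e * (t * (q * x * q⁻¹) * t⁻¹) * e⁻¹ := by rw [hq1]; group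
      _ = e * x⁻¹ * e⁻¹ := by rw [hq2, h]
      _ = (e * x * e⁻¹)⁻¹ := by group
  -- `V` inverted
  have hVt : ∀ v ∈ V, t * v * t⁻¹ = v⁻¹ := by
    let Vt : Subgroup G :=
      { carrier := {x | x ∈ W ∧ t * x * t⁻¹ = x⁻¹}
        mul_mem' := by
          rintro x y ⟨hx, hx'⟩ ⟨hy, hy'⟩
          refine ⟨W.mul_mem hx hy, ?_⟩
          calc t * (x * y) * t⁻¹ = (t * x * t⁻¹) * (t * y * t⁻¹) := by group
            _ = x⁻¹ * y⁻¹ := by rw [hx', hy']
            _ = (x * y)⁻¹ := by rw [_root_.mul_inv_rev]; exact (Commute.inv_inv (r.W_comm hx hy)).eq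
        one_mem' := ⟨W.one_mem, by simp⟩
        inv_mem' := by
          rintro x ⟨hx, hx'⟩
          refine ⟨W.inv_mem hx, ?_⟩
          calc t * x⁻¹ * t⁻¹ = (t * x * t⁻¹)⁻¹ := by group
            _ = (x⁻¹)⁻¹ := by rw [hx'] }
    have hle : V ≤ Vt := by
      rw [r.hVdef, Subgroup.commutator_le]
      intro w hw e he
      obtain ⟨v, hv, z, hz, rfl, hv'⟩ := hdec w hw
      have h1 : ⁅v * z, e⁆ = v * (e * v⁻¹ * e⁻¹) := by
        have h2 : e * z = z * e := r.hZ_comm hz he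
        calc ⁅v * z, e⁆ = v * z * e * z⁻¹ * v⁻¹ * e⁻¹ := by simp [commutatorElement_def, mul_assoc]
          _ = v * (z * e * z⁻¹) * v⁻¹ * e⁻¹ := by group
          _ = v * (e * z * z⁻¹) * v⁻¹ * e⁻¹ := by rw [h2]
          _ = v * (e * v⁻¹ * e⁻¹) := by group
      rw [h1]
      refine Vt.mul_mem ⟨hv, hv'⟩ ?_
      refine ⟨r.conj_W he (W.inv_mem hv), hstable e he _ (W.inv_mem hv) ?_⟩
      calc t * v⁻¹ * t⁻¹ = (t * v * t⁻¹)⁻¹ := by group
        _ = (v⁻¹)⁻¹ := by rw [hv']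
    exact fun v hv => (hle hv).2
  refine ⟨?_, hVt⟩
  intro w hw
  obtain ⟨v, hv, z, hz, rfl, hv'⟩ := hdec w hw
  refine ⟨v, ?_, z, hz, rfl⟩
  have h1 : ⁅v, t⁆ = v ^ 2 := by
    have : ⁅v, t⁆ = v * (t * v * t⁻¹)⁻¹ := by simp [commutatorElement_def, mul_assoc]
    rw [this, hv', inv_inv, pow_two]
  have h2 : v ^ 2 ∈ V := by
    rw [← h1, r.hVdef]
    exact Subgroup.commutator_mem_commutator hv ht
  have h3 : v = (v ^ 2) ^ 2 := by
    have := r.W_pow hv
    calc v = v ^ 3 * v := by rw [this]; simp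
      _ = (v ^ 2) ^ 2 := by group
  rw [h3]
  exact V.pow_mem h2 2

theorem W_decomp [Finite G] [CharP F 3] : (∀ w ∈ W, ∃ v ∈ V, ∃ z ∈ Z, w = v * z) ∧ V ⊓ Z = ⊥ := by
  obtain ⟨t, ht, ht2, hρ, -⟩ := r.exists_t
  obtain ⟨h1, h2⟩ := r.W_t_decomp ht ht2 hρ
  refine ⟨h1, ?_⟩
  rw [eq_bot_iff]
  rintro x ⟨hxV, hxZ⟩
  rw [Subgroup.mem_bot]
  have h3 := h2 x hxV
  have h4 : t * x * t⁻¹ = x := by rw [r.hZ_comm hxZ ht]; group
  have h5 : x * x = 1 := by
    have : x = x⁻¹ := by rw [← h3, h4]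
    calc x * x = x * x⁻¹ := by rw [← this]
      _ = 1 := by group
  have h6 := r.W_pow (r.hVW hxV)
  have h7 : x ^ 3 = x * (x * x) := by
    rw [pow_succ, pow_two, mul_assoc]
  rw [h7, h5, mul_one] at h6
  exact h6

theorem V_surj [Finite G] [CharP F 3] : (∀ b : F2 F, ∃ v ∈ V, r.ψ₁ v = b) ∧ (∀ v ∈ V, r.ψ₁ v = 0 ↔ v = 1) := by
  obtain ⟨hd, hb⟩ := r.W_decomp
  constructor
  · intro b
    obtain ⟨w, hw, rfl⟩ := r.ψ₁_surj b
    obtain ⟨v, hv, z, hz, rfl⟩ := hd w hw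
    refine ⟨v, hv, ?_⟩
    rw [r.ψ₁_mul _ (r.hVW hv) _ (r.hZW hz), (r.ψ₁_ker z (r.hZW hz)).2 hz, add_zero]
  · intro v hv
    rw [r.ψ₁_ker v (r.hVW hv)]
    constructor
    · intro hz
      have : v ∈ V ⊓ Z := ⟨hv, hz⟩
      rw [hb] at this
      simpa using this
    · rintro rfl
      exact Z.one_mem

end Raw
end Cfsg.Agent.Lib.BlockX
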