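import Mathlib
import Cfsg.Agent.Lib.BlockX.RawDef
import Cfsg.Agent.Lib.PGroup.BaumannSect
import Cfsg.Agent.Lib.PGroup.SL2NatIrr

/-! Piece X2 of S2985: the action of `Y` on `Q`, `W` and of `E` on `Ω`, from the raw data. -/

namespace Cfsg.Agent.Lib.BlockX
open Subgroup Cfsg Matrix
open Cfsg.Agent.Lib.PGroup.BaumannSect Cfsg.Agent.Lib.PGroup.BaumannNorm
open Cfsg.Agent.Lib.PGroup.SL2NatIrr
open scoped commutatorElement

variable {G : Type*} [Group G] [Finite G] {F : Type*} [Field F] [Fintype F] [CharP F 3]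
  {E Q W V Z Y Ω B : Subgroup G}

namespace RawYAux

variable (r : Raw F E Q W V Z Y Ω B)
include r

theorem wq : W ≤ Q := by rw [r.hWdef]; exact omegaOneCenter_le Q

theorem ew : E ≤ normalizer (W : Set G) := by
  rw [r.hWdef]; exact r.hEQ.trans (normalizer_le_omegaOneCenter Q)

theorem conj_w {e w : G} (he : e ∈ E) (hw : w ∈ W) : e * w * e⁻¹ ∈ W :=
  (mem_normalizer_iff.1 (ew r he) w).1 hw

theorem comm_w {w e : G} (hw : w ∈ W) (he : e ∈ E) : ⁅w, e⁆ ∈ W := by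
  rw [commutatorElement_def]
  have h := conj_w r he (W.inv_mem hw)
  have h2 : w * e * w⁻¹ * e⁻¹ = w * (e * w⁻¹ * e⁻¹) := by group
  rw [h2]; exact W.mul_mem hw h

theorem vw : V ≤ W := by
  rw [r.hVdef, Subgroup.commutator_le]
  intro w hw e he
  exact comm_w r hw he

theorem ev : E ≤ normalizer (V : Set G) := by
  intro e he
  rw [r.hVdef]
  exact mem_normalizer_commutator (ew r he) (le_normalizer he)

theorem W_comm {a b : G} (ha : a ∈ W) (hb : b ∈ W) : a * b = b * a := by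
  rw [r.hWdef] at ha hb; exact omegaOneCenter_comm ha hb

theorem ψ₁_one : r.ψ₁ 1 = 0 := by
  have := r.ψ₁_mul 1 W.one_mem 1 W.one_mem
  simpa using this

theorem ψ₁_inv {x : G} (hx : x ∈ W) : r.ψ₁ x⁻¹ = - r.ψ₁ x := by
  have := r.ψ₁_mul x hx x⁻¹ (W.inv_mem hx)
  rw [mul_inv_cancel, ψ₁_one r] at this
  exact (neg_eq_of_add_eq_zero_right this.symm).symm

theorem ψ₂_one : r.ψ₂ 1 = 0 := by
  have := r.ψ₂_mul 1 Q.one_mem 1 Q.one_mem
  simpa using this

theorem ψ₂_inv {x : G} (hx : x ∈ Q) : r.ψ₂ x⁻¹ = - r.ψ₂ x := by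
  have := r.ψ₂_mul x hx x⁻¹ (Q.inv_mem hx)
  rw [mul_inv_cancel, ψ₂_one r] at this
  exact (neg_eq_of_add_eq_zero_right this.symm).symm

/-- `W = V Z`. -/
theorem decomp {w : G} (hw : w ∈ W) : ∃ v ∈ V, ∃ z ∈ Z, w = v * z := by
  let S : AddSubgroup (Fin 2 → F) :=
    { carrier := {b | ∃ v ∈ V, r.ψ₁ v = b}
      add_mem' := by
        rintro _ _ ⟨x, hx, rfl⟩ ⟨y, hy, rfl⟩
        exact ⟨x * y, V.mul_mem hx hy, r.ψ₁_mul x (vw r hx) y (vw r hy)⟩
      zero_mem' := ⟨1, V.one_mem, ψ₁_one r⟩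
      neg_mem' := by
        rintro _ ⟨x, hx, rfl⟩
        exact ⟨x⁻¹, V.inv_mem hx, ψ₁_inv r (vw r hx)⟩ }
  have hS : ∀ g ∈ commutator (SL2 F), ∀ v ∈ S,
      (g : Matrix (Fin 2) (Fin 2) F).mulVec v ∈ S := by
    rintro g hg _ ⟨x, hx, rfl⟩
    obtain ⟨e, he, rfl⟩ := r.ρ₁_surj g hg
    exact ⟨e * x * e⁻¹, (mem_normalizer_iff.1 (ev r he) x).1 hx, r.ρ₁_act e he x (vw r hx)⟩
  rcases irr S hS with h0 | h1
  · exfalso
    obtain ⟨g, hg, hmove⟩ := exists_move (F := F)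
    obtain ⟨e, he, rfl⟩ := r.ρ₁_surj g hg
    obtain ⟨u, hu, hu2⟩ := r.ψ₁_surj ![1, 0]
    apply hmove
    have h1 : ⁅u, e⁆⁻¹ ∈ V := by
      rw [r.hVdef]; exact Subgroup.inv_mem _ (commutator_mem_commutator hu he)
    have h2 : r.ψ₁ ⁅u, e⁆⁻¹ ∈ S := ⟨_, h1, rfl⟩
    rw [h0, AddSubgroup.mem_bot] at h2
    have h3 : e * u * e⁻¹ = ⁅u, e⁆⁻¹ * u := by
      rw [commutatorElement_def]; group
    have h4 := r.ρ₁_act e he u hu
    rw [h3, r.ψ₁_mul _ (vw r h1) u hu, h2, zero_add, hu2] at h4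
    exact h4.symm
  · have h2 : r.ψ₁ w ∈ S := by rw [h1]; exact AddSubgroup.mem_top _
    obtain ⟨v, hv, hvw⟩ := h2
    refine ⟨v, hv, v⁻¹ * w, ?_, by group⟩
    have hvW := vw r hv
    refine (r.ψ₁_ker _ (W.mul_mem (W.inv_mem hvW) hw)).1 ?_
    rw [r.ψ₁_mul _ (W.inv_mem hvW) _ hw, ψ₁_inv r hvW, hvw]
    simp

/-- `Y` normalizes `Q`: one inclusion. -/
theorem yq_aux {y : G} (hy : y ∈ Y) {q : G} (hq : q ∈ Q) : y * q * y⁻¹ ∈ Q := by
  have hyE := r.hYE hy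
  have hyE' := r.hYE (Y.inv_mem hy)
  have hD : cjg y Q ≤ Q := by
    refine r.hQ3 (cjg y Q) ?_ ?_ ?_
    · intro x hx
      rw [mem_cjg] at hx
      have := (mem_normalizer_iff.1 hyE _).1 (r.hQE hx)
      have h2 : y * (y⁻¹ * x * y) * y⁻¹ = x := by group
      rwa [h2] at this
    · exact r.hQp.map _
    · intro e he
      have he' : y⁻¹ * e * y ∈ E := by
        have := (mem_normalizer_iff.1 hyE' e).1 he
        simpa using this
      refine mem_normalizer_iff.2 fun x => ?_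
      rw [mem_cjg, mem_cjg]
      have := mem_normalizer_iff.1 (r.hEQ he') (y⁻¹ * x * y)
      have h2 : y⁻¹ * e * y * (y⁻¹ * x * y) * (y⁻¹ * e * y)⁻¹ = y⁻¹ * (e * x * e⁻¹) * y := by group
      rwa [h2] at this
  refine hD ?_
  rw [mem_cjg]
  have h2 : y⁻¹ * (y * q * y⁻¹) * y = q := by group
  rwa [h2]

theorem yn : Y ≤ normalizer (Q : Set G) := by
  intro y hy
  refine mem_normalizer_iff.2 fun x => ⟨yq_aux r hy, fun h => ?_⟩
  have := yq_aux r (Y.inv_mem hy) h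
  have h2 : y⁻¹ * (y * x * y⁻¹) * y⁻¹⁻¹ = x := by group
  rwa [h2] at this

theorem en : E ≤ normalizer (Y : Set G) := by
  have := r.hYn
  rw [normalizer_eq_top]
  exact le_top

theorem hirr (X : Subgroup G) (hX : X ≤ Q) (hEX : E ≤ normalizer (X : Set G)) :
    X ≤ W ∨ Q ≤ X ⊔ W := by
  let S : AddSubgroup (Fin 2 → F) :=
    { carrier := {b | ∃ v ∈ X, r.ψ₂ v = b}
      add_mem' := by
        rintro _ _ ⟨x, hx, rfl⟩ ⟨y, hy, rfl⟩
        exact ⟨x * y, X.mul_mem hx hy, r.ψ₂_mul x (hX hx) y (hX hy)⟩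
      zero_mem' := ⟨1, X.one_mem, ψ₂_one r⟩
      neg_mem' := by
        rintro _ ⟨x, hx, rfl⟩
        exact ⟨x⁻¹, X.inv_mem hx, ψ₂_inv r (hX hx)⟩ }
  have hS : ∀ g ∈ commutator (SL2 F), ∀ v ∈ S,
      (g : Matrix (Fin 2) (Fin 2) F).mulVec v ∈ S := by
    rintro g hg _ ⟨x, hx, rfl⟩
    obtain ⟨e, he, rfl⟩ := r.ρ₂_surj g hg
    exact ⟨e * x * e⁻¹, (mem_normalizer_iff.1 (hEX he) x).1 hx, r.ρ₂_act e he x (hX hx)⟩
  rcases irr S hS with h0 | h1
  · left
    intro x hx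
    have h2 : r.ψ₂ x ∈ S := ⟨x, hx, rfl⟩
    rw [h0, AddSubgroup.mem_bot] at h2
    exact (r.ψ₂_ker x (hX hx)).1 h2
  · right
    intro q hq
    have h2 : r.ψ₂ q ∈ S := by rw [h1]; exact AddSubgroup.mem_top _
    obtain ⟨x, hx, hxq⟩ := h2
    have h3 : x⁻¹ * q ∈ W := by
      refine (r.ψ₂_ker _ (Q.mul_mem (Q.inv_mem (hX hx)) hq)).1 ?_
      rw [r.ψ₂_mul _ (Q.inv_mem (hX hx)) _ hq, ψ₂_inv r (hX hx), hxq]
      simp
    have h4 : q = x * (x⁻¹ * q) := by group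
    rw [h4]
    exact Subgroup.mul_mem _ (Subgroup.mem_sup_left hx) (Subgroup.mem_sup_right h3)

theorem hne : ¬ Q ≤ W := by
  intro h
  obtain ⟨q, hq, hq2⟩ := r.ψ₂_surj ![1, 0]
  have := (r.ψ₂_ker q hq).2 (h hq)
  rw [hq2] at this
  have h1 := congrFun this 0
  simp at h1

end RawYAux

namespace Raw

variable (r : Raw F E Q W V Z Y Ω B)
include r

theorem hYE_mem (hQY : Q ≤ Y) : ∀ y ∈ Y, ∀ e ∈ E, ⁅y, e⁆ ∈ Q := by
  intro y hy e he
  have hD := r.hQ3 (Y ⊓ E) inf_le_right (r.hYp.to_le inf_le_left) (fun e' he' => by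
    exact mem_normalizer_inf (RawYAux.en r he') (le_normalizer he'))
  refine hD ⟨?_, ?_⟩
  · have := r.hYn.conj_mem _ (Y.inv_mem hy) e
    rw [commutatorElement_def]
    have h2 : y * e * y⁻¹ * e⁻¹ = y * (e * y⁻¹ * e⁻¹) := by group
    rw [h2]
    exact Y.mul_mem hy this
  · have := (mem_normalizer_iff.1 (r.hYE hy) e).1 he
    rw [commutatorElement_def]
    exact E.mul_mem this (E.inv_mem he)

theorem hQYW (hQY : Q ≤ Y) : ∀ q ∈ Q, ∀ y ∈ Y, ⁅q, y⁆ ∈ W := by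
  intro q hq y hy
  have hle : ⁅Q, Y⁆ ≤ W := by
    have hWdef := r.hWdef
    refine commutator_le_of_irr (p := 3) (E := E) r.hYp r.hQp (RawYAux.yn r) (RawYAux.en r) r.hEQ
      (RawYAux.wq r) ?_ ?_ (RawYAux.hirr r) (RawYAux.hne r)
    · rw [hWdef]; exact (RawYAux.yn r).trans (normalizer_le_omegaOneCenter Q)
    · rw [hWdef]; exact (le_normalizer).trans (normalizer_le_omegaOneCenter Q)
  exact hle (commutator_mem_commutator hq hy)

theorem hΩY : Ω ≤ centralizer (Y : Set G) := by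
  rw [r.hΩdef]; exact omegaOneCenter_le_cent Y

theorem hWΩ (hQY : Q ≤ Y) : W ≤ Ω := by
  intro w hw
  -- `Z` is centralized by `Y`
  have hZ : ⁅⁅Q, Q⁆, Y⁆ = ⊥ := by
    have hWQ : ⁅W, Q⁆ = ⊥ := by
      rw [Subgroup.commutator_eq_bot_iff_le_centralizer, r.hWdef]
      exact omegaOneCenter_le_cent Q
    have hle : ⁅Q, Y⁆ ≤ W := by
      rw [Subgroup.commutator_le]
      intro q hq y hy
      exact r.hQYW hQY q hq y hy
    refine Subgroup.commutator_commutator_eq_bot_of_rotate ?_ ?_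
    · exact le_bot_iff.1 ((Subgroup.commutator_mono hle le_rfl).trans hWQ.le)
    · rw [Subgroup.commutator_comm Y Q]
      exact le_bot_iff.1 ((Subgroup.commutator_mono hle le_rfl).trans hWQ.le)
  rw [r.hQQ] at hZ
  have hZc : Z ≤ centralizer (Y : Set G) := by
    rwa [Subgroup.commutator_eq_bot_iff_le_centralizer] at hZ
  obtain ⟨v, hv, z, hz, rfl⟩ := RawYAux.decomp r hw
  rw [r.hΩdef]
  refine mem_omegaOneCenter (hQY (RawYAux.wq r hw)) ?_ ?_
  · exact Subgroup.mul_mem _ (r.hΩY (r.hVΩ hv)) (hZc hz)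
  · rw [r.hWdef] at hw
    exact pow_of_mem_omegaOneCenter hw

theorem hΩE (hQY : Q ≤ Y) : ∀ w ∈ Ω, ∀ e ∈ E, ⁅w, e⁆ ∈ V := by
  intro w hw
  have hwY : w ∈ Y := by rw [r.hΩdef] at hw; exact omegaOneCenter_le Y hw
  -- `⁅w, e⁆ ∈ W`
  have hW : ∀ e ∈ E, ⁅w, e⁆ ∈ W := by
    intro e he
    have hQm := r.hYE_mem hQY w hwY e he
    have hΩm : ⁅w, e⁆ ∈ Ω := by
      have heN : e ∈ normalizer (Ω : Set G) := by
        rw [r.hΩdef]
        exact normalizer_le_omegaOneCenter Y (RawYAux.en r he)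
      have := (mem_normalizer_iff.1 heN _).1 (Ω.inv_mem hw)
      rw [commutatorElement_def]
      have h2 : w * e * w⁻¹ * e⁻¹ = w * (e * w⁻¹ * e⁻¹) := by group
      rw [h2]
      exact Ω.mul_mem hw this
    rw [r.hWdef]
    refine mem_omegaOneCenter hQm ?_ ?_
    · exact (centralizer_le hQY) (r.hΩY hΩm)
    · rw [r.hΩdef] at hΩm
      exact pow_of_mem_omegaOneCenter hΩm
  let X : Subgroup G :=
    { carrier := {e | e ∈ E ∧ ⁅w, e⁆ ∈ V}
      one_mem' := ⟨E.one_mem, by simp [V.one_mem]⟩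
      mul_mem' := by
        rintro a b ⟨ha, ha'⟩ ⟨hb, hb'⟩
        refine ⟨E.mul_mem ha hb, ?_⟩
        have h1 : ⁅w, a * b⁆ = ⁅w, a⁆ * (a * ⁅w, b⁆ * a⁻¹) := by
          simp only [commutatorElement_def]
          group
        rw [h1]
        exact V.mul_mem ha' ((mem_normalizer_iff.1 (RawYAux.ev r ha) _).1 hb')
      inv_mem' := by
        rintro a ⟨ha, ha'⟩
        refine ⟨E.inv_mem ha, ?_⟩
        have h1 : ⁅w, a⁻¹⁆ = a⁻¹ * ⁅w, a⁆⁻¹ * a⁻¹⁻¹ := by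
          simp only [commutatorElement_def]
          group
        rw [h1]
        exact (mem_normalizer_iff.1 (RawYAux.ev r (E.inv_mem ha)) _).1 (V.inv_mem ha') }
  have hEX : E ≤ X := by
    refine forall_mem_of_pResidualOf (p := 3) r.hE3 fun e he hc => ⟨he, ?_⟩
    set a := ⁅w, e⁆ with ha
    have haW : a ∈ W := hW e he
    -- `⁅w, e ^ k⁆ = a ^ k * v`
    have key : ∀ k : ℕ, ∃ v ∈ V, ⁅w, e ^ k⁆ = a ^ k * v := by
      intro k
      induction k with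
      | zero => exact ⟨1, V.one_mem, by simp⟩
      | succ k ih =>
        obtain ⟨v, hv, hk⟩ := ih
        have hek : e ^ k ∈ E := E.pow_mem he k
        refine ⟨v * ⁅a⁻¹, e ^ k⁆, V.mul_mem hv ?_, ?_⟩
        · rw [r.hVdef]; exact commutator_mem_commutator (W.inv_mem haW) hek
        · have h1 : ⁅w, e ^ (k + 1)⁆ = ⁅w, e ^ k⁆ * (e ^ k * a * (e ^ k)⁻¹) := by
            rw [pow_succ, ha]
            simp only [commutatorElement_def]
            group
          have h2 : e ^ k * a * (e ^ k)⁻¹ = a * ⁅a⁻¹, e ^ k⁆ := by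
            simp only [commutatorElement_def]
            group
          rw [h1, hk, h2]
          have hvW := RawYAux.vw r hv
          have h3 := RawYAux.W_comm r hvW haW
          rw [pow_succ]
          calc a ^ k * v * (a * ⁅a⁻¹, e ^ k⁆) = a ^ k * (v * a) * ⁅a⁻¹, e ^ k⁆ := by group
            _ = a ^ k * (a * v) * ⁅a⁻¹, e ^ k⁆ := by rw [h3]
            _ = a ^ k * a * (v * ⁅a⁻¹, e ^ k⁆) := by group
    obtain ⟨v, hv, hn⟩ := key (orderOf e)
    rw [pow_orderOf_eq_one, commutatorElement_one_right] at hn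
    have han : a ^ orderOf e ∈ V := by
      have : a ^ orderOf e = v⁻¹ := by
        exact eq_inv_of_mul_eq_one_left hn.symm
      rw [this]
      exact V.inv_mem hv
    have ha3 : a ^ 3 = 1 := by
      rw [r.hWdef] at haW
      exact pow_of_mem_omegaOneCenter haW
    obtain ⟨m, hm⟩ := Nat.exists_mul_mod_eq_one_of_coprime hc (by norm_num : 1 < 3)
    have : a = (a ^ orderOf e) ^ m := by
      rw [← pow_mul, pow_eq_pow_mod _ ha3, hm.2, pow_one]
    rw [this]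
    exact V.pow_mem han m
  intro e he
  exact (hEX he).2

end Raw

end Cfsg.Agent.Lib.BlockX
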