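import Mathlib
import Cfsg.Agent.Lib.BlockX.RawDef
import Cfsg.Agent.Lib.BlockX.Core
import Cfsg.Agent.Lib.BlockX.RawT
import Cfsg.Agent.Lib.BlockX.RawY
import Cfsg.Agent.Lib.PGroup.BaumannSect

namespace Cfsg.Agent.Lib.BlockX
open Subgroup Cfsg Matrix
open scoped commutatorElement

variable {G : Type*} [Group G] [Finite G] {F : Type*} [Field F] [Fintype F] [CharP F 3]
  {E Q W V Z Y Ω B : Subgroup G}

omit [Finite G] in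
theorem omegaOneCenter_normal_aux {Y Ω : Subgroup G} (hY : Y.Normal) (hΩ : Ω = omegaOneCenter 3 Y) : Ω.Normal := by
  subst hΩ
  refine ⟨fun x hx g => ?_⟩
  have h1 : g ∈ normalizer (Y : Set G) := by
    rw [mem_normalizer_iff]
    intro n
    refine ⟨fun hn => hY.conj_mem n hn g, fun hn => ?_⟩
    have := hY.conj_mem _ hn g⁻¹
    simpa [mul_assoc] using this
  have h2 := Cfsg.Agent.Lib.PGroup.BaumannSect.normalizer_le_omegaOneCenter (p := 3) Y h1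
  exact (mem_normalizer_iff.1 h2 x).1 hx

/-- PIECE XF: assemble `Core`, given `exists_τ` (X3) and `quad_Q` (X5). -/
theorem core_of_raw_aux (r : Raw F E Q W V Z Y Ω B) (hQY : Q ≤ Y) {a : G} (haB : a ∈ B)
    (haV0 : a ∉ centralizer (V : Set G)) (haV : ∀ v ∈ V, ⁅⁅v, a⁆, a⁆ = 1)
    (hτex : ∃ τ : G → F,
      (∀ x ∈ W, ∀ y ∈ W, τ (x * y) = τ x + τ y) ∧ (∀ w ∈ W, τ w = 0 ↔ w ∈ V) ∧
      (∀ x ∈ Q, ∀ y ∈ Q, τ ⁅x, y⁆ = dt (r.ψ₂ x) (r.ψ₂ y)))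
    (hquad : ∀ q ∈ Q, ⁅⁅q, a⁆, a⁆ ∈ W) :
    ∃ t, Nonempty (Core F E Q W V Z Y Ω B t a) := by
  obtain ⟨t, htE, ht2, hρ₁t, hρ₂t⟩ := r.exists_t
  obtain ⟨τ, hτ1, hτ2, hτ3⟩ := hτex
  obtain ⟨hVZ, hVZ1⟩ := r.W_decomp
  obtain ⟨hVs, hVk⟩ := r.V_surj
  have hVW := r.hVW
  refine ⟨t, ⟨{
    ψ := r.ψ₂, τ := τ, ρ := r.ρ₂, φ := r.ψ₁, ρv := r.ρ₁
    hQE := r.hQE, hEQ := r.hEQ, hQ3 := r.hQ3, hE3 := r.hE3
    hWQ := r.hWQ, hVW := hVW, hZW := r.hZW, hVZ := hVZ, hVZ1 := hVZ1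
    hEV := r.hEV
    hEZ := fun e he z hz => ?_
    hYn := r.hYn, hYp := r.hYp, hYC := r.hYC, hQY := hQY
    hΩn := omegaOneCenter_normal_aux r.hYn r.hΩdef
    hΩY := r.hΩY, hWΩ := r.hWΩ hQY, hΩE := r.hΩE hQY
    hYE := r.hYE_mem hQY, hQYW := r.hQYW hQY, hQQ := r.hQQ
    ψ_mul := r.ψ₂_mul, ψ_surj := r.ψ₂_surj, ψ_ker := r.ψ₂_ker
    τ_mul := hτ1, τ_ker := hτ2, τ_comm := hτ3
    ρ_mul := r.ρ₂_mul, ρ_mem := r.ρ₂_mem, ρ_surj := r.ρ₂_surj, ρ_act := r.ρ₂_act, ρ_ker := r.ρ₂_ker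
    φ_mul := fun x hx y hy => r.ψ₁_mul x (hVW hx) y (hVW hy)
    φ_surj := hVs, φ_ker := hVk
    ρv_mul := r.ρ₁_mul, ρv_mem := r.ρ₁_mem, ρv_surj := r.ρ₁_surj
    ρv_act := fun e he v hv => r.ρ₁_act e he v (hVW hv)
    ρv_ker := r.ρ₁_ker
    ht := htE, ht2 := ht2, hρt := hρ₂t, hρvt := hρ₁t
    hBE := r.hBE, hBQ := r.hBQ, hBV := r.hBV, hBZ := r.hBZ, hS2983 := r.hS2983
    haB := haB, haV0 := haV0, haV := haV
    haQ := hquad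
    hnq := ?_ }⟩⟩
  · have hz' : z ∈ centralizer (E : Set G) := by
      rw [r.hZdef] at hz; exact hz.2
    exact mem_centralizer_iff.1 hz' e he
  · refine r.hnq0 a haB ?_
    intro h
    apply haV0
    rw [mem_centralizer_iff] at h ⊢
    intro v hv
    exact h v (hVW hv)

end Cfsg.Agent.Lib.BlockX
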