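import Mathlib
import Cfsg.Agent.Lib.BlockX.RawDef
import Cfsg.Agent.Lib.BlockX.RawT
import Cfsg.Agent.Lib.BlockX.SLn

/-!
# Piece X5: a quadratic element on `V` acts quadratically on `Q / W`.
-/

set_option linter.unusedSectionVars false
set_option linter.unusedVariables false
set_option linter.style.longLine false

namespace Cfsg.Agent.Lib.BlockX

open Subgroup Cfsg Matrix
open scoped commutatorElement

namespace RawQuad

section algebra

variable {F : Type*} [Field F]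

theorem dt_self (x : F2 F) : dt x x = 0 := by
  simp only [dt]
  ring

theorem dt_add_right (a x y : F2 F) : dt a (x + y) = dt a x + dt a y := by
  simp only [dt, Pi.add_apply]
  ring

theorem dt_add_left (a x y : F2 F) : dt (x + y) a = dt x a + dt y a := by
  simp only [dt, Pi.add_apply]
  ring

theorem dt_sub_right (a x y : F2 F) : dt a (x - y) = dt a x - dt a y := by
  simp only [dt, Pi.sub_apply]
  ring

theorem dt_sub_left (a x y : F2 F) : dt (x - y) a = dt x a - dt y a := by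
  simp only [dt, Pi.sub_apply]
  ring

theorem dt_smul_right (t : F) (a x : F2 F) : dt a (t • x) = t * dt a x := by
  simp only [dt, Pi.smul_apply, smul_eq_mul]
  ring

theorem dt_smul_left (t : F) (a x : F2 F) : dt (t • x) a = t * dt x a := by
  simp only [dt, Pi.smul_apply, smul_eq_mul]
  ring

theorem basis_eq (a b x : F2 F) (h : dt a b ≠ 0) :
    x = (dt x b / dt a b) • a + (dt a x / dt a b) • b := by
  have key : ∀ (A B X : F2 F), dt A B • X = dt X B • A + dt A X • B := by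
    intro A B X
    ext i
    fin_cases i <;> simp [dt] <;> ring
  have h1 := key a b x
  have h2 : x = (dt a b)⁻¹ • (dt a b • x) := by
    rw [smul_smul, inv_mul_cancel₀ h, one_smul]
  rw [h1, smul_add, smul_smul, smul_smul] at h2
  rw [div_eq_inv_mul, div_eq_inv_mul]
  exact h2

theorem eq_smul_of_dt {v w : F2 F} (hv : v ≠ 0) (h : dt v w = 0) : ∃ c : F, w = c • v := by
  by_cases h0 : v 0 = 0
  · have h1 : v 1 ≠ 0 := by
      intro h1
      apply hv
      ext i
      fin_cases i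
      · exact h0
      · exact h1
    refine ⟨w 1 / v 1, ?_⟩
    simp only [dt, h0, zero_mul, zero_sub, neg_eq_zero, mul_eq_zero, h1, false_or] at h
    ext i
    fin_cases i
    · simp [h, h0]
    · simp [h1]
  · refine ⟨w 0 / v 0, ?_⟩
    simp only [dt] at h
    ext i
    fin_cases i
    · simp [h0]
    · simp only [Fin.mk_one, Fin.isValue, Pi.smul_apply, smul_eq_mul]
      field_simp
      linear_combination h

theorem exists_dt_ne {v : F2 F} (hv : v ≠ 0) : ∃ w, dt v w ≠ 0 := by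
  by_cases h0 : v 0 = 0
  · have h1 : v 1 ≠ 0 := by
      intro h1
      apply hv
      ext i
      fin_cases i
      · exact h0
      · exact h1
    refine ⟨Pi.single 0 1, ?_⟩
    simpa [dt] using h1
  · refine ⟨Pi.single 1 1, ?_⟩
    simpa [dt] using h0

theorem indep_coeff {a b : F2 F} (h : dt a b ≠ 0) {α β : F} (e : α • a + β • b = 0) :
    α = 0 ∧ β = 0 := by
  have h1 := congrArg (fun x => dt x b) e
  have h2 := congrArg (fun x => dt a x) e
  simp only [dt_add_left, dt_add_right, dt_smul_left, dt_smul_right, dt_self] at h1 h2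
  have e0 : dt 0 b = 0 := by simp [dt]
  have e0' : dt a 0 = 0 := by simp [dt]
  rw [e0] at h1
  rw [e0'] at h2
  constructor
  · simpa [h] using h1
  · simpa [h] using h2

/-- The transvection of `v`. -/
def trans (v : F2 F) : SL2 F :=
  ⟨!![1 - v 0 * v 1, v 0 ^ 2; - v 1 ^ 2, 1 + v 0 * v 1], by
    rw [Matrix.det_fin_two_of]
    ring⟩

theorem sact_trans (v x : F2 F) : sact (trans v) x = x + dt v x • v := by
  ext i
  fin_cases i <;> simp [sact, trans, dt, mulVec, dotProduct, Fin.sum_univ_two] <;> ring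

theorem sact_add (k : SL2 F) (x y : F2 F) : sact k (x + y) = sact k x + sact k y :=
  Matrix.mulVec_add _ _ _

theorem sact_smul (k : SL2 F) (t : F) (x : F2 F) : sact k (t • x) = t • sact k x :=
  Matrix.mulVec_smul _ _ _

theorem sact_one (x : F2 F) : sact (1 : SL2 F) x = x := by
  simp [sact]

theorem sact_mul (k k' : SL2 F) (x : F2 F) : sact (k * k') x = sact k (sact k' x) := by
  rw [sact, sact, sact, Matrix.SpecialLinearGroup.coe_mul, Matrix.mulVec_mulVec]

theorem sl_ext {k k' : SL2 F} (h : ∀ x, sact k x = sact k' x) : k = k' := by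
  apply Subtype.ext
  refine Matrix.ext_of_mulVec_single fun j => ?_
  exact h _

theorem sact_inj (k : SL2 F) {x y : F2 F} (h : sact k x = sact k y) : x = y := by
  have h1 := congrArg (sact k⁻¹) h
  rw [← sact_mul, ← sact_mul, inv_mul_cancel, sact_one, sact_one] at h1
  exact h1

theorem line_pres {f : F2 F → F2 F} (hinj : Function.Injective f)
    (hK : ∀ k : SL2 F, ∃ k' : SL2 F, ∀ x, f (sact k x) = sact k' (f x)) {x : F2 F} (hx : x ≠ 0)
    (l : F) : dt (f x) (f (l • x)) = 0 := by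
  by_contra hne
  obtain ⟨k', hk'⟩ := hK (trans x)
  have h1 : sact k' (f x) = f x := by
    rw [← hk', sact_trans, dt_self, zero_smul, add_zero]
  have h2 : sact k' (f (l • x)) = f (l • x) := by
    rw [← hk', sact_trans, dt_smul_right, dt_self, mul_zero, zero_smul, add_zero]
  have h3 : ∀ y, sact k' y = y := by
    intro y
    have e := basis_eq _ _ y hne
    rw [e, sact_add, sact_smul, sact_smul, h1, h2]
  obtain ⟨y, hy⟩ := exists_dt_ne hx
  have h4 := hk' y
  rw [h3] at h4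
  have h5 := hinj h4
  rw [sact_trans] at h5
  have h6 : dt x y • x = 0 := by simpa using h5
  rcases smul_eq_zero.1 h6 with h7 | h7
  · exact hy h7
  · exact hx h7

theorem exists_matrix {f : F2 F → F2 F} (hadd : ∀ x y, f (x + y) = f x + f y)
    (hsmul : ∀ (t : F) x, f (t • x) = t • f x) : ∃ M : M2 F, ∀ x, f x = M.mulVec x := by
  refine ⟨of fun i j => f (Pi.single j 1) i, fun x => ?_⟩
  have e : x = x 0 • (Pi.single 0 1 : F2 F) + x 1 • (Pi.single 1 1 : F2 F) := by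
    ext i
    fin_cases i <;> simp
  conv_lhs => rw [e]
  rw [hadd, hsmul, hsmul]
  ext i
  simp [mulVec, dotProduct, Fin.sum_univ_two, mul_comm]

theorem dt_mulVec (M : M2 F) (a b : F2 F) : dt (M.mulVec a) (M.mulVec b) = M.det * dt a b := by
  rw [Matrix.det_fin_two]
  simp only [dt, mulVec, dotProduct, Fin.sum_univ_two]
  ring

/-- An additive injective map normalizing `SL₂(F)` with `(1 - f)² = 0`, `f ≠ 1`, lies in `SL₂(F)`. -/
theorem linear_of_normalizes {f : F2 F → F2 F} (h2 : (2 : F) ≠ 0)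
    (hadd : ∀ x y, f (x + y) = f x + f y) (hinj : Function.Injective f)
    (hK : ∀ k : SL2 F, ∃ k' : SL2 F, ∀ x, f (sact k x) = sact k' (f x))
    (hq : ∀ x, f (x - f x) = x - f x) (hne : ∃ x, f x ≠ x) :
    ∃ M : SL2 F, ∀ x, f x = sact M x := by
  have hf0 : f 0 = 0 := by
    have := hadd 0 0
    rw [add_zero] at this
    simpa using this
  have hfne : ∀ {x : F2 F}, x ≠ 0 → f x ≠ 0 := by
    intro x hx h
    exact hx (hinj (h.trans hf0.symm))
  by_cases hB : ∀ x, dt x (f x) = 0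
  · -- every vector is an eigenvector: impossible
    exfalso
    obtain ⟨v, hv⟩ := hne
    have hv0 : v ≠ 0 := by
      rintro rfl
      exact hv hf0
    obtain ⟨α, hα⟩ := eq_smul_of_dt hv0 (hB v)
    have hα1 : α ≠ 1 := by
      rintro rfl
      exact hv (by simpa using hα)
    have hall : ∀ w, dt v w ≠ 0 → f w = α • w := by
      intro w hw
      have hw0 : w ≠ 0 := by
        rintro rfl
        exact hw (by simp [dt])
      obtain ⟨β, hβ⟩ := eq_smul_of_dt hw0 (hB w)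
      have hvw0 : v + w ≠ 0 := by
        intro h0
        have : dt v (v + w) = dt v w := by rw [dt_add_right, dt_self, zero_add]
        rw [h0] at this
        exact hw (this.symm.trans (by simp [dt]))
      obtain ⟨γ, hγ⟩ := eq_smul_of_dt hvw0 (hB (v + w))
      rw [hadd, hα, hβ] at hγ
      have e : (α - γ) • v + (β - γ) • w = 0 := by
        have : (α - γ) • v + (β - γ) • w = α • v + β • w - γ • (v + w) := by
          simp only [sub_smul, smul_add]
          abel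
        rw [this, hγ, sub_self]
      obtain ⟨e1, e2⟩ := indep_coeff hw e
      rw [hβ, sub_eq_zero.1 e2, ← sub_eq_zero.1 e1]
    obtain ⟨w, hw⟩ := exists_dt_ne hv0
    have h1 := hall w hw
    have h3 := hq w
    rw [h1] at h3
    have e : w - α • w = (1 - α) • w := by
      simp [sub_smul]
    rw [e] at h3
    have hy : dt v ((1 - α) • w) ≠ 0 := by
      rw [dt_smul_right]
      exact mul_ne_zero (sub_ne_zero.2 hα1.symm) hw
    have h4 := hall _ hy
    rw [h3] at h4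
    -- `y = α y`
    have h5 : (1 - α) • ((1 - α) • w) = 0 := by
      rw [sub_smul, one_smul, ← h4, sub_self]
    rcases smul_eq_zero.1 h5 with h6 | h6
    · exact hα1 (sub_eq_zero.1 h6).symm
    · exact hy (by rw [h6]; simp [dt])
  · push_neg at hB
    obtain ⟨v, hv⟩ := hB
    set w := v - f v with hw
    have hD : dt v w ≠ 0 := by
      rw [hw, dt_sub_right, dt_self, zero_sub]
      exact neg_ne_zero.2 hv
    have hv0 : v ≠ 0 := by
      rintro rfl
      exact hD (by simp [dt])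
    have hw0 : w ≠ 0 := by
      intro h0
      rw [h0] at hD
      exact hD (by simp [dt])
    have hfw : f w = w := hq v
    have hfv : f v = v - w := by
      rw [hw]; abel
    have hfvw : f (v + w) = v := by
      rw [hadd, hfv, hfw]; abel
    have hvw0 : v + w ≠ 0 := by
      intro h0
      have : dt v (v + w) = dt v w := by rw [dt_add_right, dt_self, zero_add]
      rw [h0] at this
      exact hD (this.symm.trans (by simp [dt]))
    have hD' : dt (v - w) w ≠ 0 := by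
      rw [dt_sub_left, dt_self, sub_zero]
      exact hD
    -- the common scalar
    have hc : ∀ l : F, ∃ c : F, f (l • v) = c • (v - w) ∧ f (l • w) = c • w := by
      intro l
      obtain ⟨c, hc⟩ := eq_smul_of_dt (hfne hv0) (line_pres hinj hK hv0 l)
      obtain ⟨d, hd⟩ := eq_smul_of_dt (hfne hw0) (line_pres hinj hK hw0 l)
      obtain ⟨g, hg⟩ := eq_smul_of_dt (hfne hvw0) (line_pres hinj hK hvw0 l)
      rw [hfv] at hc
      rw [hfw] at hd
      rw [hfvw, smul_add, hadd, hc, hd] at hg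
      have e : (c - g) • v + (d - c) • w = 0 := by
        have : (c - g) • v + (d - c) • w = c • (v - w) + d • w - g • v := by
          simp only [sub_smul, smul_sub]
          abel
        rw [this, hg, sub_self]
      obtain ⟨e1, e2⟩ := indep_coeff hD e
      refine ⟨c, hc, ?_⟩
      rw [hd, sub_eq_zero.1 e2]
    have hl : ∀ l : F, f (l • v) = l • (v - w) ∧ f (l • w) = l • w := by
      intro l
      obtain ⟨c, hc1, hc2⟩ := hc l
      obtain ⟨c₁, h11, h12⟩ := hc (l - c)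
      obtain ⟨c₂, h21, h22⟩ := hc c
      have e1 : c = c₁ + c₂ := by
        have e : l • v = (l - c) • v + c • v := by
          rw [← add_smul]; simp
        have e2 := hc1
        rw [e, hadd, h11, h21, ← add_smul] at e2
        have e3 : (c₁ + c₂ - c) • (v - w) = 0 := by
          rw [sub_smul, e2, sub_self]
        rcases smul_eq_zero.1 e3 with h | h
        · exact (sub_eq_zero.1 h).symm
        · exfalso
          rw [h] at hD'
          exact hD' (by simp [dt])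
      have e2 := hq (l • v)
      rw [hc1] at e2
      have e3 : l • v - c • (v - w) = (l - c) • v + c • w := by
        simp only [sub_smul, smul_sub]
        abel
      rw [e3, hadd, h11, h22] at e2
      have e4 : (c₁ - (l - c)) • v + (c₂ - c₁ - c) • w = 0 := by
        have : (c₁ - (l - c)) • v + (c₂ - c₁ - c) • w
            = (c₁ • (v - w) + c₂ • w) - ((l - c) • v + c • w) := by
          simp only [sub_smul, smul_sub]
          abel
        rw [this, e2, sub_self]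
      obtain ⟨e5, e6⟩ := indep_coeff hD e4
      have e7 : (2 : F) * c₁ = 0 := by
        linear_combination e6 * (-1) + e1 * (-1)
      have e8 : c₁ = 0 := (mul_eq_zero.1 e7).resolve_left h2
      have e9 : l = c := by
        rw [e8] at e5
        linear_combination -e5
      subst e9
      exact ⟨hc1, hc2⟩
    have hexp : ∀ x, f x = (dt x w / dt v w) • (v - w) + (dt v x / dt v w) • w := by
      intro x
      conv_lhs => rw [basis_eq v w x hD]
      rw [hadd, (hl _).1, (hl _).2]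
    have hsmul : ∀ (t : F) x, f (t • x) = t • f x := by
      intro t x
      rw [hexp, hexp x, dt_smul_left, dt_smul_right, smul_add, smul_smul, smul_smul, mul_div_assoc,
        mul_div_assoc]
    obtain ⟨M, hM⟩ := exists_matrix hadd hsmul
    have hdet : M.det = 1 := by
      have e := dt_mulVec M v w
      rw [← hM, ← hM, hfv, hfw, dt_sub_left, dt_self, sub_zero] at e
      exact (mul_right_cancel₀ hD (by rw [one_mul]; exact e.symm))
    exact ⟨⟨M, hdet⟩, hM⟩

end algebra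

section algebra2

variable {F : Type*} [Field F] [Fintype F] [CharP F 3]

theorem pow_three_inj {x : F} {m : ℕ} (h : x ^ (3 ^ m) = 1) : x = 1 := by
  have : Fact (Nat.Prime 3) := ⟨Nat.prime_three⟩
  have h1 : (x - 1) ^ (3 ^ m) = 0 := by
    rw [sub_pow_char_pow, h, one_pow, sub_self]
  exact sub_eq_zero.1 (pow_eq_zero_iff (pow_ne_zero _ (by norm_num))|>.1 h1)

/-- A linear map of `3`-power order on `F²` is quadratic. -/
theorem quad_of_linear {f : F2 F → F2 F} (hadd : ∀ x y, f (x + y) = f x + f y)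
    (hsmul : ∀ (t : F) x, f (t • x) = t • f x) {m : ℕ} (hm : ∀ x, f^[3 ^ m] x = x) :
    ∀ x, (x - f x) - f (x - f x) = 0 := by
  obtain ⟨M, hM⟩ := exists_matrix hadd hsmul
  have hit : ∀ (n : ℕ) (x : F2 F), f^[n] x = (M ^ n).mulVec x := by
    intro n
    induction n with
    | zero => intro x; simp
    | succ n ih =>
      intro x
      rw [Function.iterate_succ_apply', ih, hM, pow_succ', Matrix.mulVec_mulVec]
  have hpow : M ^ (3 ^ m) = 1 := by
    refine Matrix.ext_of_mulVec_single fun j => ?_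
    rw [← hit, hm, Matrix.one_mulVec]
  have hdet : M.det = 1 := by
    apply pow_three_inj (m := m)
    rw [← Matrix.det_pow, hpow, Matrix.det_one]
  let M' : SL2 F := ⟨M, hdet⟩
  have hM' : M' ^ (3 ^ m) = 1 := by
    apply Subtype.ext
    rw [Matrix.SpecialLinearGroup.coe_pow]
    exact hpow
  have hsq : ((M' : M2 F) - 1) * ((M' : M2 F) - 1) = 0 := unipotent_sq M' m hM'
  have hsq' : (M - 1) * (M - 1) = 0 := hsq
  intro x
  have e := congrArg (fun A : M2 F => A.mulVec x) hsq'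
  simp only [Matrix.zero_mulVec, ← Matrix.mulVec_mulVec, Matrix.sub_mulVec, Matrix.one_mulVec] at e
  rw [← hM, ← hM] at e
  have e2 : x - f x = -(f x - x) := by abel
  rw [e2, hM (-_), Matrix.mulVec_neg, ← hM]
  calc -(f x - x) - -f (f x - x) = f (f x - x) - (f x - x) := by abel
    _ = 0 := e

/-- Over the field with three elements, additive maps are linear. -/
theorem smul_of_three {f : F2 F → F2 F} (hcard : Fintype.card F = 3)
    (hadd : ∀ x y, f (x + y) = f x + f y) : ∀ (t : F) x, f (t • x) = t • f x := by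
  classical
  have hf0 : f 0 = 0 := by
    have := hadd 0 0
    rw [add_zero] at this
    simpa using this
  have hneg : ∀ x, f (-x) = - f x := by
    intro x
    have := hadd x (-x)
    rw [add_neg_cancel, hf0] at this
    exact eq_neg_of_add_eq_zero_right this.symm
  have h3 : (3 : F) = 0 := by exact_mod_cast CharP.cast_eq_zero F 3
  have h1ne : (1 : F) ≠ -1 := by
    intro h
    have h2 : (2 : F) = 0 := by linear_combination h
    have : (1 : F) = 0 := by linear_combination h3 - h2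
    exact one_ne_zero this
  have hall : ∀ t : F, t = 0 ∨ t = 1 ∨ t = -1 := by
    have hc : ({0, 1, -1} : Finset F).card = 3 := by
      rw [Finset.card_insert_of_notMem, Finset.card_insert_of_notMem, Finset.card_singleton]
      · simpa using h1ne
      · simp
    have hu : ({0, 1, -1} : Finset F) = Finset.univ :=
      Finset.eq_univ_of_card _ (by rw [hc, hcard])
    intro t
    have : t ∈ ({0, 1, -1} : Finset F) := by rw [hu]; exact Finset.mem_univ t
    simpa using this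
  intro t x
  rcases hall t with rfl | rfl | rfl
  · simp [hf0]
  · simp
  · simp [hneg]

end algebra2

section group

variable {G : Type*} [Group G] {F : Type*} [Field F]

/-- The map induced on a section. -/
theorem exists_induced {U U₀ : Subgroup G} {ψ : G → F2 F}
    (hmul : ∀ x ∈ U, ∀ y ∈ U, ψ (x * y) = ψ x + ψ y) (hsurj : ∀ b, ∃ u ∈ U, ψ u = b)
    (hker : ∀ u ∈ U, ψ u = 0 ↔ u ∈ U₀) {g : G}
    (hg : g ∈ normalizer (U : Set G)) (hg₀ : g ∈ normalizer (U₀ : Set G)) :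
    ∃ f : F2 F → F2 F, (∀ u ∈ U, f (ψ u) = ψ (g * u * g⁻¹)) ∧
      (∀ x y, f (x + y) = f x + f y) ∧ Function.Injective f ∧
      (∀ u ∈ U, ⁅u, g⁆ ∈ U ∧ ψ ⁅u, g⁆ = ψ u - f (ψ u)) := by
  classical
  choose s hsU hs using hsurj
  have hone : ψ 1 = 0 := by
    have := hmul 1 U.one_mem 1 U.one_mem
    simpa using this
  have hinv : ∀ x ∈ U, ψ x⁻¹ = - ψ x := by
    intro x hx
    have := hmul x hx x⁻¹ (U.inv_mem hx)
    rw [mul_inv_cancel, hone] at this
    exact eq_neg_of_add_eq_zero_right this.symm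
  have hgU : ∀ u ∈ U, g * u * g⁻¹ ∈ U := fun u hu => (mem_normalizer_iff.1 hg u).1 hu
  have hgU₀ : ∀ u, u ∈ U₀ ↔ g * u * g⁻¹ ∈ U₀ := fun u => mem_normalizer_iff.1 hg₀ u
  have hkey : ∀ u ∈ U, ∀ u' ∈ U, ψ u = ψ u' ↔ u⁻¹ * u' ∈ U₀ := by
    intro u hu u' hu'
    rw [← hker _ (U.mul_mem (U.inv_mem hu) hu'), hmul _ (U.inv_mem hu) _ hu', hinv _ hu]
    exact neg_add_eq_zero.symm
  have hcomp : ∀ u ∈ U, ∀ u' ∈ U, ψ u = ψ u' ↔ ψ (g * u * g⁻¹) = ψ (g * u' * g⁻¹) := by
    intro u hu u' hu'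
    rw [hkey u hu u' hu', hkey _ (hgU u hu) _ (hgU u' hu'), hgU₀ (u⁻¹ * u')]
    have : g * (u⁻¹ * u') * g⁻¹ = (g * u * g⁻¹)⁻¹ * (g * u' * g⁻¹) := by group
    rw [this]
  have hf : ∀ u ∈ U, ψ (g * s (ψ u) * g⁻¹) = ψ (g * u * g⁻¹) := by
    intro u hu
    exact (hcomp _ (hsU _) _ hu).1 (hs _)
  refine ⟨fun x => ψ (g * s x * g⁻¹), hf, ?_, ?_, ?_⟩
  · intro x y
    have h1 : ψ (s x * s y) = x + y := by
      rw [hmul _ (hsU x) _ (hsU y), hs, hs]
    have h2 := hf _ (U.mul_mem (hsU x) (hsU y))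
    rw [h1] at h2
    show ψ (g * s (x + y) * g⁻¹) = ψ (g * s x * g⁻¹) + ψ (g * s y * g⁻¹)
    rw [h2, ← hmul _ (hgU _ (hsU x)) _ (hgU _ (hsU y))]
    congr 1
    group
  · intro x y h
    have := (hcomp _ (hsU x) _ (hsU y)).2 h
    rwa [hs, hs] at this
  · intro u hu
    have e : ⁅u, g⁆ = u * (g * u * g⁻¹)⁻¹ := by
      simp only [commutatorElement_def]
      group
    have hm : (g * u * g⁻¹)⁻¹ ∈ U := U.inv_mem (hgU u hu)
    refine ⟨by rw [e]; exact U.mul_mem hu hm, ?_⟩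
    rw [e, hmul _ hu _ hm, hinv _ (hgU u hu)]
    show ψ u + -ψ (g * u * g⁻¹) = ψ u - ψ (g * s (ψ u) * g⁻¹)
    rw [hf u hu, sub_eq_add_neg]

end group

end RawQuad

namespace Raw

open RawQuad

variable {G : Type*} [Group G] [Finite G] {F : Type*} [Field F] [Fintype F] [CharP F 3]
  {E Q W V Z Y Ω B : Subgroup G}
variable (r : Raw F E Q W V Z Y Ω B)
include r

theorem x5_hBW {a : G} (ha : a ∈ B) : a ∈ normalizer (W : Set G) := by
  have key : ∀ a ∈ B, ∀ w ∈ W, a * w * a⁻¹ ∈ W := by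
    intro a ha w hw
    obtain ⟨v, hv, z, hz, rfl⟩ := r.W_decomp.1 w hw
    have e : a * (v * z) * a⁻¹ = (a * v * a⁻¹) * (a * z * a⁻¹) := by group
    rw [e]
    exact W.mul_mem (r.hVW ((mem_normalizer_iff.1 (r.hBV ha) v).1 hv))
      (r.hZW ((mem_normalizer_iff.1 (r.hBZ ha) z).1 hz))
  rw [mem_normalizer_iff]
  intro h
  refine ⟨key a ha h, fun h1 => ?_⟩
  have := key a⁻¹ (B.inv_mem ha) _ h1
  simpa [mul_assoc] using this

theorem x5_psi1_inj {x y : G} (hx : x ∈ V) (hy : y ∈ V) (h : r.ψ₁ x = r.ψ₁ y) : x = y := by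
  have h1 := r.ψ₁_mul (x * y⁻¹) (r.hVW (V.mul_mem hx (V.inv_mem hy))) y (r.hVW hy)
  rw [inv_mul_cancel_right, h] at h1
  have h2 : r.ψ₁ (x * y⁻¹) = 0 := by simpa using h1.symm
  have h3 := ((r.V_surj).2 _ (V.mul_mem hx (V.inv_mem hy))).1 h2
  exact mul_inv_eq_one.1 h3

theorem x5_rho_one₁ : r.ρ₁ 1 = 1 := by
  have := r.ρ₁_mul 1 E.one_mem 1 E.one_mem
  rw [mul_one] at this
  exact (mul_eq_left.1 this.symm)

theorem x5_rho_one₂ : r.ρ₂ 1 = 1 := by
  have := r.ρ₂_mul 1 E.one_mem 1 E.one_mem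
  rw [mul_one] at this
  exact (mul_eq_left.1 this.symm)

/-- For large fields the map on `Q / W` is linear. -/
theorem x5_linear_Q {a : G} (haB : a ∈ B) (haV0 : a ∉ centralizer (V : Set G))
    (haV : ∀ v ∈ V, ⁅⁅v, a⁆, a⁆ = 1) {f₂ : F2 F → F2 F}
    (hf₂ : ∀ q ∈ Q, f₂ (r.ψ₂ q) = r.ψ₂ (a * q * a⁻¹)) (hf₂add : ∀ x y, f₂ (x + y) = f₂ x + f₂ y)
    (hcard : 3 < Fintype.card F) :
    ∀ (t : F) x, f₂ (t • x) = t • f₂ x := by
  have hmemK : ∀ k : SL2 F, k ∈ commutator (SL2 F) := by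
    intro k
    rw [K_eq_top hcard]
    exact Subgroup.mem_top k
  obtain ⟨f₁, hf₁, hf₁add, hf₁inj, hcomm⟩ := exists_induced (U := V) (U₀ := ⊥) (ψ := r.ψ₁) (g := a)
    (fun x hx y hy => r.ψ₁_mul x (r.hVW hx) y (r.hVW hy)) (r.V_surj).1
    (fun v hv => by rw [(r.V_surj).2 v hv, Subgroup.mem_bot]) (r.hBV haB)
    (by
      rw [mem_normalizer_iff]
      intro h
      simp [Subgroup.mem_bot])
  have hVa : ∀ v ∈ V, a * v * a⁻¹ ∈ V := fun v hv => (mem_normalizer_iff.1 (r.hBV haB) v).1 hv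
  have hEa : ∀ e ∈ E, a * e * a⁻¹ ∈ E := fun e he => (mem_normalizer_iff.1 (r.hBE haB) e).1 he
  have hQa : ∀ q ∈ Q, a * q * a⁻¹ ∈ Q := fun q hq => (mem_normalizer_iff.1 (r.hBQ haB) q).1 hq
  have hEV : ∀ e ∈ E, ∀ v ∈ V, e * v * e⁻¹ ∈ V :=
    fun e he v hv => (mem_normalizer_iff.1 (r.hEV he) v).1 hv
  have hact₁ : ∀ e ∈ E, ∀ v ∈ V, r.ψ₁ (e * v * e⁻¹) = sact (r.ρ₁ e) (r.ψ₁ v) :=
    fun e he v hv => r.ρ₁_act e he v (r.hVW hv)
  have hK : ∀ k : SL2 F, ∃ k' : SL2 F, ∀ x, f₁ (sact k x) = sact k' (f₁ x) := by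
    intro k
    obtain ⟨e, he, rfl⟩ := r.ρ₁_surj k (hmemK k)
    refine ⟨r.ρ₁ (a * e * a⁻¹), fun x => ?_⟩
    obtain ⟨v, hv, rfl⟩ := (r.V_surj).1 x
    rw [← hact₁ e he v hv, hf₁ _ (hEV e he v hv), hf₁ v hv, ← hact₁ _ (hEa e he) _ (hVa v hv)]
    congr 1
    group
  have hq : ∀ x, f₁ (x - f₁ x) = x - f₁ x := by
    intro x
    obtain ⟨v, hv, rfl⟩ := (r.V_surj).1 x
    obtain ⟨h1, h2⟩ := hcomm v hv
    rw [← h2, hf₁ _ h1]
    have h3 := haV v hv
    have h4 : ⁅v, a⁆ * a = a * ⁅v, a⁆ := commutatorElement_eq_one_iff_mul_comm.1 h3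
    rw [← h4]
    simp
  have hne : ∃ x, f₁ x ≠ x := by
    by_contra hc
    push_neg at hc
    apply haV0
    rw [mem_centralizer_iff]
    intro v hv
    have h1 := hc (r.ψ₁ v)
    rw [hf₁ v hv] at h1
    have h2 := r.x5_psi1_inj (hVa v hv) hv h1
    calc v * a = (a * v * a⁻¹) * a := by rw [h2]
      _ = a * v := by group
  have h2 : (2 : F) ≠ 0 := by
    intro h
    have h3 : (3 : F) = 0 := by exact_mod_cast CharP.cast_eq_zero F 3
    have : (1 : F) = 0 := by linear_combination h3 - h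
    exact one_ne_zero this
  obtain ⟨M, hM⟩ := linear_of_normalizes h2 hf₁add hf₁inj hK hq hne
  obtain ⟨e₀, he₀, rfl⟩ := r.ρ₁_surj M (hmemK M)
  set a₀ := e₀⁻¹ * a with ha₀
  have ha₀V : ∀ v ∈ V, a₀ * v * a₀⁻¹ = v := by
    intro v hv
    have e1 : a₀ * v * a₀⁻¹ = e₀⁻¹ * (a * v * a⁻¹) * e₀⁻¹⁻¹ := by
      rw [ha₀]
      group
    have hy : a₀ * v * a₀⁻¹ ∈ V := by
      rw [e1]
      exact hEV _ (E.inv_mem he₀) _ (hVa v hv)
    apply r.x5_psi1_inj hy hv
    apply sact_inj (r.ρ₁ e₀)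
    rw [← hact₁ e₀ he₀ _ hy, ← hM, hf₁ v hv]
    congr 1
    rw [ha₀]
    group
  have hE₁ : ∀ e ∈ E, a₀ * e * a₀⁻¹ ∈ E := by
    intro e he
    have e1 : a₀ * e * a₀⁻¹ = e₀⁻¹ * (a * e * a⁻¹) * e₀⁻¹⁻¹ := by
      rw [ha₀]
      group
    rw [e1]
    exact E.mul_mem (E.mul_mem (E.inv_mem he₀) (hEa e he)) (E.inv_mem (E.inv_mem he₀))
  have hρ₁ : ∀ e ∈ E, r.ρ₁ (a₀ * e * a₀⁻¹) = r.ρ₁ e := by
    intro e he
    apply sl_ext
    intro x
    obtain ⟨v, hv, rfl⟩ := (r.V_surj).1 x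
    rw [← hact₁ _ (hE₁ e he) v hv, ← hact₁ e he v hv]
    congr 1
    have e1 : a₀⁻¹ * v * a₀ = v := by
      have := ha₀V v hv
      calc a₀⁻¹ * v * a₀ = a₀⁻¹ * (a₀ * v * a₀⁻¹) * a₀ := by rw [this]
        _ = v := by group
    calc a₀ * e * a₀⁻¹ * v * (a₀ * e * a₀⁻¹)⁻¹
        = a₀ * (e * (a₀⁻¹ * v * a₀) * e⁻¹) * a₀⁻¹ := by group
      _ = a₀ * (e * v * e⁻¹) * a₀⁻¹ := by rw [e1]
      _ = e * v * e⁻¹ := ha₀V _ (hEV e he v hv)
  have hρ₂ : ∀ e ∈ E, r.ρ₂ (a₀ * e * a₀⁻¹) = r.ρ₂ e := by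
    intro e he
    have h1 : r.ρ₁ (a₀ * e * a₀⁻¹ * e⁻¹) = 1 := by
      rw [r.ρ₁_mul _ (hE₁ e he) _ (E.inv_mem he), hρ₁ e he, ← r.ρ₁_mul _ he _ (E.inv_mem he),
        mul_inv_cancel, r.x5_rho_one₁]
    have h2 := (r.ρ₁_ker _ (E.mul_mem (hE₁ e he) (E.inv_mem he))).1 h1
    have h3 := (r.ρ₂_ker _ (E.mul_mem (hE₁ e he) (E.inv_mem he))).2 h2
    have h4 := r.ρ₂_mul _ (E.mul_mem (hE₁ e he) (E.inv_mem he)) e he
    rw [h3, one_mul, inv_mul_cancel_right] at h4
    exact h4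
  have hQ₀ : ∀ q ∈ Q, a₀ * q * a₀⁻¹ ∈ Q := by
    intro q hq
    have e1 : a₀ * q * a₀⁻¹ = e₀⁻¹ * (a * q * a⁻¹) * e₀⁻¹⁻¹ := by
      rw [ha₀]
      group
    rw [e1]
    exact (mem_normalizer_iff.1 (r.hEQ (E.inv_mem he₀)) _).1 (hQa q hq)
  let f₃ : F2 F → F2 F := fun x => sact (r.ρ₂ e₀⁻¹) (f₂ x)
  have hf₃ : ∀ q ∈ Q, f₃ (r.ψ₂ q) = r.ψ₂ (a₀ * q * a₀⁻¹) := by
    intro q hq
    show sact (r.ρ₂ e₀⁻¹) (f₂ (r.ψ₂ q)) = _
    rw [hf₂ q hq, ← r.ρ₂_act _ (E.inv_mem he₀) _ (hQa q hq)]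
    congr 1
    rw [ha₀]
    group
  have hf₃add : ∀ x y, f₃ (x + y) = f₃ x + f₃ y := by
    intro x y
    show sact (r.ρ₂ e₀⁻¹) (f₂ (x + y)) = sact (r.ρ₂ e₀⁻¹) (f₂ x) + sact (r.ρ₂ e₀⁻¹) (f₂ y)
    rw [hf₂add, sact_add]
  have hf₃comm : ∀ k ∈ commutator (SL2 F), ∀ x, f₃ (sact k x) = sact k (f₃ x) := by
    intro k hk x
    obtain ⟨e, he, rfl⟩ := r.ρ₂_surj k hk
    obtain ⟨q, hq', rfl⟩ := r.ψ₂_surj x
    have hqe : e * q * e⁻¹ ∈ Q := (mem_normalizer_iff.1 (r.hEQ he) q).1 hq'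
    rw [← r.ρ₂_act e he q hq', hf₃ _ hqe, hf₃ q hq', ← hρ₂ e he,
      ← r.ρ₂_act _ (hE₁ e he) _ (hQ₀ q hq')]
    congr 1
    group
  obtain ⟨l, hl⟩ := schur_K f₃ hf₃add hf₃comm
  have hf₂eq : ∀ x, f₂ x = sact (r.ρ₂ e₀) (l • x) := by
    intro x
    rw [← hl x]
    show f₂ x = sact (r.ρ₂ e₀) (sact (r.ρ₂ e₀⁻¹) (f₂ x))
    rw [← sact_mul, ← r.ρ₂_mul _ he₀ _ (E.inv_mem he₀), mul_inv_cancel, r.x5_rho_one₂, sact_one]
  intro t x
  rw [hf₂eq, hf₂eq, smul_comm, sact_smul]

theorem quad_Q (hQY : Q ≤ Y) {a : G} (haB : a ∈ B) (haV0 : a ∉ centralizer (V : Set G))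
    (haV : ∀ v ∈ V, ⁅⁅v, a⁆, a⁆ = 1) : ∀ q ∈ Q, ⁅⁅q, a⁆, a⁆ ∈ W := by
  obtain ⟨f₂, hf₂, hf₂add, hf₂inj, hcomm⟩ := exists_induced (U := Q) (U₀ := W) (ψ := r.ψ₂) (g := a)
    r.ψ₂_mul r.ψ₂_surj r.ψ₂_ker (r.hBQ haB) (r.x5_hBW haB)
  have hQa : ∀ q ∈ Q, a * q * a⁻¹ ∈ Q := fun q hq => (mem_normalizer_iff.1 (r.hBQ haB) q).1 hq
  have hlin : ∀ (t : F) x, f₂ (t • x) = t • f₂ x := by
    by_cases hcard : 3 < Fintype.card F
    · exact r.x5_linear_Q haB haV0 haV hf₂ hf₂add hcard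
    · exact smul_of_three (card_three_or hcard) hf₂add
  obtain ⟨m, hm⟩ := r.hBp ⟨a, haB⟩
  have hm' : a ^ (3 ^ m) = 1 := by
    have := congrArg Subtype.val hm
    simpa using this
  have hQpow : ∀ (n : ℕ), ∀ q ∈ Q, a ^ n * q * (a ^ n)⁻¹ ∈ Q := by
    intro n
    induction n with
    | zero => intro q hq; simpa using hq
    | succ n ih =>
      intro q hq
      have e : a ^ (n + 1) * q * (a ^ (n + 1))⁻¹ = a * (a ^ n * q * (a ^ n)⁻¹) * a⁻¹ := by
        rw [pow_succ']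
        group
      rw [e]
      exact hQa _ (ih q hq)
  have hit : ∀ (n : ℕ), ∀ q ∈ Q, f₂^[n] (r.ψ₂ q) = r.ψ₂ (a ^ n * q * (a ^ n)⁻¹) := by
    intro n
    induction n with
    | zero => intro q hq; simp
    | succ n ih =>
      intro q hq
      rw [Function.iterate_succ_apply', ih q hq, hf₂ _ (hQpow n q hq)]
      congr 1
      rw [pow_succ']
      group
  have hper : ∀ x, f₂^[3 ^ m] x = x := by
    intro x
    obtain ⟨q, hq, rfl⟩ := r.ψ₂_surj x
    rw [hit _ q hq, hm']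
    simp
  have hquad := quad_of_linear hf₂add hlin hper
  intro q hq
  obtain ⟨h1, h2⟩ := hcomm q hq
  obtain ⟨h3, h4⟩ := hcomm _ h1
  refine (r.ψ₂_ker _ h3).1 ?_
  rw [h4, h2]
  exact hquad _

end Raw

end Cfsg.Agent.Lib.BlockX
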