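import Mathlib
import Cfsg.Agent.Lib.BlockX.RawT
import Cfsg.Agent.Lib.BlockX.SLn

/-! Piece X3 of S2985: the commutator form on `Q / W` and the functional `τ`. -/

namespace Cfsg.Agent.Lib.BlockX
open Subgroup Cfsg Matrix
open scoped commutatorElement

namespace RawTauAux

variable {F : Type*} [Field F] {A : Type*} [AddCommGroup A]

theorem vec_add (x y x' y' : F) : (![x + x', y + y'] : F2 F) = ![x, y] + ![x', y'] := by
  ext i; fin_cases i <;> simp

theorem vec_split (x y : F) : (![x, y] : F2 F) = ![x, 0] + ![0, y] := by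
  ext i; fin_cases i <;> simp

theorem vec_eta (a : F2 F) : a = ![a 0, a 1] := by
  ext i; fin_cases i <;> simp

theorem vec_neg_left (x : F) : (![-x, 0] : F2 F) = -![x, 0] := by
  ext i; fin_cases i <;> simp

theorem vec_neg_right (x : F) : (![0, -x] : F2 F) = -![0, x] := by
  ext i; fin_cases i <;> simp

theorem vec_zero : (![0, 0] : F2 F) = 0 := by
  ext i; fin_cases i <;> simp

theorem sact_mk (p q r s : F) (h) (a : F2 F) :
    sact (⟨!![p, q; r, s], h⟩ : SL2 F) a = ![p * a 0 + q * a 1, r * a 0 + s * a 1] := by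
  ext i; fin_cases i <;> simp [sact, Matrix.mulVec, dotProduct, Fin.sum_univ_two]

theorem elems_of_card_three [Fintype F] [CharP F 3] (h : Fintype.card F = 3) (s : F) :
    s = 0 ∨ s = 1 ∨ s = -1 := by
  classical
  have h2 : (2 : F) ≠ 0 := RawAux.two_ne_zero_F
  have hne : (1 : F) ≠ -1 := by
    intro h1
    apply h2
    linear_combination h1
  have hc : ({0, 1, -1} : Finset F).card = 3 := by
    rw [Finset.card_insert_of_notMem, Finset.card_insert_of_notMem, Finset.card_singleton]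
    · simpa using hne
    · simp [eq_comm]
  have hu : ({0, 1, -1} : Finset F) = Finset.univ := by
    apply Finset.eq_univ_of_card
    rw [hc, h]
  have : s ∈ ({0, 1, -1} : Finset F) := by rw [hu]; exact Finset.mem_univ s
  simpa using this

theorem form_abstract [Fintype F] [CharP F 3] (B : F2 F → F2 F → A)
    (hl : ∀ a a' b, B (a + a') b = B a b + B a' b)
    (hr : ∀ a b b', B a (b + b') = B a b + B a b')
    (halt : ∀ a, B a a = 0)
    (hinv : ∀ k ∈ commutator (SL2 F), ∀ a b, B (sact k a) (sact k b) = B a b) :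
    ∃ g : F →+ A, ∀ a b, B a b = g (dt a b) := by
  have hl0 : ∀ b, B 0 b = 0 := fun b => by
    have := hl 0 0 b
    simpa using this
  have hr0 : ∀ a, B a 0 = 0 := fun a => by
    have := hr a 0 0
    simpa using this
  have hln : ∀ a b, B (-a) b = - B a b := fun a b => by
    have := hl a (-a) b
    rw [add_neg_cancel, hl0] at this
    exact (neg_eq_of_add_eq_zero_right this.symm).symm
  have hrn : ∀ a b, B a (-b) = - B a b := fun a b => by
    have := hr a b (-b)
    rw [add_neg_cancel, hr0] at this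
    exact (neg_eq_of_add_eq_zero_right this.symm).symm
  have hsk : ∀ a b, B b a = - B a b := by
    intro a b
    have := halt (a + b)
    rw [hl, hr, hr, halt, halt, zero_add, add_zero] at this
    exact (neg_eq_of_add_eq_zero_right this).symm
  let g : F →+ A :=
    { toFun := fun d => B ![1, 0] ![0, d]
      map_zero' := by
        show B ![1, 0] ![0, 0] = 0
        rw [vec_zero, hr0]
      map_add' := by
        intro x y
        show B ![1, 0] ![0, x + y] = B ![1, 0] ![0, x] + B ![1, 0] ![0, y]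
        rw [← hr, ← vec_add, add_zero] }
  have hg : ∀ d, g d = B ![1, 0] ![0, d] := fun d => rfl
  have key : (∀ x y, B ![x, 0] ![y, 0] = 0) ∧ (∀ x y, B ![0, x] ![0, y] = 0) ∧
      (∀ x y, B ![x, 0] ![0, y] = g (x * y)) := by
    by_cases hq : 3 < Fintype.card F
    · have hK := K_eq_top (F := F) hq
      have hinv' : ∀ (k : SL2 F) a b, B (sact k a) (sact k b) = B a b :=
        fun k a b => hinv k (by rw [hK]; trivial) a b
      have h1 : ∀ s, B ![1, 0] ![s, 0] = 0 := by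
        intro s
        have h := hinv' ⟨!![1, s; 0, 1], by simp [det_fin_two]⟩ ![1, 0] ![0, 1]
        rw [sact_mk, sact_mk] at h
        simp only [Matrix.cons_val_zero, Matrix.cons_val_one, mul_one, mul_zero, add_zero, zero_add] at h
        rw [vec_split s 1, hr] at h
        simpa using h
      have hd : ∀ (x : F), x ≠ 0 → ∀ a b, B ![x * a 0, x⁻¹ * a 1] ![x * b 0, x⁻¹ * b 1] = B a b := by
        intro x hx a b
        have h := hinv' ⟨!![x, 0; 0, x⁻¹], by simp [det_fin_two, hx]⟩ a b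
        rw [sact_mk, sact_mk] at h
        simpa using h
      have h2 : ∀ x y, B ![x, 0] ![y, 0] = 0 := by
        intro x y
        by_cases hx : x = 0
        · subst hx; rw [vec_zero, hl0]
        · have h := hd x⁻¹ (inv_ne_zero hx) ![x, 0] ![y, 0]
          simp only [Matrix.cons_val_zero, Matrix.cons_val_one, mul_zero, inv_mul_cancel₀ hx] at h
          rw [← h, h1]
      have h3 : ∀ x y, B ![0, x] ![0, y] = 0 := by
        intro x y
        have h := hinv' ⟨!![0, 1; -1, 0], by simp [det_fin_two]⟩ ![0, x] ![0, y]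
        rw [sact_mk, sact_mk] at h
        simp only [Matrix.cons_val_zero, Matrix.cons_val_one, mul_zero, one_mul, zero_mul, zero_add, add_zero] at h
        rw [← h, h2]
      refine ⟨h2, h3, ?_⟩
      intro x y
      by_cases hx : x = 0
      · subst hx
        rw [zero_mul, map_zero, vec_zero, hl0]
      · have h := hd x⁻¹ (inv_ne_zero hx) ![x, 0] ![0, y]
        simp only [Matrix.cons_val_zero, Matrix.cons_val_one, mul_zero, inv_mul_cancel₀ hx, inv_inv] at h
        rw [← h, hg]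
    · have hF := elems_of_card_three (card_three_or (F := F) hq)
      refine ⟨?_, ?_, ?_⟩
      · intro x y
        have hB : ∀ y : F, B ![1, 0] ![y, 0] = 0 := by
          intro y
          rcases hF y with rfl | rfl | rfl
          · rw [vec_zero, hr0]
          · exact halt _
          · rw [vec_neg_left, hrn, halt, neg_zero]
        rcases hF x with rfl | rfl | rfl
        · rw [vec_zero, hl0]
        · exact hB y
        · rw [vec_neg_left, hln, hB, neg_zero]
      · intro x y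
        have hB : ∀ y : F, B ![0, 1] ![0, y] = 0 := by
          intro y
          rcases hF y with rfl | rfl | rfl
          · rw [vec_zero, hr0]
          · exact halt _
          · rw [vec_neg_right, hrn, halt, neg_zero]
        rcases hF x with rfl | rfl | rfl
        · rw [vec_zero, hl0]
        · exact hB y
        · rw [vec_neg_right, hln, hB, neg_zero]
      · intro x y
        rcases hF x with rfl | rfl | rfl
        · rw [zero_mul, map_zero, vec_zero, hl0]
        · rw [one_mul, hg]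
        · rw [neg_one_mul, map_neg, vec_neg_left, hln, hg]
  obtain ⟨h2, h3, h4⟩ := key
  refine ⟨g, fun a b => ?_⟩
  have hab : B a b = B (![a 0, 0] + ![0, a 1]) (![b 0, 0] + ![0, b 1]) := by
    rw [← vec_split, ← vec_split, ← vec_eta, ← vec_eta]
  rw [hab, hl, hr, hr, h2, h3, h4, hsk ![b 0, 0] ![0, a 1], h4, dt, map_sub, mul_comm (b 0)]
  abel

end RawTauAux

variable {G : Type*} [Group G] {F : Type*} [Field F] {E Q W V Z Y Ω B : Subgroup G}

namespace Raw

variable (r : Raw F E Q W V Z Y Ω B)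
include r

theorem comm_mem_Z {x y : G} (hx : x ∈ Q) (hy : y ∈ Q) : ⁅x, y⁆ ∈ Z := by
  rw [← r.hQQ]
  exact Subgroup.commutator_mem_commutator hx hy

theorem Z_comm_Q {z q : G} (hz : z ∈ Z) (hq : q ∈ Q) : z * q = q * z :=
  r.W_comm_Q (r.hZW hz) hq

theorem comm_mul_left {x x' y : G} (hx : x ∈ Q) (hx' : x' ∈ Q) (hy : y ∈ Q) :
    ⁅x * x', y⁆ = ⁅x, y⁆ * ⁅x', y⁆ := by
  have h := r.Z_comm_Q (r.comm_mem_Z hx' hy) hx
  have key : ⁅x * x', y⁆ = x * ⁅x', y⁆ * (y * x⁻¹ * y⁻¹) := by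
    simp only [commutatorElement_def]
    group
  rw [key, ← h, mul_assoc, r.W_comm (r.hZW (r.comm_mem_Z hx hy)) (r.hZW (r.comm_mem_Z hx' hy))]
  simp only [commutatorElement_def]
  group

theorem comm_mul_right {x y y' : G} (hx : x ∈ Q) (hy : y ∈ Q) (hy' : y' ∈ Q) :
    ⁅x, y * y'⁆ = ⁅x, y⁆ * ⁅x, y'⁆ := by
  have h := r.Z_comm_Q (r.comm_mem_Z hx hy') hy
  have key : ⁅x, y * y'⁆ = ⁅x, y⁆ * (y * ⁅x, y'⁆ * y⁻¹) := by
    simp only [commutatorElement_def]
    group
  rw [key, ← h]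
  simp

theorem comm_W_left {w y : G} (hw : w ∈ W) (hy : y ∈ Q) : ⁅w, y⁆ = 1 := by
  rw [commutatorElement_eq_one_iff_mul_comm]
  exact r.W_comm_Q hw hy

theorem comm_W_right {x w : G} (hx : x ∈ Q) (hw : w ∈ W) : ⁅x, w⁆ = 1 := by
  rw [commutatorElement_eq_one_iff_mul_comm]
  exact (r.W_comm_Q hw hx).symm

theorem ψ₂_one : r.ψ₂ 1 = 0 := by
  have h := r.ψ₂_mul 1 Q.one_mem 1 Q.one_mem
  simpa using h

theorem ψ₂_inv {x : G} (hx : x ∈ Q) : r.ψ₂ x⁻¹ = - r.ψ₂ x := by
  have h := r.ψ₂_mul x hx x⁻¹ (Q.inv_mem hx)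
  rw [mul_inv_cancel, r.ψ₂_one] at h
  exact (neg_eq_of_add_eq_zero_right h.symm).symm

theorem diff_mem_W {x x' : G} (hx : x ∈ Q) (hx' : x' ∈ Q) (h : r.ψ₂ x = r.ψ₂ x') : x⁻¹ * x' ∈ W := by
  rw [← r.ψ₂_ker _ (Q.mul_mem (Q.inv_mem hx) hx'), r.ψ₂_mul _ (Q.inv_mem hx) _ hx', r.ψ₂_inv hx, h]
  simp

theorem comm_congr {x x' y y' : G} (hx : x ∈ Q) (hx' : x' ∈ Q) (hy : y ∈ Q) (hy' : y' ∈ Q)
    (h1 : r.ψ₂ x = r.ψ₂ x') (h2 : r.ψ₂ y = r.ψ₂ y') : ⁅x, y⁆ = ⁅x', y'⁆ := by
  have hw1 := r.diff_mem_W hx hx' h1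
  have hw2 := r.diff_mem_W hy hy' h2
  have e1 : x' = x * (x⁻¹ * x') := by group
  have e2 : y' = y * (y⁻¹ * y') := by group
  rw [e1, e2, r.comm_mul_left hx (r.hWQ hw1) (Q.mul_mem hy (r.hWQ hw2)),
    r.comm_W_left hw1 (Q.mul_mem hy (r.hWQ hw2)), mul_one, r.comm_mul_right hx hy (r.hWQ hw2),
    r.comm_W_right hx hw2, mul_one]

theorem exists_g [Finite G] [Fintype F] [CharP F 3] : ∃ g : F → G, (∀ d d', g (d + d') = g d * g d') ∧
    (∀ d, g d ∈ Z) ∧ (∀ x ∈ Q, ∀ y ∈ Q, ⁅x, y⁆ = g (dt (r.ψ₂ x) (r.ψ₂ y))) := by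
  choose σ hσQ hσψ using r.ψ₂_surj
  letI : CommGroup Z :=
    { (inferInstance : Group Z) with
      mul_comm := fun a b => Subtype.ext (r.W_comm (r.hZW a.2) (r.hZW b.2)) }
  let B₀ : F2 F → F2 F → Additive Z := fun a b =>
    Additive.ofMul ⟨⁅σ a, σ b⁆, r.comm_mem_Z (hσQ a) (hσQ b)⟩
  have hB₀ : ∀ a b, ((Additive.toMul (B₀ a b) : Z) : G) = ⁅σ a, σ b⁆ := fun a b => rfl
  have hext : ∀ p q : Additive Z, ((Additive.toMul p : Z) : G) = ((Additive.toMul q : Z) : G) → p = q := by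
    intro p q h
    exact Additive.toMul.injective (Subtype.ext h)
  have hadd : ∀ p q : Additive Z, ((Additive.toMul (p + q) : Z) : G) =
      ((Additive.toMul p : Z) : G) * ((Additive.toMul q : Z) : G) := fun p q => rfl
  have hcomm : ∀ x ∈ Q, ∀ y ∈ Q, ⁅x, y⁆ = ((Additive.toMul (B₀ (r.ψ₂ x) (r.ψ₂ y)) : Z) : G) := by
    intro x hx y hy
    rw [hB₀]
    exact r.comm_congr hx (hσQ _) hy (hσQ _) (hσψ _).symm (hσψ _).symm
  have h1 : ∀ a a' b, B₀ (a + a') b = B₀ a b + B₀ a' b := by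
    intro a a' b
    apply hext
    rw [hadd, hB₀, hB₀, hB₀, ← r.comm_mul_left (hσQ a) (hσQ a') (hσQ b)]
    refine r.comm_congr (hσQ _) (Q.mul_mem (hσQ a) (hσQ a')) (hσQ _) (hσQ _) ?_ rfl
    rw [r.ψ₂_mul _ (hσQ a) _ (hσQ a'), hσψ, hσψ, hσψ]
  have h2 : ∀ a b b', B₀ a (b + b') = B₀ a b + B₀ a b' := by
    intro a b b'
    apply hext
    rw [hadd, hB₀, hB₀, hB₀, ← r.comm_mul_right (hσQ a) (hσQ b) (hσQ b')]
    refine r.comm_congr (hσQ _) (hσQ _) (hσQ _) (Q.mul_mem (hσQ b) (hσQ b')) rfl ?_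
    rw [r.ψ₂_mul _ (hσQ b) _ (hσQ b'), hσψ, hσψ, hσψ]
  have h3 : ∀ a, B₀ a a = 0 := by
    intro a
    apply hext
    rw [hB₀]
    simp
  have h4 : ∀ k ∈ commutator (SL2 F), ∀ a b, B₀ (sact k a) (sact k b) = B₀ a b := by
    intro k hk a b
    apply hext
    rw [hB₀, hB₀]
    obtain ⟨e, he, hek⟩ := r.ρ₂_surj k hk
    have hconj : ∀ x ∈ Q, e * x * e⁻¹ ∈ Q := fun x hx => (mem_normalizer_iff.1 (r.hEQ he) x).1 hx
    have h1 : ⁅σ (sact k a), σ (sact k b)⁆ = ⁅e * σ a * e⁻¹, e * σ b * e⁻¹⁆ := by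
      refine r.comm_congr (hσQ _) (hconj _ (hσQ a)) (hσQ _) (hconj _ (hσQ b)) ?_ ?_
      · rw [r.ρ₂_act e he _ (hσQ a), hek, hσψ, hσψ]
      · rw [r.ρ₂_act e he _ (hσQ b), hek, hσψ, hσψ]
    have h2 : ⁅e * σ a * e⁻¹, e * σ b * e⁻¹⁆ = e * ⁅σ a, σ b⁆ * e⁻¹ := by
      simp only [commutatorElement_def]
      group
    rw [h1, h2, r.hZ_comm (r.comm_mem_Z (hσQ a) (hσQ b)) he]
    simp
  obtain ⟨g, hg⟩ := RawTauAux.form_abstract B₀ h1 h2 h3 h4
  refine ⟨fun d => ((Additive.toMul (g d) : Z) : G), ?_, ?_, ?_⟩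
  · intro d d'
    show ((Additive.toMul (g (d + d')) : Z) : G) = _
    rw [map_add]
    exact hadd _ _
  · intro d
    exact (Additive.toMul (g d) : Z).2
  · intro x hx y hy
    rw [hcomm x hx y hy, hg]

theorem exists_τ [Finite G] [Fintype F] [CharP F 3] : ∃ τ : G → F,
    (∀ x ∈ W, ∀ y ∈ W, τ (x * y) = τ x + τ y) ∧ (∀ w ∈ W, τ w = 0 ↔ w ∈ V) ∧
    (∀ x ∈ Q, ∀ y ∈ Q, τ ⁅x, y⁆ = dt (r.ψ₂ x) (r.ψ₂ y)) := by
  classical
  obtain ⟨g, hgadd, hgZ, hgc⟩ := r.exists_g
  obtain ⟨hdec, hVZ⟩ := r.W_decomp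
  have hg0 : g 0 = 1 := by
    have h := hgadd 0 0
    simpa using h
  have hgneg : ∀ d, g (-d) = (g d)⁻¹ := by
    intro d
    have h := hgadd d (-d)
    rw [add_neg_cancel, hg0] at h
    exact (inv_eq_of_mul_eq_one_right h.symm).symm
  -- surjective
  have hsurj : ∀ z ∈ Z, ∃ d, g d = z := by
    let R : Subgroup G :=
      { carrier := Set.range g
        mul_mem' := by
          rintro _ _ ⟨a, rfl⟩ ⟨b, rfl⟩
          exact ⟨a + b, hgadd a b⟩
        one_mem' := ⟨0, hg0⟩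
        inv_mem' := by
          rintro _ ⟨a, rfl⟩
          exact ⟨-a, hgneg a⟩ }
    have hle : Z ≤ R := by
      rw [← r.hQQ, Subgroup.commutator_le]
      intro x hx y hy
      rw [hgc x hx y hy]
      exact ⟨_, rfl⟩
    intro z hz
    exact hle hz
  -- injective
  have hinj : Function.Injective g := by
    let g' : F → Z := fun d => ⟨g d, hgZ d⟩
    have hs' : Function.Surjective g' := by
      rintro ⟨z, hz⟩
      obtain ⟨d, hd⟩ := hsurj z hz
      exact ⟨d, Subtype.ext hd⟩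
    have hb := hs'.bijective_of_nat_card_le (by rw [r.hcard])
    intro a b hab
    exact hb.1 (Subtype.ext hab)
  have hg1 : ∀ d, g d = 1 → d = 0 := fun d h => hinj (h.trans hg0.symm)
  -- uniqueness
  have huniq : ∀ v ∈ V, ∀ v' ∈ V, ∀ d d', v * g d = v' * g d' → d = d' := by
    intro v hv v' hv' d d' h
    have h1 : v'⁻¹ * v = g (d' + -d) := by
      rw [hgadd, hgneg]
      calc v'⁻¹ * v = v'⁻¹ * (v * g d) * (g d)⁻¹ := by group
        _ = v'⁻¹ * (v' * g d') * (g d)⁻¹ := by rw [h]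
        _ = g d' * (g d)⁻¹ := by group
    have h2 : g (d' + -d) ∈ V ⊓ Z := by
      refine ⟨?_, hgZ _⟩
      rw [← h1]
      exact V.mul_mem (V.inv_mem hv') hv
    rw [hVZ, Subgroup.mem_bot] at h2
    have h3 := hg1 _ h2
    have h4 : d' = d := by linear_combination h3
    exact h4.symm
  let τ : G → F := fun w => if h : ∃ d, ∃ v ∈ V, w = v * g d then h.choose else 0
  have hτ : ∀ v ∈ V, ∀ d, τ (v * g d) = d := by
    intro v hv d
    have hex : ∃ d', ∃ v' ∈ V, v * g d = v' * g d' := ⟨d, v, hv, rfl⟩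
    have hτ' : τ (v * g d) = hex.choose := dif_pos hex
    obtain ⟨v', hv', h⟩ := hex.choose_spec
    rw [hτ']
    exact (huniq v hv v' hv' _ _ h).symm
  have hW : ∀ w ∈ W, ∃ d, ∃ v ∈ V, w = v * g d := by
    intro w hw
    obtain ⟨v, hv, z, hz, rfl⟩ := hdec w hw
    obtain ⟨d, rfl⟩ := hsurj z hz
    exact ⟨d, v, hv, rfl⟩
  refine ⟨τ, ?_, ?_, ?_⟩
  · intro x hx y hy
    obtain ⟨d, v, hv, rfl⟩ := hW x hx
    obtain ⟨d', v', hv', rfl⟩ := hW y hy
    have h : v * g d * (v' * g d') = (v * v') * g (d + d') := by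
      rw [hgadd]
      calc v * g d * (v' * g d') = v * (g d * v') * g d' := by group
        _ = v * (v' * g d) * g d' := by rw [r.W_comm (r.hZW (hgZ d)) (r.hVW hv')]
        _ = (v * v') * (g d * g d') := by group
    rw [h, hτ _ (V.mul_mem hv hv'), hτ _ hv, hτ _ hv']
  · intro w hw
    obtain ⟨d, v, hv, rfl⟩ := hW w hw
    rw [hτ _ hv]
    constructor
    · rintro rfl
      rwa [hg0, mul_one]
    · intro h
      have h1 : g d ∈ V ⊓ Z := by
        refine ⟨?_, hgZ _⟩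
        have h2 : g d = v⁻¹ * (v * g d) := by group
        rw [h2]
        exact V.mul_mem (V.inv_mem hv) h
      rw [hVZ, Subgroup.mem_bot] at h1
      exact hg1 _ h1
  · intro x hx y hy
    have h := hτ 1 V.one_mem (dt (r.ψ₂ x) (r.ψ₂ y))
    rwa [one_mul, ← hgc x hx y hy] at h

end Raw
end Cfsg.Agent.Lib.BlockX
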