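import Mathlib
import Cfsg.Agent.Lib.BlockX.RawCoreAux
import Cfsg.Agent.Lib.BlockX.RawTau
import Cfsg.Agent.Lib.BlockX.RawQuad

/-! Piece XF of S2985: the raw data of an exceptional block with a quadratic element give `Core`. -/

namespace Cfsg.Agent.Lib.BlockX
open Subgroup Cfsg Matrix
open scoped commutatorElement

variable {G : Type*} [Group G] [Finite G] {F : Type*} [Field F] [Fintype F] [CharP F 3]
  {E Q W V Z Y Ω B : Subgroup G}

/-- PIECE XF: assemble `Core`. -/
theorem core_of_raw (r : Raw F E Q W V Z Y Ω B) (hQY : Q ≤ Y) {a : G} (haB : a ∈ B)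
    (haV0 : a ∉ centralizer (V : Set G)) (haV : ∀ v ∈ V, ⁅⁅v, a⁆, a⁆ = 1) :
    ∃ t, Nonempty (Core F E Q W V Z Y Ω B t a) :=
  core_of_raw_aux r hQY haB haV0 haV r.exists_τ (r.quad_Q hQY haB haV0 haV)

end Cfsg.Agent.Lib.BlockX
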