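import Mathlib
import Cfsg.Prelude.Def_BaumannBlocks
import Cfsg.Agent.Lib.BlockX.RawDef
import Cfsg.Agent.Lib.PGroup.BaumannSect

/-! Piece X0 of S2985: the raw elementwise data of an exceptional block. -/

namespace Cfsg.Agent.Lib.BlockX
open Subgroup Cfsg Matrix
open Cfsg.Agent.Lib.PGroup.BaumannSect Cfsg.Agent.Lib.PGroup.BaumannNorm
open scoped commutatorElement

variable {G : Type*} [Group G]

namespace RawOf

/-- Elementwise extraction from `ActsAsSL2OnSection`. -/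
theorem extract {F : Type*} [Field F] {K : Subgroup (SL2 F)} {E U U₀ : Subgroup G}
    (h : ActsAsSL2OnSection F K E U U₀) :
    ∃ (ψ : G → F2 F) (ρ : G → SL2 F),
      (∀ x ∈ U, ∀ y ∈ U, ψ (x * y) = ψ x + ψ y) ∧
      (∀ b : F2 F, ∃ u ∈ U, ψ u = b) ∧
      (∀ u ∈ U, ψ u = 0 ↔ u ∈ U₀) ∧
      (∀ x ∈ E, ∀ y ∈ E, ρ (x * y) = ρ x * ρ y) ∧
      (∀ e ∈ E, ρ e ∈ K) ∧
      (∀ k ∈ K, ∃ e ∈ E, ρ e = k) ∧
      (∀ e ∈ E, ∀ u ∈ U, ψ (e * u * e⁻¹) = sact (ρ e) (ψ u)) := by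
  classical
  obtain ⟨hEU, hU₀, ρ, ψ, hρ, hψs, hker, heq⟩ := h
  obtain ⟨ψ', hψ⟩ : ∃ ψ' : G → F2 F, ∀ (u : G) (hu : u ∈ U),
      ψ' u = Multiplicative.toAdd (ψ ⟨u, hu⟩) :=
    ⟨fun u => if h : u ∈ U then Multiplicative.toAdd (ψ ⟨u, h⟩) else 0, fun u hu => dif_pos hu⟩
  obtain ⟨ρ', hρ'⟩ : ∃ ρ' : G → SL2 F, ∀ (e : G) (he : e ∈ E), ρ' e = ρ ⟨e, he⟩ :=
    ⟨fun e => if h : e ∈ E then ρ ⟨e, h⟩ else 1, fun e he => dif_pos he⟩
  refine ⟨ψ', ρ', ?_, ?_, ?_, ?_, ?_, ?_, ?_⟩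
  · intro x hx y hy
    rw [hψ _ (U.mul_mem hx hy), hψ _ hx, hψ _ hy, ← toAdd_mul, ← map_mul]
    rfl
  · intro b
    obtain ⟨u, hu⟩ := hψs (Multiplicative.ofAdd b)
    refine ⟨u, u.2, ?_⟩
    rw [hψ _ u.2]
    show Multiplicative.toAdd (ψ u) = b
    rw [hu]; rfl
  · intro u hu
    rw [hψ _ hu, ← hker ⟨u, hu⟩]
    rfl
  · intro x hx y hy
    rw [hρ' _ (E.mul_mem hx hy), hρ' _ hx, hρ' _ hy, ← map_mul]
    rfl
  · intro e he
    rw [hρ' _ he, ← hρ]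
    exact ⟨_, rfl⟩
  · intro k hk
    rw [← hρ] at hk
    obtain ⟨e, rfl⟩ := hk
    refine ⟨e, e.2, ?_⟩
    rw [hρ' _ e.2]
  · intro e he u hu
    obtain ⟨w, hw, hw2⟩ := heq ⟨e, he⟩ ⟨u, hu⟩
    have hmem : e * u * e⁻¹ ∈ U := by
      have : (w : G) = e * u * e⁻¹ := hw
      rw [← this]; exact w.2
    rw [hψ _ hmem, hψ _ hu, hρ' _ he]
    have hw' : (⟨e * u * e⁻¹, hmem⟩ : U) = w := Subtype.ext hw.symm
    rw [hw']
    exact hw2

/-- An element of `SL₂(F)` fixing all vectors is `1`. -/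
theorem eq_one_of_fix {F : Type*} [Field F] (k : SL2 F) (h : ∀ a : F2 F, sact k a = a) : k = 1 := by
  ext i j
  have h1 := congrFun (h (Pi.single j 1)) i
  simpa [sact, Matrix.mulVec_single_one, Matrix.one_apply, Pi.single_apply, eq_comm] using h1

/-- The kernel of `ρ` on a section on which `Q` acts trivially is `Q`. -/
theorem rho_ker [Finite G] {F : Type*} [Field F] {K : Subgroup (SL2 F)} {E Q U : Subgroup G} (hQE : Q ≤ E)
    (hN : Nat.card (↥E ⧸ Q.subgroupOf E) = Nat.card K)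
    {ψ : G → F2 F} {ρ : G → SL2 F}
    (hψ : ∀ b : F2 F, ∃ u ∈ U, ψ u = b)
    (hmul : ∀ x ∈ E, ∀ y ∈ E, ρ (x * y) = ρ x * ρ y) (hmem : ∀ e ∈ E, ρ e ∈ K)
    (hsurj : ∀ k ∈ K, ∃ e ∈ E, ρ e = k)
    (hact : ∀ e ∈ E, ∀ u ∈ U, ψ (e * u * e⁻¹) = sact (ρ e) (ψ u))
    (hQ : ∀ q ∈ Q, ∀ u ∈ U, ψ (q * u * q⁻¹) = ψ u) :
    ∀ e ∈ E, ρ e = 1 ↔ e ∈ Q := by
  have hQ1 : ∀ q ∈ Q, ρ q = 1 := by
    intro q hq
    apply eq_one_of_fix
    intro a
    obtain ⟨u, hu, rfl⟩ := hψ a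
    rw [← hact q (hQE hq) u hu, hQ q hq u hu]
  -- the homomorphism
  let f : ↥E →* K :=
    { toFun := fun e => ⟨ρ e, hmem e e.2⟩
      map_one' := by
        apply Subtype.ext
        have h1 := hmul 1 E.one_mem 1 E.one_mem
        simp only [mul_one] at h1
        simpa using h1
      map_mul' := fun x y => Subtype.ext (hmul x x.2 y y.2) }
  have hfs : Function.Surjective f := by
    rintro ⟨k, hk⟩
    obtain ⟨e, he, rfl⟩ := hsurj k hk
    exact ⟨⟨e, he⟩, rfl⟩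
  have hle : Q.subgroupOf E ≤ f.ker := by
    intro x hx
    rw [MonoidHom.mem_ker]
    exact Subtype.ext (hQ1 x hx)
  have hcard : Nat.card ↥(f.ker) = Nat.card ↥(Q.subgroupOf E) := by
    have h1 : Nat.card ↥E = Nat.card K * Nat.card f.ker := by
      have := Subgroup.card_eq_card_quotient_mul_card_subgroup f.ker
      rw [this, Nat.card_congr (QuotientGroup.quotientKerEquivOfSurjective f hfs).toEquiv]
    have h2 : Nat.card ↥E = Nat.card K * Nat.card (Q.subgroupOf E) := by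
      have := Subgroup.card_eq_card_quotient_mul_card_subgroup (Q.subgroupOf E)
      rw [this, hN]
    haveI : Finite K := Finite.of_surjective f hfs
    have h3 : 0 < Nat.card K := Nat.card_pos
    exact Nat.eq_of_mul_eq_mul_left h3 (h1.symm.trans h2)
  have heq : Q.subgroupOf E = f.ker := Subgroup.eq_of_le_of_card_ge hle hcard.le
  intro e he
  constructor
  · intro h1
    have h2 : (⟨e, he⟩ : E) ∈ f.ker := by
      rw [MonoidHom.mem_ker]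
      exact Subtype.ext h1
    rw [← heq] at h2
    exact h2
  · exact hQ1 e

/-- `hnq0` from the block's condition. -/
theorem hnq0_aux [Finite G] {Q Z : Subgroup G} {b : G}
    (hZQ : ∀ x ∈ Q, ∀ z ∈ Z, x * z * x⁻¹ = z)
    (hbZ : ∀ z ∈ Z, b * z * b⁻¹ ∈ Z) (hbQ : ∀ q ∈ Q, b * q * b⁻¹ ∈ Q)
    (h : ∀ q ∈ Q, ⁅⁅q, b⁆, b⁆ ∈ Z) :
    ⁅⁅Q, Subgroup.zpowers b⁆, Subgroup.zpowers b⁆ ≤ Z := by
  -- the subgroup of elements of `Q` fixed by `b` modulo `Z`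
  let L : Subgroup G :=
    { carrier := {x | x ∈ Q ∧ ⁅x, b⁆ ∈ Z}
      one_mem' := ⟨Q.one_mem, by simp [Z.one_mem]⟩
      mul_mem' := by
        rintro x y ⟨hx, hx'⟩ ⟨hy, hy'⟩
        refine ⟨Q.mul_mem hx hy, ?_⟩
        have h1 : ⁅x * y, b⁆ = x * ⁅y, b⁆ * x⁻¹ * ⁅x, b⁆ := by
          simp only [commutatorElement_def]; group
        rw [h1, hZQ x hx _ hy']
        exact Z.mul_mem hy' hx'
      inv_mem' := by
        rintro x ⟨hx, hx'⟩
        refine ⟨Q.inv_mem hx, ?_⟩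
        have h1 : ⁅x⁻¹, b⁆ = x⁻¹ * (⁅x, b⁆)⁻¹ * x⁻¹⁻¹ := by
          simp only [commutatorElement_def]; group
        rw [h1, hZQ x⁻¹ (Q.inv_mem hx) _ (Z.inv_mem hx')]
        exact Z.inv_mem hx' }
  have hLb : ∀ x ∈ L, b * x * b⁻¹ ∈ L := by
    rintro x ⟨hx, hx'⟩
    refine ⟨hbQ x hx, ?_⟩
    have h1 : ⁅b * x * b⁻¹, b⁆ = b * ⁅x, b⁆ * b⁻¹ := by
      simp only [commutatorElement_def]; group
    rw [h1]
    exact hbZ _ hx'
  have hcomm : ∀ (x : G), ∀ n : ℕ, ⁅x, b ^ (n + 1)⁆ = ⁅x, b⁆ * (b * ⁅x, b ^ n⁆ * b⁻¹) := by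
    intro x n
    simp only [commutatorElement_def, pow_succ']
    group
  have h1 : ∀ q ∈ Q, ∀ n : ℕ, ⁅q, b ^ n⁆ ∈ L := by
    intro q hq n
    induction n with
    | zero => simp [L.one_mem]
    | succ n ih =>
      rw [hcomm]
      refine L.mul_mem ⟨?_, h q hq⟩ (hLb _ ih)
      have h2 : ⁅q, b⁆ = q * (b * q * b⁻¹)⁻¹ := by
        simp only [commutatorElement_def]; group
      rw [h2]
      exact Q.mul_mem hq (Q.inv_mem (hbQ q hq))
  have h2 : ∀ x ∈ L, ∀ n : ℕ, ⁅x, b ^ n⁆ ∈ Z := by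
    intro x hx n
    induction n with
    | zero => simp [Z.one_mem]
    | succ n ih =>
      rw [hcomm]
      exact Z.mul_mem hx.2 (hbZ _ ih)
  have hpow : ∀ y ∈ Subgroup.zpowers b, ∃ n : ℕ, y = b ^ n := by
    intro y hy
    have hb : IsOfFinOrder b := isOfFinOrder_of_finite b
    obtain ⟨n, hn⟩ := (hb.mem_powers_iff_mem_zpowers).2 hy
    exact ⟨n, hn.symm⟩
  have h3 : ⁅Q, Subgroup.zpowers b⁆ ≤ L := by
    rw [Subgroup.commutator_le]
    intro q hq y hy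
    obtain ⟨n, rfl⟩ := hpow y hy
    exact h1 q hq n
  rw [Subgroup.commutator_le]
  intro x hx y hy
  obtain ⟨n, rfl⟩ := hpow y hy
  exact h2 x (h3 hx) n

end RawOf

open Cfsg.Agent.Lib.Basic.PCore Cfsg.Agent.Lib.PGroup.LargeSub2 in
/-- PIECE X0. -/
theorem raw_of_block [Finite G] (hG : centralizer (pCore 3 G : Set G) ≤ pCore 3 G) (T : Sylow 3 G) (E : Subgroup G)
    (hE : IsBaumannBlock 3 (T : Subgroup G) E) {F : Type} [Field F] [Fintype F] {n : ℕ} (hF : Fintype.card F = 3 ^ n)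
    (h0 : Nonempty (↥E ⧸ pCore 3 ↥E ≃* ↥(commutator (Matrix.SpecialLinearGroup (Fin 2) F))))
    (h1 : ActsAsSL2OnSection F (commutator (Matrix.SpecialLinearGroup (Fin 2) F)) E
          (omegaOneCenter 3 (pCoreOf 3 E)) (omegaOneCenter 3 (pCoreOf 3 E) ⊓ Subgroup.centralizer (E : Set G)))
    (h2 : ActsAsSL2OnSection F (commutator (Matrix.SpecialLinearGroup (Fin 2) F)) E
              (pCoreOf 3 E) (omegaOneCenter 3 (pCoreOf 3 E)))
    (h3 : ⁅pCoreOf 3 E, pCoreOf 3 E⁆ = omegaOneCenter 3 (pCoreOf 3 E) ⊓ Subgroup.centralizer (E : Set G))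
    (h4 : E ⊓ Subgroup.centralizer (E : Set G) = omegaOneCenter 3 (pCoreOf 3 E) ⊓ Subgroup.centralizer (E : Set G))
    (h5 : Nat.card ↥(E ⊓ Subgroup.centralizer (E : Set G)) = 3 ^ n)
    (h6 : ∀ b : G, b ∈ baumannSubgroupOf 3 (T : Subgroup G) → b ∉ Subgroup.centralizer (omegaOneCenter 3 (pCoreOf 3 E) : Set G) →
              ¬ ⁅⁅pCoreOf 3 E, Subgroup.zpowers b⁆, Subgroup.zpowers b⁆ ≤ E ⊓ Subgroup.centralizer (E : Set G)) :
    Nonempty (Raw F E (pCoreOf 3 E) (omegaOneCenter 3 (pCoreOf 3 E)) ⁅omegaOneCenter 3 (pCoreOf 3 E), E⁆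
      (omegaOneCenter 3 (pCoreOf 3 E) ⊓ centralizer (E : Set G)) (pCore 3 G) (omegaOneCenter 3 (pCore 3 G))
      (baumannSubgroupOf 3 (T : Subgroup G))) := by
  classical
  obtain ⟨ψ₁, ρ₁, a1, a2, a3, a4, a5, a6, a7⟩ := RawOf.extract h1
  obtain ⟨ψ₂, ρ₂, b1, b2, b3, b4, b5, b6, b7⟩ := RawOf.extract h2
  have hQE : pCoreOf 3 E ≤ E := pCoreOf_le E
  have hsub : (pCoreOf 3 E).subgroupOf E = pCore 3 ↥E := Subgroup.comap_map_eq_self_of_injective E.subtype_injective _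
  have hN : Nat.card (↥E ⧸ (pCoreOf 3 E).subgroupOf E) =
      Nat.card ↥(commutator (Matrix.SpecialLinearGroup (Fin 2) F)) := by
    rw [hsub]
    exact Nat.card_congr h0.some.toEquiv
  have hBE : baumannSubgroupOf 3 (T : Subgroup G) ≤ normalizer (E : Set G) :=
    le_normalizer_of_commutator_eq hE.2.1
  have hnR : ∀ X : Subgroup G, X ≤ normalizer (pCore 3 G : Set G) := fun X x _ => by
    rw [Subgroup.normalizer_eq_top_iff.2 (pCore_normal 3 G)]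
    exact Subgroup.mem_top _
  have hZQ : ∀ x ∈ pCoreOf 3 E, ∀ z ∈ (omegaOneCenter 3 (pCoreOf 3 E) ⊓ centralizer (E : Set G) : Subgroup G),
      x * z * x⁻¹ = z := by
    intro x hx z hz
    rw [mem_centralizer_iff.1 hz.2 x (hQE hx)]
    group
  refine ⟨{
    ψ₁ := ψ₁, ρ₁ := ρ₁, ψ₂ := ψ₂, ρ₂ := ρ₂
    hQE := hQE
    hEQ := le_trans (Subgroup.le_normalizer) (normalizer_le_normalizer_pCoreOf E)
    hQ3 := fun D hD hDp hEn => le_pCoreOf hD hDp hEn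
    hE3 := hE.1
    hQp := isPGroup_pCoreOf E
    hWdef := rfl
    hZdef := rfl
    hVdef := rfl
    hQQ := h3
    hcard := by rw [← h4, h5, Nat.card_eq_fintype_card, hF]
    ψ₁_mul := a1, ψ₁_surj := a2, ψ₁_ker := a3, ρ₁_mul := a4, ρ₁_mem := a5, ρ₁_surj := a6, ρ₁_act := a7
    ρ₁_ker := RawOf.rho_ker hQE hN a2 a4 a5 a6 a7 ?_
    ψ₂_mul := b1, ψ₂_surj := b2, ψ₂_ker := b3, ρ₂_mul := b4, ρ₂_mem := b5, ρ₂_surj := b6, ρ₂_act := b7
    ρ₂_ker := RawOf.rho_ker hQE hN b2 b4 b5 b6 b7 ?_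
    hYn := pCore_normal 3 G
    hYp := pCore_isPGroup 3
    hYC := hG
    hΩdef := rfl
    hYE := le_normalizer_block T (pCore_isPGroup 3) hE.1 hE.2.1 (hnR _) (hnR _)
    hVΩ := (block_main hG T E hE).2.1
    hBE := hBE
    hBp := T.isPGroup'.to_le (baumann_le _)
    hS2983 := fun D hD hBD hED => le_normalizer_block T hD hE.1 hE.2.1 hBD hED
    hnq0 := ?_ }⟩
  · intro q hq u hu
    have h7 : q * u = u * q := mem_centralizer_iff.1 (omegaOneCenter_le_cent _ hu) q hq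
    rw [h7]
    simp
  · intro q hq u hu
    have h8 : ψ₂ 1 = 0 := by
      have := b1 1 (Subgroup.one_mem _) 1 (Subgroup.one_mem _)
      simpa using this
    have h9 : ψ₂ q⁻¹ = - ψ₂ q := by
      have := b1 q hq q⁻¹ (Subgroup.inv_mem _ hq)
      rw [mul_inv_cancel, h8] at this
      exact eq_neg_of_add_eq_zero_right this.symm
    rw [b1 _ (Subgroup.mul_mem _ hq hu) _ (Subgroup.inv_mem _ hq), b1 _ hq _ hu, h9]
    abel
  · intro b hb hbW hq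
    apply h6 b hb hbW
    rw [h4]
    have hbE := hBE hb
    have hbQ := normalizer_le_normalizer_pCoreOf (p := 3) E hbE
    have hbW' := normalizer_le_omegaOneCenter (p := 3) _ hbQ
    have hbC := normalizer_le_centralizer E hbE
    have hbZ := mem_normalizer_inf hbW' hbC
    exact RawOf.hnq0_aux hZQ (fun z hz => (mem_normalizer_iff.1 hbZ z).1 hz)
      (fun q hq => (mem_normalizer_iff.1 hbQ q).1 hq) hq

end Cfsg.Agent.Lib.BlockX
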