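import Mathlib
import Cfsg.Prelude.Def_BaumannBlocks
import Cfsg.Agent.Lib.BlockX.Basics
import Cfsg.Agent.Lib.BlockX.CoreMain
import Cfsg.Agent.Lib.BlockX.RawOf
import Cfsg.Agent.Lib.BlockX.RawT
import Cfsg.Agent.Lib.BlockX.RawCore
import Cfsg.Agent.Lib.BlockX.QuadExists
import Cfsg.Agent.Lib.BlockX.CaseI
import Cfsg.Agent.Lib.PGroup.BaumannSect

namespace Cfsg.Agent.Lib.BlockX
open Subgroup Cfsg Matrix Cfsg.Agent.Lib.PGroup.BaumannSect Cfsg.Agent.Lib.PGroup.BaumannNorm
open Cfsg.Agent.Lib.Basic.PCore Cfsg.Agent.Lib.PGroup.LargeSub2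
open scoped commutatorElement

variable {G : Type*} [Group G] [Finite G] {F : Type*} [Field F] [Fintype F] [CharP F 3]
  {E Q W V Z Y Ω B : Subgroup G} {t a : G}

/-- `[O_p(G), E] ≤ O_p(E)`. -/
theorem pCore_comm_le {p : ℕ} [Fact p.Prime] (T : Sylow p G) (E : Subgroup G)
    (hE : IsBaumannBlock p (T : Subgroup G) E) : ⁅pCore p G, E⁆ ≤ pCoreOf p E := by
  have hRp : IsPGroup p (pCore p G) := pCore_isPGroup p
  have hRn : (pCore p G).Normal := pCore_normal p G
  have hnR : ∀ X : Subgroup G, X ≤ normalizer (pCore p G : Set G) := fun X x _ => by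
    rw [Subgroup.normalizer_eq_top_iff.2 hRn]
    exact Subgroup.mem_top _
  have hRE : pCore p G ≤ normalizer (E : Set G) :=
    le_normalizer_block T hRp hE.1 hE.2.1 (hnR _) (hnR _)
  have hEE : E ≤ normalizer (E : Set G) := Subgroup.le_normalizer
  have h1 : E ⊓ pCore p G ≤ pCoreOf p E := by
    refine le_pCoreOf inf_le_left (hRp.to_le inf_le_right) ?_
    intro e he
    exact mem_normalizer_inf (hEE he) (hnR E he)
  refine le_trans ?_ h1
  rw [Subgroup.commutator_le]
  intro r hr e he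
  refine ⟨?_, ?_⟩
  · have h2 : ⁅r, e⁆ = (r * e * r⁻¹) * e⁻¹ := by
      simp only [commutatorElement_def]
    rw [h2]
    exact E.mul_mem ((mem_normalizer_iff.1 (hRE hr) _).1 he) (E.inv_mem he)
  · have h2 : ⁅r, e⁆ = r * (e * r⁻¹ * e⁻¹) := by
      simp only [commutatorElement_def]; group
    rw [h2]
    exact Subgroup.mul_mem _ hr (hRn.conj_mem _ (Subgroup.inv_mem _ hr) e)

/-- stability. -/
theorem comm_mem_of_stable {p : ℕ} [Fact p.Prime] {E Y V : Subgroup G} (hE : pResidualOf p E = E)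
    (hYp : IsPGroup p Y) (hEY : E ≤ normalizer (Y : Set G)) (hEV : E ≤ normalizer (V : Set G))
    (hVc : ∀ v ∈ V, ∀ y ∈ Y, v * y = y * v)
    (hst : ∀ y ∈ Y, ∀ e ∈ E, ∀ e' ∈ E, ⁅⁅y, e⁆, e'⁆ ∈ V) : ∀ y ∈ Y, ∀ e ∈ E, ⁅y, e⁆ ∈ V := by
  let X : Subgroup G :=
    { carrier := {e | e ∈ E ∧ ∀ y ∈ Y, ⁅y, e⁆ ∈ V}
      one_mem' := ⟨E.one_mem, fun y _ => by simp [V.one_mem]⟩
      mul_mem' := by
        rintro e₁ e₂ ⟨h1, h1'⟩ ⟨h2, h2'⟩
        refine ⟨E.mul_mem h1 h2, fun y hy => ?_⟩
        have : ⁅y, e₁ * e₂⁆ = ⁅y, e₁⁆ * (e₁ * ⁅y, e₂⁆ * e₁⁻¹) := by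
          simp only [commutatorElement_def]; group
        rw [this]
        exact V.mul_mem (h1' y hy) ((mem_normalizer_iff.1 (hEV h1) _).1 (h2' y hy))
      inv_mem' := by
        rintro e ⟨h1, h1'⟩
        refine ⟨E.inv_mem h1, fun y hy => ?_⟩
        have : ⁅y, e⁻¹⁆ = e⁻¹ * (⁅y, e⁆)⁻¹ * e := by
          simp only [commutatorElement_def]; group
        rw [this]
        simpa using (mem_normalizer_iff.1 (hEV (E.inv_mem h1)) _).1 (V.inv_mem (h1' y hy)) }
  have hEX : E ≤ X := by
    refine forall_mem_of_pResidualOf hE ?_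
    intro e he hcop
    refine ⟨he, fun y hy => ?_⟩
    set u := ⁅y, e⁆ with hu
    have huY : u ∈ Y := by
      have : u = y * (e * y⁻¹ * e⁻¹) := by simp only [hu, commutatorElement_def]; group
      rw [this]
      exact Y.mul_mem hy ((mem_normalizer_iff.1 (hEY he) _).1 (Y.inv_mem hy))
    have hv : ⁅u, e⁆ ∈ V := hst y hy e he e he
    set v := ⁅u, e⁆ with hvdef
    have heu : e * u * e⁻¹ = u * v⁻¹ := by
      have h1 : e * u * e⁻¹ = v⁻¹ * u := by simp only [hvdef, commutatorElement_def]; group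
      rw [h1, hVc _ (V.inv_mem hv) u huY]
    -- `e^k y⁻¹ e^-k = y⁻¹ u^k v_k`
    have key : ∀ k : ℕ, ∃ w ∈ V, e ^ k * y⁻¹ * (e ^ k)⁻¹ = y⁻¹ * u ^ k * w := by
      intro k
      induction k with
      | zero => exact ⟨1, V.one_mem, by simp⟩
      | succ k ih =>
        obtain ⟨w, hw, h⟩ := ih
        refine ⟨v⁻¹ ^ k * (e * w * e⁻¹), V.mul_mem (V.pow_mem (V.inv_mem hv) k)
          ((mem_normalizer_iff.1 (hEV he) _).1 hw), ?_⟩
        have h1 : e ^ (k + 1) * y⁻¹ * (e ^ (k + 1))⁻¹ = e * (e ^ k * y⁻¹ * (e ^ k)⁻¹) * e⁻¹ := by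
          rw [pow_succ']; group
        have h2 : e * y⁻¹ * e⁻¹ = y⁻¹ * u := by simp only [hu, commutatorElement_def]; group
        have h3 : e * (u ^ k) * e⁻¹ = u ^ k * v⁻¹ ^ k := by
          have h4 : ∀ n : ℕ, e * (u ^ n) * e⁻¹ = u ^ n * v⁻¹ ^ n := by
            intro n
            induction n with
            | zero => simp
            | succ n ihn =>
              have h5 : e * (u ^ (n + 1)) * e⁻¹ = (e * u ^ n * e⁻¹) * (e * u * e⁻¹) := by
                rw [pow_succ]; group
              rw [h5, ihn, heu, pow_succ u, pow_succ v⁻¹]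
              have h6 : v⁻¹ ^ n * u = u * v⁻¹ ^ n := hVc _ (V.pow_mem (V.inv_mem hv) n) u huY
              calc u ^ n * v⁻¹ ^ n * (u * v⁻¹) = u ^ n * (v⁻¹ ^ n * u) * v⁻¹ := by group
                _ = u ^ n * (u * v⁻¹ ^ n) * v⁻¹ := by rw [h6]
                _ = _ := by group
          exact h4 k
        rw [h1, h]
        calc e * (y⁻¹ * u ^ k * w) * e⁻¹ = (e * y⁻¹ * e⁻¹) * (e * u ^ k * e⁻¹) * (e * w * e⁻¹) := by group
          _ = _ := by rw [h2, h3, pow_succ']; group
    obtain ⟨w, hw, h⟩ := key (orderOf e)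
    rw [pow_orderOf_eq_one] at h
    have h7 : u ^ orderOf e = w⁻¹ := by
      have : y⁻¹ = y⁻¹ * u ^ orderOf e * w := by simpa using h
      have h8 : u ^ orderOf e * w = 1 := by
        have h9 : y⁻¹ * (u ^ orderOf e * w) = y⁻¹ := by rw [← mul_assoc]; exact this.symm
        exact mul_left_cancel (a := y⁻¹) (by simpa using h9)
      exact eq_inv_of_mul_eq_one_left h8
    have huk : u ^ orderOf e ∈ V := by rw [h7]; exact V.inv_mem hw
    -- `u` is a p-element
    obtain ⟨k, hk⟩ := (hYp ⟨u, huY⟩)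
    have hk' : u ^ p ^ k = 1 := by
      have := congrArg Subtype.val hk
      simpa using this
    have hc : (orderOf e).Coprime (p ^ k) := Nat.Coprime.pow_right k hcop
    have : u ∈ zpowers (u ^ orderOf e) := by
      have hb := Nat.Coprime.gcd_eq_one hc
      have := Nat.gcd_eq_gcd_ab (orderOf e) (p ^ k)
      rw [hb] at this
      refine ⟨Nat.gcdA (orderOf e) (p ^ k), ?_⟩
      have h10 : u ^ ((1 : ℤ)) = u ^ ((orderOf e : ℤ) * Nat.gcdA (orderOf e) (p ^ k) + (p ^ k : ℕ) * Nat.gcdB (orderOf e) (p ^ k)) := by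
        rw [← Nat.cast_one (R := ℤ), this]
      rw [_root_.zpow_add, _root_.zpow_mul, _root_.zpow_mul (u) ((p ^ k : ℕ) : ℤ)] at h10
      simp only [zpow_natCast, hk', _root_.one_zpow, mul_one, zpow_one] at h10
      exact h10.symm
    exact (Subgroup.zpowers_le.2 huk) this
  intro y hy e he
  exact (hEX he).2 y hy

theorem comm_of_central {x y w w' : G} (h1 : w * y = y * w) (h2 : w' * x = x * w')
    (h3 : w * w' = w' * w) : ⁅x * w, y * w'⁆ = ⁅x, y⁆ := by
  have h4 : w * (y * w') * w⁻¹ = y * w' := by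
    calc w * (y * w') * w⁻¹ = (w * y) * w' * w⁻¹ := by group
      _ = y * (w * w') * w⁻¹ := by rw [h1]; group
      _ = y * w' := by rw [h3]; group
  have h5 : x * (y * w') * x⁻¹ = x * y * x⁻¹ * w' := by
    have : w' * x⁻¹ = x⁻¹ * w' := by
      have h6 : x⁻¹ * (w' * x) * x⁻¹ = x⁻¹ * (x * w') * x⁻¹ := by rw [h2]
      calc w' * x⁻¹ = x⁻¹ * (x * w') * x⁻¹ := by group
        _ = x⁻¹ * (w' * x) * x⁻¹ := h6.symm
        _ = x⁻¹ * w' := by group
    calc x * (y * w') * x⁻¹ = x * y * (w' * x⁻¹) := by group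
      _ = x * y * (x⁻¹ * w') := by rw [this]
      _ = _ := by group
  simp only [commutatorElement_def]
  calc x * w * (y * w') * (x * w)⁻¹ * (y * w')⁻¹
      = x * (w * (y * w') * w⁻¹) * x⁻¹ * (y * w')⁻¹ := by group
    _ = (x * (y * w') * x⁻¹) * (y * w')⁻¹ := by rw [h4]
    _ = (x * y * x⁻¹ * w') * (y * w')⁻¹ := by rw [h5]
    _ = _ := by group

theorem charP_three_of_card {F : Type*} [Field F] [Fintype F] {n : ℕ} (hF : Fintype.card F = 3 ^ n) :
    CharP F 3 := by
  obtain ⟨p, hp⟩ := CharP.exists F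
  haveI := hp
  have hpp : Fact p.Prime := ⟨by
    obtain h | h := CharP.char_is_prime_or_zero F p
    · exact h
    · subst h
      haveI := CharP.charP_to_charZero F
      exact absurd (inferInstance : Finite F) (not_finite_iff_infinite.2 inferInstance)⟩
  obtain ⟨m, hm, hc⟩ := FiniteField.card F p
  have h1 : p ∣ 3 ^ n := by
    rw [← hF, hc]
    exact dvd_pow_self p (PNat.ne_zero m)
  have h2 := (Nat.prime_dvd_prime_iff_eq hpp.out Nat.prime_three).1 (hpp.out.dvd_of_dvd_pow h1)
  rwa [h2] at hp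

theorem block_dispatch {p : ℕ} [Fact p.Prime] (hG : centralizer (pCore p G : Set G) ≤ pCore p G) (T : Sylow p G)
    (E : Subgroup G) (hE : IsBaumannBlock p (T : Subgroup G) E) :
    centralizer ((⁅omegaOneCenter p (pCoreOf p E), E⁆ : Subgroup G) : Set G) ≤ normalizer (E : Set G) := by
  have hYQ := pCore_comm_le T E hE
  have hQWcase : pCoreOf p E = omegaOneCenter p (pCoreOf p E) →
      centralizer ((⁅omegaOneCenter p (pCoreOf p E), E⁆ : Subgroup G) : Set G) ≤ normalizer (E : Set G) := by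
    intro hQW
    refine caseI hG T E hE ?_
    have hV : ⁅omegaOneCenter p (pCoreOf p E), E⁆ = pCoreOf p E := by
      rw [← hQW]; exact hE.2.2.1
    rw [hV]
    exact hYQ
  obtain ⟨h1, h2, h3, h4, h5⟩ := id hE
  rcases h5 with ⟨F, _, _, n, hF, h0, hact, hcase⟩ | ⟨_, _, _, _, hQW⟩
  · rcases hcase with hQW | ⟨hp3, hact2, h3', _, h4', h5', h6⟩
    · exact hQWcase hQW
    · subst hp3
      haveI : CharP F 3 := charP_three_of_card hF
      by_cases hY : ⁅pCore 3 G, E⁆ ≤ ⁅omegaOneCenter 3 (pCoreOf 3 E), E⁆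
      · exact caseI hG T E hE hY
      obtain ⟨r⟩ := raw_of_block hG T E hE hF h0 hact hact2 h3' h4' h5' h6
      obtain ⟨a, ha, ha0, ha1⟩ := exists_quad hG T E hE
      have hmain := block_main hG T E hE
      have hVΩ := hmain.2.1
      have hnR : ∀ X : Subgroup G, X ≤ normalizer (pCore 3 G : Set G) := fun X x _ => by
        rw [Subgroup.normalizer_eq_top_iff.2 (pCore_normal 3 G)]
        exact Subgroup.mem_top _
      have hEE : E ≤ normalizer (E : Set G) := Subgroup.le_normalizer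
      have hNQ : normalizer (E : Set G) ≤ normalizer (pCoreOf 3 E : Set G) :=
        normalizer_le_normalizer_pCoreOf E
      have hNW : normalizer (E : Set G) ≤ normalizer (omegaOneCenter 3 (pCoreOf 3 E) : Set G) :=
        hNQ.trans (normalizer_le_omegaOneCenter _)
      have hVcent : ∀ v ∈ (⁅omegaOneCenter 3 (pCoreOf 3 E), E⁆ : Subgroup G), ∀ y ∈ pCore 3 G, v * y = y * v := by
        intro v hv y hy
        exact (omegaOneCenter_le_cent (p := 3) (pCore 3 G)).trans (le_refl _) (hVΩ hv) |> fun h =>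
          (mem_centralizer_iff.1 h y hy).symm
      have hEV : E ≤ normalizer ((⁅omegaOneCenter 3 (pCoreOf 3 E), E⁆ : Subgroup G) : Set G) :=
        fun e he => mem_normalizer_commutator (hNW (hEE he)) (hEE he)
      have hPQ := hYQ
      have hQY : pCoreOf 3 E ≤ pCore 3 G := by
        have hirr := irrSect_of_sl2 hact2
        have hEP : E ≤ normalizer ((⁅pCore 3 G, E⁆ : Subgroup G) : Set G) :=
          fun e he => mem_normalizer_commutator (hnR E he) (hEE he)
        have hPY : ⁅pCore 3 G, E⁆ ≤ pCore 3 G := by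
          rw [Subgroup.commutator_le]
          intro r hr e he
          have h2 : ⁅r, e⁆ = r * (e * r⁻¹ * e⁻¹) := by
            simp only [commutatorElement_def]; group
          rw [h2]
          exact Subgroup.mul_mem _ hr ((pCore_normal 3 G).conj_mem _ (Subgroup.inv_mem _ hr) e)
        rcases hirr.1 _ hPQ hEP with hle | hle
        · exfalso
          apply hY
          rw [Subgroup.commutator_le]
          refine comm_mem_of_stable h1 (pCore_isPGroup 3) (hnR E) hEV hVcent ?_
          intro y hy e he e' he'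
          exact Subgroup.commutator_mem_commutator (hle (Subgroup.commutator_mem_commutator hy he)) he'
        · -- `Q ≤ P ⊔ W`
          have hWc : ∀ w ∈ omegaOneCenter 3 (pCoreOf 3 E), ∀ q ∈ pCoreOf 3 E, w * q = q * w := by
            intro w hw q hq
            exact (mem_centralizer_iff.1 (omegaOneCenter_le_cent (p := 3) (pCoreOf 3 E) hw) q hq).symm
          have hPW : ⁅pCore 3 G, E⁆ ≤ normalizer (omegaOneCenter 3 (pCoreOf 3 E) : Set G) := by
            intro x hx
            rw [mem_normalizer_iff]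
            intro w
            constructor
            · intro hw
              have h7 : x * w * x⁻¹ = w := by rw [← hWc w hw x (hPQ hx)]; group
              rwa [h7]
            · intro hw
              have h8 := hWc _ hw x (hPQ hx)
              have h9 : w = x * w * x⁻¹ := by
                have : x * w * x⁻¹ * x = x * (x * w * x⁻¹) := h8
                have h10 : x * w = x * (x * w * x⁻¹) := by simpa using this
                exact mul_left_cancel h10
              rwa [h9]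
          have hdec : ∀ q ∈ pCoreOf 3 E, ∃ x ∈ (⁅pCore 3 G, E⁆ : Subgroup G), ∃ w ∈ omegaOneCenter 3 (pCoreOf 3 E), q = x * w :=
            fun q hq => exists_mul_of_mem_sup hPW (hle hq)
          have hZY : ⁅pCoreOf 3 E, pCoreOf 3 E⁆ ≤ pCore 3 G := by
            rw [Subgroup.commutator_le]
            intro q₁ hq₁ q₂ hq₂
            obtain ⟨x₁, hx₁, w₁, hw₁, rfl⟩ := hdec q₁ hq₁
            obtain ⟨x₂, hx₂, w₂, hw₂, rfl⟩ := hdec q₂ hq₂
            rw [comm_of_central (hWc _ hw₁ _ (hPQ hx₂)) (hWc _ hw₂ _ (hPQ hx₁))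
              (hWc _ hw₁ _ (omegaOneCenter_le _ hw₂))]
            exact Subgroup.commutator_mem_commutator (hPY hx₁) (hPY hx₂) |> fun h =>
              (Subgroup.commutator_le_left (pCore 3 G) _).trans le_rfl h
          have hWY : omegaOneCenter 3 (pCoreOf 3 E) ≤ pCore 3 G := by
            intro w hw
            obtain ⟨v, hv, z, hz, rfl⟩ := r.W_decomp.1 w hw
            refine Subgroup.mul_mem _ ?_ ?_
            · exact omegaOneCenter_le _ (hVΩ hv)
            · rw [← h3'] at hz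
              exact hZY hz
          intro q hq
          obtain ⟨x, hx, w, hw, rfl⟩ := hdec q hq
          exact Subgroup.mul_mem _ (hPY hx) (hWY hw)
      obtain ⟨t, ⟨c⟩⟩ := core_of_raw r hQY ha ha0 ha1
      exact core_main c
  · exact hQWcase hQW

end Cfsg.Agent.Lib.BlockX
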